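import Cfsg.Agent.FixityFour.Basic
import Cfsg.Agent.SymSylow.PairThreeCycle

/-!
Elementary consequences of the hypotheses, and the action of a setwise stabiliser on its set.
-/

set_option autoImplicit false

namespace CfsgLib.FixityFour

open MulAction
open scoped Pointwise

variable {G Ω : Type*} [Group G] [MulAction G Ω] [Finite Ω]

theorem four_lt_card [IsSimpleGroup G] [FaithfulSMul G Ω] (hna : ¬ IsMulCommutative G) :
    4 < Nat.card Ω := by
  classical
  by_contra h
  have := Fintype.ofFinite Ω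
  haveI := SymSylow.isSolvable_perm_of_card_le_four (β := Ω)
    (by rw [← Nat.card_eq_fintype_card]; omega)
  haveI : Group.IsSolvable G := Group.isSolvable_of_isSolvable_injective (f := MulAction.toPermHom G Ω)
    MulAction.toPerm_injective
  exact hna ⟨⟨fun a b => IsSimpleGroup.comm_iff_isSolvable.2 ‹Group.IsSolvable G› a b⟩⟩

/-- The action of the stabiliser of a set on the set. -/
def actOn (G : Type*) [Group G] {Ω : Type*} [MulAction G Ω] (A : Set Ω) :
    stabilizer G A →* Equiv.Perm A where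
  toFun g :=
    { toFun := fun x => ⟨(g : G) • (x : Ω), smul_mem_of_stabilizer g.2 x.2⟩
      invFun := fun x => ⟨(g : G)⁻¹ • (x : Ω), smul_mem_of_stabilizer (inv_mem g.2) x.2⟩
      left_inv := fun x => Subtype.ext (inv_smul_smul (g : G) (x : Ω))
      right_inv := fun x => Subtype.ext (smul_inv_smul (g : G) (x : Ω)) }
  map_one' := Equiv.ext fun x => Subtype.ext (one_smul G (x : Ω))
  map_mul' a b := Equiv.ext fun x => Subtype.ext (mul_smul (a : G) (b : G) (x : Ω))

omit [Finite Ω] in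
theorem actOn_apply_coe (A : Set Ω) (g : stabilizer G A) (x : A) :
    ((actOn G A g x : A) : Ω) = (g : G) • (x : Ω) := rfl

omit [Finite Ω] in
theorem actOn_eq_one_iff (A : Set Ω) (g : stabilizer G A) :
    actOn G A g = 1 ↔ (g : G) ∈ fixingSubgroup G A := by
  rw [mem_fixingSubgroup_iff]
  exact ⟨fun h x hx => congrArg Subtype.val (Equiv.congr_fun h ⟨x, hx⟩),
    fun h => Equiv.ext fun x => Subtype.ext (h x x.2)⟩

omit [Finite Ω] in
theorem fixing_normal_conj {A : Set Ω} {g k : G} (hg : g ∈ stabilizer G A)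
    (hk : g * k * g⁻¹ ∈ fixingSubgroup G A) : k ∈ fixingSubgroup G A := by
  have h := normalizer_fixing_le (inv_mem hg) hk
  rwa [show g⁻¹ * (g * k * g⁻¹) * g⁻¹⁻¹ = k by group] at h

/-- A subgroup with an invariant set of odd size has odd order when involutions fix nothing. -/
theorem odd_of_invariant [Finite G] (hinv : ∀ t : G, orderOf t = 2 → ∀ a : Ω, t • a ≠ a)
    {U : Subgroup G} {B : Set Ω} (hB : U ≤ stabilizer G B) (hodd : Odd B.ncard) :
    Odd (Nat.card U) := by
  classical
  by_contra h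
  rw [Nat.not_odd_iff_even, even_iff_two_dvd] at h
  haveI : Fact (Nat.Prime 2) := ⟨Nat.prime_two⟩
  obtain ⟨t, ht⟩ := exists_prime_orderOf_dvd_card' 2 h
  have hto : orderOf (t : G) = 2 := (Subgroup.orderOf_coe t).trans ht
  set σ := actOn G B ⟨t, hB t.2⟩ with hσ
  have := Fintype.ofFinite B
  have hσ2 : σ ^ 2 = 1 := by
    rw [hσ, ← map_pow, ← map_one (actOn G B)]
    congr 1
    refine Subtype.ext ?_
    show (t : G) ^ 2 = 1
    rw [← hto, pow_orderOf_eq_one]
  have hcard : ¬ 2 ∣ Fintype.card B := by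
    rw [← Nat.card_eq_fintype_card, Nat.card_coe_set_eq, ← even_iff_two_dvd, Nat.not_even_iff_odd]
    exact hodd
  obtain ⟨x, hx⟩ := Equiv.Perm.exists_fixed_point_of_prime (p := 2) (n := 1) hcard
    (σ := σ) (by rwa [pow_one])
  exact hinv _ hto (x : Ω) (congrArg Subtype.val hx)

theorem eq_one_of_conj_inv_of_odd {H : Type*} [Group H] {g y : H} (hg : Odd (orderOf g))
    (h : g * y * g⁻¹ = y⁻¹) : y ^ 2 = 1 := by
  have h2 : ∀ j : ℕ, g ^ (2 * j) * y * (g ^ (2 * j))⁻¹ = y := by
    intro j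
    induction j with
    | zero => simp
    | succ j ih =>
      rw [show g ^ (2 * (j + 1)) * y * (g ^ (2 * (j + 1)))⁻¹
        = g * (g * (g ^ (2 * j) * y * (g ^ (2 * j))⁻¹) * g⁻¹) * g⁻¹ by
          rw [show 2 * (j + 1) = 1 + (1 + 2 * j) by omega, pow_add, pow_add, pow_one]; group,
        ih, h, ← conj_inv, h, inv_inv]
  obtain ⟨j, hj⟩ := hg
  have h3 : g ^ (2 * j + 1) * y * (g ^ (2 * j + 1))⁻¹ = y⁻¹ := by
    rw [show g ^ (2 * j + 1) * y * (g ^ (2 * j + 1))⁻¹
      = g * (g ^ (2 * j) * y * (g ^ (2 * j))⁻¹) * g⁻¹ by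
        rw [show 2 * j + 1 = 1 + 2 * j by omega, pow_add, pow_one]; group, h2, h]
  rw [← hj, pow_orderOf_eq_one, one_mul, inv_one, mul_one] at h3
  rw [pow_two]
  nth_rewrite 1 [h3]
  exact inv_mul_cancel y

end CfsgLib.FixityFour
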