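import Cfsg.Agent.FixityFour.Basic

/-!
The setwise stabiliser of a common fixed set of all elements of order `p` of a Sylow subgroup is
strongly `p`-embedded.
-/

set_option autoImplicit false

namespace CfsgLib.FixityFour

open MulAction
open scoped Pointwise

variable {G Ω : Type*} [Group G] [MulAction G Ω] [Finite Ω] [Finite G] {p : ℕ} [Fact p.Prime]

theorem strong_of_common_fixed [MulAction.IsPretransitive G Ω] (P : Sylow p G) {A : Set Ω}
    (hPA : (P : Subgroup G) ≤ stabilizer G A) (hne : A.Nonempty) (hproper : A ≠ Set.univ)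
    (hfix : ∀ i ∈ (P : Subgroup G), orderOf i = p → fixedBy Ω i = A) (hp : p ∣ Nat.card G) :
    stabilizer G A ≠ ⊤ ∧ p ∣ Nat.card (stabilizer G A) ∧ ∀ g : G, g ∉ stabilizer G A →
      ¬ p ∣ Nat.card ↥(stabilizer G A ⊓ (stabilizer G A).map (MulAut.conj g).toMonoidHom) := by
  have hpp := (Fact.out : p.Prime)
  refine ⟨fun h => ?_, ?_, fun g hg hdvd => ?_⟩
  · obtain ⟨a, ha⟩ := hne
    refine hproper (Set.eq_univ_of_forall fun x => ?_)
    obtain ⟨g, rfl⟩ := MulAction.exists_smul_eq G a x
    exact smul_mem_of_stabilizer (h ▸ Subgroup.mem_top g) ha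
  · exact (P.dvd_card_of_dvd_card hp).trans (Subgroup.card_dvd_of_le hPA)
  · obtain ⟨⟨i, hiH, hig⟩, hi'⟩ := exists_prime_orderOf_dvd_card' p hdvd
    have hi : orderOf i = p := (Subgroup.orderOf_coe _).trans hi'
    have key : ∀ j ∈ stabilizer G A, orderOf j = p → fixedBy Ω j = A := by
      intro j hjH hj
      have hpg : IsPGroup p (Subgroup.zpowers (⟨j, hjH⟩ : stabilizer G A)) :=
        IsPGroup.of_card (n := 1) (by rw [Nat.card_zpowers, Subgroup.orderOf_mk, hj, pow_one])
      obtain ⟨Q, hQ⟩ := hpg.exists_le_sylow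
      let P' : Sylow p (stabilizer G A) := P.subtype hPA
      obtain ⟨h, hh⟩ := MulAction.exists_smul_eq (stabilizer G A) Q P'
      have hmem : h * ⟨j, hjH⟩ * h⁻¹ ∈ (P' : Subgroup (stabilizer G A)) := by
        rw [← hh]
        exact Subgroup.smul_mem_pointwise_smul _ (MulAut.conj h) _ (hQ (Subgroup.mem_zpowers _))
      have hmem' : (h : G) * j * (h : G)⁻¹ ∈ (P : Subgroup G) := hmem
      have h1 := hfix _ hmem' (by
        rw [← hj]; exact (MulAut.conj (h : G)).orderOf_eq j)
      rw [← MulAction.smul_fixedBy] at h1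
      calc fixedBy Ω j = (h : G)⁻¹ • ((h : G) • fixedBy Ω j) := (inv_smul_smul _ _).symm
        _ = (h : G)⁻¹ • A := by rw [h1]
        _ = A := MulAction.mem_stabilizer_iff.1 (inv_mem h.2)
    obtain ⟨j, hjH, hji⟩ := hig
    have hj : orderOf j = p := by
      rw [← hi, ← hji]; exact ((MulAut.conj g).orderOf_eq j).symm
    apply hg
    rw [MulAction.mem_stabilizer_iff]
    conv_lhs => rw [← key j hjH hj]
    rw [MulAction.smul_fixedBy, show g * j * g⁻¹ = i from hji, key i hiH hi]

end CfsgLib.FixityFour
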