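import Cfsg.Agent.FixityFour.FourFpf

/-!
Every involution fixes zero or four points: a strongly embedded subgroup or sectional 2-rank at
most four.
-/

set_option autoImplicit false

namespace CfsgLib.FixityFour

open MulAction
open scoped Pointwise

variable {G Ω : Type*} [Group G] [MulAction G Ω] [Finite G] [Finite Ω]

theorem case_four [IsSimpleGroup G] [FaithfulSMul G Ω] [MulAction.IsPretransitive G Ω]
    (hG : Hyp G Ω) (a : Ω) (heven : 2 ∣ Nat.card (stabilizer G a)) :
    (∃ H : Subgroup G, Cfsg.IsStronglyEmbedded H) ∨ Cfsg.SectionalPRankLE 2 4 G := by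
  classical
  haveI : Fact (Nat.Prime 2) := ⟨Nat.prime_two⟩
  obtain ⟨T, hT⟩ := exists_point (G := G) a
  obtain ⟨t0, ht0⟩ := exists_prime_orderOf_dvd_card' 2 heven
  have hTne : ¬ (⊤ : Subgroup T) ≤ ⊥ := by
    intro hle
    have h1 : Nat.card T ≤ 1 := by
      rw [← Subgroup.card_top (G := T), le_bot_iff.1 hle, Subgroup.card_bot]
    have h2 := hT.card_le (x := a) (isPGroup_zpowers (g := (t0 : G)) (k := 1)
      (by rw [pow_one]; exact (Subgroup.orderOf_coe t0).trans ht0))
      (Subgroup.zpowers_le.2 t0.2)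
    rw [Nat.card_zpowers, Subgroup.orderOf_coe, ht0] at h2
    omega
  obtain ⟨⟨z, hzT⟩, -, hz1, hz2, hzc'⟩ := exists_central_mod (P := T) hT.isP (R := ⊤) le_top bot_le
    (fun g _ x hx => by rw [Subgroup.mem_bot] at hx ⊢; rw [hx, mul_one, mul_inv_cancel])
    (fun g _ x _ => Subgroup.mem_top _) hTne
  rw [Subgroup.mem_bot] at hz1 hz2
  have hzc : ∀ x ∈ T, x * z = z * x := fun x hx => congrArg Subtype.val
    (mul_inv_eq_iff_eq_mul.1 (mul_inv_eq_one.1 (Subgroup.mem_bot.1
      (hzc' ⟨x, hx⟩ (Subgroup.mem_top _)))))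
  have hzo : orderOf z = 2 :=
    orderOf_eq_two (congrArg Subtype.val hz2) fun e => hz1 (Subtype.ext e)
  set A := fixedBy Ω z with hA
  have hA4 : A.ncard = 4 := hG.fix_eq hzo (hT.fix hzT)
  have ha : a ∈ A := hT.fix hzT
  have hTA : T ≤ stabilizer G A := fun x hx => mem_stabilizer_of_commute (hzc x hx)
  obtain ⟨hn4, hdvd⟩ := hG.degree hzo (hT.fix hzT)
  obtain ⟨S, hTS⟩ := hT.isP.exists_le_sylow
  suffices hgoal : (∃ H : Subgroup G, Cfsg.IsStronglyEmbedded H) ∨ SGap (S : Subgroup G) by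
    exact hgoal.imp_right (sectional_of_sgap S)
  set T0 := T ⊓ fixingSubgroup G A with hT0
  have h2T : Nat.card T ≤ 2 * Nat.card T0 := card_le_two_mul_fixing hA4 hT.isP hTA ha hT.fix
  obtain ⟨i, hi⟩ := card_sub_of_pGroup hT.isP (inf_le_left : T0 ≤ T)
  have hi' : Nat.card T0 = 2 ^ i := hi
  obtain ⟨j, hj⟩ := card_sub_of_pGroup hT.isP le_rfl
  have hzT0 : 2 ≤ Nat.card T0 := by
    have h1 : Subgroup.zpowers z ≤ T0 := Subgroup.zpowers_le.2 ⟨hzT, mem_fixing_iff.2 le_rfl⟩
    have h2 := Subgroup.card_le_of_le h1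
    rwa [Nat.card_zpowers, hzo] at h2
  by_cases h8 : Nat.card Ω % 8 = 4
  · by_cases hT04 : Nat.card T0 ≤ 4
    · exact Or.inr (sgap_degree_four hG hT hA4 ha hTA hT04 h8 S hTS)
    by_cases hTK : T ≤ fixingSubgroup G A
    · have h8T : 8 ≤ Nat.card T := by
        have h1 : T0 = T := inf_eq_left.2 hTK
        rw [h1] at hT04
        have : 2 < j := by
          by_contra hlt
          have := Nat.pow_le_pow_right (n := 2) two_pos (not_lt.1 hlt)
          omega
        have h6 : 2 ^ 3 ≤ 2 ^ j := Nat.pow_le_pow_right two_pos this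
        omega
      have hB : Big G Ω a A T S := ⟨hG, hT, hA4, ha, hTK, h8T, h8, hTS⟩
      by_cases hfix : ∃ v ∈ (S : Subgroup G), v ∉ T ∧ Fixer G Ω v
      · obtain ⟨v, hv, hvT, hvo, p, hp⟩ := hfix
        exact Or.inr (hB.sgap_fixer hv hvo hvT hp)
      · push Not at hfix
        exact hB.fpf_case hfix
    · exact Or.inr (sgap_big_outside hG hT hA4 ha hTA h8 hTK S hTS)
  · right
    have h0 : Nat.card Ω % 8 = 0 := by omega
    have hT04 : Nat.card T0 ≤ 4 := by
      have h1 := card_dvd_sub_ncard (U := T0) (A := A) (inf_le_left.trans hTA) fun u hu hu1 =>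
        (fixing_fixedBy_eq hG.fix4 hA4 hu.2 hu1).le
      rw [hA4, hi'] at h1
      by_contra hlt
      rw [hi'] at hlt
      have : 2 < i := by
        by_contra hlt'
        have := Nat.pow_le_pow_right (n := 2) two_pos (not_lt.1 hlt')
        omega
      have h2 : 2 ^ 3 ∣ Nat.card Ω - 4 := (pow_dvd_pow 2 this).trans h1
      norm_num at h2
      omega
    have hj3 : j ≤ 3 := by
      by_contra hlt
      have h6 : 2 ^ 4 ≤ 2 ^ j := Nat.pow_le_pow_right two_pos (not_le.1 hlt)
      omega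
    have hi2 : i ≤ 2 := by
      by_contra hlt
      have h6 : 2 ^ 3 ≤ 2 ^ i := Nat.pow_le_pow_right two_pos (not_le.1 hlt)
      omega
    have hTT0 : Nat.card T0 ≤ Nat.card T := Subgroup.card_le_of_le inf_le_left
    rcases le_or_gt (Nat.card T) 2 with h2 | h2
    · have hle := card_centralizer_fixer_le hG hT S.2 hzo (hT.fix hzT)
      exact sgap_of_centralizer_eight S.2 (hTS hzT) (by rw [← hzo, pow_orderOf_eq_one]) (by omega)
    rcases le_or_gt (Nat.card T) 4 with h4 | h4
    · by_cases h02 : Nat.card T0 ≤ 2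
      · exact sgap_four_two hG hT h0 hzo hzT rfl hTA h02 h4 S.2 hTS
      · have hT04' : Nat.card T0 = 4 := by
          interval_cases i <;> simp_all
        have h1 : T0 = T := Subgroup.eq_of_le_of_card_ge inf_le_left (by omega)
        exact sgap_four_spread hG hT h0 hzo hzT rfl (h1 ▸ inf_le_right) (by omega) S hTS
    have hT8 : Nat.card T = 8 := by interval_cases j <;> omega
    by_cases hinv : ∀ x ∈ T, x ^ 2 = 1 → x ∈ fixingSubgroup G A
    · have hT4 : Nat.card T0 = 4 := by omega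
      exact sgap_eight_no_involution hG hT h0 hzo hzT hzc rfl hT4 hT8 hinv S.2 hTS
    · push Not at hinv
      obtain ⟨t, ht, ht2, htK⟩ := hinv
      exact sgap_eight_involution hG hT h0 hzo hzT hzc rfl (by omega : 4 ≤ Nat.card T0) hT8.le ht
        (orderOf_eq_two ht2 fun e => htK (e ▸ one_mem _)) htK S.2 hTS

end CfsgLib.FixityFour
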