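import Cfsg.Agent.FixityFour.FourSmall
import Cfsg.Agent.PGroup.Normal

/-!
2-groups `P = T ⋊ W` in which all non-identity elements of a group `W` of order four have the same
centraliser of order four in `T`: the gap of every subgroup is at most sixteen.
-/

set_option autoImplicit false

namespace CfsgLib.FixityFour

variable {P : Type*} [Group P] [Finite P]

/-- Between two subgroups normalised by `R` there is an element central modulo the smaller one. -/
theorem exists_central_mod (hP : IsPGroup 2 P) {R N M : Subgroup P} (hMR : M ≤ R) (hNM : N ≤ M)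
    (hN : ∀ g ∈ R, ∀ x ∈ N, g * x * g⁻¹ ∈ N) (hM : ∀ g ∈ R, ∀ x ∈ M, g * x * g⁻¹ ∈ M)
    (hne : ¬ M ≤ N) :
    ∃ x ∈ M, x ∉ N ∧ x ^ 2 ∈ N ∧ ∀ g ∈ R, g * x * g⁻¹ * x⁻¹ ∈ N := by
  haveI : Fact (Nat.Prime 2) := ⟨Nat.prime_two⟩
  haveI hNn : (N.subgroupOf R).Normal := ⟨fun x hx g => hN g g.2 x hx⟩
  haveI hMn : (M.subgroupOf R).Normal := ⟨fun x hx g => hM g g.2 x hx⟩
  set f := QuotientGroup.mk' (N.subgroupOf R) with hfdef
  set Mb := (M.subgroupOf R).map f with hMb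
  haveI : Mb.Normal := hMn.map f (QuotientGroup.mk'_surjective _)
  have hMb1 : Mb ≠ ⊥ := by
    intro h
    refine hne fun x hx => ?_
    have : f ⟨x, hMR hx⟩ ∈ Mb := ⟨_, hx, rfl⟩
    rw [h, Subgroup.mem_bot, hfdef, QuotientGroup.mk'_apply, QuotientGroup.eq_one_iff] at this
    exact this
  have hQ : IsPGroup 2 (↥R ⧸ N.subgroupOf R) := (hP.to_subgroup R).to_quotient _
  obtain ⟨⟨y, hyM, hyC⟩, hy1⟩ := Subgroup.ne_bot_iff_exists_ne_one.1
    (PGroup.inf_center_ne_bot hQ Mb hMb1)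
  obtain ⟨k, hk⟩ := IsPGroup.iff_orderOf.1 hQ y
  obtain ⟨j, rfl⟩ : ∃ j, k = j + 1 := by
    refine ⟨k - 1, ?_⟩
    rcases k with _ | k
    · exact absurd (orderOf_eq_one_iff.1 (by simpa using hk)) fun h => hy1 (Subtype.ext h)
    · rfl
  have hy' : y ^ 2 ^ j ≠ 1 := by
    intro h
    have h1 := Nat.le_of_dvd (by positivity) (orderOf_dvd_of_pow_eq_one h)
    rw [hk, pow_succ] at h1
    have := Nat.two_pow_pos j
    omega
  obtain ⟨x, hx, hxy⟩ := Subgroup.pow_mem _ hyM (2 ^ j)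
  refine ⟨x, hx, fun h => hy' ?_, ?_, fun g hg => ?_⟩
  · rw [← hxy, hfdef, QuotientGroup.mk'_apply, QuotientGroup.eq_one_iff]
    exact h
  · have : f (x ^ 2) = 1 := by
      rw [map_pow, hxy, ← pow_mul, ← pow_succ, ← hk, pow_orderOf_eq_one]
    rw [hfdef, QuotientGroup.mk'_apply, QuotientGroup.eq_one_iff] at this
    exact this
  · have hc := Subgroup.mem_center_iff.1 (Subgroup.pow_mem _ hyC (2 ^ j)) (f ⟨g, hg⟩)
    have : f (⟨g, hg⟩ * x * ⟨g, hg⟩⁻¹ * x⁻¹) = 1 := by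
      rw [map_mul, map_mul, map_mul, map_inv, map_inv, hxy, hc, mul_inv_cancel_right,
        mul_inv_cancel]
    rw [hfdef, QuotientGroup.mk'_apply, QuotientGroup.eq_one_iff] at this
    exact this

theorem card_sup_zpowers_le' {N : Subgroup P} {q : P} (hq2 : q ^ 2 ∈ N)
    (hn : ∀ h ∈ N, q * h * q⁻¹ ∈ N) : Nat.card ↥(N ⊔ Subgroup.zpowers q) ≤ 2 * Nat.card N :=
  SectRank.card_sup_zpowers_le hq2 hn

/-- The commutator of a product. -/
theorem comm_mul_eq {A : Type*} [Group A] (a b r : A) :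
    r⁻¹ * (a * b) * r * (a * b)⁻¹ =
      r⁻¹ * a * r * a⁻¹ * (a * (r⁻¹ * b * r * b⁻¹) * a⁻¹) := by group

theorem conj_eq_of_commute {A : Type*} [Group A] {a y : A} (h : a * y = y * a) :
    a * y * a⁻¹ = y := by rw [h, mul_inv_cancel_right]

/-- The chain above the common fixed group `F` has length at most one. -/
theorem chain_bound {Q : Type*} [Group Q] [Finite Q] (hQ : IsPGroup 2 Q) (T W F : Subgroup Q)
    [hTn : T.Normal] (hW4 : Nat.card W = 4) (hWsq : ∀ w ∈ W, w ^ 2 = 1)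
    (hF : ∀ y, y ∈ F ↔ y ∈ T ∧ ∀ w ∈ W, w * y = y * w)
    (hone : ∀ a ∈ W, a ≠ 1 → ∀ y ∈ T, a * y = y * a → y ∈ F)
    (hFsq : ∀ y ∈ F, y ^ 2 = 1) (hF4 : Nat.card F ≤ 4) (R : Q → Q → Prop)
    (huniq : ∀ y ∈ F, y ≠ 1 → ∀ a ∈ W, a ≠ 1 → ∀ b ∈ W, b ≠ 1 → R a y → R b y → a = b)
    (hR : ∀ a ∈ W, a ≠ 1 → ∀ r ∈ T, r⁻¹ * a * r * a⁻¹ ∈ F → R a (r⁻¹ * a * r * a⁻¹))
    (hbig : ¬ T ≤ F) :
    Nat.card T ≤ 8 ∧ (∀ x ∈ T, ∀ y ∈ T, x * y = y * x) ∧
      ∀ y ∈ F, y ≠ 1 → ∃ a ∈ W, a ≠ 1 ∧ R a y := by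
  classical
  have hFT : F ≤ T := fun y hy => ((hF y).1 hy).1
  have hFc : ∀ x ∈ F, ∀ y ∈ F, x * y = y * x := fun x hx y hy =>
    commute_of_sq (hFsq x hx) (hFsq y hy) (hFsq _ (mul_mem hx hy))
  have hWc : ∀ x ∈ W, ∀ y ∈ W, x * y = y * x := fun x hx y hy =>
    commute_of_sq (hWsq x hx) (hWsq y hy) (hWsq _ (mul_mem hx hy))
  have hTc : ∀ a, ∀ r ∈ T, r⁻¹ * a * r * a⁻¹ ∈ T := fun a r hr => by
    rw [mul_assoc r⁻¹, mul_assoc]
    exact mul_mem (inv_mem hr) (hTn.conj_mem r hr a)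
  -- the key map
  have key : ∀ r ∈ T, r ∉ F → (∀ w ∈ W, r⁻¹ * w * r * w⁻¹ ∈ F) →
      (∀ w ∈ W, w ≠ 1 → r⁻¹ * w * r * w⁻¹ ≠ 1) ∧
      ∀ y ∈ F, ∃ w ∈ W, r⁻¹ * w * r * w⁻¹ = y := by
    intro r hr hrF hc
    have h1 : ∀ w ∈ W, w ≠ 1 → r⁻¹ * w * r * w⁻¹ ≠ 1 := fun w hw hw1 h => by
      refine hrF (hone w hw hw1 r hr ?_)
      rw [mul_inv_eq_one, mul_assoc, inv_mul_eq_iff_eq_mul] at h
      exact h
    refine ⟨h1, ?_⟩
    let f : W → F := fun w => ⟨_, hc w w.2⟩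
    have hf : Function.Injective f := by
      intro u v huv
      by_contra hne
      have huv' : r⁻¹ * (u : Q) * r * (u : Q)⁻¹ = r⁻¹ * (v : Q) * r * (v : Q)⁻¹ :=
        congrArg Subtype.val huv
      refine h1 _ (mul_mem u.2 v.2) (fun h => hne (Subtype.ext ?_)) ?_
      · rw [← inv_eq_of_mul_eq_one_right h, inv_eq_of_mul_eq_one_right (pow_two (u : Q) ▸ hWsq _ u.2)]
      · rw [comm_mul_eq, conj_eq_of_commute (((hF _).1 (hc v v.2)).2 u u.2), ← huv', ← pow_two,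
          hFsq _ (hc u u.2)]
    intro y hy
    obtain ⟨w, hw⟩ := (hf.bijective_of_nat_card_le (by rw [hW4]; exact hF4)).2 ⟨y, hy⟩
    exact ⟨w, w.2, congrArg Subtype.val hw⟩
  have uniq : ∀ r r', r ∈ T → r' ∈ T → r ∉ F → r' ∉ F →
      (∀ w ∈ W, r⁻¹ * w * r * w⁻¹ ∈ F) → (∀ w ∈ W, r'⁻¹ * w * r' * w⁻¹ ∈ F) →
      ∀ w ∈ W, r⁻¹ * w * r * w⁻¹ = r'⁻¹ * w * r' * w⁻¹ := by
    intro r r' hr hr' hrF hr'F hc hc' a ha
    by_cases ha1 : a = 1
    · subst ha1; group
    obtain ⟨b, hb, hbe⟩ := (key r' hr' hr'F hc').2 _ (hc a ha)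
    have hne := (key r hr hrF hc).1 a ha ha1
    have hb1 : b ≠ 1 := fun h => hne (by rw [← hbe, h]; group)
    have := huniq _ (hc a ha) hne a ha ha1 b hb hb1 (hR a ha ha1 r hr (hc a ha))
      (hbe ▸ hR b hb hb1 r' hr' (hc' b hb))
    rw [this] at hbe ⊢
    exact hbe.symm
  -- an element just above `F`
  set M := T ⊓ Subgroup.normalizer (F : Set Q) with hMdef
  have hFM : F ≤ M := le_inf hFT Subgroup.le_normalizer
  have hMF : ¬ M ≤ F := by
    intro hle
    obtain ⟨s, hs, hsF, hsn⟩ := exists_normalizing (hQ.to_subgroup T) hFT (fun h => hbig h.ge)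
    refine hsF (hle ⟨hs, Subgroup.mem_normalizer_iff.2 fun x => ⟨hsn x, fun hx => ?_⟩⟩)
    have hmap : F.map (MulAut.conj s).toMonoidHom = F := Subgroup.eq_of_le_of_card_ge
      (by rintro _ ⟨y, hy, rfl⟩; exact hsn y hy)
      (by rw [Subgroup.card_map_of_injective (MulAut.conj s).injective])
    rw [← hmap] at hx
    obtain ⟨y, hy, hyx⟩ := hx
    rwa [← (MulAut.conj s).injective (hyx : MulAut.conj s y = MulAut.conj s x)]
  have hWN : ∀ w ∈ W, ∀ y ∈ F, w * y * w⁻¹ = y := fun w hw y hy =>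
    conj_eq_of_commute (((hF y).1 hy).2 w hw)
  have hWnorm : W ≤ Subgroup.normalizer (F : Set Q) := by
    intro w hw
    refine Subgroup.mem_normalizer_iff.2 fun y => ⟨fun hy => (hWN w hw y hy).symm ▸ hy, fun hy => ?_⟩
    have h1 := hWN w⁻¹ (inv_mem hw) _ hy
    rw [show w⁻¹ * (w * y * w⁻¹) * w⁻¹⁻¹ = y by group] at h1
    exact h1 ▸ hy
  have hR1 : M ⊔ W ≤ Subgroup.normalizer (M : Set Q) := by
    refine sup_le Subgroup.le_normalizer fun w hw => Subgroup.mem_normalizer_iff.2 fun y => ?_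
    rw [hMdef, Subgroup.mem_inf, Subgroup.mem_inf, hTn.mem_comm_iff, inv_mul_cancel_left]
    refine and_congr Iff.rfl ⟨fun h => mul_mem (mul_mem (hWnorm hw) h) (inv_mem (hWnorm hw)),
      fun h => ?_⟩
    have := mul_mem (mul_mem (inv_mem (hWnorm hw)) h) (hWnorm hw)
    rwa [show w⁻¹ * (w * y * w⁻¹) * w = y by group] at this
  obtain ⟨s, hsM, hsF, hs2, hsc⟩ := exists_central_mod hQ (R := M ⊔ W) le_sup_left hFM
    (fun g hg x hx => (Subgroup.mem_normalizer_iff.1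
      ((sup_le (inf_le_right) hWnorm : M ⊔ W ≤ _) hg) x).1 hx)
    (fun g hg x hx => (Subgroup.mem_normalizer_iff.1 (hR1 hg) x).1 hx) hMF
  have hsT : s ∈ T := hsM.1
  have hsn : ∀ y ∈ F, s * y * s⁻¹ ∈ F := fun y hy => (Subgroup.mem_normalizer_iff.1 hsM.2 y).1 hy
  have hsn' : ∀ y ∈ F, s⁻¹ * y * s ∈ F := fun y hy => by
    have := (Subgroup.mem_normalizer_iff.1 (inv_mem hsM.2) y).1 hy
    simpa using this
  have hsc' : ∀ w ∈ W, s⁻¹ * w * s * w⁻¹ ∈ F := fun w hw => by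
    have := hsn' _ (hsc w (le_sup_right (a := M) hw))
    rwa [show s⁻¹ * (w * s * w⁻¹ * s⁻¹) * s = s⁻¹ * w * s * w⁻¹ by group] at this
  have hexist : ∀ y ∈ F, y ≠ 1 → ∃ a ∈ W, a ≠ 1 ∧ R a y := by
    intro y hy hy1
    obtain ⟨a, ha, hae⟩ := (key s hsT hsF hsc').2 y hy
    have ha1 : a ≠ 1 := fun h => hy1 (by rw [← hae, h]; group)
    exact ⟨a, ha, ha1, hae ▸ hR a ha ha1 s hsT (hsc' a ha)⟩
  -- `s` centralises `F`
  have hinvc : ∀ w ∈ W, s⁻¹⁻¹ * w * s⁻¹ * w⁻¹ = s * (s⁻¹ * w * s * w⁻¹) * s⁻¹ := by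
    intro w hw
    have h1 : s * w * s⁻¹ * w⁻¹ = s * (w * (s⁻¹ * w⁻¹ * s * w) * w⁻¹) * s⁻¹ * 1 := by group
    have hmem : s⁻¹ * w⁻¹ * s * w ∈ F := by
      have := hsc' w⁻¹ (inv_mem hw)
      rwa [inv_inv] at this
    rw [inv_inv, h1, mul_one, hWN w hw _ hmem, inv_self_of_sq (hWsq w hw)]
  have hscen : ∀ y ∈ F, s * y = y * s := by
    intro y hy
    obtain ⟨a, ha, hae⟩ := (key s hsT hsF hsc').2 y hy
    have h2 := uniq s⁻¹ s (inv_mem hsT) hsT (fun h => hsF (by simpa using inv_mem h)) hsF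
      (fun w hw => hinvc w hw ▸ hsn _ (hsc' w hw)) hsc' a ha
    rw [hinvc a ha, hae] at h2
    exact mul_inv_eq_iff_eq_mul.1 h2
  set E := F ⊔ Subgroup.zpowers s with hEdef
  have hEc : ∀ x ∈ E, ∀ y ∈ E, x * y = y * x := by
    have h1 : E ≤ Subgroup.centralizer (F : Set Q) := sup_le
      (fun x hx => Subgroup.mem_centralizer_iff.2 fun y hy => hFc y hy x hx)
      (Subgroup.zpowers_le.2 (Subgroup.mem_centralizer_iff.2 fun y hy => (hscen y hy).symm))
    have h2 : E ≤ Subgroup.centralizer ({s} : Set Q) := sup_le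
      (fun x hx => Subgroup.mem_centralizer_singleton_iff.2 (hscen x hx).symm)
      (Subgroup.zpowers_le.2 (Subgroup.mem_centralizer_singleton_iff.2 rfl))
    intro x hx y hy
    have h3 : E ≤ Subgroup.centralizer ({x} : Set Q) := sup_le
      (fun z hz => Subgroup.mem_centralizer_singleton_iff.2
        (Subgroup.mem_centralizer_iff.1 (h1 hx) z hz))
      (Subgroup.zpowers_le.2 (Subgroup.mem_centralizer_singleton_iff.2
        (Subgroup.mem_centralizer_singleton_iff.1 (h2 hx)).symm))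
    exact (Subgroup.mem_centralizer_singleton_iff.1 (h3 hy)).symm
  have hcov : ∀ x ∈ E, x ∈ F ∨ x * s⁻¹ ∈ F := fun x hx => SectRank.mem_sup_zpowers hs2 hsn hx
  have hTE : T ≤ E := by
    by_contra hne
    have hWnE : W ≤ Subgroup.normalizer (E : Set Q) := by
      have h1 : ∀ w ∈ W, ∀ x ∈ E, w * x * w⁻¹ ∈ E := by
        intro w hw
        suffices E ≤ E.comap (MulAut.conj w).toMonoidHom from fun x hx => this hx
        refine sup_le (fun x hx => ?_) (Subgroup.zpowers_le.2 ?_)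
        · show w * x * w⁻¹ ∈ E
          rw [hWN w hw x hx]; exact le_sup_left (b := Subgroup.zpowers s) hx
        · show w * s * w⁻¹ ∈ E
          rw [show w * s * w⁻¹ = s * (s⁻¹ * w * s * w⁻¹) by group]
          exact mul_mem (le_sup_right (a := F) (Subgroup.mem_zpowers s))
            (le_sup_left (b := Subgroup.zpowers s) (hsc' w hw))
      intro w hw
      refine Subgroup.mem_normalizer_iff.2 fun x => ⟨h1 w hw x, fun hx => ?_⟩
      have := h1 w⁻¹ (inv_mem hw) _ hx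
      rwa [show w⁻¹ * (w * x * w⁻¹) * w⁻¹⁻¹ = x by group] at this
    set M2 := T ⊓ Subgroup.normalizer (E : Set Q) with hM2def
    have hET : E ≤ T := sup_le hFT (Subgroup.zpowers_le.2 hsT)
    have hM2E : ¬ M2 ≤ E := by
      intro hle
      obtain ⟨r, hr, hrE, hrn⟩ := exists_normalizing (hQ.to_subgroup T) hET (fun h => hne h.ge)
      refine hrE (hle ⟨hr, Subgroup.mem_normalizer_iff.2 fun x => ⟨hrn x, fun hx => ?_⟩⟩)
      have hmap : E.map (MulAut.conj r).toMonoidHom = E := Subgroup.eq_of_le_of_card_ge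
        (by rintro _ ⟨y, hy, rfl⟩; exact hrn y hy)
        (by rw [Subgroup.card_map_of_injective (MulAut.conj r).injective])
      rw [← hmap] at hx
      obtain ⟨y, hy, hyx⟩ := hx
      rwa [← (MulAut.conj r).injective (hyx : MulAut.conj r y = MulAut.conj r x)]
    have hR2 : M2 ⊔ W ≤ Subgroup.normalizer (M2 : Set Q) := by
      refine sup_le Subgroup.le_normalizer fun w hw => Subgroup.mem_normalizer_iff.2 fun y => ?_
      rw [hM2def, Subgroup.mem_inf, Subgroup.mem_inf, hTn.mem_comm_iff, inv_mul_cancel_left]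
      refine and_congr Iff.rfl ⟨fun h => mul_mem (mul_mem (hWnE hw) h) (inv_mem (hWnE hw)),
        fun h => ?_⟩
      have := mul_mem (mul_mem (inv_mem (hWnE hw)) h) (hWnE hw)
      rwa [show w⁻¹ * (w * y * w⁻¹) * w = y by group] at this
    obtain ⟨r, hrM, hrE, -, hrc⟩ := exists_central_mod hQ (R := M2 ⊔ W) le_sup_left
      (le_inf hET Subgroup.le_normalizer)
      (fun g hg x hx => (Subgroup.mem_normalizer_iff.1
        ((sup_le (inf_le_right) hWnE : M2 ⊔ W ≤ _) hg) x).1 hx)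
      (fun g hg x hx => (Subgroup.mem_normalizer_iff.1 (hR2 hg) x).1 hx) hM2E
    have hrc' : ∀ w ∈ W, r⁻¹ * w * r * w⁻¹ ∈ E := fun w hw => by
      have := (Subgroup.mem_normalizer_iff.1 (inv_mem hrM.2) _).1 (hrc w (le_sup_right (a := M2) hw))
      rwa [show r⁻¹ * (w * r * w⁻¹ * r⁻¹) * r⁻¹⁻¹ = r⁻¹ * w * r * w⁻¹ by group] at this
    -- one involution moves `r` only inside `F`
    obtain ⟨a, ha, ha1, hae⟩ : ∃ a ∈ W, a ≠ 1 ∧ r⁻¹ * a * r * a⁻¹ ∈ F := by
      obtain ⟨a, b, hab, ha1, hb1⟩ : ∃ a b : W, a ≠ b ∧ a ≠ 1 ∧ b ≠ 1 := by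
        letI := Fintype.ofFinite W
        have hc : 1 < ((Finset.univ : Finset W).erase 1).card := by
          rw [Finset.card_erase_of_mem (Finset.mem_univ _), Finset.card_univ,
            ← Nat.card_eq_fintype_card, hW4]
          norm_num
        obtain ⟨a, ha, b, hb, hab⟩ := Finset.one_lt_card.1 hc
        exact ⟨a, b, hab, (Finset.mem_erase.1 ha).1, (Finset.mem_erase.1 hb).1⟩
      rcases hcov _ (hrc' a a.2) with h | h
      · exact ⟨a, a.2, fun e => ha1 (Subtype.ext e), h⟩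
      rcases hcov _ (hrc' b b.2) with h' | h'
      · exact ⟨b, b.2, fun e => hb1 (Subtype.ext e), h'⟩
      refine ⟨(a : Q) * b, mul_mem a.2 b.2, fun e => hab (Subtype.ext ?_), ?_⟩
      · rw [← inv_eq_of_mul_eq_one_right e, inv_eq_of_mul_eq_one_right (pow_two (a : Q) ▸ hWsq _ a.2)]
      · rw [comm_mul_eq]
        set e := r⁻¹ * (a : Q) * r * (a : Q)⁻¹ with hedef
        set f := r⁻¹ * (b : Q) * r * (b : Q)⁻¹ with hfdef
        have h3 : (a : Q) * f * (a : Q)⁻¹ =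
            f * s⁻¹ * ((a : Q) * s * (a : Q)⁻¹) := by
          calc (a : Q) * f * (a : Q)⁻¹
              = (a : Q) * (f * s⁻¹) * (a : Q)⁻¹ * ((a : Q) * s * (a : Q)⁻¹) := by group
            _ = _ := by rw [hWN a a.2 _ h']
        rw [h3, show e * (f * s⁻¹ * ((a : Q) * s * (a : Q)⁻¹)) =
          e * s⁻¹ * (s * (f * s⁻¹) * s⁻¹) * s ^ 2 * (s⁻¹ * (a : Q) * s * (a : Q)⁻¹) by
            rw [pow_two]; group]
        exact mul_mem (mul_mem (mul_mem h (hsn _ h')) hs2) (hsc' a a.2)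
    have hall : ∀ b ∈ W, r⁻¹ * b * r * b⁻¹ ∈ F := by
      intro b hb
      set f := r⁻¹ * b * r * b⁻¹ with hfdef
      set e := r⁻¹ * a * r * a⁻¹ with hedef
      refine hone a ha ha1 f (hTc b r hrM.1) ?_
      have h1 : e * (a * f * a⁻¹) = f * (b * e * b⁻¹) := by
        rw [hfdef, hedef, ← comm_mul_eq, ← comm_mul_eq, hWc a ha b hb]
      rw [hWN b hb e hae, hEc f (hrc' b hb) e (le_sup_left (b := Subgroup.zpowers s) hae)] at h1
      exact mul_inv_eq_iff_eq_mul.1 (mul_left_cancel h1)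
    have hrF : r ∉ F := fun h => hrE (le_sup_left (b := Subgroup.zpowers s) h)
    refine hrE ?_
    have hrs : r * s⁻¹ ∈ F := by
      refine hone a ha ha1 _ (mul_mem hrM.1 (inv_mem hsT)) ?_
      have h1 := uniq r s hrM.1 hsT hrF hsF hall hsc' a ha
      rw [← mul_inv_eq_iff_eq_mul]
      calc a * (r * s⁻¹) * a⁻¹
          = r * (r⁻¹ * a * r * a⁻¹) * (s * (s⁻¹ * a * s * a⁻¹))⁻¹ := by group
        _ = r * s⁻¹ := by rw [h1]; group
    simpa using mul_mem (le_sup_left (b := Subgroup.zpowers s) hrs)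
      (le_sup_right (a := F) (Subgroup.mem_zpowers s))
  refine ⟨?_, fun x hx y hy => hEc x (hTE hx) y (hTE hy), hexist⟩
  have := (Subgroup.card_le_of_le hTE).trans (card_sup_zpowers_le' hs2 hsn)
  omega

/-- The hypotheses on `P = T W`. -/
structure Semi (T W V : Subgroup P) : Prop where
  isP : IsPGroup 2 P
  normal : T.Normal
  cardW : Nat.card W = 4
  cardV : Nat.card V = 4
  le : V ≤ T
  disj : ∀ x ∈ W, x ∈ T → x = 1
  cent : ∀ w ∈ W, w ≠ 1 → ∀ x ∈ T, (x * w = w * x ↔ x ∈ V)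
  card : Nat.card P ≤ 4 * Nat.card T

variable {T W V : Subgroup P}

theorem Semi.cover (h : Semi T W V) (g : P) : ∃ x ∈ T, ∃ w ∈ W, x * w = g := by
  have hinj : Function.Injective (fun p : T × W => (p.1 : P) * p.2) := by
    rintro ⟨x, w⟩ ⟨x', w'⟩ e
    have e' : (x : P) * w = x' * w' := e
    have h1 : (w : P) * (w' : P)⁻¹ = (x : P)⁻¹ * x' := by
      rw [eq_inv_mul_iff_mul_eq, ← mul_assoc, e', mul_inv_cancel_right]
    have h2 := h.disj _ (mul_mem w.2 (inv_mem w'.2)) (h1 ▸ mul_mem (inv_mem x.2) x'.2)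
    have hw : w = w' := Subtype.ext (mul_inv_eq_one.1 h2)
    subst hw
    exact Prod.ext (Subtype.ext (mul_right_cancel e')) rfl
  obtain ⟨⟨x, w⟩, he⟩ := (hinj.bijective_of_nat_card_le
    (by rw [Nat.card_prod, h.cardW]; have := h.card; omega)).2 g
  exact ⟨x, x.2, w, w.2, he⟩

/-- The common centraliser is normal and central modulo an involution. -/
theorem Semi.normalV (h : Semi T W V) : V.Normal ∧ (∀ x ∈ V, ∀ y ∈ V, x * y = y * x) ∧
    ∃ z, z ^ 2 = 1 ∧ (∀ v ∈ V, v ^ 2 = 1 ∨ ∀ d ∈ V, d ^ 2 = 1 → d = 1 ∨ d = z) := by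
  classical
  haveI := h.normal
  obtain ⟨w0, hw0, hw01⟩ : ∃ w ∈ W, w ≠ 1 := by
    by_contra hne
    push Not at hne
    have : W = ⊥ := (Subgroup.eq_bot_iff_forall _).2 hne
    have := h.cardW
    rw [‹W = ⊥›, Subgroup.card_bot] at this
    omega
  have hTbot : ¬ T ≤ ⊥ := fun hle => by
    have := h.cardV
    rw [le_bot_iff.1 (h.le.trans hle), Subgroup.card_bot] at this
    omega
  obtain ⟨z, hzT, hz1, hz2, hzc⟩ := exists_central_mod h.isP (R := ⊤) (N := ⊥) le_top bot_le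
    (fun g _ x hx => by rw [Subgroup.mem_bot] at hx ⊢; rw [hx, mul_one, mul_inv_cancel])
    (fun g _ x hx => h.normal.conj_mem x hx g) hTbot
  rw [Subgroup.mem_bot] at hz1 hz2
  have hzcen : ∀ g, g * z = z * g := fun g =>
    mul_inv_eq_iff_eq_mul.1 (mul_inv_eq_one.1 (Subgroup.mem_bot.1 (hzc g (Subgroup.mem_top g))))
  have hzV : z ∈ V := (h.cent w0 hw0 hw01 z hzT).1 (hzcen w0).symm
  set Z := Subgroup.zpowers z with hZdef
  have hZ : ∀ x ∈ Z, x = 1 ∨ x = z := fun x hx => SectRank.eq_one_or_eq_of_mem_zpowers hz2 hx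
  have hTZ : ¬ T ≤ Z := fun hle => by
    have h1 := Subgroup.card_le_of_le (h.le.trans hle)
    have h2 := SectRank.card_zpowers_le_two hz2
    have := h.cardV
    rw [hZdef] at h1
    omega
  obtain ⟨x, hxT, hxZ, hx2, hxc⟩ := exists_central_mod h.isP (R := ⊤) le_top
    (Subgroup.zpowers_le.2 hzT)
    (fun g _ y hy => by
      rcases hZ y hy with rfl | rfl
      · rw [mul_one, mul_inv_cancel]; exact one_mem Z
      · rw [conj_eq_of_commute (hzcen g)]; exact hy)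
    (fun g _ y hy => h.normal.conj_mem y hy g) hTZ
  have hxV : x ∈ V := by
    obtain ⟨u, v, huv, he⟩ : ∃ u v : W, u ≠ v ∧
        (u : P) * x * (u : P)⁻¹ = (v : P) * x * (v : P)⁻¹ := by
      let f : W → Z := fun w => ⟨_, hxc w (Subgroup.mem_top _)⟩
      have hnot : ¬ Function.Injective f := fun hf => by
        have h1 := Nat.card_le_card_of_injective f hf
        have h2 := SectRank.card_zpowers_le_two hz2
        rw [h.cardW] at h1
        change 4 ≤ Nat.card Z at h1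
        rw [hZdef] at h1
        omega
      rw [Function.not_injective_iff] at hnot
      obtain ⟨u, v, he, hne⟩ := hnot
      exact ⟨u, v, hne, mul_right_cancel (congrArg Subtype.val he)⟩
    refine (h.cent ((v : P)⁻¹ * u) (mul_mem (inv_mem v.2) u.2)
      (fun e => huv (Subtype.ext (inv_mul_eq_one.1 e).symm)) x hxT).1 ?_
    calc x * ((v : P)⁻¹ * u) = (v : P)⁻¹ * ((v : P) * x * (v : P)⁻¹) * u := by group
      _ = (v : P)⁻¹ * u * x := by rw [← he]; group
  have hxz : x ≠ z := fun e => hxZ (e ▸ Subgroup.mem_zpowers z)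
  have hx1 : x ≠ 1 := fun e => hxZ (e ▸ one_mem Z)
  have hzx1 : z * x ≠ 1 := fun e => hxz (by
    rw [← inv_eq_of_mul_eq_one_right e, inv_eq_of_mul_eq_one_right (pow_two z ▸ hz2)])
  have hVeq : ∀ v ∈ V, v = 1 ∨ v = z ∨ v = x ∨ v = z * x := by
    intro v hv
    by_contra hne
    push Not at hne
    obtain ⟨h1, h2, h3, h4⟩ := hne
    have hsub : (({1, z, x, z * x, v} : Finset P) : Set P) ⊆ (V : Set P) := by
      intro y hy
      simp only [Finset.coe_insert, Finset.coe_singleton, Set.mem_insert_iff,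
        Set.mem_singleton_iff] at hy
      rcases hy with rfl | rfl | rfl | rfl | rfl
      exacts [one_mem V, hzV, hxV, mul_mem hzV hxV, hv]
    have h5 := Set.ncard_le_ncard hsub (Set.toFinite _)
    rw [Set.ncard_coe_finset, ← Nat.card_coe_set_eq] at h5
    change _ ≤ Nat.card V at h5
    rw [h.cardV, Finset.card_insert_of_notMem, Finset.card_insert_of_notMem,
      Finset.card_insert_of_notMem, Finset.card_insert_of_notMem, Finset.card_singleton] at h5
    · omega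
    all_goals simp [hz1, Ne.symm hz1, hx1, Ne.symm hx1, Ne.symm hxz, hzx1, Ne.symm hzx1,
        Ne.symm h1, Ne.symm h2, Ne.symm h3, Ne.symm h4]
  refine ⟨⟨fun v hv g => ?_⟩, fun a ha b hb => ?_, z, hz2, ?_⟩
  · have hgx : g * x * g⁻¹ ∈ V := by
      have h1 : g * x * g⁻¹ = g * x * g⁻¹ * x⁻¹ * x := by group
      rw [h1]
      exact mul_mem ((Subgroup.zpowers_le.2 hzV) (hxc g (Subgroup.mem_top g))) hxV
    rcases hVeq v hv with rfl | rfl | rfl | rfl
    · rw [mul_one, mul_inv_cancel]; exact one_mem V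
    · rw [conj_eq_of_commute (hzcen g)]; exact hzV
    · exact hgx
    · rw [show g * (z * x) * g⁻¹ = g * z * g⁻¹ * (g * x * g⁻¹) by group,
        conj_eq_of_commute (hzcen g)]
      exact mul_mem hzV hgx
  · have hcomm : ∀ y ∈ V, x * y = y * x := by
      intro y hy
      rcases hVeq y hy with rfl | rfl | rfl | rfl
      · rw [one_mul, mul_one]
      · exact hzcen x
      · rfl
      · rw [← mul_assoc, hzcen x, mul_assoc]
    rcases hVeq a ha with rfl | rfl | rfl | rfl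
    · rw [one_mul, mul_one]
    · exact (hzcen b).symm
    · exact hcomm b hb
    · rw [mul_assoc, hcomm b hb, ← mul_assoc, ← hzcen b, mul_assoc]
  · intro v hv
    by_cases hxx : x ^ 2 = 1
    · left
      rcases hVeq v hv with rfl | rfl | rfl | rfl
      exacts [one_pow 2, hz2, hxx,
        by rw [(show Commute z x from (hzcen x).symm).mul_pow, hz2, hxx, one_mul]]
    · refine Or.inr fun d hd hd2 => ?_
      rcases hVeq d hd with rfl | rfl | rfl | rfl
      · exact Or.inl rfl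
      · exact Or.inr rfl
      · exact absurd hd2 hxx
      · rw [(show Commute z x from (hzcen x).symm).mul_pow, hz2, one_mul] at hd2
        exact absurd hd2 hxx

/-- The value of the commutator of `y` and an involution of `W` is an involution of `V`. -/
theorem Semi.delta_sq (h : Semi T W V) {w y : P} (hw : w ∈ W) (hw1 : w ≠ 1) (hw2 : w ^ 2 = 1)
    (hd : y⁻¹ * w * y * w⁻¹ ∈ V) : (y⁻¹ * w * y * w⁻¹) ^ 2 = 1 := by
  have hdc := (h.cent w hw hw1 _ (h.le hd)).2 hd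
  have hwi : w⁻¹ = w := inv_eq_of_mul_eq_one_right (pow_two w ▸ hw2)
  have h1 : w * (y⁻¹ * w * y * w⁻¹) * w⁻¹ = y⁻¹ * w * y * w⁻¹ := conj_eq_of_commute hdc.symm
  have h2 : y⁻¹ * w * y * w⁻¹ * (w * (y⁻¹ * w * y * w⁻¹) * w⁻¹) = 1 := by
    have : y⁻¹ * w * y * w⁻¹ * (w * (y⁻¹ * w * y * w⁻¹) * w⁻¹) =
        y⁻¹ * (w * w) * y * (w * w)⁻¹ := by group
    rw [this, ← pow_two, hw2]
    group
  rw [h1, ← pow_two] at h2
  exact h2

/-- Equal commutators with `w` mean equal cosets of `V`. -/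
theorem Semi.delta_inj (h : Semi T W V) {w y y' : P} (hw : w ∈ W) (hw1 : w ≠ 1) (hy : y ∈ T)
    (hy' : y' ∈ T) (he : y'⁻¹ * w * y' * w⁻¹ = y⁻¹ * w * y * w⁻¹) : y' * y⁻¹ ∈ V := by
  refine (h.cent w hw hw1 _ (mul_mem hy' (inv_mem hy))).1 (Eq.symm ?_)
  rw [← mul_inv_eq_iff_eq_mul]
  calc w * (y' * y⁻¹) * w⁻¹
      = y' * (y'⁻¹ * w * y' * w⁻¹) * (y * (y⁻¹ * w * y * w⁻¹))⁻¹ := by group
    _ = y' * y⁻¹ := by rw [he]; group

/-- If some value takes only two values, `T` is small. -/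
theorem Semi.small_of_cyclic (h : Semi T W V) [V.Normal] {z : P} (hz2 : z ^ 2 = 1)
    (hV : ∀ d ∈ V, d ^ 2 = 1 → d = 1 ∨ d = z) (hinv : ∀ w ∈ W, w ≠ 1 → w ^ 2 = 1) :
    Nat.card T ≤ 16 := by
  classical
  by_cases hTV : T ≤ V
  · have := Subgroup.card_le_of_le hTV
    have := h.cardV
    omega
  obtain ⟨y, hyT, hyV, -, hyc⟩ := exists_central_mod h.isP (R := ⊤) le_top h.le
    (fun g _ x hx => Subgroup.Normal.conj_mem inferInstance x hx g)
    (fun g _ x hx => h.normal.conj_mem x hx g) hTV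
  exfalso
  have hd : ∀ w : P, y⁻¹ * w * y * w⁻¹ ∈ V := fun w => by
    have := Subgroup.Normal.conj_mem (inferInstance : V.Normal) _ (hyc w (Subgroup.mem_top w)) y⁻¹
    rwa [show y⁻¹ * (w * y * w⁻¹ * y⁻¹) * y⁻¹⁻¹ = y⁻¹ * w * y * w⁻¹ by group] at this
  have hval : ∀ w ∈ W, w ≠ 1 → y⁻¹ * w * y * w⁻¹ = z := by
    intro w hw hw1
    rcases hV _ (hd w) (h.delta_sq hw hw1 (hinv w hw hw1) (hd w)) with e | e
    · exfalso
      rw [mul_inv_eq_one, mul_assoc, inv_mul_eq_iff_eq_mul] at e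
      exact hyV ((h.cent w hw hw1 y hyT).1 e.symm)
    · exact e
  obtain ⟨a, b, hab, ha1, hb1⟩ : ∃ a b : W, a ≠ b ∧ a ≠ 1 ∧ b ≠ 1 := by
    letI := Fintype.ofFinite W
    have hc : 1 < ((Finset.univ : Finset W).erase 1).card := by
      rw [Finset.card_erase_of_mem (Finset.mem_univ _), Finset.card_univ,
        ← Nat.card_eq_fintype_card, h.cardW]
      norm_num
    obtain ⟨a, ha, b, hb, hab⟩ := Finset.one_lt_card.1 hc
    exact ⟨a, b, hab, (Finset.mem_erase.1 ha).1, (Finset.mem_erase.1 hb).1⟩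
  have h1 := hval a a.2 fun e => ha1 (Subtype.ext e)
  have h2 := hval b b.2 fun e => hb1 (Subtype.ext e)
  refine hyV ((h.cent ((b : P)⁻¹ * a) (mul_mem (inv_mem b.2) a.2)
    (fun e => hab (Subtype.ext (inv_mul_eq_one.1 e).symm)) y hyT).1 ?_)
  have h3 : (a : P) * y * (a : P)⁻¹ = (b : P) * y * (b : P)⁻¹ := by
    have e1 : (a : P) * y * (a : P)⁻¹ = y * z := by rw [← h1]; group
    have e2 : (b : P) * y * (b : P)⁻¹ = y * z := by rw [← h2]; group
    rw [e1, e2]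
  calc y * ((b : P)⁻¹ * a) = (b : P)⁻¹ * ((b : P) * y * (b : P)⁻¹) * a := by group
    _ = (b : P)⁻¹ * a * y := by rw [← h3]; group

/-- An element of order four in `W`. -/
theorem Semi.small_of_order_four (h : Semi T W V) [V.Normal] {z : P}
    (hz : ∀ v ∈ V, v ^ 2 = 1 ∨ ∀ d ∈ V, d ^ 2 = 1 → d = 1 ∨ d = z)
    {w : P} (hw : w ∈ W) (hw2 : w ^ 2 ≠ 1) : Nat.card T ≤ 16 := by
  classical
  have hw1 : w ≠ 1 := fun e => hw2 (by rw [e, one_pow])
  have hu1 : w ^ 2 ≠ 1 := hw2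
  have hu : w ^ 2 ∈ W := pow_mem hw 2
  have hu2 : (w ^ 2) ^ 2 = 1 := by
    rw [← pow_mul, show 2 * 2 = Nat.card W from h.cardW.symm]
    exact congrArg Subtype.val (pow_card_eq_one' (G := W) (x := ⟨w, hw⟩))
  have hconjV : ∀ g, ∀ v ∈ V, g * v * g⁻¹ ∈ V := fun g v hv =>
    Subgroup.Normal.conj_mem inferInstance v hv g
  by_cases hTV : T ≤ V
  · have := Subgroup.card_le_of_le hTV
    have := h.cardV
    omega
  obtain ⟨y, hyT, hyV, hy2, hyc⟩ := exists_central_mod h.isP (R := ⊤) le_top h.le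
    (fun g _ x hx => hconjV g x hx) (fun g _ x hx => h.normal.conj_mem x hx g) hTV
  have hd : ∀ g, y⁻¹ * g * y * g⁻¹ ∈ V := fun g => by
    have := hconjV y⁻¹ _ (hyc g (Subgroup.mem_top g))
    rwa [show y⁻¹ * (g * y * g⁻¹ * y⁻¹) * y⁻¹⁻¹ = y⁻¹ * g * y * g⁻¹ by group] at this
  have hne1 : ∀ {x : P}, x ∈ T → x ∉ V → x⁻¹ * w ^ 2 * x * (w ^ 2)⁻¹ ≠ 1 := fun {x} hxT hxV e => by
    rw [mul_inv_eq_one, mul_assoc, inv_mul_eq_iff_eq_mul] at e
    exact hxV ((h.cent _ hu hu1 x hxT).1 e.symm)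
  have hsq : ∀ {x : P}, x⁻¹ * w ^ 2 * x * (w ^ 2)⁻¹ ∈ V →
      (x⁻¹ * w ^ 2 * x * (w ^ 2)⁻¹) ^ 2 = 1 := fun hx => h.delta_sq hu hu1 hu2 hx
  -- `V` has only one involution
  obtain ⟨v, hv, hv2⟩ : ∃ v ∈ V, v ^ 2 ≠ 1 := by
    by_contra hexp
    push Not at hexp
    apply hne1 hyT hyV
    have hdc := conj_eq_of_commute ((h.cent w hw hw1 _ (h.le (hd w))).2 (hd w)).symm
    calc y⁻¹ * w ^ 2 * y * (w ^ 2)⁻¹
        = y⁻¹ * w * y * w⁻¹ * (w * (y⁻¹ * w * y * w⁻¹) * w⁻¹) := by rw [pow_two]; group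
      _ = 1 := by rw [hdc, ← pow_two, hexp _ (hd w)]
  have hV := (hz v hv).resolve_left hv2
  have hyz : y⁻¹ * w ^ 2 * y * (w ^ 2)⁻¹ = z :=
    (hV _ (hd _) (hsq (hd _))).resolve_left (hne1 hyT hyV)
  set N := V ⊔ Subgroup.zpowers y with hNdef
  have hyn : ∀ v ∈ V, y * v * y⁻¹ ∈ V := hconjV y
  by_cases hTN : T ≤ N
  · have h1 := Subgroup.card_le_of_le hTN
    have h2 := card_sup_zpowers_le' hy2 hyn
    have := h.cardV
    rw [hNdef] at h1
    omega
  exfalso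
  have hcov : ∀ x ∈ N, x ∈ V ∨ x * y⁻¹ ∈ V := fun x hx => SectRank.mem_sup_zpowers hy2 hyn hx
  have hNn : ∀ g, ∀ x ∈ N, g * x * g⁻¹ ∈ N := by
    intro g
    suffices N ≤ N.comap (MulAut.conj g).toMonoidHom from fun x hx => this hx
    refine sup_le (fun x hx => ?_) (Subgroup.zpowers_le.2 ?_)
    · exact le_sup_left (b := Subgroup.zpowers y) (hconjV g x hx)
    · show g * y * g⁻¹ ∈ N
      rw [show g * y * g⁻¹ = g * y * g⁻¹ * y⁻¹ * y by group]
      exact mul_mem (le_sup_left (b := Subgroup.zpowers y) (hyc g (Subgroup.mem_top g)))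
        (le_sup_right (a := V) (Subgroup.mem_zpowers y))
  have hNT : N ≤ T := sup_le h.le (Subgroup.zpowers_le.2 hyT)
  obtain ⟨x, hxT, hxN, -, hxc⟩ := exists_central_mod h.isP (R := ⊤) le_top hNT
    (fun g _ x hx => hNn g x hx) (fun g _ x hx => h.normal.conj_mem x hx g) hTN
  set e := x⁻¹ * w * x * w⁻¹ with hedef
  have he : e ∈ N := by
    have := hNn x⁻¹ _ (hxc w (Subgroup.mem_top w))
    rwa [show x⁻¹ * (w * x * w⁻¹ * x⁻¹) * x⁻¹⁻¹ = e by rw [hedef]; group] at this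
  have hdu : x⁻¹ * w ^ 2 * x * (w ^ 2)⁻¹ ∈ V := by
    have h1 : x⁻¹ * w ^ 2 * x * (w ^ 2)⁻¹ = e * (w * e * w⁻¹) := by
      rw [hedef, pow_two]; group
    rw [h1]
    rcases hcov e he with hev | hev
    · exact mul_mem hev (hconjV w e hev)
    · have h2 : e * (w * e * w⁻¹) = e * y⁻¹ * (y * (w * (e * y⁻¹) * w⁻¹) * y⁻¹) *
          (y * (w * y * w⁻¹ * y⁻¹) * y⁻¹) * y ^ 2 := by rw [pow_two]; group
      rw [h2]
      exact mul_mem (mul_mem (mul_mem hev (hconjV y _ (hconjV w _ hev)))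
        (hconjV y _ (hyc w (Subgroup.mem_top w)))) hy2
  have hxV : x ∉ V := fun hx => hxN (le_sup_left (b := Subgroup.zpowers y) hx)
  have hxy := h.delta_inj hu hu1 hyT hxT
    (((hV _ hdu (hsq hdu)).resolve_left (hne1 hxT hxV)).trans hyz.symm)
  exact hxN (by
    simpa using mul_mem (le_sup_left (b := Subgroup.zpowers y) hxy)
      (le_sup_right (a := V) (Subgroup.mem_zpowers y)))

/-- When `W` and `V` are four-groups, `T` is small or its shape is known. -/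
theorem Semi.four_four (h : Semi T W V) [V.Normal] (hVc : ∀ x ∈ V, ∀ y ∈ V, x * y = y * x)
    (hW2 : ∀ w ∈ W, w ^ 2 = 1) (hV2 : ∀ v ∈ V, v ^ 2 = 1) :
    Nat.card T ≤ 16 ∨ (Nat.card T ≤ 32 ∧
      ∀ H : Subgroup P, (∀ x ∈ H, x ^ 2 = 1) → 32 ≤ Nat.card H → Nat.card P ≤ 128 →
        ∃ w ∈ W, w ≠ 1 ∧ w ∈ H) := by
  classical
  set π := QuotientGroup.mk' V with hπ
  haveI := h.normal
  haveI hTb : (T.map π).Normal := Subgroup.Normal.map h.normal π (QuotientGroup.mk'_surjective V)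
  set Wb := W.map π with hWb
  set Tb := T.map π with hTbdef
  set F := Tb ⊓ Subgroup.centralizer (Wb : Set (P ⧸ V)) with hFdef
  have hπeq : ∀ {x y : P}, π x = π y ↔ x⁻¹ * y ∈ V := fun {x y} => by
    rw [hπ, QuotientGroup.mk'_apply, QuotientGroup.mk'_apply, QuotientGroup.eq]
  have hπ1 : ∀ {x : P}, π x = 1 ↔ x ∈ V := fun {x} => by
    rw [hπ, QuotientGroup.mk'_apply, QuotientGroup.eq_one_iff]
  have hlift : ∀ y ∈ T, ∀ w, π w * π y = π y * π w → y⁻¹ * w * y * w⁻¹ ∈ V := by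
    intro y _ w he
    rw [← hπ1, map_mul, map_mul, map_mul, map_inv, map_inv, mul_assoc (π y)⁻¹, he,
      inv_mul_cancel_left, mul_inv_cancel]
  have hliftT : ∀ q ∈ Tb, ∀ y, π y = q → y ∈ T := by
    rintro q ⟨y', hy', rfl⟩ y hy
    have := mul_mem hy' (h.le (hπeq.1 hy.symm))
    rwa [mul_inv_cancel_left] at this
  have hsub : ∀ y ∈ T, ∀ w ∈ W, w ≠ 1 → ∀ v ∈ V, y⁻¹ * w * y * w⁻¹ ∈ V →
      (y * v)⁻¹ * w * (y * v) * w⁻¹ = y⁻¹ * w * y * w⁻¹ := by
    intro y _ w hw hw1 v hv hd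
    have h1 := conj_eq_of_commute ((h.cent w hw hw1 v (h.le hv)).2 hv).symm
    calc (y * v)⁻¹ * w * (y * v) * w⁻¹ = v⁻¹ * (y⁻¹ * w * y * w⁻¹) * (w * v * w⁻¹) := by group
      _ = v⁻¹ * (y⁻¹ * w * y * w⁻¹) * v := by rw [h1]
      _ = y⁻¹ * w * y * w⁻¹ := by rw [mul_assoc, hVc _ hd v hv, inv_mul_cancel_left]
  -- a single involution detects `F`
  have hone : ∀ a ∈ Wb, a ≠ 1 → ∀ q ∈ Tb, a * q = q * a → q ∈ F := by
    rintro _ ⟨a, ha, rfl⟩ ha1 _ ⟨y, hy, rfl⟩ he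
    have ha1' : a ≠ 1 := fun e => ha1 (by rw [e, map_one])
    refine ⟨⟨y, hy, rfl⟩, Subgroup.mem_centralizer_iff.2 ?_⟩
    rintro _ ⟨b, hb, rfl⟩
    have hd := hlift y hy a he
    have hab : a * b = b * a := commute_of_sq (hW2 a ha) (hW2 b hb) (hW2 _ (mul_mem ha hb))
    by_cases hb1 : b = 1
    · rw [hb1, map_one, one_mul, mul_one]
    have he2 : (b * y * b⁻¹)⁻¹ * a * (b * y * b⁻¹) * a⁻¹ = y⁻¹ * a * y * a⁻¹ := by
      have h2 : b⁻¹ * a * b = a := by rw [mul_assoc, hab, inv_mul_cancel_left]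
      calc (b * y * b⁻¹)⁻¹ * a * (b * y * b⁻¹) * a⁻¹
          = b * (y⁻¹ * (b⁻¹ * a * b) * y * (b⁻¹ * a * b)⁻¹) * b⁻¹ := by group
        _ = b * (y⁻¹ * a * y * a⁻¹) * b⁻¹ := by rw [h2]
        _ = _ := conj_eq_of_commute ((h.cent b hb hb1 _ (h.le hd)).2 hd).symm
    have h3 := h.delta_inj ha ha1' hy (h.normal.conj_mem y hy b) he2
    have h4 : π (b * y * b⁻¹ * y⁻¹) = 1 := hπ1.2 h3
    rw [map_mul, map_mul, map_mul, map_inv, map_inv, mul_inv_eq_one] at h4
    exact mul_inv_eq_iff_eq_mul.1 h4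
  have hdel : ∀ w ∈ W, ∀ y ∈ T, π y ∈ F → y⁻¹ * w * y * w⁻¹ ∈ V := fun w hw y hy hq =>
    hlift y hy w (Subgroup.mem_centralizer_iff.1 hq.2 _ ⟨w, hw, rfl⟩)
  obtain ⟨⟨a, ha⟩, ⟨b, hb⟩, hab, ha1, hb1⟩ : ∃ a b : W, a ≠ b ∧ a ≠ 1 ∧ b ≠ 1 := by
    letI := Fintype.ofFinite W
    have hc : 1 < ((Finset.univ : Finset W).erase 1).card := by
      rw [Finset.card_erase_of_mem (Finset.mem_univ _), Finset.card_univ,
        ← Nat.card_eq_fintype_card, h.cardW]
      norm_num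
    obtain ⟨a, ha, b, hb, hab⟩ := Finset.one_lt_card.1 hc
    exact ⟨a, b, hab, (Finset.mem_erase.1 ha).1, (Finset.mem_erase.1 hb).1⟩
  have ha1' : a ≠ 1 := fun e => ha1 (Subtype.ext e)
  have hb1' : b ≠ 1 := fun e => hb1 (Subtype.ext e)
  have hab' : a ≠ b := fun e => hab (Subtype.ext e)
  -- `F` has at most four elements
  have hF4 : Nat.card F ≤ 4 := by
    choose g hg using fun q : F => (q.2.1 : ∃ y, y ∈ T ∧ π y = (q : P ⧸ V))
    let f : F → V := fun q => ⟨(g q)⁻¹ * a * g q * a⁻¹,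
      hdel a ha _ (hg q).1 (by rw [(hg q).2]; exact q.2)⟩
    rw [← h.cardV]
    refine Nat.card_le_card_of_injective f fun q r e => ?_
    have h1 := h.delta_inj ha ha1' (hg r).1 (hg q).1 (congrArg Subtype.val e)
    have h2 : π (g q * (g r)⁻¹) = 1 := hπ1.2 h1
    rw [map_mul, map_inv, mul_inv_eq_one, (hg q).2, (hg r).2] at h2
    exact Subtype.ext h2
  -- `Y` centralises `V` and has exponent two modulo `V`
  have hcen : ∀ y ∈ T, π y ∈ F → y ^ 2 ∈ V ∧ ∀ v ∈ V, y * v = v * y := by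
    intro y hy hq
    by_cases hyV : y ∈ V
    · exact ⟨pow_mem hyV 2, fun v hv => hVc y hyV v hv⟩
    have hne : ∀ w ∈ W, w ≠ 1 → y⁻¹ * w * y * w⁻¹ ≠ 1 := fun w hw hw1 e => by
      rw [mul_inv_eq_one, mul_assoc, inv_mul_eq_iff_eq_mul] at e
      exact hyV ((h.cent w hw hw1 y hy).1 e.symm)
    have hwy : ∀ w ∈ W, w ≠ 1 → w * (y ^ 2) * w⁻¹ =
        y ^ 2 * (y⁻¹ * (y⁻¹ * w * y * w⁻¹) * y * (y⁻¹ * w * y * w⁻¹)) := fun w _ _ => by
      rw [pow_two]; group
    set da := y⁻¹ * a * y * a⁻¹ with hda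
    set db := y⁻¹ * b * y * b⁻¹ with hdb
    have hdaV : da ∈ V := hdel a ha y hy hq
    have hdbV : db ∈ V := hdel b hb y hy hq
    have hne2 : da ≠ db := fun e => by
      have h1 : a * y * a⁻¹ = b * y * b⁻¹ := by
        have e1 : a * y * a⁻¹ = y * da := by rw [hda]; group
        have e2 : b * y * b⁻¹ = y * db := by rw [hdb]; group
        rw [e1, e2, e]
      refine hyV ((h.cent (b⁻¹ * a) (mul_mem (inv_mem hb) ha)
        (fun e => hab' (inv_mul_eq_one.1 e).symm) y hy).1 ?_)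
      calc y * (b⁻¹ * a) = b⁻¹ * (b * y * b⁻¹) * a := by group
        _ = b⁻¹ * a * y := by rw [← h1]; group
    have hgen : ∀ v ∈ V, v = 1 ∨ v = da ∨ v = db ∨ v = da * db := fun v hv => by
      have := HarrisRank.four_elems (K := V) h.cardV
        (fun k => Subtype.ext (by simpa [pow_two] using hV2 k k.2)) (a := ⟨da, hdaV⟩) (b := ⟨db, hdbV⟩)
        (fun e => hne a ha ha1' (congrArg Subtype.val e))
        (fun e => hne b hb hb1' (congrArg Subtype.val e))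
        (fun e => hne2 (congrArg Subtype.val e)) ⟨v, hv⟩
      rcases this with e | e | e | e
      exacts [Or.inl (congrArg Subtype.val e), Or.inr (Or.inl (congrArg Subtype.val e)),
        Or.inr (Or.inr (Or.inl (congrArg Subtype.val e))),
        Or.inr (Or.inr (Or.inr (congrArg Subtype.val e)))]
    -- conjugation by `y` fixes both values
    have hconjd : ∀ w ∈ W, w ≠ 1 → y ^ 2 ∈ V →
        y * (y⁻¹ * w * y * w⁻¹) = y⁻¹ * w * y * w⁻¹ * y := by
      intro w hw hw1 hy2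
      set d := y⁻¹ * w * y * w⁻¹ with hd
      have hdV : d ∈ V := hdel w hw y hy hq
      have h1 := hwy w hw hw1
      rw [conj_eq_of_commute ((h.cent w hw hw1 _ (h.le hy2)).2 hy2).symm, ← hd] at h1
      have h2 : y⁻¹ * d * y * d = 1 := mul_left_cancel (h1.symm.trans (mul_one _).symm)
      have h3 : y⁻¹ * d * y = d := by
        rw [mul_eq_one_iff_eq_inv.1 h2, inv_eq_of_mul_eq_one_right (pow_two d ▸ hV2 d hdV)]
      rw [mul_assoc, inv_mul_eq_iff_eq_mul] at h3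
      exact h3.symm
    have hy2 : y ^ 2 ∈ V := by
      by_contra hcon
      have hval : ∀ w ∈ W, w ≠ 1 →
          (y ^ 2)⁻¹ * w * y ^ 2 * w⁻¹ =
            y⁻¹ * (y⁻¹ * w * y * w⁻¹) * y * (y⁻¹ * w * y * w⁻¹) := fun w _ _ => by
        rw [pow_two]; group
      -- three distinct values in a subgroup of commutators of order two
      have hz : ∀ v ∈ V, y⁻¹ * v * y * v ∈ V := fun v hv =>
        mul_mem (by simpa using Subgroup.Normal.conj_mem (inferInstance : V.Normal) v hv y⁻¹) hv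
      have hfix : ∃ v ∈ V, v ≠ 1 ∧ y⁻¹ * v * y = v := by
        by_contra hno
        push Not at hno
        have h1 : ∀ v ∈ V, v ≠ 1 → y⁻¹ * v * y * v ≠ 1 := fun v hv hv1 e => hno v hv hv1 (by
          rw [mul_eq_one_iff_eq_inv.1 e, inv_eq_of_mul_eq_one_right (pow_two v ▸ hV2 v hv)])
        obtain ⟨c, hc1, hcV, hcfix⟩ : ∃ c, c ≠ 1 ∧ c ∈ V ∧ ∀ g : P, g * c = c * g := by
          have hVb : ¬ V ≤ ⊥ := fun hle => by
            have := h.cardV
            rw [le_bot_iff.1 hle, Subgroup.card_bot] at this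
            omega
          obtain ⟨c, hc, hc1, -, hcc⟩ := exists_central_mod h.isP (R := ⊤) le_top bot_le
            (fun g _ x hx => by rw [Subgroup.mem_bot] at hx ⊢; rw [hx, mul_one, mul_inv_cancel])
            (fun g _ x hx => Subgroup.Normal.conj_mem inferInstance x hx g) hVb
          exact ⟨c, fun e => hc1 (e ▸ one_mem _), hc, fun g => mul_inv_eq_iff_eq_mul.1
            (mul_inv_eq_one.1 (Subgroup.mem_bot.1 (hcc g (Subgroup.mem_top g))))⟩
        exact hno c hcV hc1 (by rw [mul_assoc, ← hcfix y, inv_mul_cancel_left])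
      obtain ⟨v, hv, hv1, hvy⟩ := hfix
      have hkill : ∀ w ∈ W, w ≠ 1 → y⁻¹ * w * y * w⁻¹ = v → False := by
        intro w hw hw1 e
        apply hcon
        refine (h.cent w hw hw1 _ (pow_mem hy 2)).1 ?_
        have h1 := hval w hw hw1
        rw [e, hvy, ← pow_two, hV2 v hv, mul_inv_eq_one, mul_assoc, inv_mul_eq_iff_eq_mul] at h1
        exact h1.symm
      rcases hgen v hv with e | e | e | e
      · exact hv1 e
      · exact hkill a ha ha1' e.symm
      · exact hkill b hb hb1' e.symm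
      · refine hkill (a * b) (mul_mem ha hb) (fun e' => hab' ?_) ?_
        · rw [← inv_eq_of_mul_eq_one_right e', inv_eq_of_mul_eq_one_right (pow_two a ▸ hW2 a ha)]
        · rw [comm_mul_eq, ← hdb, conj_eq_of_commute ((h.cent a ha ha1' _ (h.le hdbV)).2 hdbV).symm,
            ← hda, e]
    refine ⟨hy2, fun v hv => ?_⟩
    have ea : Commute y da := hconjd a ha ha1' hy2
    have eb : Commute y db := hconjd b hb hb1' hy2
    rcases hgen v hv with rfl | rfl | rfl | rfl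
    exacts [Commute.one_right y, ea, eb, ea.mul_right eb]
  have hFmem : ∀ q, q ∈ F ↔ q ∈ Tb ∧ ∀ w ∈ Wb, w * q = q * w := fun q => by
    rw [hFdef, Subgroup.mem_inf, Subgroup.mem_centralizer_iff]; rfl
  have hFsq : ∀ q ∈ F, q ^ 2 = 1 := by
    intro q hq
    obtain ⟨y, hy, rfl⟩ := hq.1
    rw [← map_pow, hπ1]
    exact (hcen y hy hq).1
  by_cases hTF : Tb ≤ F
  · left
    have h1 := Subgroup.card_le_of_le hTF
    have h2 := SectRank.card_inf_mul_card_map_mk V T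
    rw [inf_eq_right.2 h.le, h.cardV] at h2
    change 4 * Nat.card Tb = _ at h2
    omega
  have hWinj : ∀ w ∈ W, ∀ w' ∈ W, π w = π w' → w = w' := fun w hw w' hw' e =>
    inv_mul_eq_one.1 (h.disj _ (mul_mem (inv_mem hw) hw') (h.le (hπeq.1 e)))
  have hW4 : Nat.card Wb = 4 := by
    rw [← h.cardW]
    refine (Nat.card_eq_of_bijective (fun w : W => (⟨π w, w, w.2, rfl⟩ : Wb)) ⟨fun u v e =>
      Subtype.ext (hWinj u u.2 v v.2 (congrArg Subtype.val e)), ?_⟩).symm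
    rintro ⟨_, w, hw, rfl⟩
    exact ⟨⟨w, hw⟩, rfl⟩
  obtain ⟨hT8, hTc, hex⟩ := chain_bound (h.isP.to_quotient V) Tb Wb F hW4
    (by rintro _ ⟨w, hw, rfl⟩; rw [← map_pow, hW2 w hw, map_one]) hFmem hone hFsq hF4
    (fun A q => ∀ w ∈ W, π w = A → ∀ y ∈ T, π y = q → y⁻¹ * w * y * w⁻¹ = y ^ 2)
    (by
      rintro q hq hq1 _ ⟨u, hu, rfl⟩ hu1 _ ⟨v, hv, rfl⟩ hv1 hRu hRv
      obtain ⟨y, hy, rfl⟩ := hq.1
      by_contra hne
      have hyV : y ∉ V := fun hy' => hq1 (hπ1.2 hy')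
      have e : u * y * u⁻¹ = v * y * v⁻¹ := by
        have e1 : u * y * u⁻¹ = y * y ^ 2 := by rw [← hRu u hu rfl y hy rfl]; group
        have e2 : v * y * v⁻¹ = y * y ^ 2 := by rw [← hRv v hv rfl y hy rfl]; group
        rw [e1, e2]
      refine hyV ((h.cent (v⁻¹ * u) (mul_mem (inv_mem hv) hu)
        (fun e => hne (congrArg π (inv_mul_eq_one.1 e).symm)) y hy).1 ?_)
      calc y * (v⁻¹ * u) = v⁻¹ * (v * y * v⁻¹) * u := by group
        _ = v⁻¹ * u * y := by rw [← e]; group)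
    (by
      rintro _ ⟨u, hu, rfl⟩ hu1 _ ⟨r, hr, rfl⟩ hc w hw hwu y hy hyq
      obtain rfl : w = u := hWinj w hw u hu hwu
      have hw1 : w ≠ 1 := fun e => hu1 (by rw [e, map_one])
      set c := r⁻¹ * w * r * w⁻¹ with hcdef
      have hπc : π c = (π r)⁻¹ * π w * π r * (π w)⁻¹ := by
        rw [hcdef, map_mul, map_mul, map_mul, map_inv, map_inv]
      rw [← hπc] at hc hyq
      have hcT : c ∈ T := by
        rw [hcdef, mul_assoc r⁻¹, mul_assoc]
        exact mul_mem (inv_mem hr) (h.normal.conj_mem r hr w)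
      obtain ⟨hc2, hcc⟩ := hcen c hcT hc
      have hcd := hdel w hw c hcT hc
      have h2 : c * (w * c * w⁻¹) = 1 := by
        have : c * (w * c * w⁻¹) = r⁻¹ * (w * w) * r * (w * w)⁻¹ := by rw [hcdef]; group
        rw [this, ← pow_two, hW2 w hw]
        group
      have h3 : c⁻¹ * w * c * w⁻¹ = c ^ 2 := by
        have h4 : w * c * w⁻¹ = c⁻¹ := (inv_eq_of_mul_eq_one_right h2).symm
        calc c⁻¹ * w * c * w⁻¹ = c⁻¹ * (w * c * w⁻¹) := by group
          _ = (c ^ 2)⁻¹ := by rw [h4, pow_two c, mul_inv_rev c c]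
          _ = c ^ 2 := inv_eq_of_mul_eq_one_right (pow_two (c ^ 2) ▸ hV2 _ hc2)
      obtain ⟨v, hv, rfl⟩ : ∃ v ∈ V, y = c * v :=
        ⟨c⁻¹ * y, hπeq.1 hyq.symm, by rw [mul_inv_cancel_left]⟩
      rw [hsub c hcT w hw hw1 v hv hcd, h3, (show Commute c v from hcc v hv).mul_pow, hV2 v hv,
        mul_one])
    hTF
  have hT32 : Nat.card T ≤ 32 := by
    have h2 := SectRank.card_inf_mul_card_map_mk V T
    rw [inf_eq_right.2 h.le, h.cardV] at h2
    change 4 * Nat.card Tb = _ at h2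
    omega
  refine Or.inr ⟨hT32, fun H hH hH32 hP => ?_⟩
  by_contra hno
  push Not at hno
  -- `H` meets `T` in order at least eight
  have hinv : ∀ y ∈ T, π y ∈ F → y ^ 2 = 1 → y ∈ V := by
    intro y hy hq hy2
    by_contra hyV
    obtain ⟨_, ⟨u, hu, rfl⟩, hu1, hRu⟩ := hex _ hq (fun e => hyV (hπ1.1 e))
    have h1 := hRu u hu rfl y hy rfl
    rw [hy2, mul_inv_eq_one, mul_assoc, inv_mul_eq_iff_eq_mul] at h1
    exact hyV ((h.cent u hu (fun e => hu1 (by rw [e, map_one])) y hy).1 h1.symm)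
  have hcardT : Nat.card P ≤ 4 * Nat.card T := h.card
  have hHT : ¬ H ≤ V := fun hle => by
    have := Subgroup.card_le_of_le hle
    rw [h.cardV] at this
    omega
  obtain ⟨t, ht, htV⟩ : ∃ t ∈ H ⊓ T, t ∉ V := by
    by_contra hne
    push Not at hne
    have h1 : T.index ≤ 4 := by
      have h2 := T.card_mul_index
      rw [← h2, mul_comm 4] at hcardT
      exact Nat.le_of_mul_le_mul_left hcardT Nat.card_pos
    have h2 := SectRank.card_le_index_mul_card_inf H T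
    have h3 := Subgroup.card_le_of_le (hne : H ⊓ T ≤ V)
    rw [h.cardV] at h3
    have h4 : T.index * Nat.card ↥(H ⊓ T) ≤ 4 * 4 := Nat.mul_le_mul h1 h3
    omega
  have htF : π t ∉ F := fun hq => htV (hinv t ht.2 hq (hH t ht.1))
  obtain ⟨g, hg, hgT⟩ : ∃ g ∈ H, g ∉ T := by
    by_contra hne
    push Not at hne
    -- inside `T` the elements of order two are too few
    have h1 : H ≤ T := hne
    set K := H.map π with hKdef
    have hK : ∀ q ∈ K, q ∈ F → q = 1 := by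
      rintro _ ⟨y, hy, rfl⟩ hq
      exact hπ1.2 (hinv y (h1 hy) hq (hH y hy))
    have h5 := SectRank.card_inf_mul_card_map_mk V H
    have h6 : Nat.card K * Nat.card F ≤ Nat.card Tb := by
      have hinj : Function.Injective (fun p : K × F => (⟨(p.1 : P ⧸ V) * p.2,
          mul_mem (Subgroup.map_mono h1 p.1.2) p.2.2.1⟩ : Tb)) := by
        rintro ⟨x, u⟩ ⟨x', u'⟩ e
        have e' : (x : P ⧸ V) * u = x' * u' := congrArg Subtype.val e
        have e1 : (x' : P ⧸ V)⁻¹ * x = u' * (u : P ⧸ V)⁻¹ := by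
          rw [eq_mul_inv_iff_mul_eq, mul_assoc, e', inv_mul_cancel_left]
        have e2 := hK _ (mul_mem (inv_mem x'.2) x.2) (e1 ▸ mul_mem u'.2 (inv_mem u.2))
        have hx : x = x' := Subtype.ext (inv_mul_eq_one.1 e2).symm
        subst hx
        exact Prod.ext rfl (Subtype.ext (mul_left_cancel e'))
      have := Nat.card_le_card_of_injective _ hinj
      rwa [Nat.card_prod] at this
    have h7 := Subgroup.card_le_of_le (inf_le_right : H ⊓ V ≤ V)
    rw [h.cardV] at h7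
    change Nat.card ↥(H ⊓ V) * Nat.card K = _ at h5
    have hF2 : 2 ≤ Nat.card F := by
      by_contra hlt
      have hb : F = ⊥ := Subgroup.eq_bot_of_card_le F (by omega)
      -- a central involution of the quotient lies in `F`
      have hne' : ¬ Tb ≤ ⊥ := fun hle => hTF (hle.trans bot_le)
      obtain ⟨q, hq, hq1, -, hqc⟩ := exists_central_mod (h.isP.to_quotient V) (R := ⊤) le_top bot_le
        (fun g _ x hx => by rw [Subgroup.mem_bot] at hx ⊢; rw [hx, mul_one, mul_inv_cancel])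
        (fun g _ x hx => hTb.conj_mem x hx g) hne'
      refine hq1 (hb ▸ (hFmem q).2 ⟨hq, fun w _ => mul_inv_eq_iff_eq_mul.1
        (mul_inv_eq_one.1 (Subgroup.mem_bot.1 (hqc w (Subgroup.mem_top w))))⟩)
    have h8 : Nat.card ↥(H ⊓ V) * Nat.card K * 2 ≤ 4 * Nat.card Tb := by
      calc Nat.card ↥(H ⊓ V) * Nat.card K * 2
          ≤ 4 * Nat.card K * Nat.card F := Nat.mul_le_mul (Nat.mul_le_mul_right _ h7) hF2
        _ ≤ 4 * Nat.card Tb := by rw [mul_assoc]; exact Nat.mul_le_mul_left _ h6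
    omega
  obtain ⟨x, hx, u, hu, rfl⟩ := h.cover g
  have hu1 : u ≠ 1 := fun e => hgT (by rwa [e, mul_one])
  apply htF
  refine hone _ ⟨u, hu, rfl⟩ (fun e => hu1 (hWinj u hu 1 (one_mem W) (e.trans (map_one π).symm)))
    _ ⟨t, ht.2, rfl⟩ ?_
  have hgt : x * u * t = t * (x * u) := commute_of_sq (hH _ hg) (hH t ht.1) (hH _ (mul_mem hg ht.1))
  have h2 := congrArg π hgt
  rw [map_mul, map_mul, map_mul, map_mul, ← mul_assoc (π t),
    ← hTc _ ⟨x, hx, rfl⟩ _ ⟨t, ht.2, rfl⟩, mul_assoc, mul_assoc] at h2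
  exact mul_left_cancel h2

/-- Every subgroup of `P` has gap at most sixteen. -/
theorem Semi.hasRK_four (h : Semi T W V) : SectRank.HasRK 4 P := by
  classical
  obtain ⟨hVn, hVc, z, hz2, hz⟩ := h.normalV
  haveI := hVn
  intro H
  by_cases hmeet : ∃ w ∈ W, w ≠ 1 ∧ w ∈ H
  · obtain ⟨w, hw, hw1, hwH⟩ := hmeet
    refine gap_of_centralizer hwH ?_
    have h1 := SectRank.card_le_index_mul_card_inf (H ⊓ Subgroup.centralizer {w}) T
    have h2 : T.index ≤ 4 := by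
      have h3 := T.card_mul_index
      have h4 := h.card
      rw [← h3, mul_comm 4] at h4
      exact Nat.le_of_mul_le_mul_left h4 Nat.card_pos
    have h5 : Nat.card ↥(H ⊓ Subgroup.centralizer {w} ⊓ T) ≤ 4 := by
      rw [← h.cardV]
      exact Subgroup.card_le_of_le fun x hx =>
        (h.cent w hw hw1 x hx.2).1 (Subgroup.mem_centralizer_singleton_iff.1 hx.1.2)
    have h6 : T.index * Nat.card ↥(H ⊓ Subgroup.centralizer {w} ⊓ T) ≤ 4 * 4 :=
      Nat.mul_le_mul h2 h5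
    omega
  push Not at hmeet
  have hcard : Nat.card H ≤ Nat.card T := by
    have h1 := SectRank.card_le_index_mul_card_inf W H
    have h2 : W ⊓ H = ⊥ := (Subgroup.eq_bot_iff_forall _).2 fun x hx => by
      by_contra hx1; exact hmeet x hx.1 hx1 hx.2
    rw [h2, Subgroup.card_bot, mul_one, h.cardW] at h1
    have h3 := H.card_mul_index
    have h4 := h.card
    have h5 : Nat.card H * 4 ≤ Nat.card H * H.index := Nat.mul_le_mul_left _ h1
    omega
  show SectRank.GapLE H 16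
  rcases le_or_gt (Nat.card H) 16 with hH | hH
  · exact SectRank.gapLE_of_card_le hH
  have hT16 : ¬ Nat.card T ≤ 16 := by omega
  have hW2 : ∀ w ∈ W, w ^ 2 = 1 := fun w hw => by
    by_contra hw2
    exact hT16 (h.small_of_order_four hz hw hw2)
  have hV2 : ∀ v ∈ V, v ^ 2 = 1 := fun v hv => by
    by_contra hv2
    exact hT16 (h.small_of_cyclic hz2 ((hz v hv).resolve_left hv2) fun w hw _ => hW2 w hw)
  obtain ⟨hT32, hel⟩ := (h.four_four hVc hW2 hV2).resolve_left hT16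
  by_cases hH2 : ∀ x ∈ H, x ^ 2 = 1
  · obtain ⟨i, hi⟩ := card_sub_of_pGroup (h.isP.to_subgroup ⊤) (le_top : H ≤ ⊤)
    have h4 : 4 < i := by
      by_contra hlt
      have := Nat.pow_le_pow_right (n := 2) two_pos (not_lt.1 hlt)
      omega
    have h32 : 2 ^ 5 ≤ 2 ^ i := Nat.pow_le_pow_right two_pos h4
    have hP : Nat.card P ≤ 128 := by have := h.card; omega
    obtain ⟨w, hw, hw1, hwH⟩ := hel H hH2 (by omega) hP
    exact absurd hwH (hmeet w hw hw1)
  push Not at hH2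
  obtain ⟨x, hx, hx2⟩ := hH2
  exact gap_of_card_le_sq (by omega) hx hx2

end CfsgLib.FixityFour
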