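import Cfsg.Agent.FixityFour.Common
import Cfsg.Agent.SectRank.Main
import Cfsg.Agent.HarrisRank.Basic
import Cfsg.Agent.TwoGroup.UniqueInvolution

/-!
Tools for the case of fixity four in which every involution fixes zero or four points: gaps of
subgroups of a 2-group, and permutations induced on a set of four points.
-/

set_option autoImplicit false

namespace CfsgLib.FixityFour

open MulAction
open scoped Pointwise

/-! ### Gaps -/

section Gap

variable {G : Type*} [Group G] [Finite G]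

/-- Every subgroup has gap at most sixteen. -/
def SGap (S : Subgroup G) : Prop := ∀ H : Subgroup G, H ≤ S → SectRank.GapLE H 16

omit [Finite G] in
theorem hasRK_four_of_sgap {S : Subgroup G} (h : SGap S) : SectRank.HasRK 4 S := fun H =>
  (SectRank.gapLE_map_iff S.subtype_injective).1 (h _ (Subgroup.map_subtype_le H))

omit [Finite G] in
theorem sgap_of_hasRK_four {S : Subgroup G} (h : SectRank.HasRK 4 S) : SGap S :=
  fun _ hH => h.gapLE_of_le hH

theorem sectional_of_sgap (S : Sylow 2 G) (h : SGap (S : Subgroup G)) :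
    Cfsg.SectionalPRankLE 2 4 G := by
  refine HarrisRank.sectional_of_sylow S fun H N hN hsq => ?_
  have h1 : SectRank.GapLE H 16 := hasRK_four_of_sgap h H
  unfold SectRank.GapLE at h1
  have h2 : SectRank.sqSub H ≤ N.map H.subtype :=
    SectRank.sqSub_le_iff.2 fun x hx => ⟨⟨x ^ 2, pow_mem hx 2⟩, by
      rw [show (⟨x ^ 2, pow_mem hx 2⟩ : H) = ⟨x, hx⟩ * ⟨x, hx⟩ from Subtype.ext (pow_two x)]
      exact hsq _, rfl⟩
  have h3 := le_trans h1 (Nat.mul_le_mul_left 16 (Subgroup.card_le_of_le h2))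
  rw [Subgroup.card_map_of_injective H.subtype_injective, ← N.card_mul_index, mul_comm 16] at h3
  exact Nat.le_of_mul_le_mul_left h3 Nat.card_pos

theorem gap_of_centralizer {H : Subgroup G} {x : G} (hx : x ∈ H)
    (h : Nat.card ↥(H ⊓ Subgroup.centralizer {x}) ≤ 16) : SectRank.GapLE H 16 := by
  have h1 := SectRank.gapLE_top_of_centralizer (⟨x, hx⟩ : H)
  rw [← SectRank.gapLE_map_iff H.subtype_injective, ← MonoidHom.range_eq_map,
    Subgroup.range_subtype] at h1
  refine h1.mono (le_trans (le_of_eq ?_) h)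
  rw [← Subgroup.card_map_of_injective H.subtype_injective]
  congr 2
  ext y
  simp only [Subgroup.mem_map, Subgroup.coe_subtype, Subgroup.mem_inf,
    Subgroup.mem_centralizer_singleton_iff, Subtype.exists, exists_and_right, exists_eq_right]
  constructor
  · rintro ⟨hy, hc⟩
    exact ⟨hy, congrArg Subtype.val hc⟩
  · rintro ⟨hy, hc⟩
    exact ⟨hy, Subtype.ext hc⟩

theorem card_sub_of_pGroup {S H : Subgroup G} (hS : IsPGroup 2 S) (hH : H ≤ S) :
    ∃ i, Nat.card H = 2 ^ i := by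
  haveI : Fact (Nat.Prime 2) := ⟨Nat.prime_two⟩
  exact IsPGroup.iff_card.1 (hS.to_le hH)

theorem sgap_of_card {S : Subgroup G} (h : Nat.card S ≤ 16) : SGap S := fun _ hH =>
  SectRank.gapLE_of_card_le ((Subgroup.card_le_of_le hH).trans h)

theorem gap_of_card_le_sq {H : Subgroup G} (hc : Nat.card H ≤ 32) {x : G} (hx : x ∈ H)
    (hx2 : x ^ 2 ≠ 1) : SectRank.GapLE H 16 := by
  have h1 : 2 ≤ Nat.card (SectRank.sqSub H) := by
    by_contra h
    have hb := Subgroup.eq_bot_of_card_le (SectRank.sqSub H) (by omega)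
    exact hx2 (Subgroup.mem_bot.1 (hb ▸ SectRank.sq_mem_sqSub hx))
  unfold SectRank.GapLE
  omega

theorem sgap_of_card_le_sq {S : Subgroup G} (hS : IsPGroup 2 S) (hc : Nat.card S ≤ 32) {x : G}
    (hx : x ∈ S) (hx2 : x ^ 2 ≠ 1) : SGap S := by
  intro H hH
  rcases le_or_gt (Nat.card H) 16 with h | h
  · exact SectRank.gapLE_of_card_le h
  · obtain ⟨i, hi⟩ := card_sub_of_pGroup hS hH
    have h5 : 32 ≤ Nat.card H := by
      rw [hi] at h ⊢
      have : 2 ^ 4 < 2 ^ i := h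
      exact Nat.pow_le_pow_right (n := 2) two_pos (Nat.pow_lt_pow_iff_right (by norm_num) |>.1 this)
    have he : H = S := Subgroup.eq_of_le_of_card_ge hH (by omega)
    exact he ▸ gap_of_card_le_sq hc hx hx2

theorem sgap_of_centralizer_eight {S : Subgroup G} (hS : IsPGroup 2 S) {x : G} (hx : x ∈ S)
    (hx2 : x ^ 2 = 1) (h : Nat.card ↥(S ⊓ Subgroup.centralizer {x}) ≤ 8) : SGap S := by
  refine sgap_of_hasRK_four (SectRank.hasRK_four_of_centralizer_le_eight hS (x := ⟨x, hx⟩)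
    (Subtype.ext hx2) (le_trans (le_of_eq ?_) h))
  rw [← Subgroup.card_map_of_injective S.subtype_injective]
  congr 2
  ext y
  simp only [Subgroup.mem_map, Subgroup.coe_subtype, Subgroup.mem_inf,
    Subgroup.mem_centralizer_singleton_iff, Subtype.exists, exists_and_right, exists_eq_right]
  constructor
  · rintro ⟨hy, hc⟩
    exact ⟨hy, congrArg Subtype.val hc⟩
  · rintro ⟨hy, hc⟩
    exact ⟨hy, Subtype.ext hc⟩

theorem sgap_of_sub {S M : Subgroup G} (hM : M ≤ S) {i a : ℕ} (hi : Nat.card S ≤ i * Nat.card M)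
    (hg : ∀ H : Subgroup G, H ≤ M → SectRank.GapLE H a) (hia : i * a ≤ 16) : SGap S := by
  intro H hH
  have hidx : (M.subgroupOf S).index ≤ i := by
    have h1 := (M.subgroupOf S).card_mul_index
    rw [Nat.card_congr (Subgroup.subgroupOfEquivOfLe hM).toEquiv] at h1
    rw [← h1, mul_comm i] at hi
    exact Nat.le_of_mul_le_mul_left hi Nat.card_pos
  have h2 : SectRank.GapLE (H.subgroupOf S ⊓ M.subgroupOf S) a := by
    rw [← SectRank.gapLE_map_iff S.subtype_injective,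
      Subgroup.map_inf _ _ _ S.subtype_injective, Subgroup.map_subgroupOf_eq_of_le hH,
      Subgroup.map_subgroupOf_eq_of_le hM]
    exact hg _ inf_le_right
  exact (SectRank.gapLE_subgroupOf hH).1 ((SectRank.GapLE.of_index hidx h2).mono hia)

theorem sgap_of_isCyclic {S : Subgroup G} {v : G} (hv : v ∈ S)
    (hi : Nat.card S ≤ 8 * orderOf v) : SGap S := by
  refine sgap_of_sub (Subgroup.zpowers_le.2 hv) (i := 8) (a := 2) (by rwa [Nat.card_zpowers])
    (fun H hH => SectRank.gapLE_of_isCyclic ?_) (by norm_num)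
  exact isCyclic_of_injective (Subgroup.inclusion hH) (Subgroup.inclusion_injective hH)

theorem sgap_of_selfEight {S A : Subgroup G} (hS : IsPGroup 2 S) (hA : A ≤ S)
    (hsq : ∀ x ∈ A, x ^ 2 = 1) (hc : Nat.card A = 8)
    (hself : ∀ x ∈ S, (∀ y ∈ A, y * x = x * y) → x ∈ A) : SGap S := by
  refine sgap_of_hasRK_four (SectRank.hasRK_four_of_selfEight hS (A.subgroupOf S) ⟨?_, ?_, ?_⟩)
  · exact fun x hx => Subtype.ext (hsq _ hx)
  · rwa [Nat.card_congr (Subgroup.subgroupOfEquivOfLe hA).toEquiv]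
  · ext x
    rw [Subgroup.mem_centralizer_iff]
    refine ⟨fun h => hself x x.2 fun y hy => congrArg Subtype.val (h ⟨y, hA hy⟩ hy), fun hx y hy => ?_⟩
    have hy' : (y : G) ∈ A := hy
    have hx' : (x : G) ∈ A := hx
    refine Subtype.ext (?_ : (y : G) * (x : G) = (x : G) * (y : G))
    have h1 := inv_eq_of_mul_eq_one_right (pow_two ((y : G) * x) ▸ hsq _ (mul_mem hy' hx'))
    rwa [mul_inv_rev, inv_eq_of_mul_eq_one_right (pow_two (x : G) ▸ hsq _ hx'),
      inv_eq_of_mul_eq_one_right (pow_two (y : G) ▸ hsq _ hy'), eq_comm] at h1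

/-- A 2-group with one involution has gap at most four. -/
theorem gap_of_one_involution {H : Subgroup G} (hH : IsPGroup 2 H)
    (h : ∀ x ∈ H, ∀ y ∈ H, orderOf x = 2 → orderOf y = 2 → x = y) : SectRank.GapLE H 4 := by
  have h1 : TwoGroup.AtMostOneInvolution H := fun x y hx hy => Subtype.ext
    (h _ x.2 _ y.2 ((Subgroup.orderOf_coe x).trans hx) ((Subgroup.orderOf_coe y).trans hy))
  rcases TwoGroup.cyclic_or_quaternion_frame hH h1 with hc | ⟨n, hn, hcard, ⟨F⟩⟩
  · exact (SectRank.gapLE_of_isCyclic hc).mono (by norm_num)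
  · have hv : orderOf ((F.e 1 : H) : G) = 2 ^ n := by
      rw [Subgroup.orderOf_coe, F.orderOf_e, ZMod.addOrderOf_one]
    unfold SectRank.GapLE
    have h2 := SectRank.gapLE_zpowers ((F.e 1 : H) : G)
    unfold SectRank.GapLE at h2
    rw [Nat.card_zpowers, hv] at h2
    rw [hcard, pow_succ]
    calc 2 ^ n * 2 ≤ 2 * Nat.card (SectRank.sqSub (Subgroup.zpowers ((F.e 1 : H) : G))) * 2 :=
          Nat.mul_le_mul_right 2 h2
      _ ≤ 2 * Nat.card (SectRank.sqSub H) * 2 := Nat.mul_le_mul_right 2 (Nat.mul_le_mul_left 2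
          (Subgroup.card_le_of_le (SectRank.sqSub_mono (Subgroup.zpowers_le.2 (F.e 1).2))))
      _ = _ := by ring

end Gap

/-! ### Four points -/

section Four

variable {G Ω : Type*} [Group G] [MulAction G Ω] [Finite Ω] {A : Set Ω}

theorem exists_equiv_four (hA : A.ncard = 4) : Nonempty (A ≃ Fin 4) :=
  ⟨Finite.equivFinOfCardEq ((Nat.card_coe_set_eq A).trans hA)⟩

/-- The permutation induced on four numbered points. -/
def four (G : Type*) [Group G] {Ω : Type*} [MulAction G Ω] {A : Set Ω} (e : A ≃ Fin 4) :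
    stabilizer G A →* Equiv.Perm (Fin 4) :=
  e.permCongrHom.toMonoidHom.comp (actOn G A)

omit [Finite Ω] in
theorem four_eq_one_iff (e : A ≃ Fin 4) (g : stabilizer G A) :
    four G e g = 1 ↔ (g : G) ∈ fixingSubgroup G A := by
  rw [four, MonoidHom.comp_apply, MulEquiv.coe_toMonoidHom, MulEquiv.map_eq_one_iff,
    actOn_eq_one_iff]

omit [Finite Ω] in
theorem four_fix_iff (e : A ≃ Fin 4) (g : stabilizer G A) (x : A) :
    four G e g (e x) = e x ↔ (g : G) • (x : Ω) = x := by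
  show e (actOn G A g (e.symm (e x))) = e x ↔ _
  rw [e.symm_apply_apply, e.injective.eq_iff, Subtype.ext_iff]
  rfl

omit [Finite Ω] in
theorem exists_mem_fix {g : stabilizer G A} (e : A ≃ Fin 4) {i : Fin 4} (h : four G e g i = i) :
    (g : G) • ((e.symm i : A) : Ω) = (e.symm i : A) := by
  rw [← four_fix_iff e g, e.apply_symm_apply]
  exact h

theorem four_sq_fix : ∀ (σ : Equiv.Perm (Fin 4)) (i : Fin 4), σ i = i → (σ ^ 4 = 1 → σ ^ 2 = 1) := by
  decide +kernel

theorem four_two_elt : ∀ σ : Equiv.Perm (Fin 4), σ ^ 8 = 1 → σ ^ 4 = 1 := by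
  decide +kernel

theorem four_pair : ∀ (σ τ : Equiv.Perm (Fin 4)) (i : Fin 4), σ i = i → τ i = i →
    σ ^ 2 = 1 → τ ^ 2 = 1 → (σ * τ) ^ 2 = 1 → σ = 1 ∨ τ = 1 ∨ σ = τ := by
  decide +kernel

theorem four_commute_fpf : ∀ σ τ : Equiv.Perm (Fin 4), (∀ i, τ i ≠ i) → τ ^ 2 = 1 →
    σ * τ = τ * σ → σ ^ 4 = 1 := by
  decide +kernel

theorem four_two_fixed : ∀ (σ τ : Equiv.Perm (Fin 4)) (i j : Fin 4), i ≠ j → σ i = i → σ j = j →
    τ i = i → τ j = j → σ = 1 ∨ τ = 1 ∨ σ = τ := by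
  decide +kernel

theorem four_sq_sign : ∀ σ : Equiv.Perm (Fin 4), σ ^ 2 = 1 → (σ = 1 ∨
    (Equiv.Perm.sign σ = -1 ∧ (Finset.univ.filter fun i => σ i = i).card = 2) ∨
    (Equiv.Perm.sign σ = 1 ∧ ∀ i, σ i ≠ i)) := by
  decide +kernel

theorem four_pow_four {σ : Equiv.Perm (Fin 4)} {k : ℕ} (h : σ ^ 2 ^ k = 1) : σ ^ 4 = 1 := by
  apply four_two_elt
  obtain ⟨i, -, hi⟩ := (Nat.dvd_prime_pow Nat.prime_two).1 (orderOf_dvd_of_pow_eq_one h)
  have h2 : i ≤ 3 := by
    by_contra hlt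
    have h3 : orderOf σ ∣ Fintype.card (Equiv.Perm (Fin 4)) := orderOf_dvd_card
    rw [hi, Fintype.card_perm, Fintype.card_fin, show Nat.factorial 4 = 24 by decide] at h3
    have h4 : (2 : ℕ) ^ 4 ∣ 24 := (pow_dvd_pow 2 (by omega)).trans h3
    norm_num at h4
  exact orderOf_dvd_iff_pow_eq_one.1 (hi ▸ (pow_dvd_pow 2 h2 : 2 ^ i ∣ 2 ^ 3))

/-- A 2-element fixing one of four points squares into the pointwise stabiliser. -/
theorem sq_mem_fixing (hA : A.ncard = 4) {g : G} (hg : g ∈ stabilizer G A) {k : ℕ}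
    (hk : g ^ 2 ^ k = 1) {x : Ω} (hx : x ∈ A) (hgx : g • x = x) : g ^ 2 ∈ fixingSubgroup G A := by
  obtain ⟨e⟩ := exists_equiv_four hA
  have h1 : four G e ⟨g, hg⟩ ^ 2 ^ k = 1 := by
    rw [← map_pow, ← map_one (four G e)]
    exact congrArg _ (Subtype.ext hk)
  have h2 := four_sq_fix _ _ ((four_fix_iff e ⟨g, hg⟩ ⟨x, hx⟩).2 hgx) (four_pow_four h1)
  rw [← map_pow] at h2
  exact (four_eq_one_iff e _).1 h2

/-- Two elements fixing the same point of four agree modulo the pointwise stabiliser. -/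
theorem inv_mul_mem_fixing (hA : A.ncard = 4) {U : Subgroup G} (hU : IsPGroup 2 U) {g h : G}
    (hg : g ∈ U) (hh : h ∈ U) (hUA : U ≤ stabilizer G A) {x : Ω} (hx : x ∈ A)
    (hUx : U ≤ stabilizer G x) (hgK : g ∉ fixingSubgroup G A) (hhK : h ∉ fixingSubgroup G A) :
    g⁻¹ * h ∈ fixingSubgroup G A := by
  obtain ⟨e⟩ := exists_equiv_four hA
  have hsq : ∀ u (hu : u ∈ U), four G e ⟨u, hUA hu⟩ ^ 2 = 1 := fun u hu => by
    obtain ⟨k, hk⟩ := hU ⟨u, hu⟩
    rw [← map_pow, four_eq_one_iff]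
    exact sq_mem_fixing hA (hUA hu) (congrArg Subtype.val hk) hx (hUx hu)
  have hfx : ∀ u (hu : u ∈ U), four G e ⟨u, hUA hu⟩ (e ⟨x, hx⟩) = e ⟨x, hx⟩ := fun u hu =>
    (four_fix_iff e ⟨u, hUA hu⟩ ⟨x, hx⟩).2 (hUx hu)
  have h3 := hsq _ (mul_mem hg hh)
  rw [show (⟨g * h, hUA (mul_mem hg hh)⟩ : stabilizer G A) = ⟨g, hUA hg⟩ * ⟨h, hUA hh⟩ from rfl,
    map_mul] at h3
  rcases four_pair _ _ _ (hfx g hg) (hfx h hh) (hsq g hg) (hsq h hh) h3 with h1 | h1 | h1
  · exact absurd ((four_eq_one_iff e _).1 h1) hgK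
  · exact absurd ((four_eq_one_iff e _).1 h1) hhK
  · refine (four_eq_one_iff e (⟨g, hUA hg⟩⁻¹ * ⟨h, hUA hh⟩)).1 ?_
    rw [map_mul, map_inv, h1, inv_mul_cancel]

theorem card_le_two_mul_fixing [Finite G] (hA : A.ncard = 4) {U : Subgroup G} (hU : IsPGroup 2 U)
    (hUA : U ≤ stabilizer G A) {x : Ω} (hx : x ∈ A) (hUx : U ≤ stabilizer G x) :
    Nat.card U ≤ 2 * Nat.card ↥(U ⊓ fixingSubgroup G A) := by
  classical
  set K := U ⊓ fixingSubgroup G A with hKdef
  by_cases h : ∀ g ∈ U, g ∈ fixingSubgroup G A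
  · have : K = U := inf_eq_left.2 h
    rw [this]
    omega
  · push Not at h
    obtain ⟨g, hg, hgK⟩ := h
    have hsub : (U : Set G) ⊆ (K : Set G) ∪ g • (K : Set G) := by
      intro u hu
      by_cases huK : u ∈ fixingSubgroup G A
      · exact Or.inl ⟨hu, huK⟩
      · refine Or.inr ⟨g⁻¹ * u, ⟨U.mul_mem (U.inv_mem hg) hu,
          inv_mul_mem_fixing hA hU hg hu hUA hx hUx hgK huK⟩, ?_⟩
        exact mul_inv_cancel_left g u
    have h1 := le_trans (Set.ncard_le_ncard hsub (Set.toFinite _)) (Set.ncard_union_le _ _)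
    rw [Set.ncard_smul_set] at h1
    change (U : Set G).ncard ≤ (K : Set G).ncard + (K : Set G).ncard at h1
    rw [← Nat.card_coe_set_eq, ← Nat.card_coe_set_eq] at h1
    change Nat.card U ≤ Nat.card K + Nat.card K at h1
    omega

/-- An element of odd order commuting with a fixed-point-free involution on four points. -/
theorem mem_fixing_of_odd_commute (hA : A.ncard = 4) {g v : G} (hg : g ∈ stabilizer G A)
    (hv : v ∈ stabilizer G A) (hodd : Odd (orderOf g)) (hv2 : v ^ 2 ∈ fixingSubgroup G A)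
    (hfpf : ∀ x ∈ A, v • x ≠ x) (hc : g * v = v * g) : g ∈ fixingSubgroup G A := by
  obtain ⟨e⟩ := exists_equiv_four hA
  have h4 := four_commute_fpf (four G e ⟨g, hg⟩) (four G e ⟨v, hv⟩)
    (fun i hi => hfpf _ (e.symm i).2 (exists_mem_fix e hi))
    (by rw [← map_pow, four_eq_one_iff]; exact hv2)
    (by rw [← map_mul, ← map_mul]; exact congrArg _ (Subtype.ext hc))
  have hord : orderOf (four G e ⟨g, hg⟩) ∣ orderOf g := by
    have := orderOf_map_dvd (four G e) ⟨g, hg⟩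
    rwa [Subgroup.orderOf_mk] at this
  refine (four_eq_one_iff e ⟨g, hg⟩).1 (orderOf_eq_one_iff.1 ?_)
  exact Nat.eq_one_of_dvd_coprimes (Nat.Coprime.pow_right 2 (Odd.coprime_two_right hodd)) hord
    (by simpa using orderOf_dvd_of_pow_eq_one h4)

/-- Elements of a set stabiliser fixing two common points of four. -/
theorem inv_mul_mem_fixing_of_two (hA : A.ncard = 4) {g h : G} (hg : g ∈ stabilizer G A)
    (hh : h ∈ stabilizer G A) {x y : Ω} (hx : x ∈ A) (hy : y ∈ A) (hxy : x ≠ y)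
    (hgx : g • x = x) (hgy : g • y = y) (hhx : h • x = x) (hhy : h • y = y)
    (hgK : g ∉ fixingSubgroup G A) (hhK : h ∉ fixingSubgroup G A) :
    g⁻¹ * h ∈ fixingSubgroup G A := by
  obtain ⟨e⟩ := exists_equiv_four hA
  have hne : e ⟨x, hx⟩ ≠ e ⟨y, hy⟩ := fun h => hxy (congrArg Subtype.val (e.injective h))
  rcases four_two_fixed _ _ _ _ hne ((four_fix_iff e ⟨g, hg⟩ ⟨x, hx⟩).2 hgx)
    ((four_fix_iff e ⟨g, hg⟩ ⟨y, hy⟩).2 hgy) ((four_fix_iff e ⟨h, hh⟩ ⟨x, hx⟩).2 hhx)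
    ((four_fix_iff e ⟨h, hh⟩ ⟨y, hy⟩).2 hhy) with h1 | h1 | h1
  · exact absurd ((four_eq_one_iff e _).1 h1) hgK
  · exact absurd ((four_eq_one_iff e _).1 h1) hhK
  · refine (four_eq_one_iff e (⟨g, hg⟩⁻¹ * ⟨h, hh⟩)).1 ?_
    rw [map_mul, map_inv, h1, inv_mul_cancel]

end Four

end CfsgLib.FixityFour
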