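import Cfsg.Agent.FixityFour.FourSmall

/-!
A four-group fixing four points pointwise as Sylow 2-subgroup of a point stabiliser.
-/

set_option autoImplicit false

namespace CfsgLib.FixityFour

open MulAction
open scoped Pointwise

variable {G Ω : Type*} [Group G] [MulAction G Ω] [Finite G] [Finite Ω]
variable {a : Ω} {T : Subgroup G} {z : G}

omit [Finite G] in
theorem map_conj_mem {U : Subgroup G} {g x : G} :
    x ∈ U.map (MulAut.conj g).toMonoidHom ↔ g⁻¹ * x * g ∈ U := by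
  constructor
  · rintro ⟨y, hy, rfl⟩
    simpa [mul_assoc] using hy
  · exact fun h => ⟨_, h, by simp [mul_assoc]⟩

theorem card_mul_card_le_card_inf_mul {U V W : Subgroup G} (hU : U ≤ W) (hV : V ≤ W) :
    Nat.card U * Nat.card V ≤ Nat.card W * Nat.card ↥(U ⊓ V) := by
  have h1 := SectRank.card_le_index_mul_card_inf (U.subgroupOf W) (V.subgroupOf W)
  have h2 := (V.subgroupOf W).card_mul_index
  have e1 : Nat.card ↥(U.subgroupOf W ⊓ V.subgroupOf W) = Nat.card ↥(U ⊓ V) := by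
    rw [← Subgroup.card_map_of_injective W.subtype_injective,
      Subgroup.map_inf _ _ _ W.subtype_injective, Subgroup.map_subgroupOf_eq_of_le hU,
      Subgroup.map_subgroupOf_eq_of_le hV]
  rw [Nat.card_congr (Subgroup.subgroupOfEquivOfLe hU).toEquiv, e1] at h1
  rw [Nat.card_congr (Subgroup.subgroupOfEquivOfLe hV).toEquiv] at h2
  calc Nat.card U * Nat.card V
      ≤ (V.subgroupOf W).index * Nat.card ↥(U ⊓ V) * Nat.card V := Nat.mul_le_mul_right _ h1
    _ = Nat.card W * Nat.card ↥(U ⊓ V) := by rw [← h2]; ring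

theorem card_subtype_ne_one (U : Subgroup G) : Nat.card {x : U // x ≠ 1} + 1 = Nat.card U := by
  classical
  letI := Fintype.ofFinite U
  rw [Nat.card_eq_fintype_card, Nat.card_eq_fintype_card, Fintype.card_subtype_compl,
    Fintype.card_subtype_eq]
  have := Fintype.card_pos (α := U)
  omega

theorem sq_of_centralizer_le {S P : Subgroup G} {g : G} (hg : g ∈ S) {T' : Subgroup G}
    (hT' : T' ≤ P) (hc : ∀ h ∈ T', h ≠ 1 → ∀ x ∈ S, x * h = h * x → x ∈ P) (hgP : g ∉ P)
    {C : Subgroup G} (hCP : C ≤ P) (hC : ∀ x ∈ C, x * g = g * x) :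
    Nat.card C * Nat.card T' ≤ Nat.card P := by
  have h1 := card_mul_card_le_card_inf_mul hCP hT'
  have h2 : C ⊓ T' = ⊥ := (Subgroup.eq_bot_iff_forall _).2 fun x hx => by
    by_contra h
    exact hgP (hc x hx.2 h g hg (hC x hx.1).symm)
  rwa [h2, Subgroup.card_bot, mul_one] at h1

theorem spread_bound [IsSimpleGroup G] (hG : Hyp G Ω)
    (hT : Point a T) (h8 : Nat.card Ω % 8 = 0) (hz : orderOf z = 2) (hzT : z ∈ T) {A : Set Ω}
    (hAz : fixedBy Ω z = A) (hTK : T ≤ fixingSubgroup G A) (hT4 : Nat.card T = 4)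
    {S : Subgroup G} (hS : IsPGroup 2 S) (hTS : T ≤ S) (h128 : 128 ≤ Nat.card S) :
    Nat.card S = 128 ∧
      ∀ H : Subgroup G, H ≤ S → (∀ x ∈ H, x ^ 2 = 1) → Nat.card H ≤ 16 := by
  classical
  have hza : z • a = a := hT.fix hzT
  have hA : A.ncard = 4 := hAz ▸ hG.fix_eq hz hza
  have ha : a ∈ A := hAz ▸ hza
  have hTA : T ≤ stabilizer G A := hTK.trans fixing_le_stabilizer
  have hTfix : ∀ h ∈ T, h ≠ 1 → fixedBy Ω h = A := fun h hh h1 =>
    fixing_fixedBy_eq hG.fix4 hA (hTK hh) h1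
  have hTsq : ∀ h ∈ T, h ^ 2 = 1 := fun h hh => by
    obtain ⟨k, hk⟩ := orderOf_dvd_two_pow hT.isP hh
    exact sq_eq_one_of_mem_fixing hG h8 hA (hTK hh) hk
  set P := S ⊓ stabilizer G A with hPdef
  have hPp : IsPGroup 2 P := hS.to_le inf_le_left
  have hTP : T ≤ P := le_inf hTS hTA
  have hcP : ∀ h ∈ T, h ≠ 1 → ∀ x ∈ S, x * h = h * x → x ∈ P := fun h hh h1 x hx hc =>
    ⟨hx, (hTfix h hh h1 ▸ mem_stabilizer_of_commute hc : x ∈ stabilizer G A)⟩
  have hPa : P ⊓ stabilizer G a = T :=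
    (Subgroup.eq_of_le_of_card_ge (le_inf hTP hT.fix)
      (hT.card_le (hPp.to_le inf_le_left) inf_le_right)).symm
  have hP16 : Nat.card P ≤ 16 := by
    have := card_le_ncard_mul (U := P) inf_le_right ha
    rw [hPa, hA, hT4] at this
    omega
  have hPS : P ≠ S := fun h => by rw [h] at hP16; omega
  obtain ⟨s, hsS, hsP, hs⟩ := exists_normalizing hS inf_le_left hPS
  -- a conjugate four-group complements `T` in `P`
  have hPK : ∀ x ∈ P, x ∈ fixingSubgroup G A → x ∈ T := fun x hx hxK =>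
    hPa ▸ ⟨hx, mem_fixing_iff.1 hxK ha⟩
  have hTn : ∀ p ∈ P, ∀ x ∈ T, p * x * p⁻¹ ∈ T := fun p hp x hx =>
    hPK _ (P.mul_mem (P.mul_mem hp (hTP hx)) (P.inv_mem hp)) (normalizer_fixing_le hp.2 (hTK hx))
  set U := T.map (MulAut.conj s).toMonoidHom with hUdef
  have hUP : U ≤ P := by rintro _ ⟨x, hx, rfl⟩; exact hs x (hTP hx)
  have hPmap : ∀ r, (∀ x ∈ P, r * x * r⁻¹ ∈ P) → P.map (MulAut.conj r).toMonoidHom = P :=
    fun r hr => Subgroup.eq_of_le_of_card_ge (by rintro _ ⟨y, hy, rfl⟩; exact hr y hy)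
      (by rw [Subgroup.card_map_of_injective (MulAut.conj r).injective])
  have hUn : ∀ p ∈ P, ∀ x ∈ U, p * x * p⁻¹ ∈ U := by
    intro p hp x hx
    rw [← hPmap s hs] at hp
    obtain ⟨q, hq, rfl⟩ := hp
    obtain ⟨y, hy, rfl⟩ := hx
    exact ⟨q * y * q⁻¹, hTn q hq y hy, by simp [mul_assoc]⟩
  have hUT : U ⊓ T = ⊥ := (Subgroup.eq_bot_iff_forall _).2 fun x hx => by
    obtain ⟨⟨y, hy, rfl⟩, hx2⟩ := Subgroup.mem_inf.1 hx
    by_contra h1
    refine hsP ⟨hsS, (?_ : s • A = A)⟩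
    have h2 := hTfix _ hx2 h1
    rwa [MulEquiv.coe_toMonoidHom, MulAut.conj_apply, ← MulAction.smul_fixedBy,
      hTfix y hy fun h => h1 (by simp [h])] at h2
  have hUsq : ∀ u ∈ U, u ^ 2 = 1 := by
    rintro _ ⟨y, hy, rfl⟩
    rw [← map_pow, hTsq y hy, map_one]
  have hcomm : ∀ u ∈ U, ∀ x ∈ T, u * x = x * u := by
    intro u hu x hx
    have h1 : u * x * u⁻¹ * x⁻¹ ∈ T := mul_mem (hTn u (hUP hu) x hx) (inv_mem hx)
    have h2 : u * x * u⁻¹ * x⁻¹ ∈ U := by
      rw [show u * x * u⁻¹ * x⁻¹ = u * (x * u⁻¹ * x⁻¹) by group]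
      exact mul_mem hu (hUn x (hTP hx) _ (inv_mem hu))
    exact mul_inv_eq_iff_eq_mul.1 (mul_inv_eq_one.1 (Subgroup.mem_bot.1 (hUT ▸ ⟨h2, h1⟩)))
  have hU4 : Nat.card U = 4 := by
    rw [hUdef, Subgroup.card_map_of_injective (MulAut.conj s).injective, hT4]
  have hP : Nat.card P = 16 := by
    have := card_mul_card_le_card_inf_mul hUP hTP
    rw [hUT, Subgroup.card_bot, hU4, hT4] at this
    omega
  have hPel : ∀ x ∈ P, x ^ 2 = 1 := by
    intro x hx
    let f : U × T → P := fun p => ⟨p.1 * p.2, mul_mem (hUP p.1.2) (hTP p.2.2)⟩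
    have hf : Function.Injective f := by
      rintro ⟨u, t⟩ ⟨u', t'⟩ h
      have h' : (u : G) * t = u' * t' := congrArg Subtype.val h
      have h1 : (u' : G)⁻¹ * u = t' * (t : G)⁻¹ := by
        rw [eq_mul_inv_iff_mul_eq, mul_assoc, h', inv_mul_cancel_left]
      have h2 : (u' : G)⁻¹ * u = 1 := Subgroup.mem_bot.1 (hUT ▸
        ⟨U.mul_mem (U.inv_mem u'.2) u.2, h1 ▸ T.mul_mem t'.2 (T.inv_mem t.2)⟩)
      have hu : u = u' := Subtype.ext (inv_mul_eq_one.1 h2).symm
      subst hu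
      exact Prod.ext rfl (Subtype.ext (mul_left_cancel h'))
    obtain ⟨⟨u, t⟩, hut⟩ := (hf.bijective_of_nat_card_le
      (by rw [Nat.card_prod, hU4, hT4, hP])).2 ⟨x, hx⟩
    rw [← (show (u : G) * t = x from congrArg Subtype.val hut),
      (show Commute (u : G) t from hcomm u u.2 t t.2).mul_pow, hUsq u u.2, hTsq t t.2, one_mul]
  have hPc : ∀ x ∈ P, ∀ y ∈ P, x * y = y * x := fun x hx y hy =>
    commute_of_sq (hPel x hx) (hPel y hy) (hPel _ (mul_mem hx hy))
  -- an abelian subgroup meeting `P` in order eight lies in it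
  have hbig : ∀ E : Subgroup G, E ≤ S → (∀ x ∈ E, ∀ y ∈ E, x * y = y * x) →
      8 ≤ Nat.card ↥(E ⊓ P) → E ≤ P := by
    intro E hE hEc hE8 x hx
    by_contra hxP
    have := sq_of_centralizer_le (hE hx) hTP hcP hxP (C := E ⊓ P) inf_le_right
      fun y hy => hEc y hy.1 x hx
    rw [hT4, hP] at this
    omega
  -- the normaliser `R`
  set R := S ⊓ Subgroup.normalizer (P : Set G) with hRdef
  have hRp : IsPGroup 2 R := hS.to_le inf_le_left
  have hmemR : ∀ r, r ∈ S → (∀ x ∈ P, r * x * r⁻¹ ∈ P) → r ∈ R := fun r hr hrP =>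
    ⟨hr, Subgroup.mem_normalizer_iff.2 fun x => ⟨hrP x, fun h => by
      rw [← hPmap r hrP] at h
      obtain ⟨y, hy, hyx⟩ := h
      rwa [← (MulAut.conj r).injective (hyx : MulAut.conj r y = MulAut.conj r x)]⟩⟩
  have hRP : ∀ r ∈ R, ∀ x ∈ P, r * x * r⁻¹ ∈ P := fun r hr x hx =>
    (Subgroup.mem_normalizer_iff.1 hr.2 x).1 hx
  have hPR : P ≤ R := le_inf inf_le_left Subgroup.le_normalizer
  have hR64 : Nat.card R ≤ 64 := by
    have h1 := (stabilizer R A).card_mul_index
    rw [MulAction.index_stabilizer] at h1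
    have h2 : Nat.card (stabilizer R A) ≤ 16 := by
      rw [← hP]
      exact Nat.card_le_card_of_injective (fun u : stabilizer R A =>
        (⟨((u : R) : G), (u : R).2.1, u.2⟩ : P)) fun u v e =>
        Subtype.ext (Subtype.ext (congrArg (fun w : P => (w : G)) e))
    have h3 : (orbit R A).ncard ≤ 5 := by
      choose g hg using fun B : orbit R A => B.2
      have hT3 : Nat.card {x : T // x ≠ 1} = 3 := by
        have := card_subtype_ne_one T
        omega
      have hinj : Function.Injective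
          (fun p : orbit R A × {x : T // x ≠ 1} =>
            (⟨⟨(g p.1 : G) * (p.2 : T) * (g p.1 : G)⁻¹, hRP _ (g p.1).2 _ (hTP (p.2 : T).2)⟩,
              fun h => p.2.2 (Subtype.ext (conj_eq_one_iff.1 (congrArg Subtype.val h)))⟩ :
              {x : P // x ≠ 1})) := by
        rintro ⟨B, x⟩ ⟨B', x'⟩ h
        have h' : (g B : G) * (x : T) * (g B : G)⁻¹ = (g B' : G) * (x' : T) * (g B' : G)⁻¹ :=
          congrArg (fun y : {x : P // x ≠ 1} => ((y : P) : G)) h
        have hB : B = B' := Subtype.ext (by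
          rw [← hg B, ← hg B']
          show (g B : G) • A = (g B' : G) • A
          have e1 : fixedBy Ω ((x : T) : G) = A := hTfix _ (x : T).2 fun e => x.2 (Subtype.ext e)
          have e2 : fixedBy Ω ((x' : T) : G) = A := hTfix _ (x' : T).2 fun e => x'.2 (Subtype.ext e)
          calc (g B : G) • A = fixedBy Ω ((g B : G) * (x : T) * (g B : G)⁻¹) := by
                rw [← MulAction.smul_fixedBy, e1]
            _ = (g B' : G) • A := by rw [h', ← MulAction.smul_fixedBy, e2])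
        subst hB
        exact Prod.ext rfl (Subtype.ext (Subtype.ext (by simpa using h')))
      have h4 := Nat.card_le_card_of_injective _ hinj
      rw [Nat.card_prod, hT3, Nat.card_coe_set_eq] at h4
      have h5 : Nat.card {x : P // x ≠ 1} ≤ 15 := by
        have := card_subtype_ne_one P
        omega
      omega
    have h6 : Nat.card R ≤ 16 * 5 := h1 ▸ Nat.mul_le_mul h2 h3
    obtain ⟨i, hi⟩ := card_sub_of_pGroup hRp le_rfl
    have : i < 7 := by
      by_contra hlt
      have := Nat.pow_le_pow_right (n := 2) two_pos (not_lt.1 hlt)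
      omega
    have h7 : 2 ^ i ≤ 2 ^ 6 := Nat.pow_le_pow_right two_pos (by omega)
    omega
  have hRS : R ≠ S := fun h => by rw [h] at hR64; omega
  obtain ⟨σ, hσS, hσR, hσ⟩ := exists_normalizing hS inf_le_left hRS
  set Q := P.map (MulAut.conj σ).toMonoidHom with hQdef
  have hQR : Q ≤ R := by rintro _ ⟨x, hx, rfl⟩; exact hσ x (hPR hx)
  have hQcard : Nat.card Q = 16 := by
    rw [hQdef, Subgroup.card_map_of_injective (MulAut.conj σ).injective, hP]
  have hQel : ∀ x ∈ Q, x ^ 2 = 1 := by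
    rintro _ ⟨y, hy, rfl⟩
    rw [← map_pow, hPel y hy, map_one]
  have hQc : ∀ x ∈ Q, ∀ y ∈ Q, x * y = y * x := fun x hx y hy =>
    commute_of_sq (hQel x hx) (hQel y hy) (hQel _ (mul_mem hx hy))
  have hQP : ¬ Q ≤ P := fun h => hσR (hmemR σ hσS fun x hx => h ⟨x, hx, rfl⟩)
  have hPQ4 : Nat.card ↥(Q ⊓ P) ≤ 4 := by
    obtain ⟨q, hq, hqP⟩ := SetLike.not_le_iff_exists.1 hQP
    have := sq_of_centralizer_le (hQR hq).1 hTP hcP hqP (C := Q ⊓ P) inf_le_right
      fun y hy => hQc y hy.1 q hq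
    rw [hT4, hP] at this
    omega
  have hR : Nat.card R = 64 ∧ Nat.card ↥(Q ⊓ P) = 4 := by
    have h1 := card_mul_card_le_card_inf_mul hQR hPR
    rw [hQcard, hP] at h1
    constructor <;> nlinarith
  -- the involutions of `R` lie in `P ∪ Q`
  have hsqR : ∀ r ∈ R, r ^ 2 = 1 → r ∈ P ∨ r ∈ Q := by
    intro r hr hr2
    have hcov : ∃ q ∈ Q, ∃ p ∈ P, q * p = r := by
      let f : Q × P → R := fun p => ⟨p.1 * p.2, mul_mem (hQR p.1.2) (hPR p.2.2)⟩
      have hfib : ∀ y : R, Nat.card {p : Q × P // f p = y} ≤ 4 := by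
        intro y
        rcases isEmpty_or_nonempty {p : Q × P // f p = y} with h | ⟨⟨p0, hp0⟩⟩
        · simp
        rw [← hR.2]
        refine Nat.card_le_card_of_injective (fun p : {p : Q × P // f p = y} =>
          (⟨((p0.1 : Q) : G)⁻¹ * (p.1.1 : G), Q.mul_mem (Q.inv_mem p0.1.2) p.1.1.2, ?_⟩ : ↥(Q ⊓ P))) ?_
        · have h' : (p.1.1 : G) * p.1.2 = (p0.1 : G) * p0.2 :=
            congrArg Subtype.val (p.2.trans hp0.symm)
          have h1 : (p0.1 : G)⁻¹ * (p.1.1 : G) = (p0.2 : G) * (p.1.2 : G)⁻¹ := by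
            rw [eq_mul_inv_iff_mul_eq, mul_assoc, h', inv_mul_cancel_left]
          exact h1 ▸ P.mul_mem p0.2.2 (P.inv_mem p.1.2.2)
        · rintro ⟨⟨u, v⟩, h⟩ ⟨⟨u', v'⟩, h'⟩ e
          have hu : u = u' := Subtype.ext (mul_left_cancel (congrArg Subtype.val e))
          subst hu
          have := congrArg Subtype.val (h.trans h'.symm)
          exact Subtype.ext (Prod.ext rfl (Subtype.ext (mul_left_cancel this)))
      by_contra hne
      push Not at hne
      have hy : ∀ p, f p ≠ ⟨r, hr⟩ := fun p e =>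
        hne _ p.1.2 _ p.2.2 (congrArg Subtype.val e)
      letI := Fintype.ofFinite (Q × P)
      letI := Fintype.ofFinite R
      have h1 := Finset.card_le_mul_card_image_of_maps_to (f := f) (s := Finset.univ)
        (t := Finset.univ.erase (⟨r, hr⟩ : R)) (fun p _ => Finset.mem_erase.2 ⟨hy p, Finset.mem_univ _⟩)
        4 (fun y _ => by
          have := hfib y
          rwa [Nat.card_eq_fintype_card, Fintype.card_subtype] at this)
      rw [Finset.card_univ, Finset.card_erase_of_mem (Finset.mem_univ _), Finset.card_univ,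
        ← Nat.card_eq_fintype_card, ← Nat.card_eq_fintype_card, Nat.card_prod, hQcard, hP, hR.1] at h1
      omega
    obtain ⟨q, hq, p, hp, rfl⟩ := hcov
    by_cases hqP : q ∈ P
    · exact Or.inl (mul_mem hqP hp)
    refine Or.inr (mul_mem hq ?_)
    have hqp : q * p = p * q := commute_of_sq (hQel q hq) (hPel p hp) hr2
    set C := P ⊓ Subgroup.centralizer {q} with hCdef
    have hC4 := sq_of_centralizer_le (hQR hq).1 hTP hcP hqP (C := C) inf_le_left
      fun y hy => Subgroup.mem_centralizer_singleton_iff.1 hy.2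
    rw [hT4, hP] at hC4
    have hle : Q ⊓ P ≤ C := fun y hy =>
      ⟨hy.2, Subgroup.mem_centralizer_singleton_iff.2 (hQc y hy.1 q hq)⟩
    have heq := Subgroup.eq_of_le_of_card_ge hle (by omega)
    have hpC : p ∈ C := ⟨hp, Subgroup.mem_centralizer_singleton_iff.2 hqp.symm⟩
    exact (heq ▸ hpC : p ∈ Q ⊓ P).1
  have helem : ∀ E : Subgroup G, E ≤ R → (∀ x ∈ E, x ^ 2 = 1) → E ≤ P ∨ E ≤ Q :=
    fun E hE hel => HarrisRank.le_or_le_of_union fun x hx => hsqR x (hE hx) (hel x hx)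
  -- an elementary subgroup meeting `Q` in order eight lies in it
  have hbigQ : ∀ E : Subgroup G, E ≤ S → (∀ x ∈ E, ∀ y ∈ E, x * y = y * x) →
      8 ≤ Nat.card ↥(E ⊓ Q) → E ≤ Q := by
    intro E hE hEc hE8
    set E' := E.map (MulAut.conj σ⁻¹).toMonoidHom with hE'def
    have h1 : E' ⊓ P = (E ⊓ Q).map (MulAut.conj σ⁻¹).toMonoidHom := by
      rw [Subgroup.map_inf _ _ _ (MulAut.conj σ⁻¹).injective]
      congr 1
      ext x
      simp [hQdef, map_conj_mem, mul_assoc]
    have h2 := hbig E' (by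
      rintro _ ⟨x, hx, rfl⟩
      exact mul_mem (mul_mem (inv_mem hσS) (hE hx)) (inv_mem (inv_mem hσS)))
      (by
        rintro _ ⟨x, hx, rfl⟩ _ ⟨y, hy, rfl⟩
        rw [← map_mul, hEc x hx y hy, map_mul])
      (by rw [h1, Subgroup.card_map_of_injective (MulAut.conj σ⁻¹).injective]; exact hE8)
    intro x hx
    refine ⟨σ⁻¹ * x * σ, h2 ⟨x, hx, by simp⟩, by simp [mul_assoc]⟩
  set R2 := S ⊓ Subgroup.normalizer (R : Set G) with hR2def
  have hR2 : Nat.card R2 ≤ 128 := by
    have hcov : (R2 : Set G) ⊆ (R : Set G) ∪ σ • (R : Set G) := by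
      intro r hr
      have hPr : P.map (MulAut.conj r).toMonoidHom ≤ R := by
        rintro _ ⟨x, hx, rfl⟩
        exact (Subgroup.mem_normalizer_iff.1 hr.2 x).1 (hPR hx)
      rcases helem _ hPr (by rintro _ ⟨y, hy, rfl⟩; rw [← map_pow, hPel y hy, map_one]) with h | h
      · exact Or.inl (hmemR r hr.1 fun x hx => h ⟨x, hx, rfl⟩)
      · refine Or.inr ⟨σ⁻¹ * r, hmemR _ (mul_mem (inv_mem hσS) hr.1) fun x hx => ?_,
          mul_inv_cancel_left σ r⟩
        obtain ⟨y, hy, hyx⟩ := h ⟨x, hx, rfl⟩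
        rw [MulEquiv.coe_toMonoidHom, MulAut.conj_apply, MulEquiv.coe_toMonoidHom,
          MulAut.conj_apply] at hyx
        rw [show σ⁻¹ * r * x * (σ⁻¹ * r)⁻¹ = σ⁻¹ * (r * x * r⁻¹) * σ by group, ← hyx]
        simpa [mul_assoc] using hy
    have h1 := le_trans (Set.ncard_le_ncard hcov (Set.toFinite _)) (Set.ncard_union_le _ _)
    rw [Set.ncard_smul_set] at h1
    change (R2 : Set G).ncard ≤ (R : Set G).ncard + (R : Set G).ncard at h1
    rw [← Nat.card_coe_set_eq, ← Nat.card_coe_set_eq] at h1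
    change Nat.card R2 ≤ Nat.card R + Nat.card R at h1
    omega
  have hR2S : R2 = S := by
    by_contra hne
    obtain ⟨τ, hτS, hτR2, hτ⟩ := exists_normalizing hS inf_le_left hne
    apply hτR2
    refine ⟨hτS, ?_⟩
    have hRR2 : R ≤ R2 := le_inf inf_le_left Subgroup.le_normalizer
    have key : ∀ E0 : Subgroup G, E0 ≤ R → Nat.card E0 = 16 → (∀ x ∈ E0, x ^ 2 = 1) →
        E0.map (MulAut.conj τ).toMonoidHom ≤ R := by
      intro E0 hE0 hE0c hE0el
      set E := E0.map (MulAut.conj τ).toMonoidHom with hEdef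
      have hEel : ∀ x ∈ E, x ^ 2 = 1 := by
        rintro _ ⟨y, hy, rfl⟩; rw [← map_pow, hE0el y hy, map_one]
      have hEc : ∀ x ∈ E, ∀ y ∈ E, x * y = y * x := fun x hx y hy =>
        commute_of_sq (hEel x hx) (hEel y hy) (hEel _ (mul_mem hx hy))
      have hER2 : E ≤ R2 := by rintro _ ⟨x, hx, rfl⟩; exact hτ x (hRR2 (hE0 hx))
      have hE16 : Nat.card E = 16 := by
        rw [hEdef, Subgroup.card_map_of_injective (MulAut.conj τ).injective, hE0c]
      have h1 := card_mul_card_le_card_inf_mul hER2 hRR2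
      rw [hE16, hR.1] at h1
      have h8 : 8 ≤ Nat.card ↥(E ⊓ R) := by nlinarith
      have hES : E ≤ S := hER2.trans inf_le_left
      rcases helem (E ⊓ R) inf_le_right (fun x hx => hEel x hx.1) with h | h
      · exact (hbig E hES hEc (h8.trans (Subgroup.card_le_of_le (le_inf inf_le_left h)))).trans hPR
      · exact (hbigQ E hES hEc (h8.trans (Subgroup.card_le_of_le (le_inf inf_le_left h)))).trans hQR
    have hgen : R = P ⊔ Q := by
      refine (Subgroup.eq_of_le_of_card_ge (sup_le hPR hQR) ?_).symm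
      have h1 := card_mul_card_le_card_inf_mul (le_sup_right : Q ≤ P ⊔ Q) (le_sup_left : P ≤ P ⊔ Q)
      rw [hQcard, hP, hR.2] at h1
      omega
    have hmap : R.map (MulAut.conj τ).toMonoidHom = R := by
      refine Subgroup.eq_of_le_of_card_ge ?_
        (by rw [Subgroup.card_map_of_injective (MulAut.conj τ).injective])
      rw [hgen, Subgroup.map_sup, sup_le_iff, ← hgen]
      exact ⟨key P hPR hP hPel, key Q hQR hQcard hQel⟩
    refine Subgroup.mem_normalizer_iff.2 fun x => ⟨fun hx => hmap ▸ ⟨x, hx, rfl⟩, fun hx => ?_⟩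
    rw [← hmap] at hx
    obtain ⟨y, hy, hyx⟩ := hx
    rwa [← (MulAut.conj τ).injective (hyx : MulAut.conj τ y = MulAut.conj τ x)]
  have hS128 : Nat.card S = 128 := by
    rw [hR2S] at hR2
    omega
  refine ⟨hS128, fun H hH hel => ?_⟩
  by_contra hgt
  have hHc : ∀ x ∈ H, ∀ y ∈ H, x * y = y * x := fun x hx y hy =>
    commute_of_sq (hel x hx) (hel y hy) (hel _ (mul_mem hx hy))
  have h1 := card_mul_card_le_card_inf_mul hH (inf_le_left : R ≤ S)
  rw [hR.1, hS128] at h1
  have h8 : 8 ≤ Nat.card ↥(H ⊓ R) := by nlinarith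
  rcases helem (H ⊓ R) inf_le_right (fun x hx => hel x hx.1) with h | h
  · exact hgt ((Subgroup.card_le_of_le
      (hbig H hH hHc (h8.trans (Subgroup.card_le_of_le (le_inf inf_le_left h))))).trans hP16)
  · exact hgt ((Subgroup.card_le_of_le
      (hbigQ H hH hHc (h8.trans (Subgroup.card_le_of_le (le_inf inf_le_left h))))).trans hQcard.le)

theorem sgap_four_spread [IsSimpleGroup G] [MulAction.IsPretransitive G Ω] (hG : Hyp G Ω)
    (hT : Point a T) (h8 : Nat.card Ω % 8 = 0) (hz : orderOf z = 2) (hzT : z ∈ T) {A : Set Ω}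
    (hAz : fixedBy Ω z = A) (hTK : T ≤ fixingSubgroup G A) (hT4 : Nat.card T = 4)
    (S : Sylow 2 G) (hTS : T ≤ (S : Subgroup G)) : SGap (S : Subgroup G) := by
  intro H hH
  by_cases hfix : ∃ x ∈ H, orderOf x = 2 ∧ ∃ p : Ω, x • p = p
  · obtain ⟨x, hx, hxo, p, hp⟩ := hfix
    have h1 := card_centralizer_fixer_le hG hT (S.2.to_le hH) hxo hp
    rw [hT4] at h1
    exact gap_of_centralizer hx h1
  · push Not at hfix
    have h1 := hT.card_free_mul_le S (S.2.to_le hH) fun x hx hxo =>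
      Set.eq_empty_iff_forall_notMem.2 fun p hp => hfix x hx hxo p hp
    rw [hT4] at h1
    rcases le_or_gt (Nat.card H) 16 with h | h
    · exact SectRank.gapLE_of_card_le h
    obtain ⟨i, hi⟩ := card_sub_of_pGroup S.2 hH
    have h4 : 4 < i := by
      by_contra hlt
      have := Nat.pow_le_pow_right (n := 2) two_pos (not_lt.1 hlt)
      omega
    have h32 : 2 ^ 5 ≤ 2 ^ i := Nat.pow_le_pow_right two_pos h4
    obtain ⟨hS128, hel⟩ := spread_bound hG hT h8 hz hzT hAz hTK hT4 S.2 hTS (by omega)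
    by_cases hH2 : ∀ x ∈ H, x ^ 2 = 1
    · exact absurd (hel H hH hH2) (by omega)
    push Not at hH2
    obtain ⟨x, hx, hx2⟩ := hH2
    exact gap_of_card_le_sq (by omega) hx hx2

end CfsgLib.FixityFour
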