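import Cfsg.Agent.FixityFour.FourAut
import Cfsg.Agent.FixityFour.FourSpread

/-!
A large Sylow 2-subgroup of a point stabiliser.
-/

set_option autoImplicit false

namespace CfsgLib.FixityFour

open MulAction
open scoped Pointwise

variable {G Ω : Type*} [Group G] [MulAction G Ω] [Finite G] [Finite Ω]
variable {a : Ω} {T : Subgroup G}

/-- An element outside the pointwise part: a large cyclic or inverted abelian subgroup. -/
theorem sgap_big_outside [IsSimpleGroup G] [MulAction.IsPretransitive G Ω] (hG : Hyp G Ω)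
    (hT : Point a T) {A : Set Ω} (hA : A.ncard = 4) (ha : a ∈ A) (hTA : T ≤ stabilizer G A)
    (h8 : Nat.card Ω % 8 = 4) (hne : ¬ T ≤ fixingSubgroup G A) (S : Sylow 2 G)
    (hTS : T ≤ (S : Subgroup G)) : SGap (S : Subgroup G) := by
  haveI : Fact (Nat.Prime 2) := ⟨Nat.prime_two⟩
  set T0 := T ⊓ fixingSubgroup G A with hT0
  have hT2 : Nat.card T ≤ 2 * Nat.card T0 := card_le_two_mul_fixing hA hT.isP hTA ha hT.fix
  have hS := hT.card_sylow_four S h8
  by_cases hord : ∃ t ∈ T, t ∉ fixingSubgroup G A ∧ t ^ 2 ≠ 1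
  · obtain ⟨t, ht, htK, ht2⟩ := hord
    obtain ⟨j, hj⟩ := orderOf_dvd_two_pow hT.isP ht
    obtain ⟨k, rfl⟩ : ∃ k, j = k + 2 := by
      rcases j with _ | _ | k
      · have h1 : t = 1 := orderOf_eq_one_iff.1 (by simpa using hj)
        exact absurd (show t ^ 2 = 1 by rw [h1, one_pow]) ht2
      · have h1 : orderOf t = 2 := by simpa using hj
        exact absurd (show t ^ 2 = 1 by rw [← h1, pow_orderOf_eq_one]) ht2
      · exact ⟨k, rfl⟩
    refine sgap_of_isCyclic (hTS ht) ?_
    have htA := hTA ht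
    obtain ⟨i, hi⟩ := hT.isP ⟨t, ht⟩
    have hsq : t ^ 2 ∈ fixingSubgroup G A :=
      sq_mem_fixing hA htA (congrArg Subtype.val hi) ha (hT.fix ht)
    have hfix : fixedBy Ω (t ^ 2 ^ (k + 1)) = A := by
      refine fixing_fixedBy_eq hG.fix4 hA ?_ ?_
      · rw [pow_succ', pow_mul]
        exact pow_mem hsq _
      · intro h1
        have := Nat.le_of_dvd (by positivity) (orderOf_dvd_of_pow_eq_one h1)
        rw [hj, pow_succ (n := k + 1)] at this
        have := Nat.two_pow_pos (k + 1)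
        omega
    -- free off `A`
    have hdvd : orderOf t ∣ Nat.card Ω - 4 := by
      have hfree := card_dvd_sub_ncard (Subgroup.zpowers_le.2 htA) (U := Subgroup.zpowers t)
        (A := A) fun u hu hu1 x hx => by
          by_contra hxA
          obtain ⟨m, rfl⟩ := (mem_powers_iff_mem_zpowers (x := t)).2 hu
          exact hu1 (pow_eq_one_of_smul (p := 2) (k := k + 1) hj (hfix ▸ hxA) hx)
      rwa [Nat.card_zpowers, hA] at hfree
    obtain ⟨m, hm⟩ := hdvd
    rw [hj, mul_comm] at hm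
    obtain ⟨e⟩ := exists_equiv_four hA
    have hs := sign_split hG hA e (k := k + 1) (m := m) hj hfix htA hm
    have h2 : four G e ⟨t, htA⟩ ^ 2 = 1 := by
      rw [← map_pow, four_eq_one_iff]
      exact hsq
    rcases four_sq_sign _ h2 with h | ⟨h, -⟩ | ⟨-, h⟩
    · exact absurd ((four_eq_one_iff e _).1 h) htK
    · rw [h] at hs
      have hmodd : Odd m := by
        by_contra hev
        rw [(Nat.not_odd_iff_even.1 hev).neg_one_pow, mul_one] at hs
        exact absurd hs (by decide)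
      have hU := card_dvd_sub_ncard (U := T0) (A := A) (inf_le_left.trans hTA) fun u hu hu1 =>
        (fixing_fixedBy_eq hG.fix4 hA hu.2 hu1).le
      obtain ⟨l, hl⟩ := card_sub_of_pGroup hT.isP (inf_le_left : T0 ≤ T)
      rw [hA, hm, hl] at hU
      have h3 : 2 ^ l ∣ 2 ^ (k + 2) := (Nat.Coprime.dvd_mul_left
        (Nat.Coprime.pow_left l hmodd.coprime_two_left)).1 hU
      have h4 := Nat.le_of_dvd (by positivity) h3
      rw [← hl, ← hj] at h4
      have h5 : Nat.card T0 ≤ orderOf t := h4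
      rw [hS]
      omega
    · exact absurd ((four_fix_iff e ⟨t, htA⟩ ⟨a, ha⟩).2 (hT.fix ht)) (h _)
  · push Not at hord
    obtain ⟨t, ht, htK⟩ := SetLike.not_le_iff_exists.1 hne
    have ht2 := hord t ht htK
    have hto : orderOf t = 2 := orderOf_eq_two ht2 fun h => htK (h ▸ one_mem _)
    have hinv : ∀ x ∈ T0, t * x * t⁻¹ = x⁻¹ := by
      intro x hx
      have hxt : t * x ∉ fixingSubgroup G A := fun h =>
        htK (by simpa using mul_mem h (inv_mem hx.2))
      have h1 := hord _ (mul_mem ht hx.1) hxt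
      rw [pow_two] at h1
      calc t * x * t⁻¹ = t * x * (t * x) * x⁻¹ := by
            rw [inv_self_of_sq ht2]; group
        _ = x⁻¹ := by rw [h1, one_mul]
    have hab : ∀ x ∈ T0, ∀ y ∈ T0, x * y = y * x := by
      intro x hx y hy
      have h1 := hinv _ (mul_mem hx hy)
      rw [show t * (x * y) * t⁻¹ = t * x * t⁻¹ * (t * y * t⁻¹) by group, hinv x hx, hinv y hy,
        ← mul_inv_rev, inv_inj] at h1
      exact h1.symm
    set E := T0 ⊓ Subgroup.centralizer {t} with hE
    have hE2 : Nat.card E ≤ 2 := card_le_two_of_commute hG hA hto (hTA ht) htK ha (hT.fix ht)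
      (U := E) (inf_le_left.trans inf_le_right) fun u hu =>
        Subgroup.mem_centralizer_singleton_iff.1 hu.2
    refine sgap_of_sub (inf_le_left.trans hTS : T0 ≤ (S : Subgroup G)) (i := 8) (a := 2)
      (by rw [hS]; change 4 * Nat.card T ≤ 8 * Nat.card T0; omega) (fun H hH => ?_) (by norm_num)
    refine (SectRank.gapLE_of_comm (E := E) (fun x hx y hy => hab x (hH hx) y (hH hy))
      fun x hx hx2 => ⟨hH hx, Subgroup.mem_centralizer_singleton_iff.2 ?_⟩).mono hE2
    have := hinv x (hH hx)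
    rw [inv_self_of_sq hx2, mul_inv_eq_iff_eq_mul] at this
    exact this.symm

/-- The setting in which the Sylow 2-subgroup of a point stabiliser fixes four points. -/
structure Big (G Ω : Type*) [Group G] [MulAction G Ω] [Finite G] (a : Ω) (A : Set Ω)
    (T : Subgroup G) (S : Sylow 2 G) : Prop where
  hyp : Hyp G Ω
  point : Point a T
  four : A.ncard = 4
  mem : a ∈ A
  fixing : T ≤ fixingSubgroup G A
  large : 8 ≤ Nat.card T
  degree : Nat.card Ω % 8 = 4
  le : T ≤ (S : Subgroup G)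

variable {A : Set Ω} {S : Sylow 2 G}

theorem Big.le_stab [MulAction.IsPretransitive G Ω] (h : Big G Ω a A T S) :
    (S : Subgroup G) ≤ stabilizer G A ∧ (∀ g ∈ (S : Subgroup G), ∀ x ∈ T, g * x * g⁻¹ ∈ T) ∧
      ∀ p ∈ A, ∀ g ∈ (S : Subgroup G), g • p = p → g ∈ T := by
  have hTfix : ∀ x ∈ T, x ≠ 1 → fixedBy Ω x = A := fun x hx h1 =>
    fixing_fixedBy_eq h.hyp.fix4 h.four (h.fixing hx) h1
  set P := (S : Subgroup G) ⊓ stabilizer G A with hP
  have hTP : T ≤ P := le_inf h.le (h.fixing.trans fixing_le_stabilizer)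
  have hPp : IsPGroup 2 P := S.2.to_le inf_le_left
  have hPb : ∀ p ∈ A, P ⊓ stabilizer G p = T := fun p hp =>
    (Subgroup.eq_of_le_of_card_ge (le_inf hTP fun x hx => mem_fixing_iff.1 (h.fixing hx) hp)
      (h.point.card_le (hPp.to_le inf_le_left) inf_le_right)).symm
  have hTn : ∀ p ∈ P, ∀ x ∈ T, p * x * p⁻¹ ∈ T := fun p hp x hx => by
    rw [← hPb a h.mem]
    exact ⟨P.mul_mem (P.mul_mem hp (hTP hx)) (P.inv_mem hp),
      mem_fixing_iff.1 (normalizer_fixing_le hp.2 (h.fixing hx)) h.mem⟩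
  by_cases hPS : P = (S : Subgroup G)
  · refine ⟨fun g hg => ((hPS.symm ▸ hg : g ∈ P) : g ∈ P).2, fun g hg => hTn g (hPS.symm ▸ hg),
      fun p hp g hg hgp => (hPb p hp) ▸ ⟨(hPS.symm ▸ hg : g ∈ P), hgp⟩⟩
  exfalso
  obtain ⟨s, hsS, hsP, hs⟩ := exists_normalizing S.2 inf_le_left hPS
  set U := T.map (MulAut.conj s).toMonoidHom with hU
  have hUP : U ≤ P := by rintro _ ⟨x, hx, rfl⟩; exact hs x (hTP hx)
  have hUT : U ⊓ T = ⊥ := (Subgroup.eq_bot_iff_forall _).2 fun x hx => by
    obtain ⟨⟨y, hy, rfl⟩, hx2⟩ := Subgroup.mem_inf.1 hx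
    by_contra h1
    refine hsP ⟨hsS, (?_ : s • A = A)⟩
    have h2 := hTfix _ hx2 h1
    rwa [MulEquiv.coe_toMonoidHom, MulAut.conj_apply, ← MulAction.smul_fixedBy,
      hTfix y hy fun e => h1 (by simp [e])] at h2
  have h1 := card_mul_card_le_card_inf_mul hUP hTP
  rw [hUT, Subgroup.card_bot, mul_one, hU,
    Subgroup.card_map_of_injective (MulAut.conj s).injective] at h1
  have h2 : Nat.card P ≤ 4 * Nat.card T := by
    rw [← h.point.card_sylow_four S h.degree]
    exact Subgroup.card_le_of_le inf_le_left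
  have h3 := h.large
  have : 8 * Nat.card T ≤ 4 * Nat.card T :=
    le_trans (le_trans (Nat.mul_le_mul_right _ h3) h1) h2
  omega

/-- A fixer of `S` outside `T`: the semidirect structure. -/
theorem Big.sgap_fixer [MulAction.IsPretransitive G Ω] (h : Big G Ω a A T S) {u : G}
    (hu : u ∈ (S : Subgroup G)) (huo : orderOf u = 2) (huT : u ∉ T) {p : Ω} (hp : u • p = p) :
    SGap (S : Subgroup G) := by
  obtain ⟨hSA, hTn, hreg⟩ := h.le_stab
  set Γ := fixedBy Ω u with hΓdef
  have hΓ : Γ.ncard = 4 := h.hyp.fix_eq huo hp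
  have hpA : p ∉ A := fun hpA => huT (hreg p hpA u hu hp)
  have hTfix : ∀ x ∈ T, x ≠ 1 → fixedBy Ω x = A := fun x hx h1 =>
    fixing_fixedBy_eq h.hyp.fix4 h.four (h.fixing hx) h1
  have hTΓ : ∀ x ∈ T, x • p = p → x = 1 := fun x hx hxp => by
    by_contra h1
    exact hpA (hTfix x hx h1 ▸ hxp)
  have hu2 : u ^ 2 = 1 := by rw [← huo, pow_orderOf_eq_one]
  have hS4 := h.point.card_sylow_four S h.degree
  set C := (S : Subgroup G) ⊓ Subgroup.centralizer {u} with hC
  have hCΓ : C ≤ stabilizer G Γ := fun g hg =>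
    mem_stabilizer_of_commute (Subgroup.mem_centralizer_singleton_iff.1 hg.2)
  set V := C ⊓ T with hV
  have hV4 : Nat.card V ≤ 4 := by
    have h1 := card_le_ncard_mul (U := V) (inf_le_left.trans hCΓ) (x := p) hp
    have hb : V ⊓ stabilizer G p = ⊥ := (Subgroup.eq_bot_iff_forall _).2 fun x hx =>
      hTΓ x hx.1.2 hx.2
    rw [hb, Subgroup.card_bot, hΓ] at h1
    omega
  have hC16 : Nat.card C ≤ 16 := by
    have h1 := card_mul_card_le_card_inf_mul (U := C) (V := T) inf_le_left h.le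
    rw [hS4] at h1
    have h2 : 4 * Nat.card T * Nat.card V ≤ 4 * Nat.card T * 4 := Nat.mul_le_mul_left _ hV4
    have h3 : Nat.card C * Nat.card T ≤ 16 * Nat.card T := by
      calc Nat.card C * Nat.card T ≤ 4 * Nat.card T * Nat.card V := h1
        _ ≤ 4 * Nat.card T * 4 := h2
        _ = 16 * Nat.card T := by ring
    exact Nat.le_of_mul_le_mul_right h3 Nat.card_pos
  rcases le_or_gt (Nat.card C) 8 with h8 | h8
  · exact sgap_of_centralizer_eight S.2 hu hu2 h8
  have hC16' : 16 ≤ Nat.card C := by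
    obtain ⟨i, (hi : Nat.card C = 2 ^ i)⟩ := card_sub_of_pGroup S.2 (inf_le_left : C ≤ _)
    have : 3 < i := by
      by_contra hlt
      have := Nat.pow_le_pow_right (n := 2) two_pos (not_lt.1 hlt)
      omega
    have h6 : 2 ^ 4 ≤ 2 ^ i := Nat.pow_le_pow_right two_pos this
    omega
  set W := C ⊓ stabilizer G p with hW
  have hWT : ∀ x ∈ W, x ∈ T → x = 1 := fun x hx hxT => hTΓ x hxT hx.2
  have hWS : W ≤ (S : Subgroup G) := inf_le_left.trans inf_le_left
  have hW4 : Nat.card W = 4 := by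
    have h1 := card_le_ncard_mul hCΓ (x := p) hp
    rw [hΓ] at h1
    change _ ≤ 4 * Nat.card W at h1
    have h2 := card_mul_card_le_card_inf_mul hWS h.le
    have hb : W ⊓ T = ⊥ := (Subgroup.eq_bot_iff_forall _).2 fun x hx => hWT x hx.1 hx.2
    rw [hb, Subgroup.card_bot, mul_one, hS4] at h2
    have h3 : Nat.card W ≤ 4 := Nat.le_of_mul_le_mul_right h2 Nat.card_pos
    omega
  have hVcard : Nat.card V = 4 := by
    have h1 := card_mul_card_le_card_inf_mul (U := C) (V := T) inf_le_left h.le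
    rw [hS4] at h1
    change _ ≤ 4 * Nat.card T * Nat.card V at h1
    have h2 : 4 * Nat.card T * 4 ≤ 4 * Nat.card T * Nat.card V := by
      calc 4 * Nat.card T * 4 = 16 * Nat.card T := by ring
        _ ≤ Nat.card C * Nat.card T := Nat.mul_le_mul_right _ hC16'
        _ ≤ _ := h1
    have := Nat.le_of_mul_le_mul_left h2 (by have := h.large; omega)
    omega
  -- every element of `W` fixes exactly `Γ`
  have hWfix : ∀ w ∈ W, w ≠ 1 → fixedBy Ω w = Γ := by
    obtain ⟨g, -, hg⟩ := h.point.max p W (S.2.to_le hWS) inf_le_right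
    have key : ∀ w ∈ W, w ≠ 1 → g • fixedBy Ω w = A := fun w hw hw1 => by
      rw [MulAction.smul_fixedBy]
      exact hTfix _ (hg w hw) fun e => hw1 (conj_eq_one_iff.1 e)
    intro w hw hw1
    have huW : u ∈ W := ⟨⟨hu, Subgroup.mem_centralizer_singleton_iff.2 rfl⟩, hp⟩
    exact smul_left_cancel g ((key w hw hw1).trans
      (key u huW (fun e => by rw [e, orderOf_one] at huo; omega)).symm)
  have hcomm : ∀ x ∈ T, ∀ w ∈ W, x • Γ = Γ → x * w = w * x := by
    intro x hx w hw hxΓ
    by_cases hw1 : w = 1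
    · rw [hw1, mul_one, one_mul]
    have hcT : x * w * x⁻¹ * w⁻¹ ∈ T := by
      rw [show x * w * x⁻¹ * w⁻¹ = x * (w * x⁻¹ * w⁻¹) by group]
      exact mul_mem hx (hTn w (hWS hw) _ (inv_mem hx))
    have h1 : x * w * x⁻¹ ∈ fixingSubgroup G Γ := mem_fixing_iff.2 (by
      rw [← MulAction.smul_fixedBy, hWfix w hw hw1, hxΓ])
    have h2 : w⁻¹ ∈ fixingSubgroup G Γ := inv_mem (mem_fixing_iff.2 (hWfix w hw hw1).ge)
    have h3 : (x * w * x⁻¹ * w⁻¹) • p = p := mem_fixing_iff.1 (mul_mem h1 h2) hp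
    exact mul_inv_eq_iff_eq_mul.1 (mul_inv_eq_one.1 (hTΓ _ hcT h3))
  have hsemi : Semi (T.subgroupOf (S : Subgroup G)) (W.subgroupOf (S : Subgroup G))
      (V.subgroupOf (S : Subgroup G)) :=
    { isP := S.2
      normal := ⟨fun x hx g => hTn g g.2 x hx⟩
      cardW := by rw [Nat.card_congr (Subgroup.subgroupOfEquivOfLe hWS).toEquiv, hW4]
      cardV := by
        rw [Nat.card_congr (Subgroup.subgroupOfEquivOfLe
          (inf_le_left.trans inf_le_left : V ≤ (S : Subgroup G))).toEquiv, hVcard]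
      le := fun x hx => hx.2
      disj := fun x hx hxT => Subtype.ext (hWT _ hx hxT)
      card := by rw [Nat.card_congr (Subgroup.subgroupOfEquivOfLe h.le).toEquiv, ← hS4]
      cent := fun w hw hw1 x hx => by
        have hw1' : (w : G) ≠ 1 := fun e => hw1 (Subtype.ext e)
        constructor
        · intro e
          have e' : (x : G) * w = w * x := congrArg Subtype.val e
          have hxΓ : (x : G) ∈ stabilizer G Γ :=
            hWfix _ hw hw1' ▸ mem_stabilizer_of_commute e'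
          have huW : u ∈ W := ⟨⟨hu, Subgroup.mem_centralizer_singleton_iff.2 rfl⟩, hp⟩
          exact ⟨⟨x.2, Subgroup.mem_centralizer_singleton_iff.2 (hcomm _ hx u huW hxΓ)⟩, hx⟩
        · intro hxV
          exact Subtype.ext (hcomm _ hx _ hw (hCΓ hxV.1)) }
  exact sgap_of_hasRK_four hsemi.hasRK_four

end CfsgLib.FixityFour
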