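import Mathlib
import Cfsg.Agent.Fus.Group
import Cfsg.Agent.FusYoshida.Main

/-!
Transfer criteria: Thompson's transfer lemma for an element of least order outside a subgroup of
index two, and Yoshida's criterion for invariant characters of a Sylow subgroup.
-/

set_option autoImplicit false

namespace CfsgLib.FixityFour

open scoped commutatorElement

variable {G : Type*} [Group G] [Finite G] [IsSimpleGroup G]

omit [Finite G] in
theorem monoidHom_eq_one_of_comm (hna : ¬ IsMulCommutative G) {A : Type*} [CommGroup A] (f : G →* A) :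
    f = 1 := by
  rcases (inferInstance : f.ker.Normal).eq_bot_or_eq_top with h | h
  · exact absurd ⟨⟨fun a b => (MonoidHom.ker_eq_bot_iff f).1 h (by rw [map_mul, map_mul, mul_comm])⟩⟩ hna
  · exact MonoidHom.ext fun g => (h ▸ Subgroup.mem_top g : g ∈ f.ker)

/-- An element of least order outside a subgroup of index two of a Sylow 2-subgroup of a simple
group is conjugate into that subgroup. -/
theorem exists_conj_mem_of_minimal (hna : ¬ IsMulCommutative G) (S : Sylow 2 G) (T : Subgroup G)
    (hT : (T.subgroupOf (S : Subgroup G)).index = 2) {u : G} (huS : u ∈ (S : Subgroup G)) (huT : u ∉ T)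
    (hmin : ∀ v ∈ (S : Subgroup G), v ∉ T → orderOf u ≤ orderOf v) :
    ∃ g : G, g * u * g⁻¹ ∈ T := by
  classical
  by_contra hex
  push Not at hex
  set T' := T.subgroupOf (S : Subgroup G) with hT'
  let φ : (S : Subgroup G) →* Multiplicative (ZMod 2) :=
    { toFun := fun x => if x ∈ T' then 1 else Multiplicative.ofAdd 1
      map_one' := by simp
      map_mul' := fun a b => by
        have h := Subgroup.mul_mem_iff_of_index_two hT (a := a) (b := b)
        by_cases ha : a ∈ T' <;> by_cases hb : b ∈ T' <;> simp [ha, hb, h]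
        decide }
  set c : Multiplicative (ZMod 2) := Multiplicative.ofAdd 1 with hc
  have hc2 : c ^ 2 = 1 := by decide
  obtain ⟨e, he⟩ := (@IsPGroup.iff_orderOf 2 _ _ ⟨Nat.prime_two⟩).1 S.2 ⟨u, huS⟩
  rw [Subgroup.orderOf_mk] at he
  have he1 : 1 ≤ e := by
    rcases Nat.eq_zero_or_pos e with rfl | h
    · rw [pow_zero, orderOf_eq_one_iff] at he
      exact absurd (he ▸ T.one_mem) huT
    · exact h
  have hterm : ∀ (g₀ : G) (m : ℕ) (hm : g₀⁻¹ * u ^ m * g₀ ∈ (S : Subgroup G)),
      φ ⟨_, hm⟩ = c ^ m := by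
    intro g₀ m hm
    rcases Nat.even_or_odd m with hev | hod
    · obtain ⟨r, rfl⟩ := hev
      rw [show c ^ (r + r) = 1 by rw [← two_mul, pow_mul, hc2, one_pow]]
      apply if_pos
      rw [hT', Subgroup.mem_subgroupOf]
      by_contra hn
      have hle := hmin _ hm hn
      rw [Subgroup.coe_mk] at hn
      have h1 : orderOf (g₀⁻¹ * u ^ (2 * r) * g₀) = orderOf (u ^ (2 * r)) := by
        have := (MulAut.conj g₀⁻¹).orderOf_eq (u ^ (2 * r))
        simpa [MulAut.conj_apply] using this
      have h2 : orderOf (u ^ (2 * r)) ∣ 2 ^ (e - 1) := by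
        apply orderOf_dvd_of_pow_eq_one
        rw [← pow_mul, mul_comm 2 r, mul_assoc, ← pow_succ', Nat.sub_add_cancel he1, mul_comm, pow_mul,
          ← he, pow_orderOf_eq_one, one_pow]
      have h3 := Nat.le_of_dvd (by positivity) h2
      rw [← two_mul r, h1, he] at hle
      have h4 : 2 ^ (e - 1) < 2 ^ e := Nat.pow_lt_pow_right (by norm_num) (by omega)
      omega
    · have hcm : c ^ m = c := by
        obtain ⟨r, rfl⟩ := hod
        rw [pow_succ, pow_mul, hc2, one_pow, one_mul]
      rw [hcm]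
      apply if_neg
      rw [hT', Subgroup.mem_subgroupOf]
      intro hn
      obtain ⟨s, hs⟩ : ∃ s : ℕ, (u ^ m) ^ s = u := exists_pow_eq_self_of_coprime (by
        rw [he]
        exact (Nat.Coprime.pow_right e hod.coprime_two_right))
      refine hex g₀⁻¹ ?_
      have h2 := T.pow_mem hn s
      have h3 : (g₀⁻¹ * u ^ m * g₀⁻¹⁻¹) ^ s = g₀⁻¹ * u * g₀⁻¹⁻¹ := by rw [conj_pow, hs]
      rw [inv_inv] at h3 ⊢
      rwa [Subgroup.coe_mk, h3] at h2
  have hV : φ.transfer u = c := by
    letI : Fintype (Quotient (MulAction.orbitRel (Subgroup.zpowers u) (G ⧸ (S : Subgroup G)))) :=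
      Fintype.ofFinite _
    rw [MonoidHom.transfer_eq_prod_quotient_orbitRel_zpowers_quot,
      Finset.prod_congr rfl (fun q _ => hterm q.out.out _ _), Finset.prod_pow_eq_pow_sum,
      ← (S : Subgroup G).index_eq_sum_minimalPeriod u]
    have hodd : Odd (S : Subgroup G).index := by
      rw [← Nat.not_even_iff_odd, even_iff_two_dvd]
      exact S.not_dvd_index
    obtain ⟨k, hk⟩ := hodd
    rw [hk, pow_succ, pow_mul, hc2, one_pow, one_mul]
  rw [monoidHom_eq_one_of_comm hna φ.transfer, MonoidHom.one_apply] at hV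
  exact absurd hV (by decide)

/-- A character of a Sylow subgroup invariant under its normalizer forces a wreath quotient. -/
theorem exists_wreath_quotient_of_invariant_hom (hna : ¬ IsMulCommutative G) {p : ℕ} [Fact p.Prime]
    (P : Sylow p G) (θ : (P : Subgroup G) →* Multiplicative (ZMod p)) (hθ : θ ≠ 1)
    (hinv : ∀ g ∈ Subgroup.normalizer ((P : Subgroup G) : Set G), ∀ x : (P : Subgroup G),
      ∀ h : g * (x : G) * g⁻¹ ∈ (P : Subgroup G), θ ⟨g * (x : G) * g⁻¹, h⟩ = θ x) :
    ∃ (W : Sylow p (Equiv.Perm (Fin (p ^ 2))))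
      (f : ↥(P : Subgroup G) →* ↥(W : Subgroup (Equiv.Perm (Fin (p ^ 2))))), Function.Surjective f := by
  by_contra hW
  apply hθ
  have hS : IsPGroup p (P : Subgroup G) := P.2
  have hF := CfsgLib.Fus.isSaturated_group P
  obtain ⟨d⟩ := FusTate.nonempty_twistData hS hF
  have htop : ∀ φ (hφ : φ ∈ (Cfsg.groupFusionSystem (P : Subgroup G)).Hom (P : Subgroup G)),
      ∀ x : (P : Subgroup G), θ ⟨φ x, Fus.hom_mem _ hφ x⟩ = θ x := by
    intro φ hφ x
    obtain ⟨-, hmem, g, hg⟩ := hφ
    have hgN : g ∈ Subgroup.normalizer ((P : Subgroup G) : Set G) := by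
      have hle : (P : Subgroup G).map (MulAut.conj g).toMonoidHom ≤ (P : Subgroup G) := by
        rintro _ ⟨y, hy, rfl⟩
        have := hmem ⟨y, hy⟩
        rw [hg] at this
        exact this
      have heq := Subgroup.eq_of_le_of_card_ge hle (le_of_eq
        (Nat.card_congr ((P : Subgroup G).equivMapOfInjective _ (MulAut.conj g).injective).toEquiv))
      rw [Subgroup.mem_normalizer_iff]
      intro y
      constructor
      · intro hy
        rw [← heq]
        exact ⟨y, hy, rfl⟩
      · intro hy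
        rw [← heq] at hy
        obtain ⟨y', hy', he⟩ := hy
        rwa [← (MulAut.conj g).injective he]
    have h := hinv g hgN x (hg x ▸ hmem x)
    rw [← h]
    exact congrArg θ (Subtype.ext (hg x))
  have hker : (P : Subgroup G).focalSubgroup ≤ θ.ker.map (P : Subgroup G).subtype := by
    rw [Subgroup.focalSubgroup_def, Subgroup.closure_le]
    rintro _ ⟨hgP, x, hxP, u, rfl⟩
    have hy : u * x⁻¹ * u⁻¹ ∈ (P : Subgroup G) := by
      have := (P : Subgroup G).mul_mem (inv_mem hxP) hgP
      rw [commutatorElement_def] at this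
      simpa [mul_assoc] using this
    let φ : Subgroup.zpowers x⁻¹ →* G :=
      (MulAut.conj u).toMonoidHom.comp (Subgroup.zpowers x⁻¹).subtype
    have hφ : φ ∈ (Cfsg.groupFusionSystem (P : Subgroup G)).Hom (Subgroup.zpowers x⁻¹) := by
      refine ⟨Subgroup.zpowers_le.2 (inv_mem hxP), fun z => ?_, u, fun z => rfl⟩
      obtain ⟨j, hj⟩ := z.2
      have h2 := (P : Subgroup G).zpow_mem hy j
      rw [conj_zpow] at h2
      show u * (z : G) * u⁻¹ ∈ _
      rwa [← show (x⁻¹) ^ j = (z : G) from hj]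
    have h := FusYoshida.stable_of_no_wreath hS d hW θ htop hφ ⟨x⁻¹, Subgroup.mem_zpowers _⟩
    refine ⟨⟨⁅x, u⁆, hgP⟩, ?_, rfl⟩
    show θ _ = 1
    have e : (⟨⁅x, u⁆, hgP⟩ : (P : Subgroup G)) = ⟨x, hxP⟩ * ⟨u * x⁻¹ * u⁻¹, hy⟩ :=
      Subtype.ext (by
        show ⁅x, u⁆ = x * (u * x⁻¹ * u⁻¹)
        rw [commutatorElement_def]
        group)
    rw [e, map_mul]
    have h' : θ ⟨u * x⁻¹ * u⁻¹, hy⟩ = θ ⟨x⁻¹, inv_mem hxP⟩ := h
    rw [h', ← map_mul]
    rw [show (⟨x, hxP⟩ * ⟨x⁻¹, inv_mem hxP⟩ : (P : Subgroup G)) = 1 from Subtype.ext (mul_inv_cancel x),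
      map_one]
  have hperf : commutator G = ⊤ := by
    rcases (inferInstance : (commutator G).Normal).eq_bot_or_eq_top with h | h
    · exact absurd ⟨⟨fun a b => commutatorElement_eq_one_iff_mul_comm.1 (Subgroup.mem_bot.1
        (h ▸ Subgroup.commutator_mem_commutator (Subgroup.mem_top a) (Subgroup.mem_top b)))⟩⟩ hna
    · exact h
  have hfoc : (P : Subgroup G).focalSubgroup = (P : Subgroup G) := by
    rw [← Subgroup.commutator_inf_eq_focalSubgroup P, hperf, top_inf_eq]
  ext x
  obtain ⟨z, hz, hzx⟩ := hker (hfoc.symm ▸ x.2 : (x : G) ∈ (P : Subgroup G).focalSubgroup)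
  rw [← Subtype.ext hzx]
  simpa using hz

end CfsgLib.FixityFour
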