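import Cfsg.Agent.FixityFour.FourBig
import Cfsg.Agent.FixityFour.Criterion
import Cfsg.Agent.FixityFour.Transfer
import Cfsg.Prelude.Def_Involutions

/-!
All involutions of a Sylow 2-subgroup outside the point stabiliser are fixed-point-free: either
there is a strongly embedded subgroup or the gap is at most sixteen.
-/

set_option autoImplicit false

namespace CfsgLib.FixityFour

open MulAction
open scoped Pointwise

variable {G Ω : Type*} [Group G] [MulAction G Ω]

/-- An involution with a fixed point. -/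
def Fixer (G Ω : Type*) [Group G] [MulAction G Ω] (x : G) : Prop :=
  orderOf x = 2 ∧ ∃ p : Ω, x • p = p

theorem Fixer.conj {x : G} (h : Fixer G Ω x) (g : G) : Fixer G Ω (g * x * g⁻¹) := by
  obtain ⟨ho, p, hp⟩ := h
  exact ⟨((MulAut.conj g).orderOf_eq x).trans ho, g • p, by rw [mul_smul, mul_smul, inv_smul_smul, hp]⟩

theorem Fixer.sq {x : G} (h : Fixer G Ω x) : x ^ 2 = 1 := by rw [← h.1, pow_orderOf_eq_one]

/-- Reflections of a dihedral group. -/
theorem reflection_conj {x y : G} (hx : x ^ 2 = 1) (hy : y ^ 2 = 1) (j : ℕ) :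
    (∃ g : G, g * (if Even j then x else y) * g⁻¹ = x * (x * y) ^ j) := by
  induction j using Nat.twoStepInduction with
  | zero => exact ⟨1, by simp⟩
  | one => exact ⟨1, by simp [← mul_assoc, ← pow_two, hx]⟩
  | more j ih _ =>
    obtain ⟨g, hg⟩ := ih
    refine ⟨(x * y)⁻¹ * g, ?_⟩
    have he : Even (j + 2) ↔ Even j := by simp [Nat.even_add]
    rw [show (if Even (j + 2) then x else y) = if Even j then x else y by simp only [he],
      show (x * y)⁻¹ * g * (if Even j then x else y) * ((x * y)⁻¹ * g)⁻¹ =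
        (x * y)⁻¹ * (g * (if Even j then x else y) * g⁻¹) * (x * y) by group, hg, mul_inv_rev,
      inv_self_of_sq hx, inv_self_of_sq hy, show j + 2 = (1 + j) + 1 by omega, pow_add, pow_add,
      pow_one]
    have hxx : ∀ w : G, x * (x * w) = w := fun w => by rw [← mul_assoc, ← pow_two, hx, one_mul]
    simp only [mul_assoc, hxx]

variable [Finite G] [Finite Ω] {a : Ω} {A : Set Ω} {T : Subgroup G} {S : Sylow 2 G}

theorem Big.exists_smul_fix_eq (h : Big G Ω a A T S) {x : G} (hx : Fixer G Ω x) :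
    ∃ g : G, g • fixedBy Ω x = A := by
  obtain ⟨ho, p, hp⟩ := hx
  obtain ⟨g, -, hg⟩ := h.point.max p (Subgroup.zpowers x)
    (isPGroup_zpowers (k := 1) (by simpa using ho)) (Subgroup.zpowers_le.2 hp)
  refine ⟨g, ?_⟩
  rw [MulAction.smul_fixedBy]
  exact fixing_fixedBy_eq h.hyp.fix4 h.four (h.fixing (hg x (Subgroup.mem_zpowers x)))
    fun e => by rw [conj_eq_one_iff.1 e, orderOf_one] at ho; omega

/-- A fixer preserving the fixed set of another has the same fixed set. -/
theorem Big.fix_eq_of_stab [MulAction.IsPretransitive G Ω] (h : Big G Ω a A T S)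
    (hno : ∀ v ∈ (S : Subgroup G), v ∉ T → ¬ Fixer G Ω v) {x y : G} (hx : Fixer G Ω x)
    (hy : Fixer G Ω y) (hstab : y • fixedBy Ω x = fixedBy Ω x) :
    fixedBy Ω y = fixedBy Ω x := by
  obtain ⟨hSA, -, -⟩ := h.le_stab
  obtain ⟨g, hg⟩ := h.exists_smul_fix_eq hx
  have hy1 : g * y * g⁻¹ ∈ stabilizer G A := by
    rw [MulAction.mem_stabilizer_iff, ← hg, mul_smul, inv_smul_smul, mul_smul, hstab]
  have hyo := hy.conj g
  obtain ⟨s, hs, hsy⟩ := conj_into S.2 hSA (fun R hR _ => by
    haveI : Fact (Nat.Prime 2) := ⟨Nat.prime_two⟩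
    obtain ⟨R', hR'⟩ := hR.exists_le_sylow
    exact (Subgroup.card_le_of_le hR').trans (le_of_eq (R'.card_eq_multiplicity.trans
      S.card_eq_multiplicity.symm)))
    (isPGroup_zpowers (k := 1) (by simpa using hyo.1)) (Subgroup.zpowers_le.2 hy1)
  have hmem := hsy _ (Subgroup.mem_zpowers _)
  have hT : s * (g * y * g⁻¹) * s⁻¹ ∈ T := by
    by_contra hne
    exact hno _ hmem hne (hyo.conj s)
  have h1 : fixedBy Ω (s * (g * y * g⁻¹) * s⁻¹) = A :=
    fixing_fixedBy_eq h.hyp.fix4 h.four (h.fixing hT) fun e => by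
      have := (hyo.conj s).1
      rw [e, orderOf_one] at this
      omega
  rw [← MulAction.smul_fixedBy, ← MulAction.smul_fixedBy, ← hg] at h1
  have h2 : s • g • fixedBy Ω x = g • fixedBy Ω x := by
    rw [hg]; exact hs
  exact smul_left_cancel g (smul_left_cancel s (h1.trans h2.symm))

/-- The product of two fixers moving a fixed set to the same place has odd order. -/
theorem Big.pair [MulAction.IsPretransitive G Ω] (h : Big G Ω a A T S)
    (hno : ∀ v ∈ (S : Subgroup G), v ∉ T → ¬ Fixer G Ω v) {c x y : G} (hc : Fixer G Ω c)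
    (hx : Fixer G Ω x) (hy : Fixer G Ω y) (hmove : x • fixedBy Ω c ≠ fixedBy Ω c)
    (heq : x • fixedBy Ω c = y • fixedBy Ω c) :
    x * y ∈ stabilizer G (fixedBy Ω c) ∧ Odd (orderOf (x * y)) := by
  have hxy : x * y ∈ stabilizer G (fixedBy Ω c) := by
    rw [MulAction.mem_stabilizer_iff, mul_smul, ← heq, ← mul_smul, ← pow_two, hx.sq, one_smul]
  refine ⟨hxy, ?_⟩
  by_contra hodd
  rw [Nat.not_odd_iff_even] at hodd
  obtain ⟨k, hk⟩ := hodd
  set w := (x * y) ^ k with hw
  have hk0 : 0 < k := by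
    have := orderOf_pos (x * y)
    omega
  have hwo : orderOf w = 2 := orderOf_eq_two (by
      rw [hw, ← pow_mul, mul_two, ← hk, pow_orderOf_eq_one])
    fun e => by
      have := Nat.le_of_dvd hk0 (orderOf_dvd_of_pow_eq_one e)
      omega
  have hwx : x * w = w * x := by
    have h1 : x * (x * y) * x⁻¹ = (x * y)⁻¹ := by
      rw [mul_inv_rev, inv_self_of_sq hy.sq, inv_self_of_sq hx.sq, ← mul_assoc x x, ← pow_two,
        hx.sq, one_mul]
    rw [← mul_inv_eq_iff_eq_mul, hw, ← conj_pow, h1, inv_pow, ← hw]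
    exact inv_self_of_sq (by rw [← hwo, pow_orderOf_eq_one])
  have hwc : w • fixedBy Ω c = fixedBy Ω c := pow_mem hxy k
  have hwB : w • fixedBy Ω x = fixedBy Ω x := mem_stabilizer_of_commute hwx.symm
  by_cases hwf : ∃ p : Ω, w • p = p
  · have hwF : Fixer G Ω w := ⟨hwo, hwf⟩
    have h1 := h.fix_eq_of_stab hno hc hwF hwc
    have h2 := h.fix_eq_of_stab hno hx hwF hwB
    refine hmove ?_
    rw [← h1, h2]
    exact mem_stabilizer_of_commute rfl
  · have hrefl : Fixer G Ω (x * w) := by
      obtain ⟨g, hg⟩ := reflection_conj hx.sq hy.sq k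
      rw [hw, ← hg]
      split_ifs
      exacts [hx.conj g, hy.conj g]
    have hst : (x * w) • fixedBy Ω x = fixedBy Ω x := by
      rw [mul_smul, hwB]
      exact mem_stabilizer_of_commute rfl
    have h1 := h.fix_eq_of_stab hno hx hrefl hst
    obtain ⟨-, p, hp⟩ := hx
    apply hwf
    refine ⟨p, ?_⟩
    have h2 : p ∈ fixedBy Ω (x * w) := h1 ▸ hp
    have h3 : (x * w) • p = p := h2
    rw [mul_smul] at h3
    exact MulAction.injective x (h3.trans hp.symm)

/-- A product fixing a block pointwise is trivial. -/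
theorem Big.eq_of_mem_fixing (h : Big G Ω a A T S) {c x y : G} (hc : Fixer G Ω c)
    (hx : Fixer G Ω x) (hy : Fixer G Ω y) (hmove : x • fixedBy Ω c ≠ fixedBy Ω c)
    (hK : x * y ∈ fixingSubgroup G (fixedBy Ω c)) : x = y := by
  by_contra hne
  set B := fixedBy Ω c with hB
  have hB4 : B.ncard = 4 := by
    obtain ⟨pc, hpc⟩ := hc.2
    exact h.hyp.fix_eq hc.1 hpc
  have hne1 : x * y ≠ 1 := fun e => hne (by
    rw [← inv_eq_of_mul_eq_one_right e, inv_self_of_sq hx.sq])
  have h1 := fixing_fixedBy_eq h.hyp.fix4 hB4 hK hne1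
  have h2 : x * (x * y) * x⁻¹ = (x * y)⁻¹ := by
    rw [mul_inv_rev, inv_self_of_sq hy.sq, inv_self_of_sq hx.sq, ← mul_assoc x x, ← pow_two,
      hx.sq, one_mul]
  have h3 : x • B = fixedBy Ω (x * y) := by
    rw [← h1, MulAction.smul_fixedBy, h2, MulAction.fixedBy_inv]
  exact hmove (h3.trans h1)

/-- At most three involutions fix the block pointwise. -/
theorem Big.card_inv_le [IsSimpleGroup G] [FaithfulSMul G Ω] [MulAction.IsPretransitive G Ω]
    (h : Big G Ω a A T S) (hno : ∀ v ∈ (S : Subgroup G), v ∉ T → ¬ Fixer G Ω v) :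
    {x : G | orderOf x = 2 ∧ fixedBy Ω x = A}.ncard ≤ 3 := by
  classical
  haveI : Fact (Nat.Prime 2) := ⟨Nat.prime_two⟩
  letI := Fintype.ofFinite G
  obtain ⟨hSA, hTn, hreg⟩ := h.le_stab
  obtain ⟨e⟩ := exists_equiv_four h.four
  obtain ⟨z, hz, hzo⟩ : ∃ z ∈ T, orderOf z = 2 := by
    obtain ⟨u, hu, hu1⟩ : ∃ u ∈ T, u ≠ 1 := by
      by_contra hne
      push Not at hne
      have := h.large
      rw [(Subgroup.eq_bot_iff_forall _).2 hne, Subgroup.card_bot] at this
      omega
    obtain ⟨j, hj⟩ := exists_involution_pow h.point.isP hu hu1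
    exact ⟨_, pow_mem hu j, hj⟩
  have hzA : fixedBy Ω z = A := fixing_fixedBy_eq h.hyp.fix4 h.four (h.fixing hz)
    fun e => by rw [e, orderOf_one] at hzo; omega
  have hzF : Fixer G Ω z := ⟨hzo, a, h.point.fix hz⟩
  set J := Finset.univ.filter (fun x : G => Fixer G Ω x) with hJ
  set O := J.image (fixedBy Ω) with hO
  set I := (J.filter fun x => fixedBy Ω x = A).card with hI
  have hIeq : {x : G | orderOf x = 2 ∧ fixedBy Ω x = A}.ncard = I := by
    rw [hI, ← Set.ncard_coe_finset]
    congr 1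
    ext x
    simp only [hJ, Finset.coe_filter, Finset.mem_filter, Finset.mem_univ, true_and, Set.mem_setOf_eq]
    exact ⟨fun hx => ⟨⟨hx.1, a, (hx.2.symm ▸ h.mem : a ∈ fixedBy Ω x)⟩, hx.2⟩,
      fun hx => ⟨hx.1.1, hx.2⟩⟩
  have hfib : ∀ B ∈ O, (J.filter fun x => fixedBy Ω x = B).card = I := by
    intro B hB
    obtain ⟨c, hc, rfl⟩ := Finset.mem_image.1 hB
    obtain ⟨g, hg⟩ := h.exists_smul_fix_eq (Finset.mem_filter.1 hc).2
    refine Finset.card_nbij' (fun x => g * x * g⁻¹) (fun x => g⁻¹ * x * g) ?_ ?_ ?_ ?_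
    · intro x hx
      simp only [hJ, Finset.coe_filter, Finset.mem_filter, Finset.mem_univ, true_and,
        Set.mem_setOf_eq] at hx ⊢
      exact ⟨hx.1.conj g, by rw [← MulAction.smul_fixedBy, hx.2, hg]⟩
    · intro x hx
      simp only [hJ, Finset.coe_filter, Finset.mem_filter, Finset.mem_univ, true_and,
        Set.mem_setOf_eq] at hx ⊢
      refine ⟨by simpa using hx.1.conj g⁻¹, ?_⟩
      have := MulAction.smul_fixedBy (α := Ω) x g⁻¹
      rw [inv_inv] at this
      rw [← this, hx.2, ← hg, inv_smul_smul]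
    · intro x _; group
    · intro x _; group
  have hJO : J.card = O.card * I := by
    rw [Finset.card_eq_sum_card_fiberwise (f := fixedBy Ω) (t := O)
      (fun x hx => Finset.mem_image_of_mem _ hx), Finset.sum_congr rfl hfib, Finset.sum_const,
      smul_eq_mul]
  have hzO : A ∈ O := Finset.mem_image.2 ⟨z, by simpa [hJ] using hzF, hzA⟩
  have hO2 : 2 ≤ O.card := by
    obtain ⟨p, hp⟩ : ∃ p, p ∉ A := by
      by_contra hne
      push Not at hne
      have := four_lt_card (Ω := Ω) h.hyp.na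
      rw [← Set.ncard_univ, ← Set.eq_univ_of_forall hne, h.four] at this
      omega
    obtain ⟨g, hg⟩ := MulAction.exists_smul_eq G a p
    have h1 : g • A ∈ O := Finset.mem_image.2 ⟨g * z * g⁻¹, by simpa [hJ] using hzF.conj g,
      by rw [← MulAction.smul_fixedBy, hzA]⟩
    have h2 : g • A ≠ A := fun e => hp (e ▸ hg ▸ Set.smul_mem_smul_set h.mem)
    exact Finset.one_lt_card.2 ⟨_, h1, _, hzO, h2⟩
  -- the image of the stabiliser of `A` has at most twelve elements
  set ρ := FixityFour.four G e with hρ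
  set Sb := ((S : Subgroup G).subgroupOf (stabilizer G A)).map ρ with hSb
  have hρker : ∀ g (hg : g ∈ stabilizer G A), ρ ⟨g, hg⟩ = 1 ↔ g ∈ fixingSubgroup G A :=
    fun g hg => four_eq_one_iff e ⟨g, hg⟩
  have hS4 := h.point.card_sylow_four S h.degree
  have hindex : Nat.card (ρ.range ⧸ Sb.subgroupOf ρ.range) ≤ 3 := by
    have hk := SectRank.card_inf_ker_mul_card_map ρ ((S : Subgroup G).subgroupOf (stabilizer G A))
    have hker : Nat.card ↥((S : Subgroup G).subgroupOf (stabilizer G A) ⊓ ρ.ker) = Nat.card T := by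
      rw [← Subgroup.card_map_of_injective (stabilizer G A).subtype_injective]
      congr 2
      ext x
      simp only [Subgroup.mem_map, Subgroup.coe_subtype, Subgroup.mem_inf, Subgroup.mem_subgroupOf,
        MonoidHom.mem_ker]
      constructor
      · rintro ⟨⟨g, hg⟩, ⟨hgS, hg1⟩, rfl⟩
        exact hreg a h.mem g hgS (mem_fixing_iff.1 ((hρker g hg).1 hg1) h.mem)
      · intro hx
        exact ⟨⟨x, hSA (h.le hx)⟩, ⟨h.le hx, (hρker x _).2 (h.fixing hx)⟩, rfl⟩
    rw [hker, Nat.card_congr (Subgroup.subgroupOfEquivOfLe hSA).toEquiv, hS4, mul_comm 4] at hk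
    have hSb4 : Nat.card Sb = 4 := Nat.eq_of_mul_eq_mul_left Nat.card_pos hk
    have h24 : Nat.card ρ.range ∣ 24 := by
      have := ρ.range.card_subgroup_dvd_card
      rwa [Nat.card_eq_fintype_card (α := Equiv.Perm (Fin 4)), Fintype.card_perm, Fintype.card_fin,
        show Nat.factorial 4 = 24 by decide] at this
    have h8 : ¬ 8 ∣ Nat.card ρ.range := by
      intro h8
      have hkT : Nat.card T ∣ Nat.card ρ.ker := by
        rw [← Nat.card_congr (Subgroup.subgroupOfEquivOfLe (h.fixing.trans fixing_le_stabilizer)).toEquiv]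
        exact Subgroup.card_dvd_of_le fun x hx =>
          MonoidHom.mem_ker.2 ((hρker x x.2).2 (h.fixing hx))
      have hG : Nat.card T * 8 ∣ Nat.card G := by
        refine dvd_trans ?_ (Subgroup.card_subgroup_dvd_card (stabilizer G A))
        have hc := ρ.ker.card_mul_index
        rw [Subgroup.index_ker] at hc
        exact hc ▸ Nat.mul_dvd_mul hkT h8
      obtain ⟨i, hi⟩ := card_sub_of_pGroup h.point.isP le_rfl
      rw [hi, show (8 : ℕ) = 2 ^ 3 by norm_num, ← pow_add,
        Nat.Prime.pow_dvd_iff_le_factorization Nat.prime_two Nat.card_pos.ne'] at hG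
      have h1 : 2 ^ (i + 3) ≤ Nat.card S := by
        rw [S.card_eq_multiplicity]
        exact Nat.pow_le_pow_right two_pos hG
      rw [hS4, pow_add, ← hi] at h1
      have := h.large
      omega
    have h12 : Nat.card ρ.range ≤ 12 := by
      obtain ⟨c, hc⟩ := h24
      rcases Nat.lt_or_ge c 2 with hc2 | hc2
      · interval_cases c
        · omega
        · exact absurd (by rw [show Nat.card ρ.range = 24 by omega]; norm_num) h8
      · have h1 : Nat.card ρ.range * 2 ≤ 24 := hc ▸ Nat.mul_le_mul_left _ hc2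
        omega
    have hle : Sb ≤ ρ.range := Subgroup.map_le_range _ _
    have h1 := (Sb.subgroupOf ρ.range).card_mul_index
    rw [Nat.card_congr (Subgroup.subgroupOfEquivOfLe hle).toEquiv, hSb4] at h1
    rw [← Subgroup.index_eq_card]
    omega
  have hSbp : IsPGroup 2 Sb :=
    (S.2.of_equiv (Subgroup.subgroupOfEquivOfLe hSA).symm).map _
  have hbound : (J.filter fun x => fixedBy Ω x ≠ A).card ≤ 3 * (O.erase A).card := by
    refine Finset.card_le_mul_card_image_of_maps_to (f := fun x : G => x • A) ?_ 3 ?_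
    · intro x hx
      simp only [hJ, Finset.mem_filter, Finset.mem_univ, true_and] at hx
      refine Finset.mem_erase.2 ⟨fun e => hx.2 ?_, Finset.mem_image.2 ⟨x * z * x⁻¹, by
        simpa [hJ] using hzF.conj x, by rw [← MulAction.smul_fixedBy, hzA]⟩⟩
      rw [← hzA]
      exact h.fix_eq_of_stab hno hzF hx.1 (by rw [hzA]; exact e)
    · intro B hB
      set L := (J.filter fun x => fixedBy Ω x ≠ A).filter fun x => x • A = B with hL
      rcases L.eq_empty_or_nonempty with hL0 | ⟨x0, hx0⟩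
      · show L.card ≤ 3
        rw [hL0]; simp
      have hLmem : ∀ x ∈ L, Fixer G Ω x ∧ x • A ≠ A ∧ x • A = B := by
        intro x hx
        simp only [hL, hJ, Finset.mem_filter, Finset.mem_univ, true_and] at hx
        refine ⟨hx.1.1, fun e => hx.1.2 ?_, hx.2⟩
        rw [← hzA]
        exact h.fix_eq_of_stab hno hzF hx.1.1 (by rw [hzA]; exact e)
      obtain ⟨hx0F, hx0A, hx0B⟩ := hLmem x0 hx0
      have hm : ∀ x ∈ L, x0 * x ∈ stabilizer G A := fun x hx => by
        obtain ⟨hxF, -, hxB⟩ := hLmem x hx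
        have := (h.pair hno hzF hx0F hxF (by rw [hzA]; exact hx0A)
          (by rw [hzA, hx0B, hxB])).1
        rwa [hzA] at this
      let f : L → ρ.range ⧸ Sb.subgroupOf ρ.range := fun x =>
        ((⟨ρ ⟨x0 * x, hm x x.2⟩, _, rfl⟩ : ρ.range) : ρ.range ⧸ Sb.subgroupOf ρ.range)
      show L.card ≤ 3
      refine le_trans ?_ hindex
      rw [← Fintype.card_coe, ← Nat.card_eq_fintype_card]
      refine Nat.card_le_card_of_injective f fun x y hxy => Subtype.ext ?_
      obtain ⟨hxF, hxA, hxB⟩ := hLmem x x.2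
      obtain ⟨hyF, -, hyB⟩ := hLmem y y.2
      obtain ⟨hst, hodd⟩ := h.pair hno hzF hxF hyF (by rw [hzA]; exact hxA)
        (by rw [hzA, hxB, hyB])
      rw [hzA] at hst
      simp only [f, QuotientGroup.eq, Subgroup.mem_subgroupOf, Subgroup.coe_mul,
        InvMemClass.coe_inv] at hxy
      have he : (⟨x0 * x, hm x x.2⟩ : stabilizer G A)⁻¹ * ⟨x0 * y, hm y y.2⟩ = ⟨(x : G) * y, hst⟩ := by
        refine Subtype.ext ?_
        show (x0 * (x : G))⁻¹ * (x0 * y) = x * y
        rw [mul_inv_rev, inv_self_of_sq hxF.sq, mul_assoc, inv_mul_cancel_left]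
      rw [← map_inv, ← map_mul, he] at hxy
      obtain ⟨i, hi⟩ := orderOf_dvd_two_pow hSbp hxy
      have hdvd : orderOf (ρ ⟨(x : G) * y, hst⟩) ∣ orderOf ((x : G) * y) := by
        have := orderOf_map_dvd ρ ⟨(x : G) * y, hst⟩
        rwa [Subgroup.orderOf_mk] at this
      have h1 : orderOf (ρ ⟨(x : G) * y, hst⟩) = 1 :=
        Nat.eq_one_of_dvd_coprimes (Nat.Coprime.pow_right i hodd.coprime_two_right) hdvd (hi ▸ dvd_rfl)
      exact h.eq_of_mem_fixing hzF hxF hyF (by rw [hzA]; exact hxA)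
        (by rw [hzA]; exact (hρker _ hst).1 (orderOf_eq_one_iff.1 h1))
  have hsplit := Finset.card_filter_add_card_filter_not (s := J) (fun x => fixedBy Ω x = A)
  rw [Finset.card_erase_of_mem hzO] at hbound
  rw [← hI, hJO] at hsplit
  rw [hIeq]
  obtain ⟨q, hq⟩ : ∃ q, O.card = q + 1 := ⟨O.card - 1, by omega⟩
  rw [hq, Nat.add_sub_cancel] at hbound
  have h2 : (J.filter fun x => fixedBy Ω x ≠ A).card = q * I := by
    rw [hq, Nat.succ_mul] at hsplit
    change I + (J.filter fun x => fixedBy Ω x ≠ A).card = q * I + I at hsplit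
    omega
  rw [h2, mul_comm 3] at hbound
  exact Nat.le_of_mul_le_mul_left hbound (by omega)

/-- A fixed-point-free involution centralising all involutions of `T` preserves no other block. -/
theorem Big.block_unique [MulAction.IsPretransitive G Ω] (h : Big G Ω a A T S)
    (hno : ∀ v ∈ (S : Subgroup G), v ∉ T → ¬ Fixer G Ω v) {z e : G}
    (hz : orderOf z = 2 ∧ fixedBy Ω z = A) (he : orderOf e = 2 ∧ fixedBy Ω e = A)
    (hze : orderOf (z * e) = 2 ∧ fixedBy Ω (z * e) = A) (hne : z ≠ e)
    (hinv : ∀ x : G, orderOf x = 2 → fixedBy Ω x = A → x = z ∨ x = e ∨ x = z * e)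
    {v : G} (hvo : orderOf v = 2) (hvfree : ∀ p : Ω, v • p ≠ p) (hvz : v * z = z * v)
    (hve : v * e = e * v) {c : G} (hc : Fixer G Ω c) (hvc : v • fixedBy Ω c = fixedBy Ω c) :
    fixedBy Ω c = A := by
  classical
  letI := Fintype.ofFinite G
  by_contra hcA
  have hv2 : v ^ 2 = 1 := by rw [← hvo, pow_orderOf_eq_one]
  set C := Finset.univ.filter (fun x : G => Fixer G Ω x ∧ x * v = v * x ∧
    fixedBy Ω x ≠ fixedBy Ω c) with hC
  set F := (Finset.univ.filter (fun x : G => Fixer G Ω x ∧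
    v • fixedBy Ω x = fixedBy Ω x)).image (fixedBy Ω) with hF
  have hcF : fixedBy Ω c ∈ F := Finset.mem_image.2 ⟨c, by simp [hc, hvc], rfl⟩
  have haA : ∀ x : G, fixedBy Ω x = A → x • a = a := fun x hx => (hx.symm ▸ h.mem : a ∈ fixedBy Ω x)
  have hzF : Fixer G Ω z := ⟨hz.1, a, haA z hz.2⟩
  have hvA : v • A = A := by rw [← hz.2]; exact mem_stabilizer_of_commute hvz
  have hAF : A ∈ F := Finset.mem_image.2 ⟨z, by simp [hzF, hz.2, hvA], hz.2⟩
  -- the map to the other blocks
  have hupper : C.card ≤ (F.erase (fixedBy Ω c)).card := by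
    refine Finset.card_le_card_of_injOn (fun x : G => x • fixedBy Ω c) ?_ ?_
    · intro x hx
      simp only [hC, Finset.mem_coe, Finset.mem_filter, Finset.mem_univ, true_and] at hx
      obtain ⟨hxF, hxv, hxne⟩ := hx
      refine Finset.mem_erase.2 ⟨fun e' => hxne (h.fix_eq_of_stab hno hc hxF e'), ?_⟩
      refine Finset.mem_image.2 ⟨x * c * x⁻¹, ?_, (MulAction.smul_fixedBy (α := Ω) c x).symm⟩
      simp only [Finset.mem_filter, Finset.mem_univ, true_and]
      refine ⟨hc.conj x, ?_⟩
      rw [← MulAction.smul_fixedBy, ← mul_smul, ← hxv, mul_smul, hvc]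
    · intro x hx y hy hxy
      simp only [hC, Finset.coe_filter, Finset.mem_univ, true_and, Set.mem_setOf_eq] at hx hy
      obtain ⟨hxF, hxv, hxne⟩ := hx
      obtain ⟨hyF, hyv, -⟩ := hy
      have hmove : x • fixedBy Ω c ≠ fixedBy Ω c := fun e' => hxne (h.fix_eq_of_stab hno hc hxF e')
      obtain ⟨hst, hodd⟩ := h.pair hno hc hxF hyF hmove hxy
      obtain ⟨pc, hpc⟩ := hc.2
      refine h.eq_of_mem_fixing hc hxF hyF hmove (mem_fixing_of_odd_commute
        (h.hyp.fix_eq hc.1 hpc) hst hvc hodd (by rw [hv2]; exact one_mem _)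
        (fun p _ => hvfree p) ?_)
      rw [mul_assoc, hyv, ← mul_assoc, hxv, mul_assoc]
  -- the lower bound
  have hlower : (F.erase (fixedBy Ω c)).card + 2 ≤ C.card := by
    have h3 : ({z, e, z * e} : Finset G) ⊆ C.filter (fun x => fixedBy Ω x = A) := by
      intro x hx
      simp only [Finset.mem_insert, Finset.mem_singleton] at hx
      simp only [hC, Finset.mem_filter, Finset.mem_univ, true_and]
      rcases hx with rfl | rfl | rfl
      · exact ⟨⟨⟨hz.1, a, haA _ hz.2⟩, hvz.symm, hz.2 ▸ Ne.symm hcA⟩, hz.2⟩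
      · exact ⟨⟨⟨he.1, a, haA _ he.2⟩, hve.symm, he.2 ▸ Ne.symm hcA⟩, he.2⟩
      · exact ⟨⟨⟨hze.1, a, haA _ hze.2⟩, (commute_mul hvz hve).symm, hze.2 ▸ Ne.symm hcA⟩, hze.2⟩
    have h3c : ({z, e, z * e} : Finset G).card = 3 := by
      rw [Finset.card_insert_of_notMem, Finset.card_insert_of_notMem, Finset.card_singleton]
      · simp only [Finset.mem_singleton]
        intro e'
        have : z = 1 := mul_eq_right.1 e'.symm
        rw [this, orderOf_one] at hz
        omega
      · simp only [Finset.mem_insert, Finset.mem_singleton, not_or]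
        refine ⟨hne, fun e' => ?_⟩
        have : e = 1 := mul_eq_left.1 e'.symm
        rw [this, orderOf_one] at he
        omega
    have h4 : ((F.erase (fixedBy Ω c)).erase A).card ≤
        (C.filter (fun x => ¬ fixedBy Ω x = A)).card := by
      refine le_trans (Finset.card_le_card (t := (C.filter (fun x => ¬ fixedBy Ω x = A)).image
        (fixedBy Ω)) ?_) Finset.card_image_le
      intro B hB
      simp only [Finset.mem_erase, hF, Finset.mem_image, Finset.mem_filter, Finset.mem_univ,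
        true_and] at hB
      obtain ⟨hBA, hBc, x, ⟨hxF, hxB⟩, rfl⟩ := hB
      -- one of the three involutions of this block commutes with `v`
      obtain ⟨g, hg⟩ := h.exists_smul_fix_eq hxF
      have hgB : fixedBy Ω x = g⁻¹ • A := by rw [← hg, inv_smul_smul]
      have hconj : ∀ t, fixedBy Ω t = A → fixedBy Ω (g⁻¹ * t * g) = fixedBy Ω x := fun t ht => by
        have := MulAction.smul_fixedBy (α := Ω) t g⁻¹
        rw [inv_inv] at this
        rw [← this, ht, hgB]
      have hperm : ∀ t, orderOf t = 2 → fixedBy Ω t = fixedBy Ω x →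
          t = g⁻¹ * z * g ∨ t = g⁻¹ * e * g ∨ t = g⁻¹ * (z * e) * g := fun t ht htB => by
        have h1 := hinv (g * t * g⁻¹) (((MulAut.conj g).orderOf_eq t).trans ht)
          (by rw [← MulAction.smul_fixedBy, htB, hg])
        rcases h1 with h1 | h1 | h1
        exacts [Or.inl (by rw [← h1]; group), Or.inr (Or.inl (by rw [← h1]; group)),
          Or.inr (Or.inr (by rw [← h1]; group))]
      have hmap : ∀ t, orderOf t = 2 → fixedBy Ω t = fixedBy Ω x →
          orderOf (v * t * v⁻¹) = 2 ∧ fixedBy Ω (v * t * v⁻¹) = fixedBy Ω x := fun t ht htB =>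
        ⟨((MulAut.conj v).orderOf_eq t).trans ht, by rw [← MulAction.smul_fixedBy, htB, hxB]⟩
      have hex : ∃ t, orderOf t = 2 ∧ fixedBy Ω t = fixedBy Ω x ∧ v * t * v⁻¹ = t := by
        by_contra hno'
        push Not at hno'
        have hvv : ∀ t, v * (v * t * v⁻¹) * v⁻¹ = t := fun t => by
          rw [show v * (v * t * v⁻¹) * v⁻¹ = v ^ 2 * t * (v ^ 2)⁻¹ by rw [pow_two]; group, hv2,
            one_mul, inv_one, mul_one]
        set p := g⁻¹ * z * g with hp
        set q := g⁻¹ * e * g with hq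
        set r := g⁻¹ * (z * e) * g with hr
        have hord : ∀ t, orderOf t = 2 → orderOf (g⁻¹ * t * g) = 2 := fun t ht => by
          have := (MulAut.conj g⁻¹).orderOf_eq t
          simpa [MulAut.conj_apply, ht] using this
        have hP : orderOf p = 2 ∧ fixedBy Ω p = fixedBy Ω x := ⟨hord z hz.1, hconj z hz.2⟩
        have hQ : orderOf q = 2 ∧ fixedBy Ω q = fixedBy Ω x := ⟨hord e he.1, hconj e he.2⟩
        have hR : orderOf r = 2 ∧ fixedBy Ω r = fixedBy Ω x := ⟨hord _ hze.1, hconj _ hze.2⟩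
        have hcan : ∀ {t t' : G}, g⁻¹ * t * g = g⁻¹ * t' * g → t = t' := fun {t t'} e' =>
          mul_left_cancel (mul_right_cancel e')
        have hpq : p ≠ q := fun e' => hne (hcan e')
        have hpr : p ≠ r := fun e' => by
          have h0 : e = 1 := mul_eq_left.1 (hcan e').symm
          have h1 := he.1
          rw [h0, orderOf_one] at h1
          omega
        have hqr : q ≠ r := fun e' => by
          have h0 : z = 1 := mul_eq_right.1 (hcan e').symm
          have h1 := hz.1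
          rw [h0, orderOf_one] at h1
          omega
        have n1 := hno' p hP.1 hP.2
        have n2 := hno' q hQ.1 hQ.2
        have n3 := hno' r hR.1 hR.2
        -- an involution of three things fixes one of them
        have hinj : ∀ {t t' : G}, v * t * v⁻¹ = v * t' * v⁻¹ → t = t' := fun {t t'} e' =>
          mul_left_cancel (mul_right_cancel e')
        have ep := hperm _ (hmap p hP.1 hP.2).1 (hmap p hP.1 hP.2).2
        have eq' := hperm _ (hmap q hQ.1 hQ.2).1 (hmap q hQ.1 hQ.2).2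
        have er := hperm _ (hmap r hR.1 hR.2).1 (hmap r hR.1 hR.2).2
        rcases ep with e1 | e1 | e1
        · exact n1 e1
        · -- `p` and `q` are swapped
          have e2 : v * q * v⁻¹ = p := e1 ▸ hvv p
          rcases er with e3 | e3 | e3
          · have : r = q := hinj (e3.trans e2.symm)
            exact hqr this.symm
          · have : r = p := hinj (e3.trans e1.symm)
            exact hpr this.symm
          · exact n3 e3
        · have e2 : v * r * v⁻¹ = p := e1 ▸ hvv p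
          rcases eq' with e3 | e3 | e3
          · exact hqr (hinj (e3.trans e2.symm))
          · exact n2 e3
          · exact hpq (hinj (e3.trans e1.symm)).symm
      obtain ⟨t, hto, htB, htv⟩ := hex
      refine Finset.mem_image.2 ⟨t, ?_, htB⟩
      simp only [hC, Finset.mem_filter, Finset.mem_univ, true_and]
      obtain ⟨-, p, hp⟩ := hxF
      exact ⟨⟨⟨hto, p, (htB.symm ▸ hp : p ∈ fixedBy Ω t)⟩, (mul_inv_eq_iff_eq_mul.1 htv).symm,
        htB ▸ hBc⟩, htB ▸ hBA⟩
    have h5 := Finset.card_le_card h3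
    rw [h3c] at h5
    have h6 := Finset.card_filter_add_card_filter_not (s := C) (fun x => fixedBy Ω x = A)
    have h7 := Finset.card_erase_add_one (s := F.erase (fixedBy Ω c)) (a := A)
      (Finset.mem_erase.2 ⟨Ne.symm hcA, hAF⟩)
    omega
  omega

/-- Either a strongly embedded subgroup or small gaps. -/
theorem Big.fpf_case [IsSimpleGroup G] [FaithfulSMul G Ω] [MulAction.IsPretransitive G Ω]
    (h : Big G Ω a A T S) (hno : ∀ v ∈ (S : Subgroup G), v ∉ T → ¬ Fixer G Ω v) :
    (∃ H : Subgroup G, Cfsg.IsStronglyEmbedded H) ∨ SGap (S : Subgroup G) := by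
  classical
  haveI : Fact (Nat.Prime 2) := ⟨Nat.prime_two⟩
  obtain ⟨hSA, hTn, hreg⟩ := h.le_stab
  have hTfix : ∀ x ∈ T, x ≠ 1 → fixedBy Ω x = A := fun x hx h1 =>
    fixing_fixedBy_eq h.hyp.fix4 h.four (h.fixing hx) h1
  have hne1 : ∀ {x : G}, orderOf x = 2 → x ≠ 1 := fun {x} hx e => by
    rw [e, orderOf_one] at hx; omega
  by_cases hall : ∀ v ∈ (S : Subgroup G), orderOf v = 2 → v ∈ T
  · left
    have hdvd : 2 ∣ Nat.card G := by
      have h1 := S.1.card_subgroup_dvd_card
      rw [h.point.card_sylow_four S h.degree] at h1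
      exact dvd_trans ⟨2 * Nat.card T, by ring⟩ h1
    have hproper : A ≠ Set.univ := fun e => by
      have := four_lt_card (Ω := Ω) h.hyp.na
      rw [← Set.ncard_univ, ← e, h.four] at this
      omega
    obtain ⟨h1, h2, h3⟩ := strong_of_common_fixed S hSA ⟨a, h.mem⟩ hproper
      (fun i hi hio => hTfix i (hall i hi hio) (hne1 hio)) hdvd
    exact ⟨stabilizer G A, h1, even_iff_two_dvd.2 h2, fun g hg => Nat.not_even_iff_odd.1
      fun he => h3 g hg (even_iff_two_dvd.1 he)⟩
  push Not at hall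
  obtain ⟨v0, hv0S, hv0o, hv0T⟩ := hall
  right
  have hS4 := h.point.card_sylow_four S h.degree
  -- a central involution inside `T`
  obtain ⟨z, hzT, hz1, hz2, hzc⟩ : ∃ z ∈ T, z ≠ 1 ∧ z ^ 2 = 1 ∧
      ∀ s ∈ (S : Subgroup G), s * z = z * s := by
    haveI : (T.subgroupOf (S : Subgroup G)).Normal := ⟨fun x hx g => hTn g g.2 x hx⟩
    have hnb : ¬ T.subgroupOf (S : Subgroup G) ≤ ⊥ := fun hle => by
      have h1 := h.large
      rw [← Nat.card_congr (Subgroup.subgroupOfEquivOfLe h.le).toEquiv, le_bot_iff.1 hle,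
        Subgroup.card_bot] at h1
      omega
    obtain ⟨z, hz, hz1, hz2, hzc⟩ := exists_central_mod S.2 (R := ⊤) le_top bot_le
      (fun g _ x hx => by rw [Subgroup.mem_bot] at hx ⊢; rw [hx, mul_one, mul_inv_cancel])
      (fun g _ x hx => hTn g g.2 x hx) hnb
    rw [Subgroup.mem_bot] at hz1 hz2
    exact ⟨z, hz, fun e => hz1 (Subtype.ext e), congrArg Subtype.val hz2, fun s hs => congrArg
      Subtype.val (mul_inv_eq_iff_eq_mul.1 (mul_inv_eq_one.1 (Subgroup.mem_bot.1
        (hzc ⟨s, hs⟩ (Subgroup.mem_top _)))))⟩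
  have hzo := orderOf_eq_two hz2 hz1
  by_cases hone : ∀ x ∈ T, orderOf x = 2 → x = z
  · refine sgap_of_sub h.le (i := 4) (a := 4) hS4.le (fun H hH => ?_) (by norm_num)
    exact gap_of_one_involution (h.point.isP.to_le hH) fun x hx y hy hxo hyo => by
      rw [hone x (hH hx) hxo, hone y (hH hy) hyo]
  push Not at hone
  obtain ⟨e, heT, heo, hez⟩ := hone
  exfalso
  have he2 : e ^ 2 = 1 := by rw [← heo, pow_orderOf_eq_one]
  have hze1 : z * e ≠ 1 := fun e' => hez (by
    rw [← inv_eq_of_mul_eq_one_right e', inv_self_of_sq hz2])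
  have hzeo : orderOf (z * e) = 2 := orderOf_eq_two (by
    rw [(show Commute z e from (hzc e (h.le heT)).symm).mul_pow, hz2, he2, one_mul]) hze1
  have hzA := hTfix z hzT hz1
  have heA := hTfix e heT (hne1 heo)
  have hzeA := hTfix _ (mul_mem hzT heT) hze1
  have hinv : ∀ x : G, orderOf x = 2 → fixedBy Ω x = A → x = z ∨ x = e ∨ x = z * e := by
    intro x hxo hxA
    by_contra hne
    push Not at hne
    have hsub : ((({z, e, z * e, x} : Finset G)) : Set G) ⊆
        {x : G | orderOf x = 2 ∧ fixedBy Ω x = A} := by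
      intro y hy
      simp only [Finset.coe_insert, Finset.coe_singleton, Set.mem_insert_iff,
        Set.mem_singleton_iff] at hy
      rcases hy with rfl | rfl | rfl | rfl
      exacts [⟨hzo, hzA⟩, ⟨heo, heA⟩, ⟨hzeo, hzeA⟩, ⟨hxo, hxA⟩]
    have h1 := Set.ncard_le_ncard hsub (Set.toFinite _)
    have h2 := h.card_inv_le hno
    rw [Set.ncard_coe_finset, Finset.card_insert_of_notMem, Finset.card_insert_of_notMem,
      Finset.card_insert_of_notMem, Finset.card_singleton] at h1
    · omega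
    all_goals simp [Ne.symm hez, Ne.symm hne.1, Ne.symm hne.2.1, Ne.symm hne.2.2, hne1 heo, hz1]
  have hsplit : ∀ v, orderOf v = 2 → v ∈ (S : Subgroup G) → v ∉ T → ∀ p : Ω, v • p ≠ p :=
    fun v hvo hvS hvT p hp => hno v hvS hvT ⟨hvo, p, hp⟩
  -- no fixed-point-free involution centralises the three
  have hnone : ∀ v, orderOf v = 2 → (∀ p : Ω, v • p ≠ p) → v * z = z * v → v * e = e * v → False := by
    intro v hvo hvfree hvz hve
    have huniq : ∀ c, Fixer G Ω c → v • fixedBy Ω c = fixedBy Ω c → fixedBy Ω c = A := fun c hc hvc =>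
      h.block_unique hno ⟨hzo, hzA⟩ ⟨heo, heA⟩ ⟨hzeo, hzeA⟩ (Ne.symm hez) hinv hvo hvfree hvz hve hc hvc
    obtain ⟨p, hp⟩ : ∃ p, p ∉ A := by
      by_contra hne
      push Not at hne
      have := four_lt_card (Ω := Ω) h.hyp.na
      rw [← Set.ncard_univ, ← Set.eq_univ_of_forall hne, h.four] at this
      omega
    obtain ⟨g, hg⟩ := MulAction.exists_smul_eq G a p
    have hzF : Fixer G Ω z := ⟨hzo, a, h.point.fix hzT⟩
    obtain ⟨x, hxF, hxB⟩ : ∃ x, Fixer G Ω x ∧ fixedBy Ω x ≠ A :=
      ⟨g * z * g⁻¹, hzF.conj g, fun e' => hp (by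
        rw [← e', ← MulAction.smul_fixedBy, hzA, ← hg]
        exact Set.smul_mem_smul_set h.mem)⟩
    have hv2 : v ^ 2 = 1 := by rw [← hvo, pow_orderOf_eq_one]
    have hfree' : ∀ g : G, ¬ Fixer G Ω (g * v * g⁻¹) := fun g hF => by
      obtain ⟨-, q, hq⟩ := hF
      exact hvfree (g⁻¹ • q) (by rwa [mul_smul, mul_smul, smul_eq_iff_eq_inv_smul] at hq)
    set k := orderOf (x * v) with hk
    have heven : Even k := by
      by_contra hodd
      obtain ⟨g, hg⟩ := reflection_conj hxF.sq hv2 k
      rw [if_neg hodd, hk, pow_orderOf_eq_one, mul_one] at hg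
      exact hfree' g (hg.symm ▸ hxF)
    obtain ⟨j, hj⟩ := heven
    set w := (x * v) ^ j with hw
    have hwo : orderOf w = 2 := orderOf_eq_two (by
        rw [hw, ← pow_mul, mul_two, ← hj, hk, pow_orderOf_eq_one])
      fun e' => by
        have h0 := orderOf_pos (x * v)
        have := Nat.le_of_dvd (by omega) (orderOf_dvd_of_pow_eq_one e')
        omega
    have hw2 : w⁻¹ = w := inv_self_of_sq (by rw [← hwo, pow_orderOf_eq_one])
    have hwx : x * w = w * x := by
      have h1 : x * (x * v) * x⁻¹ = (x * v)⁻¹ := by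
        rw [mul_inv_rev, inv_self_of_sq hv2, inv_self_of_sq hxF.sq, ← mul_assoc x x, ← pow_two,
          hxF.sq, one_mul]
      rw [← mul_inv_eq_iff_eq_mul, hw, ← conj_pow, h1, inv_pow, ← hw, hw2]
    have hwv : v * w = w * v := by
      have h1 : v * (x * v) * v⁻¹ = (x * v)⁻¹ := by
        rw [mul_inv_rev, inv_self_of_sq hv2, inv_self_of_sq hxF.sq, ← mul_assoc, mul_assoc (v * x),
          ← pow_two, hv2, mul_one]
      rw [← mul_inv_eq_iff_eq_mul, hw, ← conj_pow, h1, inv_pow, ← hw, hw2]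
    have hvA : v • A = A := by rw [← hzA]; exact mem_stabilizer_of_commute hvz
    have hwfree : ∀ q : Ω, w • q ≠ q := by
      intro q hq
      have hwF : Fixer G Ω w := ⟨hwo, q, hq⟩
      have h1 := huniq w hwF (mem_stabilizer_of_commute hwv)
      refine hxB ?_
      rw [← h1]
      exact h.fix_eq_of_stab hno hwF hxF (mem_stabilizer_of_commute hwx)
    have hwB : w • fixedBy Ω x = fixedBy Ω x := mem_stabilizer_of_commute hwx.symm
    have hwA : w • A = A := by
      have h1 := huniq (w * z * w⁻¹) (hzF.conj w) (by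
        rw [← MulAction.smul_fixedBy, hzA, ← mul_smul, hwv, mul_smul, hvA])
      rwa [← MulAction.smul_fixedBy, hzA] at h1
    -- `x w` is not a fixer, so `v w` is one
    have hjodd : ¬ Even j := by
      intro hje
      obtain ⟨g, hg⟩ := reflection_conj hxF.sq hv2 j
      rw [if_pos hje, ← hw] at hg
      have hF : Fixer G Ω (x * w) := hg ▸ hxF.conj g
      have h1 := h.fix_eq_of_stab hno hxF hF (by
        rw [mul_smul, hwB]; exact mem_stabilizer_of_commute rfl)
      obtain ⟨-, q, hq⟩ := hxF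
      refine hwfree q ?_
      have h2 : (x * w) • q = q := (h1 ▸ hq : q ∈ fixedBy Ω (x * w))
      rw [mul_smul] at h2
      exact MulAction.injective x (h2.trans hq.symm)
    have hvw : Fixer G Ω (v * w) := by
      obtain ⟨g, hg⟩ := reflection_conj hv2 hxF.sq j
      rw [if_neg hjodd] at hg
      have h1 : (v * x) ^ j = w := by
        rw [show v * x = (x * v)⁻¹ by rw [mul_inv_rev, inv_self_of_sq hv2, inv_self_of_sq hxF.sq],
          inv_pow, ← hw, hw2]
      rw [h1] at hg
      exact hg ▸ hxF.conj g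
    have h1 := h.fix_eq_of_stab hno hzF hvw (by rw [hzA, mul_smul, hwA, hvA])
    rw [hzA] at h1
    have hwcomm : ∀ t, (t = z ∨ t = e) → w * t = t * w := by
      intro t ht
      have hvt : Commute v t := by rcases ht with rfl | rfl; exacts [hvz, hve]
      have htze : Commute (v * w) t := by
        have hze : Commute z e := (hzc e (h.le heT)).symm
        rcases hinv _ hvw.1 h1 with h2 | h2 | h2 <;> rw [h2] <;> rcases ht with rfl | rfl
        exacts [Commute.refl _, hze, hze.symm, Commute.refl _, (Commute.refl _).mul_left hze.symm,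
          hze.mul_left (Commute.refl _)]
      have := hvt.inv_left.mul_left htze
      rwa [inv_mul_cancel_left] at this
    exact hxB (h.block_unique hno ⟨hzo, hzA⟩ ⟨heo, heA⟩ ⟨hzeo, hzeA⟩ (Ne.symm hez) hinv hwo hwfree
      (hwcomm z (Or.inl rfl)) (hwcomm e (Or.inr rfl)) hxF hwB)
  -- transfer
  set U := (S : Subgroup G) ⊓ Subgroup.centralizer {e} with hU
  have hcov : ∀ s ∈ (S : Subgroup G), s * e * s⁻¹ = e ∨ s * e * s⁻¹ = z * e := by
    intro s hs
    have hmem : s * e * s⁻¹ ∈ T := hTn s hs e heT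
    have ho : orderOf (s * e * s⁻¹) = 2 := ((MulAut.conj s).orderOf_eq e).trans heo
    rcases hinv _ ho (hTfix _ hmem (hne1 ho)) with h1 | h1 | h1
    · refine absurd ?_ hez
      have : e = s⁻¹ * z * s := by rw [← h1]; group
      rw [this, mul_assoc, ← hzc s hs, inv_mul_cancel_left]
    · exact Or.inl h1
    · exact Or.inr h1
  have hv0U : v0 ∉ U := fun hv => hnone v0 hv0o (hsplit v0 hv0o hv0S hv0T) (hzc v0 hv0S)
    (Subgroup.mem_centralizer_singleton_iff.1 hv.2)
  have hidx : (U.subgroupOf (S : Subgroup G)).index = 2 := by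
    rw [Subgroup.index_eq_two_iff]
    refine ⟨⟨v0, hv0S⟩, fun b => ?_⟩
    have hv0e : v0 * e * v0⁻¹ = z * e := (hcov v0 hv0S).resolve_left fun h1 => hv0U
      ⟨hv0S, Subgroup.mem_centralizer_singleton_iff.2 (mul_inv_eq_iff_eq_mul.1 h1)⟩
    have key : ∀ s : (S : Subgroup G), s ∈ U.subgroupOf (S : Subgroup G) ↔ (s : G) * e * (s : G)⁻¹ = e := by
      intro s
      rw [Subgroup.mem_subgroupOf, hU, Subgroup.mem_inf, Subgroup.mem_centralizer_singleton_iff,
        mul_inv_eq_iff_eq_mul]
      exact ⟨fun hs => hs.2, fun hs => ⟨s.2, hs⟩⟩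
    rw [key, key, Subgroup.coe_mul]
    have hbe : ∀ {t}, v0 * e * v0⁻¹ = t → ((b : G) * v0) * e * ((b : G) * v0)⁻¹ =
        (b : G) * t * (b : G)⁻¹ := fun {t} ht => by rw [← ht]; group
    rw [hbe hv0e, show (b : G) * (z * e) * (b : G)⁻¹ = z * ((b : G) * e * (b : G)⁻¹) by
      rw [← mul_assoc, hzc b b.2]; group]
    rcases hcov b b.2 with h1 | h1 <;> rw [h1]
    · refine Or.inr ⟨rfl, fun h2 => hz1 (mul_eq_right.1 h2)⟩
    · refine Or.inl ⟨?_, fun h2 => hz1 (mul_eq_right.1 h2)⟩
      rw [← mul_assoc, ← pow_two, hz2, one_mul]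
  obtain ⟨g, hg⟩ := exists_conj_mem_of_minimal h.hyp.na S U hidx hv0S hv0U fun v hvS hvU => by
    rw [hv0o]
    obtain ⟨i, hi⟩ := orderOf_dvd_two_pow S.2 hvS
    rcases i with _ | i
    · exact absurd (orderOf_eq_one_iff.1 (by simpa using hi)) fun e' => hvU (by rw [e']; exact one_mem U)
    · rw [hi, pow_succ]
      have := Nat.two_pow_pos i
      omega
  have hgo : orderOf (g * v0 * g⁻¹) = 2 := ((MulAut.conj g).orderOf_eq v0).trans hv0o
  have hgfree : ∀ p : Ω, (g * v0 * g⁻¹) • p ≠ p := fun p hp =>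
    hsplit v0 hv0o hv0S hv0T (g⁻¹ • p) (by rwa [mul_smul, mul_smul, smul_eq_iff_eq_inv_smul] at hp)
  exact hnone _ hgo hgfree (hzc _ hg.1) (Subgroup.mem_centralizer_singleton_iff.1 hg.2)

end CfsgLib.FixityFour
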