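import Cfsg.Agent.FixityFour.FourBasic

/-!
Setting for the case of fixity four in which every involution fixes zero or four points.
-/

set_option autoImplicit false

namespace CfsgLib.FixityFour

open MulAction
open scoped Pointwise

variable {G Ω : Type*} [Group G] [MulAction G Ω]

/-- Every involution fixing a point fixes exactly four, and nothing fixes more. -/
structure Hyp (G Ω : Type*) [Group G] [MulAction G Ω] : Prop where
  na : ¬ IsMulCommutative G
  fix4 : Fix4 G Ω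
  inv : ∀ t : G, orderOf t = 2 → ∀ x : Ω, t • x = x → (fixedBy Ω t).ncard = 4

/-- A Sylow 2-subgroup of the stabiliser of a point. -/
structure Point (a : Ω) (T : Subgroup G) : Prop where
  isP : IsPGroup 2 T
  fix : T ≤ stabilizer G a
  max : ∀ (x : Ω) (U : Subgroup G), IsPGroup 2 U → U ≤ stabilizer G x →
    ∃ g : G, g • x = a ∧ ∀ u ∈ U, g * u * g⁻¹ ∈ T

section General

variable [Finite G]

theorem orderOf_dvd_two_pow {U : Subgroup G} (hU : IsPGroup 2 U) {u : G} (hu : u ∈ U) :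
    ∃ k, orderOf u = 2 ^ k := by
  haveI : Fact (Nat.Prime 2) := ⟨Nat.prime_two⟩
  obtain ⟨k, hk⟩ := IsPGroup.iff_orderOf.1 hU ⟨u, hu⟩
  exact ⟨k, by rwa [Subgroup.orderOf_mk] at hk⟩

omit [Finite G] in
theorem orderOf_eq_two {g : G} (h : g ^ 2 = 1) (h1 : g ≠ 1) : orderOf g = 2 :=
  haveI : Fact (Nat.Prime 2) := ⟨Nat.prime_two⟩
  orderOf_eq_prime h h1

theorem exists_involution_pow {U : Subgroup G} (hU : IsPGroup 2 U) {u : G} (hu : u ∈ U)
    (h1 : u ≠ 1) : ∃ j : ℕ, orderOf (u ^ j) = 2 := by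
  haveI : Fact (Nat.Prime 2) := ⟨Nat.prime_two⟩
  obtain ⟨k, hk⟩ := orderOf_dvd_two_pow hU hu
  rcases k with _ | k
  · exact absurd (orderOf_eq_one_iff.1 (by simpa using hk)) h1
  · exact ⟨2 ^ k, exists_pow_orderOf_prime hk⟩

omit [Finite G] in
theorem isPGroup_zpowers {g : G} {k : ℕ} (h : orderOf g = 2 ^ k) :
    IsPGroup 2 (Subgroup.zpowers g) :=
  IsPGroup.of_card (n := k) (by rw [Nat.card_zpowers, h])

theorem card_conj_le {U V : Subgroup G} {g : G} (h : ∀ u ∈ U, g * u * g⁻¹ ∈ V) :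
    Nat.card U ≤ Nat.card V :=
  Nat.card_le_card_of_injective (fun u : U => (⟨g * u * g⁻¹, h u u.2⟩ : V)) fun x y e => by
    simpa using congrArg Subtype.val e

/-- Sylow conjugacy inside a subgroup. -/
theorem conj_into {L T : Subgroup G} (hT : IsPGroup 2 T) (hTL : T ≤ L)
    (hmax : ∀ R : Subgroup G, IsPGroup 2 R → R ≤ L → Nat.card R ≤ Nat.card T)
    {U : Subgroup G} (hU : IsPGroup 2 U) (hUL : U ≤ L) : ∃ g ∈ L, ∀ u ∈ U, g * u * g⁻¹ ∈ T := by
  haveI : Fact (Nat.Prime 2) := ⟨Nat.prime_two⟩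
  have hT' : IsPGroup 2 (T.subgroupOf L) := hT.of_equiv (Subgroup.subgroupOfEquivOfLe hTL).symm
  have hU' : IsPGroup 2 (U.subgroupOf L) := hU.of_equiv (Subgroup.subgroupOfEquivOfLe hUL).symm
  obtain ⟨R, hR⟩ := hT'.exists_le_sylow
  obtain ⟨Q, hQ⟩ := hU'.exists_le_sylow
  have hRT : (R : Subgroup L).map L.subtype = T := by
    refine (Subgroup.eq_of_le_of_card_ge ?_ (hmax _ (R.2.map L.subtype)
      (Subgroup.map_subtype_le _))).symm
    intro t ht
    exact ⟨⟨t, hTL ht⟩, hR ht, rfl⟩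
  obtain ⟨g, hg⟩ := MulAction.exists_smul_eq L Q R
  refine ⟨g, g.2, fun u hu => ?_⟩
  rw [← hRT]
  refine ⟨g * ⟨u, hUL hu⟩ * g⁻¹, ?_, rfl⟩
  rw [← hg]
  exact Subgroup.smul_mem_pointwise_smul _ (MulAut.conj g) _ (hQ hu)

/-- A proper subgroup of a 2-group is normalised by an element outside it. -/
theorem exists_normalizing {S P : Subgroup G} (hS : IsPGroup 2 S) (hPS : P ≤ S) (hne : P ≠ S) :
    ∃ s ∈ S, s ∉ P ∧ ∀ x ∈ P, s * x * s⁻¹ ∈ P := by
  haveI : Fact (Nat.Prime 2) := ⟨Nat.prime_two⟩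
  haveI : Group.IsNilpotent S := hS.isNilpotent
  have hlt : P.subgroupOf S < ⊤ := lt_top_iff_ne_top.2 fun h =>
    hne (le_antisymm hPS (Subgroup.subgroupOf_eq_top.1 h))
  obtain ⟨s, hs, hsn⟩ := SetLike.exists_of_lt (Group.normalizerCondition_of_isNilpotent _ hlt)
  exact ⟨s, s.2, hsn, fun x hx => (Subgroup.mem_normalizer_iff.1 hs ⟨x, hPS hx⟩).1 hx⟩

variable [Finite Ω]

/-- Orbit-stabiliser inside a set stabiliser. -/
theorem card_le_ncard_mul {U : Subgroup G} {A : Set Ω} (hUA : U ≤ stabilizer G A) {x : Ω}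
    (hx : x ∈ A) : Nat.card U ≤ A.ncard * Nat.card ↥(U ⊓ stabilizer G x) := by
  have h1 := (stabilizer U x).card_mul_index
  rw [MulAction.index_stabilizer] at h1
  have h2 : (orbit U x).ncard ≤ A.ncard := Set.ncard_le_ncard (fun y hy => by
    obtain ⟨u, rfl⟩ := hy
    exact smul_mem_of_stabilizer (hUA u.2) hx) (Set.toFinite _)
  have h3 : Nat.card (stabilizer U x) = Nat.card ↥(U ⊓ stabilizer G x) := by
    rw [← Subgroup.card_map_of_injective U.subtype_injective]
    congr 2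
    ext y
    simp only [Subgroup.mem_map, Subgroup.coe_subtype, Subgroup.mem_inf, Subtype.exists,
      exists_and_right, exists_eq_right, MulAction.mem_stabilizer_iff]
    exact ⟨fun ⟨hy, h⟩ => ⟨hy, h⟩, fun ⟨hy, h⟩ => ⟨hy, h⟩⟩
  rw [← h1, ← h3, mul_comm A.ncard]
  exact Nat.mul_le_mul_left _ h2

/-- A fixed-point-free group of four points is transitive, so what commutes with it is free. -/
theorem mem_fixing_of_commute_regular {U : Subgroup G} {A : Set Ω} (hUA : U ≤ stabilizer G A)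
    {x : Ω} (hx : x ∈ A) (hfree : ∀ u ∈ U, u • x = x → u = 1) (hcard : Nat.card U = A.ncard)
    {g : G} (hgx : g • x = x) (hc : ∀ u ∈ U, g * u = u * g) : g ∈ fixingSubgroup G A := by
  rw [mem_fixing_iff]
  intro y hy
  have hsub : (fun u : G => u • x) '' (U : Set G) = A := by
    refine Set.eq_of_subset_of_ncard_le ?_ ?_ (Set.toFinite _)
    · rintro _ ⟨u, hu, rfl⟩
      exact smul_mem_of_stabilizer (hUA hu) hx
    · rw [Set.InjOn.ncard_image, ← Nat.card_coe_set_eq (U : Set G)]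
      · exact hcard.ge
      · intro u hu v hv huv
        have := hfree (v⁻¹ * u) (U.mul_mem (U.inv_mem hv) hu)
          (by rw [mul_smul, show u • x = v • x from huv, inv_smul_smul])
        exact (inv_mul_eq_one.1 this).symm
  rw [← hsub] at hy
  obtain ⟨u, hu, rfl⟩ := hy
  show g • u • x = u • x
  rw [← mul_smul, hc u hu, mul_smul, hgx]

omit [Finite Ω] in
theorem exists_point [MulAction.IsPretransitive G Ω] (a : Ω) : ∃ T : Subgroup G, Point a T := by
  haveI : Fact (Nat.Prime 2) := ⟨Nat.prime_two⟩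
  obtain ⟨R⟩ : Nonempty (Sylow 2 (stabilizer G a)) := inferInstance
  refine ⟨(R : Subgroup (stabilizer G a)).map (stabilizer G a).subtype, R.2.map _,
    Subgroup.map_subtype_le _, fun x U hU hUx => ?_⟩
  obtain ⟨g, hg⟩ := MulAction.exists_smul_eq G x a
  have hU' : IsPGroup 2 (U.map (MulAut.conj g).toMonoidHom) := hU.map _
  have hle : U.map (MulAut.conj g).toMonoidHom ≤ stabilizer G a := by
    rintro _ ⟨u, hu, rfl⟩
    rw [MulEquiv.coe_toMonoidHom, MulAut.conj_apply, MulAction.mem_stabilizer_iff, ← hg, mul_smul,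
      inv_smul_smul, mul_smul, MulAction.mem_stabilizer_iff.1 (hUx hu)]
  obtain ⟨Q, hQ⟩ := (hU'.of_equiv (Subgroup.subgroupOfEquivOfLe hle).symm).exists_le_sylow
  obtain ⟨h, hh⟩ := MulAction.exists_smul_eq (stabilizer G a) Q R
  refine ⟨h * g, by rw [mul_smul, hg, MulAction.mem_stabilizer_iff.1 h.2], fun u hu => ?_⟩
  refine ⟨h * ⟨g * u * g⁻¹, hle ⟨u, hu, rfl⟩⟩ * h⁻¹, ?_, ?_⟩
  · rw [← hh]
    exact Subgroup.smul_mem_pointwise_smul _ (MulAut.conj h) _ (hQ ⟨u, hu, rfl⟩)
  · simp [mul_assoc]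

end General

variable [Finite G] [Finite Ω] {a : Ω} {T : Subgroup G}

omit [Finite Ω] in
theorem Point.card_le (hT : Point a T) {x : Ω} {U : Subgroup G} (hU : IsPGroup 2 U)
    (hUx : U ≤ stabilizer G x) : Nat.card U ≤ Nat.card T := by
  obtain ⟨g, -, hg⟩ := hT.max x U hU hUx
  exact card_conj_le hg

/-- The pointwise stabiliser part of `T` is as large as possible. -/
theorem Point.card_fixing_le (hT : Point a T) {A : Set Ω} (haA : a ∈ A)
    (hTA : T ≤ stabilizer G A) {U : Subgroup G} (hU : IsPGroup 2 U)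
    (hUA : U ≤ fixingSubgroup G A) : Nat.card U ≤ Nat.card ↥(T ⊓ fixingSubgroup G A) := by
  obtain ⟨g, hg, hgU⟩ := conj_into hT.isP (L := stabilizer G a ⊓ stabilizer G A)
    (le_inf hT.fix hTA) (fun R hR hRL => hT.card_le hR (hRL.trans inf_le_left)) hU
    (fun u hu => ⟨mem_fixing_iff.1 (hUA hu) haA, fixing_le_stabilizer (hUA hu)⟩)
  exact card_conj_le (g := g) fun u hu => ⟨hgU u hu, normalizer_fixing_le hg.2 (hUA hu)⟩

theorem Point.card_stab_eq [MulAction.IsPretransitive G Ω] (hT : Point a T) :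
    Nat.card T = 2 ^ (Nat.card (stabilizer G a)).factorization 2 := by
  haveI : Fact (Nat.Prime 2) := ⟨Nat.prime_two⟩
  obtain ⟨R⟩ : Nonempty (Sylow 2 (stabilizer G a)) := inferInstance
  have h1 : Nat.card T ∣ Nat.card (stabilizer G a) := Subgroup.card_dvd_of_le hT.fix
  obtain ⟨i, hi⟩ := IsPGroup.iff_card.1 hT.isP
  have h2 := hT.card_le (R.2.map (stabilizer G a).subtype) (Subgroup.map_subtype_le _)
  rw [Subgroup.card_map_of_injective (stabilizer G a).subtype_injective, R.card_eq_multiplicity,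
    hi] at h2
  rw [hi] at h1 ⊢
  exact le_antisymm (Nat.pow_le_pow_right two_pos
    ((Nat.Prime.pow_dvd_iff_le_factorization Nat.prime_two Nat.card_pos.ne').1 h1)) h2

theorem Point.card_sylow [MulAction.IsPretransitive G Ω] (hT : Point a T) (S : Sylow 2 G) :
    Nat.card S = Nat.card T * 2 ^ (Nat.card Ω).factorization 2 := by
  haveI : Fact (Nat.Prime 2) := ⟨Nat.prime_two⟩
  haveI : Nonempty Ω := ⟨a⟩
  rw [S.card_eq_multiplicity, ← (stabilizer G a).card_mul_index,
    MulAction.index_stabilizer_of_transitive G a,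
    Nat.factorization_mul Nat.card_pos.ne' Nat.card_pos.ne', Finsupp.add_apply, pow_add,
    hT.card_stab_eq]

theorem Point.card_sylow_four [MulAction.IsPretransitive G Ω] (hT : Point a T) (S : Sylow 2 G)
    (h : Nat.card Ω % 8 = 4) : Nat.card S = 4 * Nat.card T := by
  haveI : Nonempty Ω := ⟨a⟩
  have h1 : (2 : ℕ) ^ 2 ∣ Nat.card Ω := by norm_num; omega
  have h2 : ¬ (2 : ℕ) ^ 3 ∣ Nat.card Ω := by norm_num; omega
  rw [Nat.Prime.pow_dvd_iff_le_factorization Nat.prime_two Nat.card_pos.ne'] at h1 h2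
  rw [hT.card_sylow S, show (Nat.card Ω).factorization 2 = 2 by omega, mul_comm]
  norm_num

/-- A 2-subgroup without fixers is at most as large as the 2-part of the degree. -/
theorem Point.card_free_mul_le [MulAction.IsPretransitive G Ω] (hT : Point a T) (S : Sylow 2 G)
    {H : Subgroup G} (hH : IsPGroup 2 H)
    (hfree : ∀ x ∈ H, orderOf x = 2 → fixedBy Ω x = ∅) :
    Nat.card H * Nat.card T ≤ Nat.card S := by
  haveI : Fact (Nat.Prime 2) := ⟨Nat.prime_two⟩
  haveI : Nonempty Ω := ⟨a⟩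
  have h1 : Nat.card H ∣ Nat.card Ω := by
    rw [← Set.ncard_univ Ω]
    refine card_dvd_ncard_of_free (fun _ _ x _ => Set.mem_univ _) fun u hu x _ hux => ?_
    by_contra h1
    obtain ⟨j, hj⟩ := exists_involution_pow hH hu h1
    have hx : x ∈ fixedBy Ω (u ^ j) := fixedBy_subset_pow u j hux
    rw [hfree _ (pow_mem hu j) hj] at hx
    exact hx
  obtain ⟨i, hi⟩ := IsPGroup.iff_card.1 hH
  rw [hi] at h1 ⊢
  rw [hT.card_sylow S, mul_comm]
  exact Nat.mul_le_mul_left _ (Nat.pow_le_pow_right two_pos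
    ((Nat.Prime.pow_dvd_iff_le_factorization Nat.prime_two Nat.card_pos.ne').1 h1))

omit [Finite G] [Finite Ω] in
theorem Hyp.fix_eq (hG : Hyp G Ω) {t : G} (ht : orderOf t = 2) {x : Ω} (hx : t • x = x) :
    (fixedBy Ω t).ncard = 4 :=
  hG.inv t ht x hx

omit [Finite G] in
theorem Hyp.degree [IsSimpleGroup G] (hG : Hyp G Ω) {t : G} (ht : orderOf t = 2) {x : Ω}
    (hx : t • x = x) : 4 ≤ Nat.card Ω ∧ 4 ∣ Nat.card Ω := by
  have h1 := hG.fix_eq ht hx
  have h2 : (fixedBy Ω t).ncard ≤ Nat.card Ω := by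
    rw [← Set.ncard_univ]
    exact Set.ncard_le_ncard (Set.subset_univ _) (Set.toFinite _)
  have h3 := involution_moved_dvd Ω hG.na (show t ^ 2 = 1 by rw [← ht, pow_orderOf_eq_one])
  omega

/-- The sign relation for an element with a given fixed set of its involution. -/
theorem sign_split [IsSimpleGroup G] (hG : Hyp G Ω) {A : Set Ω} (hA : A.ncard = 4)
    (e : A ≃ Fin 4) {g : G} {k m : ℕ} (hg : orderOf g = 2 ^ (k + 1))
    (hfix : fixedBy Ω (g ^ 2 ^ k) = A) (hgA : g ∈ stabilizer G A)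
    (hm : Nat.card Ω - 4 = m * 2 ^ (k + 1)) :
    Equiv.Perm.sign (four G e ⟨g, hgA⟩) * (-1) ^ m = 1 := by
  classical
  haveI : Fact (Nat.Prime 2) := ⟨Nat.prime_two⟩
  have := Fintype.ofFinite Ω
  have hs := sign_eq_one Ω hG.na g
  set σ := MulAction.toPermHom G Ω g with hσdef
  set π := actOn G A ⟨g, hgA⟩ with hπdef
  set τ := σ * (Equiv.Perm.ofSubtype π)⁻¹ with hτdef
  have hout : ∀ x, x ∉ A → τ x = g • x := by
    intro x hx
    rw [hτdef, Equiv.Perm.mul_apply, ← map_inv, Equiv.Perm.ofSubtype_apply_of_not_mem _ hx]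
    rfl
  have hin : ∀ x, x ∈ A → τ x = x := by
    intro x hx
    rw [hτdef, Equiv.Perm.mul_apply, ← map_inv, Equiv.Perm.ofSubtype_apply_of_mem _ hx]
    exact congrArg Subtype.val (π.apply_symm_apply ⟨x, hx⟩)
  have hout' : ∀ x, x ∉ A → g • x ∉ A := by
    intro x hx h
    have h' := smul_mem_of_stabilizer (inv_mem hgA) h
    rw [inv_smul_smul] at h'
    exact hx h'
  have hpow : ∀ (j : ℕ) x, x ∉ A → (τ ^ j) x = g ^ j • x ∧ g ^ j • x ∉ A := by
    intro j
    induction j with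
    | zero => exact fun x hx => by simpa using hx
    | succ j ih =>
      intro x hx
      obtain ⟨h1, h2⟩ := ih x hx
      rw [pow_succ', Equiv.Perm.mul_apply, h1, hout _ h2, pow_succ', mul_smul]
      exact ⟨rfl, hout' _ h2⟩
  have hpin : ∀ (j : ℕ) x, x ∈ A → (τ ^ j) x = x := fun j x hx =>
    Equiv.Perm.pow_apply_eq_self_of_apply_eq_self (hin x hx) j
  have hτ1 : τ ^ 2 ^ (k + 1) = 1 := Equiv.ext fun x => by
    by_cases hx : x ∈ A
    · exact hpin _ x hx
    · rw [(hpow _ x hx).1, ← hg, pow_orderOf_eq_one, one_smul]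
      rfl
  have hper : ∀ x, (τ ^ 2 ^ k) x = x → τ x = x := fun x hx => by
    by_cases hxA : x ∈ A
    · exact hin x hxA
    · rw [(hpow _ x hxA).1] at hx
      exact absurd (hfix ▸ (hx : x ∈ fixedBy Ω (g ^ 2 ^ k))) hxA
  have hsupp : τ.support.card = m * 2 ^ (k + 1) := by
    rw [← hm, ← hA, ← Set.ncard_compl A (Set.toFinite _), ← Set.ncard_coe_finset]
    congr 1
    ext x
    simp only [Finset.mem_coe, Equiv.Perm.mem_support, Set.mem_compl_iff]
    refine ⟨fun h hx => h (hin x hx), fun hx h => hx ?_⟩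
    rw [hout x hx] at h
    exact hfix ▸ fixedBy_subset_pow g (2 ^ k) h
  have hτs := sign_of_period hτ1 hper hsupp
  rw [hτdef, map_mul, map_inv, hs, one_mul, Equiv.Perm.sign_ofSubtype, Int.units_inv_eq_self] at hτs
  have h4 : Equiv.Perm.sign (four G e ⟨g, hgA⟩) = Equiv.Perm.sign π :=
    Equiv.Perm.sign_permCongr e π
  rw [h4, hτs, ← pow_add, ← two_mul, pow_mul, neg_one_sq, one_pow]

/-- In degree divisible by eight no element of order four acts on the fixed set of its square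
without a fixed point or trivially. -/
theorem no_order_four [IsSimpleGroup G] (hG : Hyp G Ω) (h8 : Nat.card Ω % 8 = 0) {g : G}
    (hg : orderOf g = 4) {A : Set Ω} (hA : A.ncard = 4) (hfix : fixedBy Ω (g ^ 2) = A)
    (hon : g ∈ fixingSubgroup G A ∨ ∀ x ∈ A, g • x ≠ x) : False := by
  obtain ⟨e⟩ := exists_equiv_four hA
  have hgA : g ∈ stabilizer G A :=
    hfix ▸ mem_stabilizer_of_commute (by rw [← pow_succ, ← pow_succ'])
  have hne : 4 ≤ Nat.card Ω := by
    rw [← hA, ← Set.ncard_univ]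
    exact Set.ncard_le_ncard (Set.subset_univ _) (Set.toFinite _)
  have hm : Nat.card Ω - 4 = (Nat.card Ω - 4) / 4 * 2 ^ (1 + 1) := by norm_num; omega
  have hs := sign_split hG hA e (k := 1) (by simpa using hg) (by simpa using hfix) hgA hm
  have hodd : Odd ((Nat.card Ω - 4) / 4) := by rw [Nat.odd_iff]; omega
  rw [hodd.neg_one_pow] at hs
  have h2 : four G e ⟨g, hgA⟩ ^ 2 = 1 := by
    rw [← map_pow, four_eq_one_iff]
    exact mem_fixing_iff.2 hfix.ge
  rcases four_sq_sign _ h2 with h | ⟨-, h⟩ | ⟨h, -⟩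
  · rw [h, map_one] at hs
    exact absurd hs (by decide)
  · rcases hon with hK | hfpf
    · rw [(four_eq_one_iff e _).2 hK] at h
      simp at h
    · rw [Finset.card_eq_zero.2 (Finset.filter_eq_empty_iff.2 fun i _ hi =>
        hfpf _ (e.symm i).2 (exists_mem_fix e hi))] at h
      omega
  · rw [h] at hs
    exact absurd hs (by decide)

/-- In degree divisible by eight the 2-part of a pointwise stabiliser is elementary. -/
theorem sq_eq_one_of_mem_fixing [IsSimpleGroup G] (hG : Hyp G Ω) (h8 : Nat.card Ω % 8 = 0)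
    {A : Set Ω} (hA : A.ncard = 4) {g : G} (hg : g ∈ fixingSubgroup G A) {k : ℕ}
    (hk : orderOf g = 2 ^ k) : g ^ 2 = 1 := by
  by_contra h
  obtain ⟨j, rfl⟩ : ∃ j, k = j + 2 := by
    rcases k with _ | _ | k
    · have h1 : g = 1 := orderOf_eq_one_iff.1 (by simpa using hk)
      exact absurd (show g ^ 2 = 1 by rw [h1, one_pow]) h
    · have h1 : orderOf g = 2 := by simpa using hk
      exact absurd (show g ^ 2 = 1 by rw [← h1, pow_orderOf_eq_one]) h
    · exact ⟨k, rfl⟩
  have hord : orderOf (g ^ 2 ^ j) = 4 := by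
    rw [orderOf_pow' g (pow_ne_zero _ two_ne_zero), hk,
      Nat.gcd_eq_right (pow_dvd_pow 2 (by omega)), Nat.pow_div (by omega) two_pos,
      show j + 2 - j = 2 by omega]
    norm_num
  have hmem := pow_mem hg (2 ^ j)
  refine no_order_four hG h8 hord hA (fixing_fixedBy_eq hG.fix4 hA (pow_mem hmem 2) ?_) (Or.inl hmem)
  intro h1
  have := orderOf_dvd_of_pow_eq_one h1
  rw [hord] at this
  norm_num at this

/-- A group fixing four points centralised by an involution fixing just two of them. -/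
theorem card_le_two_of_commute (hG : Hyp G Ω) {A : Set Ω} (hA : A.ncard = 4) {t : G}
    (ht : orderOf t = 2) (htA : t ∈ stabilizer G A) (htK : t ∉ fixingSubgroup G A) {x : Ω}
    (hx : x ∈ A) (htx : t • x = x) {U : Subgroup G} (hU : U ≤ fixingSubgroup G A)
    (hc : ∀ u ∈ U, u * t = t * u) : Nat.card U ≤ 2 := by
  classical
  obtain ⟨e⟩ := exists_equiv_four hA
  have h2 : four G e ⟨t, htA⟩ ^ 2 = 1 := by
    rw [← map_pow, four_eq_one_iff]
    show t ^ 2 ∈ _
    rw [← ht, pow_orderOf_eq_one]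
    exact one_mem _
  have hinter : (fixedBy Ω t ∩ A).ncard = 2 := by
    rcases four_sq_sign _ h2 with h | ⟨-, h⟩ | ⟨-, h⟩
    · exact absurd ((four_eq_one_iff e _).1 h) htK
    · rw [← h, ← Set.ncard_coe_finset]
      refine Set.ncard_congr (fun y hy => e ⟨y, hy.2⟩) (fun y hy => ?_) (fun y z _ _ h => ?_)
        fun i hi => ?_
      · simpa using (four_fix_iff e ⟨t, htA⟩ ⟨y, hy.2⟩).2 hy.1
      · exact congrArg Subtype.val (e.injective h)
      · exact ⟨e.symm i, ⟨exists_mem_fix (g := ⟨t, htA⟩) e (by simpa using hi), (e.symm i).2⟩, by simp⟩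
    · exact absurd ((four_fix_iff e ⟨t, htA⟩ ⟨x, hx⟩).2 htx) (h _)
  have hd : (fixedBy Ω t \ A).ncard = 2 := by
    have := Set.ncard_inter_add_ncard_sdiff_eq_ncard (fixedBy Ω t) A (Set.toFinite _)
    rw [hinter, hG.fix_eq ht htx] at this
    omega
  have h := card_dvd_ncard_of_free (U := U) (B := fixedBy Ω t \ A) (fun u hu y hy => ⟨?_, ?_⟩)
    (fun u hu y hy huy => ?_)
  · rw [hd] at h
    exact Nat.le_of_dvd two_pos h
  · show t • u • y = u • y
    rw [← mul_smul, ← hc u hu, mul_smul, (hy.1 : t • y = y)]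
  · intro h
    have h' := smul_mem_of_stabilizer (inv_mem (fixing_le_stabilizer (hU hu))) h
    rw [inv_smul_smul] at h'
    exact hy.2 h'
  · by_contra h1
    exact hy.2 (fixing_fixedBy_eq hG.fix4 hA (hU hu) h1 ▸ huy)

end CfsgLib.FixityFour
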