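import Cfsg.Agent.FixityFour.FourSetup

/-!
Point stabilisers whose Sylow 2-subgroup is small: here the sectional 2-rank is at most four.
-/

set_option autoImplicit false

namespace CfsgLib.FixityFour

open MulAction
open scoped Pointwise

variable {G Ω : Type*} [Group G] [MulAction G Ω] [Finite G] [Finite Ω]
variable {a : Ω} {T : Subgroup G} {z : G}

omit [Finite G] [Finite Ω] in
/-- An element commuting with two generators commutes with their product. -/
theorem commute_mul {g x y : G} (hx : g * x = x * g) (hy : g * y = y * g) :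
    g * (x * y) = x * y * g := by
  rw [← mul_assoc, hx, mul_assoc, hy, mul_assoc]

omit [Finite G] [Finite Ω] in
theorem inv_self_of_sq {x : G} (h : x ^ 2 = 1) : x⁻¹ = x :=
  inv_eq_of_mul_eq_one_right (by rwa [← pow_two])

omit [Finite G] [Finite Ω] in
theorem commute_of_sq {x y : G} (hx : x ^ 2 = 1) (hy : y ^ 2 = 1) (hxy : (x * y) ^ 2 = 1) :
    x * y = y * x := by
  have h := inv_self_of_sq hxy
  rw [mul_inv_rev, inv_self_of_sq hx, inv_self_of_sq hy] at h
  exact h.symm

/-- A transitive group of four points and what commutes with it. -/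
theorem mem_fixing_of_commute_trans {U : Subgroup G} {A : Set Ω} (hUA : U ≤ stabilizer G A)
    {x : Ω} (hx : x ∈ A) (hbig : A.ncard * Nat.card ↥(U ⊓ stabilizer G x) ≤ Nat.card U)
    {g : G} (hgx : g • x = x) (hc : ∀ u ∈ U, g * u = u * g) : g ∈ fixingSubgroup G A := by
  have h1 := (stabilizer U x).card_mul_index
  rw [MulAction.index_stabilizer] at h1
  have h3 : Nat.card (stabilizer U x) ≤ Nat.card ↥(U ⊓ stabilizer G x) :=
    Nat.card_le_card_of_injective
      (fun u : stabilizer U x => (⟨((u : U) : G), (u : U).2, u.2⟩ : ↥(U ⊓ stabilizer G x)))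
      fun u v e => Subtype.ext (Subtype.ext (congrArg (fun w : ↥(U ⊓ stabilizer G x) => (w : G)) e))
  have hsub : orbit U x ⊆ A := by
    rintro _ ⟨u, rfl⟩
    exact smul_mem_of_stabilizer (hUA u.2) hx
  have h4 : A.ncard ≤ (orbit U x).ncard := by
    rw [← h1] at hbig
    have h5 : A.ncard * Nat.card (stabilizer U x) ≤ (orbit U x).ncard * Nat.card (stabilizer U x) := by
      rw [mul_comm (orbit U x).ncard]
      exact le_trans (Nat.mul_le_mul_left _ h3) hbig
    exact Nat.le_of_mul_le_mul_right h5 Nat.card_pos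
  rw [mem_fixing_iff]
  intro y hy
  rw [← Set.eq_of_subset_of_ncard_le hsub h4 (Set.toFinite _)] at hy
  obtain ⟨u, rfl⟩ := hy
  show g • (u : G) • x = (u : G) • x
  rw [← mul_smul, hc u u.2, mul_smul, hgx]

/-- The centraliser of a fixer in a 2-group. -/
theorem card_centralizer_fixer_le (hG : Hyp G Ω) (hT : Point a T) {S : Subgroup G}
    (hS : IsPGroup 2 S) {u : G} (hu : orderOf u = 2) {x : Ω} (hx : u • x = x) :
    Nat.card ↥(S ⊓ Subgroup.centralizer {u}) ≤ 4 * Nat.card T := by
  have h1 := card_le_ncard_mul (U := S ⊓ Subgroup.centralizer {u}) (A := fixedBy Ω u) (fun g hg =>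
    mem_stabilizer_of_commute (Subgroup.mem_centralizer_singleton_iff.1 hg.2)) (x := x) hx
  rw [hG.fix_eq hu hx] at h1
  exact le_trans h1 (Nat.mul_le_mul_left _ (hT.card_le (hS.to_le (inf_le_left.trans inf_le_left))
    inf_le_right))

theorem sgap_degree_four [IsSimpleGroup G] [MulAction.IsPretransitive G Ω] (hG : Hyp G Ω)
    (hT : Point a T) {A : Set Ω} (hA : A.ncard = 4) (ha : a ∈ A) (hTA : T ≤ stabilizer G A)
    (hT0 : Nat.card ↥(T ⊓ fixingSubgroup G A) ≤ 4) (h8 : Nat.card Ω % 8 = 4) (S : Sylow 2 G)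
    (hTS : T ≤ (S : Subgroup G)) : SGap (S : Subgroup G) := by
  have h2 := card_le_two_mul_fixing hA hT.isP hTA ha hT.fix
  have hS := hT.card_sylow_four S h8
  rcases le_or_gt (Nat.card (S : Subgroup G)) 16 with h | h
  · exact sgap_of_card h
  have h5 : 5 ≤ Nat.card T := by omega
  obtain ⟨i, hi⟩ := card_sub_of_pGroup hT.isP le_rfl
  have h3 : Nat.card T = 8 := by
    have : 2 < i := by
      by_contra hlt
      have := Nat.pow_le_pow_right (n := 2) two_pos (not_lt.1 hlt)
      omega
    have h6 : 2 ^ 3 ≤ 2 ^ i := Nat.pow_le_pow_right two_pos this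
    omega
  by_cases hel : ∀ x ∈ T, x ^ 2 = 1
  · exfalso
    obtain ⟨t, ht, htK⟩ : ∃ t ∈ T, t ∉ fixingSubgroup G A := by
      by_contra hne
      push Not at hne
      rw [inf_eq_left.2 hne] at hT0
      omega
    have hto : orderOf t = 2 := orderOf_eq_two (hel t ht) fun h => htK (h ▸ one_mem _)
    have := card_le_two_of_commute hG hA hto (hTA ht) htK ha (hT.fix ht)
      (U := T ⊓ fixingSubgroup G A) inf_le_right fun u hu => by
        have h1 := inv_eq_of_mul_eq_one_right (pow_two (u * t) ▸ hel _ (mul_mem hu.1 ht))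
        rw [mul_inv_rev, inv_eq_of_mul_eq_one_right (pow_two t ▸ hel t ht),
          inv_eq_of_mul_eq_one_right (pow_two u ▸ hel u hu.1)] at h1
        exact h1.symm
    omega
  · push Not at hel
    obtain ⟨x, hx, hx2⟩ := hel
    exact sgap_of_card_le_sq S.2 (by omega) (hTS hx) hx2

theorem four_even_sq : ∀ σ : Equiv.Perm (Fin 4), σ ^ 4 = 1 → Equiv.Perm.sign σ = 1 → σ ^ 2 = 1 := by
  decide +kernel

set_option synthInstance.maxSize 4096 in
set_option synthInstance.maxHeartbeats 400000 in
theorem four_swap : ∀ (σ τ : Equiv.Perm (Fin 4)) (i j : Fin 4), i ≠ j → σ ^ 2 = 1 → τ ^ 2 = 1 →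
    σ i = j → τ i = i → τ j = j → τ ≠ 1 → (∀ k, σ k ≠ k) ∨ (∀ k, (τ * σ) k ≠ k) := by
  decide +kernel

/-- Degree divisible by eight, `T` of order four, pointwise part of order two. -/
theorem sgap_four_two [IsSimpleGroup G] (hG : Hyp G Ω) (hT : Point a T)
    (h8 : Nat.card Ω % 8 = 0) (hz : orderOf z = 2) (hzT : z ∈ T) {A : Set Ω}
    (hAz : fixedBy Ω z = A) (hTA : T ≤ stabilizer G A)
    (hT0 : Nat.card ↥(T ⊓ fixingSubgroup G A) ≤ 2) (hT4 : Nat.card T ≤ 4) {S : Subgroup G}
    (hS : IsPGroup 2 S) (hTS : T ≤ S) : SGap S := by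
  have hza : z • a = a := hT.fix hzT
  have hA : A.ncard = 4 := hAz ▸ hG.fix_eq hz hza
  have ha : a ∈ A := hAz ▸ hza
  have hzK : z ∈ fixingSubgroup G A := mem_fixing_iff.2 hAz.ge
  have hz2 : z ^ 2 = 1 := by rw [← hz, pow_orderOf_eq_one]
  set C := S ⊓ Subgroup.centralizer {z} with hCdef
  have hCA : C ≤ stabilizer G A := fun g hg =>
    hAz ▸ mem_stabilizer_of_commute (Subgroup.mem_centralizer_singleton_iff.1 hg.2)
  have hzC : z ∈ C := ⟨hTS hzT, Subgroup.mem_centralizer_singleton_iff.2 rfl⟩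
  have hCp : IsPGroup 2 C := hS.to_le inf_le_left
  rcases le_or_gt (Nat.card C) 8 with h | h
  · exact sgap_of_centralizer_eight hS (hTS hzT) hz2 h
  have hK2 : Nat.card ↥(C ⊓ fixingSubgroup G A) ≤ 2 :=
    (hT.card_fixing_le ha hTA (hCp.to_le inf_le_left) inf_le_right).trans hT0
  have hC16 : 16 ≤ Nat.card C := by
    obtain ⟨i, hi⟩ := card_sub_of_pGroup hCp le_rfl
    have : 3 < i := by
      by_contra hlt
      have := Nat.pow_le_pow_right (n := 2) two_pos (not_lt.1 hlt)
      omega
    have h6 : 2 ^ 4 ≤ 2 ^ i := Nat.pow_le_pow_right two_pos this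
    omega
  have hCa : 4 ≤ Nat.card ↥(C ⊓ stabilizer G a) := by
    have := card_le_ncard_mul hCA ha
    rw [hA] at this
    omega
  obtain ⟨e⟩ := exists_equiv_four hA
  let ψ : C →* ℤˣ := Equiv.Perm.sign.comp ((four G e).comp (Subgroup.inclusion hCA))
  set E := ψ.ker.map C.subtype with hEdef
  have hEC : E ≤ C := Subgroup.map_subtype_le _
  have hEp : IsPGroup 2 E := hCp.to_le hEC
  have hEsign : ∀ x (hx : x ∈ E),
      Equiv.Perm.sign (four G e ⟨x, hCA (Subgroup.map_subtype_le _ hx)⟩) = 1 := by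
    rintro _ ⟨y, hy, rfl⟩
    exact hy
  have hEK : ∀ x (hx : x ∈ E), x ∈ fixingSubgroup G A ∨ ∀ p ∈ A, x • p ≠ p := by
    intro x hx
    set σ := four G e ⟨x, hCA (hEC hx)⟩ with hσ
    obtain ⟨k, hk⟩ := hEp ⟨x, hx⟩
    have h4 : σ ^ 4 = 1 := four_pow_four (k := k) (by
      rw [hσ, ← map_pow, ← map_one (four G e)]
      exact congrArg _ (Subtype.ext (by simpa using congrArg Subtype.val hk)))
    rcases four_sq_sign σ (four_even_sq σ h4 (hEsign x hx)) with h | ⟨h, -⟩ | ⟨-, h⟩
    · exact Or.inl ((four_eq_one_iff e _).1 h)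
    · exact absurd ((hEsign x hx).symm.trans h) (by decide)
    · exact Or.inr fun p hp hxp => h _ ((four_fix_iff e ⟨x, hCA (hEC hx)⟩ ⟨p, hp⟩).2 hxp)
  have hE8 : 8 ≤ Nat.card E := by
    rw [hEdef, Subgroup.card_map_of_injective C.subtype_injective]
    have h1 := ψ.ker.card_mul_index
    rw [Subgroup.index_ker] at h1
    have h2 : Nat.card ψ.range ≤ 2 :=
      le_trans (Finite.card_subtype_le _) (le_of_eq (by rw [Nat.card_eq_fintype_card]; rfl))
    have h3 : Nat.card ψ.ker * Nat.card ψ.range ≤ Nat.card ψ.ker * 2 := Nat.mul_le_mul_left _ h2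
    omega
  have hEa : Nat.card ↥(E ⊓ stabilizer G a) ≤ 2 := by
    refine le_trans (Subgroup.card_le_of_le (K := C ⊓ fixingSubgroup G A) fun x hx => ⟨hEC hx.1, ?_⟩) hK2
    rcases hEK x hx.1 with h | h
    · exact h
    · exact absurd hx.2 (h a ha)
  have hE : Nat.card E = 8 := by
    have := card_le_ncard_mul (hEC.trans hCA) ha
    rw [hA] at this
    omega
  have hzE : z ∈ E := by
    refine ⟨⟨z, hzC⟩, ?_, rfl⟩
    show Equiv.Perm.sign (four G e ⟨z, hCA hzC⟩) = 1
    rw [(four_eq_one_iff e ⟨z, hCA hzC⟩).2 hzK, map_one]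
  have hsq : ∀ x ∈ E, x ^ 2 = 1 := by
    intro x hx
    have hxA : x ^ 2 ∈ fixingSubgroup G A := by
      rw [← four_eq_one_iff e ⟨x ^ 2, pow_mem (hCA (hEC hx)) 2⟩]
      show four G e (⟨x, hCA (hEC hx)⟩ ^ 2) = 1
      rw [map_pow]
      obtain ⟨k, hk⟩ := hEp ⟨x, hx⟩
      exact four_even_sq _ (four_pow_four (k := k) (by
        rw [← map_pow, ← map_one (four G e)]
        exact congrArg _ (Subtype.ext (by simpa using congrArg Subtype.val hk)))) (hEsign x hx)
    by_contra hne
    obtain ⟨k, hk⟩ := orderOf_dvd_two_pow hEp (pow_mem hx 2)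
    have h4 : (x ^ 2) ^ 2 = 1 := sq_eq_one_of_mem_fixing hG h8 hA hxA hk
    refine no_order_four hG h8 ?_ hA (fixing_fixedBy_eq hG.fix4 hA hxA hne) (hEK x hx)
    haveI : Fact (Nat.Prime 2) := ⟨Nat.prime_two⟩
    exact orderOf_eq_prime_pow (n := 1) (by simpa using hne) (by rw [← pow_mul] at h4; simpa using h4)
  refine sgap_of_selfEight hS (hEC.trans inf_le_left) hsq hE fun x hx hc => ?_
  have hxC : x ∈ C := ⟨hx, Subgroup.mem_centralizer_singleton_iff.2 (hc z hzE).symm⟩
  by_contra hxE
  obtain ⟨u, hu, hua⟩ : ∃ u ∈ E, u • a = x • a := by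
    by_contra hne
    push Not at hne
    have hsub : insert (x • a) ((fun u : G => u • a) '' (E : Set G)) ⊆ A := by
      rw [Set.insert_subset_iff]
      refine ⟨smul_mem_of_stabilizer (hCA hxC) ha, ?_⟩
      rintro _ ⟨u, hu, rfl⟩
      exact smul_mem_of_stabilizer (hCA (hEC hu)) ha
    have h1 := Set.ncard_le_ncard hsub (Set.toFinite _)
    rw [Set.ncard_insert_of_notMem (by rintro ⟨u, hu, h⟩; exact hne u hu h) (Set.toFinite _), hA] at h1
    have h2 := card_le_ncard_mul (U := E) (A := (fun u : G => u • a) '' (E : Set G)) (fun v hv => by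
      rw [MulAction.mem_stabilizer_set' (Set.toFinite _)]
      rintro _ ⟨u, hu, rfl⟩
      exact ⟨v * u, mul_mem hv hu, mul_smul v u a⟩) (x := a) ⟨1, one_mem E, one_smul G a⟩
    have h3 : Nat.card ↥(E ⊓ stabilizer G a) * ((fun u : G => u • a) '' (E : Set G)).ncard ≤ 2 * 3 :=
      Nat.mul_le_mul hEa (by omega)
    rw [mul_comm] at h3
    omega
  have hya : (u⁻¹ * x) • a = a := by rw [mul_smul, ← hua, inv_smul_smul]
  have hyc : ∀ v ∈ E, u⁻¹ * x * v = v * (u⁻¹ * x) := fun v hv => by
    have huv : u * v = v * u := by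
      have h1 := inv_eq_of_mul_eq_one_right (pow_two (v * u) ▸ hsq _ (mul_mem hv hu))
      rwa [mul_inv_rev, inv_eq_of_mul_eq_one_right (pow_two u ▸ hsq u hu),
        inv_eq_of_mul_eq_one_right (pow_two v ▸ hsq v hv)] at h1
    exact (((show Commute u v from huv).inv_left).mul_left (show Commute x v from (hc v hv).symm))
  have hyK := mem_fixing_of_commute_trans (hEC.trans hCA) ha (by rw [hA]; omega) hya hyc
  refine hxE ?_
  have hyC : u⁻¹ * x ∈ C := mul_mem (inv_mem (hEC hu)) hxC
  have hyE : u⁻¹ * x ∈ E := by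
    refine ⟨⟨_, hyC⟩, ?_, rfl⟩
    show Equiv.Perm.sign (four G e ⟨_, hCA hyC⟩) = 1
    rw [(four_eq_one_iff e ⟨_, hCA hyC⟩).2 hyK, map_one]
  simpa using mul_mem hu hyE

/-- Degree divisible by eight, `T` of order eight with an involution outside the pointwise part. -/
theorem sgap_eight_involution [IsSimpleGroup G] (hG : Hyp G Ω) (hT : Point a T)
    (h8 : Nat.card Ω % 8 = 0) (hz : orderOf z = 2) (hzT : z ∈ T)
    (hzc : ∀ x ∈ T, x * z = z * x) {A : Set Ω} (hAz : fixedBy Ω z = A)
    (hT0 : 4 ≤ Nat.card ↥(T ⊓ fixingSubgroup G A)) (hT8 : Nat.card T ≤ 8) {t : G} (ht : t ∈ T)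
    (hto : orderOf t = 2) (htK : t ∉ fixingSubgroup G A) {S : Subgroup G}
    (hS : IsPGroup 2 S) (hTS : T ≤ S) : SGap S := by
  have hza : z • a = a := hT.fix hzT
  have hta : t • a = a := hT.fix ht
  have hA : A.ncard = 4 := hAz ▸ hG.fix_eq hz hza
  have ha : a ∈ A := hAz ▸ hza
  have hzK : z ∈ fixingSubgroup G A := mem_fixing_iff.2 hAz.ge
  have hz2 : z ^ 2 = 1 := by rw [← hz, pow_orderOf_eq_one]
  have ht2 : t ^ 2 = 1 := by rw [← hto, pow_orderOf_eq_one]
  set P := S ⊓ Subgroup.centralizer {z} with hPdef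
  have hPA : P ≤ stabilizer G A := fun g hg =>
    hAz ▸ mem_stabilizer_of_commute (Subgroup.mem_centralizer_singleton_iff.1 hg.2)
  have hTP : T ≤ P := fun x hx => ⟨hTS hx, Subgroup.mem_centralizer_singleton_iff.2 (hzc x hx)⟩
  set C := P ⊓ Subgroup.centralizer {t} with hCdef
  set L := C ⊓ stabilizer G a with hLdef
  have hCp : IsPGroup 2 C := hS.to_le (inf_le_left.trans inf_le_left)
  have htc : ∀ x ∈ C, x * t = t * x := fun x hx => Subgroup.mem_centralizer_singleton_iff.1 hx.2
  have hzc' : ∀ x ∈ P, x * z = z * x := fun x hx => Subgroup.mem_centralizer_singleton_iff.1 hx.2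
  have hK2 : Nat.card ↥(L ⊓ fixingSubgroup G A) ≤ 2 :=
    card_le_two_of_commute hG hA hto (hPA (hTP ht)) htK ha hta (U := L ⊓ fixingSubgroup G A)
      inf_le_right fun u hu => htc u hu.1.1
  have hL4 : Nat.card L ≤ 4 := by
    have : Nat.card L ≤ 2 * Nat.card ↥(L ⊓ fixingSubgroup G A) :=
      card_le_two_mul_fixing hA (hCp.to_le inf_le_left)
        ((inf_le_left.trans inf_le_left).trans hPA : L ≤ stabilizer G A) ha inf_le_right
    omega
  have htne : t ≠ 1 := fun h => htK (h ▸ one_mem _)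
  have hzne : z ≠ 1 := fun h => by rw [h, orderOf_one] at hz; omega
  have htz : t ≠ z := fun h => htK (h ▸ hzK)
  have hztne : z * t ≠ 1 := fun h => htz (by
    rw [← inv_eq_of_mul_eq_one_right h, inv_eq_of_mul_eq_one_right (pow_two z ▸ hz2)])
  have hLz : z ∈ L := ⟨⟨hTP hzT, Subgroup.mem_centralizer_singleton_iff.2 (hzc t ht).symm⟩, hza⟩
  have hLt : t ∈ L := ⟨⟨hTP ht, Subgroup.mem_centralizer_singleton_iff.2 rfl⟩, hta⟩
  have hLeq : ∀ x ∈ L, x = 1 ∨ x = z ∨ x = t ∨ x = z * t := by
    intro x hx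
    by_contra hne
    push Not at hne
    obtain ⟨h1, h2, h3, h4⟩ := hne
    classical
    have hsub : (({1, z, t, z * t, x} : Finset G) : Set G) ⊆ (L : Set G) := by
      intro y hy
      simp only [Finset.coe_insert, Finset.coe_singleton, Set.mem_insert_iff,
        Set.mem_singleton_iff] at hy
      rcases hy with rfl | rfl | rfl | rfl | rfl
      exacts [one_mem L, hLz, hLt, mul_mem hLz hLt, hx]
    have h5 := Set.ncard_le_ncard hsub (Set.toFinite _)
    rw [Set.ncard_coe_finset, ← Nat.card_coe_set_eq] at h5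
    change _ ≤ Nat.card L at h5
    rw [Finset.card_insert_of_notMem, Finset.card_insert_of_notMem, Finset.card_insert_of_notMem,
      Finset.card_insert_of_notMem, Finset.card_singleton] at h5
    · omega
    all_goals
      simp [hzne.symm, htne.symm, htz.symm, hztne.symm, h1.symm, h2.symm, h3.symm, h4.symm,
        hzne, htne]
  have hCA : C ≤ stabilizer G A := inf_le_left.trans hPA
  by_cases hCL : ∀ x ∈ C, x • a = a
  · -- the four group is its own centraliser
    rcases le_or_gt (Nat.card P) 8 with h | h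
    · exact sgap_of_centralizer_eight hS (hTS hzT) hz2 h
    have hCle : C ≤ L := fun x hx => ⟨hx, hCL x hx⟩
    have hPS : P = S := by
      by_contra hne
      obtain ⟨s, hsS, hsP, hs⟩ := exists_normalizing hS inf_le_left hne
      obtain ⟨w, hw, hwc, hwne⟩ : ∃ w, s * z * s⁻¹ = w ∧ (∀ x ∈ P, x * w = w * x) ∧ w ≠ 1 := by
        refine ⟨_, rfl, fun x hx => ?_, fun h1 => hzne (conj_eq_one_iff.1 h1)⟩
        obtain ⟨y, hy, rfl⟩ : ∃ y ∈ P, s * y * s⁻¹ = x := by
          have hmap : P.map (MulAut.conj s).toMonoidHom = P := Subgroup.eq_of_le_of_card_ge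
            (by rintro _ ⟨y, hy, rfl⟩; exact hs y hy)
            (by rw [Subgroup.card_map_of_injective (MulAut.conj s).injective])
          rw [← hmap] at hx
          exact hx
        rw [show s * y * s⁻¹ * (s * z * s⁻¹) = s * (y * z) * s⁻¹ by group, hzc' y hy]
        group
      have hwP : w ∈ P := hw ▸ hs z (hTP hzT)
      have hwC : w ∈ C := ⟨hwP, Subgroup.mem_centralizer_singleton_iff.2 (hwc t (hTP ht)).symm⟩
      have hbig : ∀ v, (∀ x ∈ P, x * v = v * x) → v = t ∨ v = z * t → False := by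
        intro v hv hvt
        have hPC : P ≤ C := fun x hx => ⟨hx, Subgroup.mem_centralizer_singleton_iff.2 (by
          rcases hvt with rfl | rfl
          · exact hv x hx
          · have h1 : Commute x (z * t) := hv x hx
            have h2 : Commute x z := hzc' x hx
            have h3 := h2.inv_right.mul_right h1
            rwa [inv_mul_cancel_left] at h3)⟩
        have := Subgroup.card_le_of_le (hPC.trans hCle)
        omega
      rcases hLeq w (hCle hwC) with h1 | h1 | h1 | h1
      · exact hwne h1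
      · exact hsP ⟨hsS, Subgroup.mem_centralizer_singleton_iff.2 (by
          rw [h1] at hw
          exact mul_inv_eq_iff_eq_mul.1 hw)⟩
      · exact hbig w hwc (Or.inl h1)
      · exact hbig w hwc (Or.inr h1)
    obtain ⟨x, hx, hx2⟩ : ∃ x ∈ T, x ^ 2 ≠ 1 := by
      by_contra hel
      push Not at hel
      have := card_le_two_of_commute hG hA hto (hPA (hTP ht)) htK ha hta
        (U := T ⊓ fixingSubgroup G A) inf_le_right fun u hu => by
          have h1 := inv_eq_of_mul_eq_one_right (pow_two (u * t) ▸ hel _ (mul_mem hu.1 ht))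
          rw [mul_inv_rev, inv_eq_of_mul_eq_one_right (pow_two t ▸ hel t ht),
            inv_eq_of_mul_eq_one_right (pow_two u ▸ hel u hu.1)] at h1
          exact h1.symm
      omega
    refine sgap_of_card_le_sq hS ?_ (hTS hx) hx2
    rw [← hPS]
    have := card_centralizer_fixer_le hG hT hS hz hza
    change Nat.card P ≤ _ at this
    omega
  · push Not at hCL
    obtain ⟨g, hg, hga⟩ := hCL
    have hLle : ∀ x ∈ L, x * g = g * x := by
      intro x hx
      rcases hLeq x hx with rfl | rfl | rfl | rfl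
      · rw [one_mul, mul_one]
      · exact (hzc' g hg.1).symm
      · exact (htc g hg).symm
      · exact (commute_mul (hzc' g hg.1) (htc g hg)).symm
    set b := g • a with hbdef
    have hbA : b ∈ A := smul_mem_of_stabilizer (hCA hg) ha
    have htb : t • b = b := by rw [hbdef, ← mul_smul, ← htc g hg, mul_smul, hta]
    have hB : (fixedBy Ω t ∩ A) = {a, b} := by
      have h1 : ({a, b} : Set Ω) ⊆ fixedBy Ω t ∩ A := by
        rintro y (rfl | rfl)
        exacts [⟨hta, ha⟩, ⟨htb, hbA⟩]
      refine (Set.eq_of_subset_of_ncard_le h1 ?_ (Set.toFinite _)).symm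
      rw [Set.ncard_pair (Ne.symm hga)]
      by_contra hlt
      -- three fixed points among four force the fourth
      obtain ⟨e⟩ := exists_equiv_four hA
      refine htK ((four_eq_one_iff e ⟨t, hPA (hTP ht)⟩).1 ?_)
      have h2 : four G e ⟨t, hPA (hTP ht)⟩ ^ 2 = 1 := by
        rw [← map_pow, ← map_one (four G e)]
        exact congrArg _ (Subtype.ext ht2)
      rcases four_sq_sign _ h2 with h | ⟨-, h⟩ | ⟨-, h⟩
      · exact h
      · exfalso
        apply hlt
        rw [← h]
        classical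
        rw [← Set.ncard_coe_finset]
        refine le_of_eq (Set.ncard_congr (fun y hy => e ⟨y, hy.2⟩) (fun y hy => ?_)
          (fun y z _ _ h => ?_) fun i hi => ?_)
        · simpa using (four_fix_iff e ⟨t, hPA (hTP ht)⟩ ⟨y, hy.2⟩).2 hy.1
        · exact congrArg Subtype.val (e.injective h)
        · exact ⟨e.symm i, ⟨exists_mem_fix (g := ⟨t, hPA (hTP ht)⟩) e (by simpa using hi),
            (e.symm i).2⟩, by simp⟩
      · exact absurd ((four_fix_iff e ⟨t, hPA (hTP ht)⟩ ⟨a, ha⟩).2 hta) (h _)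
    have hsmul : ∀ x ∈ C, x • a = a ∨ x • a = b := by
      intro x hx
      have : x • a ∈ fixedBy Ω t ∩ A := ⟨by
        show t • x • a = x • a
        rw [← mul_smul, ← htc x hx, mul_smul, hta], smul_mem_of_stabilizer (hCA hx) ha⟩
      rwa [hB] at this
    have hgb : g • b = a := by
      rcases hsmul (g * g) (mul_mem hg hg) with h | h
      · rwa [mul_smul, ← hbdef] at h
      · rw [mul_smul, ← hbdef] at h
        exact absurd (smul_left_cancel g (h.trans hbdef)) hga
    have hcov : ∀ x ∈ C, x ∈ L ∨ g⁻¹ * x ∈ L := by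
      intro x hx
      rcases hsmul x hx with h | h
      · exact Or.inl ⟨hx, h⟩
      · refine Or.inr ⟨C.mul_mem (C.inv_mem hg) hx, (?_ : g⁻¹ * x ∈ stabilizer G a)⟩
        rw [MulAction.mem_stabilizer_iff, mul_smul, h, hbdef, inv_smul_smul]
    have hLsq : ∀ x ∈ L, x ^ 2 = 1 := by
      intro x hx
      rcases hLeq x hx with rfl | rfl | rfl | rfl
      exacts [one_pow 2, hz2, ht2,
        by rw [(show Commute z t from (hzc t ht).symm).mul_pow, hz2, ht2, one_mul]]
    have hg2L : g ^ 2 ∈ L := ⟨pow_mem hg 2, (by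
      rw [MulAction.mem_stabilizer_iff, pow_two, mul_smul, ← hbdef, hgb] :
        g ^ 2 ∈ stabilizer G a)⟩
    by_cases hg2 : g ^ 2 = 1
    · have hC8 : Nat.card C = 8 := by
        have hle := card_le_ncard_mul (U := C) (A := {a, b}) (fun x hx => by
          rw [MulAction.mem_stabilizer_set' (Set.toFinite _), ← hB]
          intro y hy
          exact ⟨by
            show t • x • y = x • y
            rw [← mul_smul, ← htc x hx, mul_smul, (hy.1 : t • y = y)],
            smul_mem_of_stabilizer (hCA hx) hy.2⟩) (x := a) (Set.mem_insert _ _)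
        rw [Set.ncard_pair (Ne.symm hga)] at hle
        change _ ≤ 2 * Nat.card L at hle
        obtain ⟨i, hi⟩ := card_sub_of_pGroup hCp le_rfl
        have h4 : 4 < Nat.card C := by
          classical
          have hsub : (({1, z, t, z * t, g} : Finset G) : Set G) ⊆ (C : Set G) := by
            intro y hy
            simp only [Finset.coe_insert, Finset.coe_singleton, Set.mem_insert_iff,
              Set.mem_singleton_iff] at hy
            rcases hy with rfl | rfl | rfl | rfl | rfl
            exacts [one_mem C, hLz.1, hLt.1, mul_mem hLz.1 hLt.1, hg]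
          have h5 := Set.ncard_le_ncard hsub (Set.toFinite _)
          rw [Set.ncard_coe_finset, ← Nat.card_coe_set_eq] at h5
          change _ ≤ Nat.card C at h5
          have hgL : ∀ y ∈ L, y ≠ g := fun y hy h => hga (by
            have := hy.2
            rw [h] at this
            exact this)
          rw [Finset.card_insert_of_notMem, Finset.card_insert_of_notMem,
            Finset.card_insert_of_notMem, Finset.card_insert_of_notMem, Finset.card_singleton] at h5
          · omega
          all_goals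
            simp [hzne.symm, htne.symm, htz.symm, hztne.symm, hzne, htne, hgL 1 (one_mem L),
              hgL z hLz, hgL t hLt, hgL _ (mul_mem hLz hLt)]
        have : 2 < i := by
          by_contra hlt
          have := Nat.pow_le_pow_right (n := 2) two_pos (not_lt.1 hlt)
          omega
        have h6 : 2 ^ 3 ≤ 2 ^ i := Nat.pow_le_pow_right two_pos this
        omega
      refine sgap_of_selfEight hS (inf_le_left.trans inf_le_left) (fun x hx => ?_) hC8
        fun x hx hc => ⟨⟨hx, Subgroup.mem_centralizer_singleton_iff.2 (hc z hLz.1).symm⟩,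
          Subgroup.mem_centralizer_singleton_iff.2 (hc t hLt.1).symm⟩
      rcases hcov x hx with h | h
      · exact hLsq x h
      · rw [← mul_inv_cancel_left g x, (show Commute g _ from (hLle _ h).symm).mul_pow, hg2,
          hLsq _ h, one_mul]
    · exfalso
      set h := g ^ 2 with hhdef
      have hho : orderOf h = 2 := orderOf_eq_two (hLsq h hg2L) hg2
      have hgo : orderOf g = 4 := by
        haveI : Fact (Nat.Prime 2) := ⟨Nat.prime_two⟩
        refine orderOf_eq_prime_pow (n := 1) (by simpa using hg2) ?_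
        have := hLsq h hg2L
        rw [hhdef, ← pow_mul] at this
        simpa using this
      have hha : h • a = a := hg2L.2
      have hhb : h • b = b := by
        show h • g • a = g • a
        rw [← mul_smul, hLle h hg2L, mul_smul, hha]
      have hAh := hG.fix_eq hho hha
      obtain ⟨u, hu, hub, hu2, huK⟩ : ∃ u ∈ L, u • b = b ∧ u ^ 2 = 1 ∧
          u ∉ fixingSubgroup G (fixedBy Ω h) := by
        by_cases hhz : h = z
        · exact ⟨t, hLt, htb, ht2, by rw [hhz, hAz]; exact htK⟩
        · refine ⟨z, hLz, (by rw [← hAz] at hbA; exact hbA), hz2, fun hzh => ?_⟩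
          have hAA : fixedBy Ω h = A :=
            (Set.eq_of_subset_of_ncard_le (mem_fixing_iff.1 hzh) (by
              rw [hAh, hAz, hA]) (Set.toFinite _)).trans hAz
          have hhK : h ∈ fixingSubgroup G A := mem_fixing_iff.2 hAA.ge
          rcases hLeq h hg2L with h1 | h1 | h1 | h1
          · exact hg2 h1
          · exact hhz h1
          · exact htK (h1 ▸ hhK)
          · have := (fixingSubgroup G A).mul_mem ((fixingSubgroup G A).inv_mem hzK) hhK
            rw [h1, inv_mul_cancel_left] at this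
            exact htK this
      obtain ⟨e⟩ := exists_equiv_four hAh
      have hgs : g ∈ stabilizer G (fixedBy Ω h) :=
        mem_stabilizer_of_commute (hLle h hg2L).symm
      have hus : u ∈ stabilizer G (fixedBy Ω h) := by
        rcases hLeq u hu with h1 | h1 | h1 | h1 <;>
          exact mem_stabilizer_of_commute (by
            rcases hLeq h hg2L with h2 | h2 | h2 | h2 <;> rw [h1, h2] <;>
            simp [hzc t ht, mul_assoc] <;> simp [← mul_assoc, hzc t ht])
      rcases four_swap (four G e ⟨g, hgs⟩) (four G e ⟨u, hus⟩) (e ⟨a, hha⟩) (e ⟨b, hhb⟩)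
        (fun h1 => hga (congrArg Subtype.val (e.injective h1)).symm)
        (by rw [← map_pow, four_eq_one_iff]; exact mem_fixing_iff.2 le_rfl)
        (by rw [← map_pow, ← map_one (four G e)]; exact congrArg _ (Subtype.ext hu2))
        (by show e (actOn G _ ⟨g, hgs⟩ (e.symm (e ⟨a, hha⟩))) = _
            rw [e.symm_apply_apply]; rfl)
        ((four_fix_iff e ⟨u, hus⟩ ⟨a, hha⟩).2 hu.2) ((four_fix_iff e ⟨u, hus⟩ ⟨b, hhb⟩).2 hub)
        (fun h1 => huK ((four_eq_one_iff e ⟨u, hus⟩).1 h1)) with hf | hf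
      · exact no_order_four hG h8 hgo hAh rfl (Or.inr fun p hp hgp =>
          hf _ ((four_fix_iff e ⟨g, hgs⟩ ⟨p, hp⟩).2 hgp))
      · have hug2 : (u * g) ^ 2 = h := by
          rw [(show Commute u g from hLle u hu).mul_pow, hu2, one_mul]
        have hugo : orderOf (u * g) = 4 := by
          haveI : Fact (Nat.Prime 2) := ⟨Nat.prime_two⟩
          have := orderOf_eq_prime_pow (x := u * g) (p := 2) (n := 1) (by simpa [hug2] using hg2)
            (by rw [show (2 : ℕ) ^ (1 + 1) = 2 * 2 by norm_num, pow_mul, hug2, hLsq h hg2L])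
          simpa using this
        refine no_order_four hG h8 hugo hAh (by rw [hug2]) (Or.inr fun p hp hgp => ?_)
        have h3 := (four_fix_iff e (⟨u, hus⟩ * ⟨g, hgs⟩) ⟨p, hp⟩).2 hgp
        rw [map_mul] at h3
        exact hf _ h3

/-- Degree divisible by eight, `T` of order eight without involutions outside the pointwise part. -/
theorem sgap_eight_no_involution [IsSimpleGroup G] (hG : Hyp G Ω) (hT : Point a T)
    (h8 : Nat.card Ω % 8 = 0) (hz : orderOf z = 2) (hzT : z ∈ T)
    (hzc : ∀ x ∈ T, x * z = z * x) {A : Set Ω} (hAz : fixedBy Ω z = A)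
    (hT0 : Nat.card ↥(T ⊓ fixingSubgroup G A) = 4) (hT8 : Nat.card T = 8)
    (hinv : ∀ x ∈ T, x ^ 2 = 1 → x ∈ fixingSubgroup G A) {S : Subgroup G}
    (hS : IsPGroup 2 S) (hTS : T ≤ S) : SGap S := by
  have hza : z • a = a := hT.fix hzT
  have hA : A.ncard = 4 := hAz ▸ hG.fix_eq hz hza
  have ha : a ∈ A := hAz ▸ hza
  have hTA : T ≤ stabilizer G A := fun x hx => hAz ▸ mem_stabilizer_of_commute (hzc x hx)
  set T0 := T ⊓ fixingSubgroup G A with hT0def
  have hT0sq : ∀ x ∈ T0, x ^ 2 = 1 := fun x hx => by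
    obtain ⟨k, hk⟩ := orderOf_dvd_two_pow hT.isP hx.1
    exact sq_eq_one_of_mem_fixing hG h8 hA hx.2 hk
  obtain ⟨t, ht, htK⟩ : ∃ t ∈ T, t ∉ fixingSubgroup G A := by
    by_contra hne
    push Not at hne
    rw [hT0def, inf_eq_left.2 hne] at hT0
    omega
  have ht2 : t ^ 2 ≠ 1 := fun h => htK (hinv t ht h)
  -- few involutions fix a common point
  have hfew : ∀ (x : Ω) (U : Subgroup G), IsPGroup 2 U → U ≤ stabilizer G x → ∀ B : Set G,
      B ⊆ (U : Set G) → (∀ u ∈ B, u ^ 2 = 1) → B.ncard ≤ 4 := by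
    intro x U hU hUx B hB hB2
    obtain ⟨g, -, hg⟩ := hT.max x U hU hUx
    rw [← hT0, ← Nat.card_coe_set_eq B]
    refine Nat.card_le_card_of_injective (fun u : B => (⟨g * u * g⁻¹, hg u (hB u.2),
      hinv _ (hg u (hB u.2)) (by rw [conj_pow, hB2 u u.2, mul_one, mul_inv_cancel])⟩ : T0))
      fun u v e => Subtype.ext (by simpa using congrArg Subtype.val e)
  -- `t` centralises the pointwise part
  have htc : ∀ e ∈ T0, t * e = e * t := by
    intro e he
    by_contra hne
    have heK : e ^ 2 = 1 := hT0sq e he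
    have he1 : e ≠ 1 := fun h => hne (by rw [h, mul_one, one_mul])
    have hzT0 : z ∈ T0 := ⟨hzT, mem_fixing_iff.2 hAz.ge⟩
    have hez : e ≠ z := fun h => hne (h ▸ (hzc t ht))
    have hz1 : z ≠ 1 := fun h => by rw [h, orderOf_one] at hz; omega
    have hfour := HarrisRank.four_elems (K := T0) hT0
      (fun k => Subtype.ext (by simpa [pow_two] using hT0sq k k.2)) (a := ⟨z, hzT0⟩) (b := ⟨e, he⟩)
      (fun h => hz1 (congrArg Subtype.val h)) (fun h => he1 (congrArg Subtype.val h))
      (fun h => hez (congrArg Subtype.val h).symm)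
    have hconj : t⁻¹ * e * t ∈ T0 :=
      ⟨T.mul_mem (T.mul_mem (T.inv_mem ht) he.1) ht, by
        have := normalizer_fixing_le (inv_mem (hTA ht)) he.2
        simpa using this⟩
    have hsq : t ^ 2 ∈ T0 := ⟨pow_mem ht 2, by
      obtain ⟨k, hk⟩ := hT.isP ⟨t, ht⟩
      exact sq_mem_fixing hA (hTA ht) (congrArg Subtype.val hk) ha (hT.fix ht)⟩
    have hsqz : t ^ 2 = z := by
      rcases hfour ⟨_, hsq⟩ with h | h | h | h
      · exact absurd (congrArg Subtype.val h) ht2
      · exact congrArg Subtype.val h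
      · refine absurd ?_ hne
        rw [← (show t ^ 2 = e from congrArg Subtype.val h)]
        exact ((Commute.refl t).pow_right 2)
      · refine absurd ?_ hne
        have h1 : e = z⁻¹ * t ^ 2 := by
          rw [(show t ^ 2 = z * e from congrArg Subtype.val h), inv_mul_cancel_left]
        rw [h1]
        exact ((show Commute t z from hzc t ht).inv_right.mul_right ((Commute.refl t).pow_right 2))
    have hconjz : t⁻¹ * e * t = z * e := by
      rcases hfour ⟨_, hconj⟩ with h | h | h | h
      · refine absurd ?_ he1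
        have h1 : t⁻¹ * e * t = 1 := congrArg Subtype.val h
        rwa [mul_assoc, inv_mul_eq_one, eq_comm, mul_eq_right] at h1
      · refine absurd ?_ hez
        have h1 : e = t * z * t⁻¹ := by
          rw [← (show t⁻¹ * e * t = z from congrArg Subtype.val h)]; group
        rw [h1, hzc t ht, mul_inv_cancel_right]
      · refine absurd ?_ hne
        have h1 : t * (t⁻¹ * e * t) = t * e := congrArg (t * ·) (congrArg Subtype.val h)
        rw [← h1]; group
      · exact congrArg Subtype.val h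
    refine htK ?_
    have h1 : (t * e) ^ 2 = 1 := by
      rw [pow_two, show t * e * (t * e) = t ^ 2 * (t⁻¹ * e * t) * e by rw [pow_two]; group,
        hsqz, hconjz, mul_assoc, mul_assoc, ← pow_two e, heK, mul_one, ← pow_two,
        ← hz, pow_orderOf_eq_one]
    have h2 := hinv (t * e) (mul_mem ht he.1) h1
    simpa using mul_mem h2 (inv_mem he.2)
  set P := S ⊓ stabilizer G A with hPdef
  have hTP : T ≤ P := le_inf hTS hTA
  have hPp : IsPGroup 2 P := hS.to_le inf_le_left
  have hPa : P ⊓ stabilizer G a = T :=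
    (Subgroup.eq_of_le_of_card_ge (le_inf hTP hT.fix)
      (hT.card_le (hPp.to_le inf_le_left) inf_le_right)).symm
  have hP32 : Nat.card P ≤ 32 := by
    have := card_le_ncard_mul (U := P) inf_le_right ha
    rw [hPa, hA, hT8] at this
    omega
  by_cases hPS : P = S
  · exact sgap_of_card_le_sq hS (hPS ▸ hP32) (hTS ht) ht2
  exfalso
  obtain ⟨s, hsS, hsP, hs⟩ := exists_normalizing hS inf_le_left hPS
  have hT0P : T0 ≤ P := inf_le_left.trans hTP
  have hPK : P ⊓ fixingSubgroup G A = T0 :=
    (Subgroup.eq_of_le_of_card_ge (le_inf hT0P inf_le_right)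
      (hT.card_fixing_le ha hTA (hPp.to_le inf_le_left) inf_le_right)).symm
  have hT0n : ∀ p ∈ P, ∀ x ∈ T0, p * x * p⁻¹ ∈ T0 := fun p hp x hx => by
    rw [← hPK]
    exact ⟨P.mul_mem (P.mul_mem hp (hT0P hx)) (P.inv_mem hp), normalizer_fixing_le hp.2 hx.2⟩
  set U := T0.map (MulAut.conj s).toMonoidHom with hUdef
  have hUP : U ≤ P := by rintro _ ⟨x, hx, rfl⟩; exact hs x (hT0P hx)
  have hPmap : P.map (MulAut.conj s).toMonoidHom = P := Subgroup.eq_of_le_of_card_ge
    (by rintro _ ⟨y, hy, rfl⟩; exact hs y hy)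
    (by rw [Subgroup.card_map_of_injective (MulAut.conj s).injective])
  have hUn : ∀ p ∈ P, ∀ x ∈ U, p * x * p⁻¹ ∈ U := by
    intro p hp x hx
    rw [← hPmap] at hp
    obtain ⟨q, hq, rfl⟩ := hp
    obtain ⟨y, hy, rfl⟩ := hx
    exact ⟨q * y * q⁻¹, hT0n q hq y hy, by simp [mul_assoc]⟩
  have hsA : s • A ≠ A := fun h => hsP ⟨hsS, h⟩
  have hUK : ∀ x ∈ U, x ∈ T0 → x = 1 := by
    rintro _ ⟨y, hy, rfl⟩ hx
    by_contra h1
    refine hsA ?_
    have hx2 : MulAut.conj s y ∈ fixingSubgroup G A := hx.2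
    have h2 := fixing_fixedBy_eq hG.fix4 hA hx2 h1
    rw [MulAut.conj_apply, ← MulAction.smul_fixedBy,
      fixing_fixedBy_eq hG.fix4 hA hy.2 fun h => h1 (by simp [h])] at h2
    exact h2
  have hcomm : ∀ x ∈ T0, ∀ y ∈ U, x * y = y * x := by
    intro x hx y hy
    have h1 : x * y * x⁻¹ * y⁻¹ ∈ T0 := by
      rw [show x * y * x⁻¹ * y⁻¹ = x * (y * x⁻¹ * y⁻¹) by group]
      exact mul_mem hx (hT0n y (hUP hy) _ (inv_mem hx))
    have h2 : x * y * x⁻¹ * y⁻¹ ∈ U := mul_mem (hUn x (hT0P hx) y hy) (inv_mem hy)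
    exact mul_inv_eq_iff_eq_mul.1 (mul_inv_eq_one.1 (hUK _ h2 h1))
  have hUsq : ∀ u ∈ U, u ^ 2 = 1 := by
    rintro _ ⟨y, hy, rfl⟩
    rw [← map_pow, hT0sq y hy, map_one]
  have hfree : ∀ u ∈ U, ∀ p ∈ A, u • p = p → u = 1 := by
    intro u hu p hp hup
    by_contra h1
    have := hfew p (P ⊓ stabilizer G p) (hPp.to_le inf_le_left) inf_le_right
      (insert u (T0 : Set G))
      (Set.insert_subset_iff.2 ⟨⟨hUP hu, hup⟩, fun x (hx : x ∈ T0) =>
        ⟨hT0P hx, mem_fixing_iff.1 (Subgroup.mem_inf.1 hx).2 hp⟩⟩)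
      (by rintro x (rfl | hx); exacts [hUsq _ hu, hT0sq x hx])
    rw [Set.ncard_insert_of_notMem (s := (T0 : Set G)) (fun h => h1 (hUK u hu h)) (Set.toFinite _),
      ← Nat.card_coe_set_eq] at this
    change Nat.card T0 + 1 ≤ 4 at this
    omega
  have hUcard : Nat.card U = A.ncard := by
    rw [hUdef, Subgroup.card_map_of_injective (MulAut.conj s).injective, hT0, hA]
  have hUa : Nat.card ↥(U ⊓ stabilizer G a) ≤ 1 := by
    have hb : U ⊓ stabilizer G a = ⊥ := (Subgroup.eq_bot_iff_forall _).2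
      fun x hx => hfree x hx.1 a ha hx.2
    rw [hb, Subgroup.card_bot]
  -- the pointwise part is central in `P`
  have hcen : ∀ p ∈ P, ∀ x ∈ T0, p * x = x * p := by
    intro p hp x hx
    have hTx : ∀ q ∈ T, q * x = x * q := by
      intro q hq
      have hT0c : ∀ y ∈ T0, y * x = x * y := fun y hy =>
        commute_of_sq (hT0sq y hy) (hT0sq x hx) (hT0sq _ (mul_mem hy hx))
      by_cases hqK : q ∈ fixingSubgroup G A
      · exact hT0c q ⟨hq, hqK⟩
      · have h1 : t⁻¹ * q ∈ T0 := ⟨T.mul_mem (T.inv_mem ht) hq,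
          inv_mul_mem_fixing hA hT.isP ht hq hTA ha hT.fix htK hqK⟩
        have h3 := (show Commute t x from htc x hx).mul_left
          (show Commute (t⁻¹ * q) x from hT0c _ h1)
        rwa [mul_inv_cancel_left] at h3
    obtain ⟨u, hu, hua⟩ : ∃ u ∈ U, u • a = p • a := by
      have himg : (fun u : G => u • a) '' (U : Set G) = A := by
        refine Set.eq_of_subset_of_ncard_le ?_ ?_ (Set.toFinite _)
        · rintro _ ⟨u, hu, rfl⟩
          exact smul_mem_of_stabilizer (hUP hu).2 ha
        · rw [Set.InjOn.ncard_image, ← Nat.card_coe_set_eq (U : Set G)]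
          · exact hUcard.ge
          · intro u hu v hv huv
            have := hfree (v⁻¹ * u) (U.mul_mem (U.inv_mem hv) hu) a ha
              (by rw [mul_smul, show u • a = v • a from huv, inv_smul_smul])
            exact (inv_mul_eq_one.1 this).symm
      have := himg.ge (smul_mem_of_stabilizer hp.2 ha)
      exact this
    have hq : u⁻¹ * p ∈ T := by
      rw [← hPa]
      exact ⟨P.mul_mem (P.inv_mem (hUP hu)) hp, (by
        rw [MulAction.mem_stabilizer_iff, mul_smul, ← hua, inv_smul_smul] :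
          u⁻¹ * p ∈ stabilizer G a)⟩
    have h3 := (show Commute u x from (hcomm x hx u hu).symm).mul_left
      (show Commute (u⁻¹ * p) x from hTx _ hq)
    rwa [mul_inv_cancel_left] at h3
  refine htK (mem_fixing_of_commute_trans (hUP.trans inf_le_right) ha
    (by rw [hUcard]; exact le_trans (Nat.mul_le_mul_left _ hUa) (by omega)) (hT.fix ht) fun u hu => ?_)
  obtain ⟨y, hy, rfl⟩ := hu
  have htP := hTP ht
  rw [← hPmap] at htP
  obtain ⟨q, hq, hqe⟩ := htP
  rw [← hqe, ← map_mul, ← map_mul, hcen q hq y hy]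

end CfsgLib.FixityFour
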