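import Cfsg.Agent.FixityFour.OddSmall

/-!
Point stabilisers of odd order divisible by three: a strongly 3-embedded subgroup, or a Sylow
3-subgroup `C₃ ≀ C₃`.
-/

set_option autoImplicit false

namespace CfsgLib.FixityFour

open MulAction
open scoped Pointwise

variable {G Ω : Type*} [Group G] [MulAction G Ω] [Finite G] [Finite Ω]

theorem exists_central_three (P : Sylow 3 G) (h : 3 ∣ Nat.card G) :
    ∃ z ∈ (P : Subgroup G), orderOf z = 3 ∧ ∀ p ∈ (P : Subgroup G), p * z = z * p := by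
  haveI : Fact (Nat.Prime 3) := ⟨Nat.prime_three⟩
  haveI : Nontrivial (P : Subgroup G) := by
    rw [Subgroup.nontrivial_iff_ne_bot]; exact P.ne_bot_of_dvd_card h
  haveI := P.2.center_nontrivial
  obtain ⟨⟨z, hzc⟩, hz⟩ := exists_prime_orderOf_dvd_card' 3 (by
    obtain ⟨k, hk⟩ := IsPGroup.iff_card.1 (P.2.to_subgroup (Subgroup.center (P : Subgroup G)))
    rw [hk]
    refine dvd_pow_self 3 ?_
    rintro rfl
    rw [pow_zero] at hk
    exact absurd hk (Finite.one_lt_card.ne') : 3 ∣ Nat.card (Subgroup.center (P : Subgroup G)))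
  rw [Subgroup.orderOf_mk] at hz
  exact ⟨(z : G), z.2, (Subgroup.orderOf_coe z).trans hz, fun p hp =>
    congrArg Subtype.val (Subgroup.mem_center_iff.1 hzc ⟨p, hp⟩)⟩

theorem case_odd [IsSimpleGroup G] [MulAction.IsPretransitive G Ω] (hna : ¬ IsMulCommutative G)
    (h4 : Fix4 G Ω) (hn : 4 < Nat.card Ω) (a : Ω) (hodd : Odd (Nat.card (stabilizer G a)))
    (h3 : 3 ∣ Nat.card (stabilizer G a)) :
    (∃ H : Subgroup G, H ≠ ⊤ ∧ 3 ∣ Nat.card H ∧
      ∀ g : G, g ∉ H → ¬ 3 ∣ Nat.card ↥(H ⊓ H.map (MulAut.conj g).toMonoidHom)) ∨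
    ∃ (P : Sylow 3 G) (T : Sylow 3 (Equiv.Perm (Fin (3 ^ 2)))),
      Nonempty ((P : Subgroup G) ≃* (T : Subgroup (Equiv.Perm (Fin (3 ^ 2))))) := by
  classical
  haveI : Fact (Nat.Prime 3) := ⟨Nat.prime_three⟩
  have hinv : ∀ t : G, orderOf t = 2 → ∀ b : Ω, t • b ≠ b := by
    intro t ht b hb
    obtain ⟨g, rfl⟩ := MulAction.exists_smul_eq G a b
    have hmem : g⁻¹ * t * g⁻¹⁻¹ ∈ stabilizer G a := by
      rw [MulAction.mem_stabilizer_iff, inv_inv, mul_smul, mul_smul, hb, inv_smul_smul]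
    have h2 : 2 ∣ Nat.card (stabilizer G a) := by
      have := Subgroup.orderOf_dvd_natCard _ hmem
      rwa [show orderOf (g⁻¹ * t * g⁻¹⁻¹) = 2 from ((MulAut.conj g⁻¹).orderOf_eq t).trans ht] at this
    exact Nat.not_even_iff_odd.2 hodd (even_iff_two_dvd.2 h2)
  have hG3 : 3 ∣ Nat.card G := h3.trans (Subgroup.card_subgroup_dvd_card _)
  obtain ⟨⟨x0, hx0a⟩, hx0⟩ := exists_prime_orderOf_dvd_card' 3 h3
  rw [Subgroup.orderOf_mk] at hx0
  have hmod : ∀ g : G, orderOf g = 3 → Nat.card Ω % 3 = (fixedBy Ω g).ncard % 3 :=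
    fun g hg => fixedBy_modEq hg
  have hle : ∀ g : G, orderOf g = 3 → (fixedBy Ω g).ncard ≤ 4 := fun g hg =>
    h4 g fun e => by rw [e, orderOf_one] at hg; omega
  have hproper : ∀ A : Set Ω, A.ncard ≤ 4 → A ≠ Set.univ := fun A hA e => by
    rw [e, Set.ncard_univ] at hA; omega
  -- all elements of order three fixing the same small set
  have hsmall : ∀ k : ℕ, 1 ≤ k → k ≤ 2 → (∀ g : G, orderOf g = 3 → (fixedBy Ω g).ncard = k) →
      ∃ H : Subgroup G, H ≠ ⊤ ∧ 3 ∣ Nat.card H ∧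
        ∀ g : G, g ∉ H → ¬ 3 ∣ Nat.card ↥(H ⊓ H.map (MulAut.conj g).toMonoidHom) := by
    intro k hk1 hk2 hk
    let P : Sylow 3 G := Classical.arbitrary _
    obtain ⟨z, hzP, hz, hzc⟩ := exists_central_three P hG3
    set A := fixedBy Ω z
    have hPA : (P : Subgroup G) ≤ stabilizer G A := fun p hp => mem_stabilizer_of_commute (hzc p hp)
    have hfix : ∀ i ∈ (P : Subgroup G), orderOf i = 3 → fixedBy Ω i = A := by
      intro i hi hio
      refine fixedBy_eq_of_subset ?_ (by rw [hk i hio, hk z hz])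
      set σ := actOn G A ⟨i, hPA hi⟩
      have := Fintype.ofFinite A
      have hσ3 : σ ^ 3 = 1 := by
        rw [← map_pow, ← map_one (actOn G A)]
        congr 1
        refine Subtype.ext ?_
        show i ^ 3 = 1
        rw [← hio, pow_orderOf_eq_one]
      have hσ1 : σ = 1 := by
        by_contra hne
        have h1 : orderOf σ = 3 := orderOf_eq_prime hσ3 hne
        have h2 : orderOf σ ∣ Nat.factorial k := by
          have := orderOf_dvd_natCard σ
          rwa [Nat.card_perm, Nat.card_coe_set_eq, hk z hz] at this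
        rw [h1] at h2
        interval_cases k <;> norm_num [Nat.factorial] at h2
      exact mem_fixing_iff.1 ((actOn_eq_one_iff A _).1 hσ1)
    exact ⟨_, strong_of_common_fixed P hPA
      (Set.nonempty_of_ncard_ne_zero (by rw [hk z hz]; omega))
      (hproper A (hle z hz)) hfix hG3⟩
  have hx0fix : 1 ≤ (fixedBy Ω x0).ncard := (Set.ncard_pos (Set.toFinite _)).2 ⟨a, hx0a⟩
  -- the set and its size
  have hchoice : (∃ H : Subgroup G, H ≠ ⊤ ∧ 3 ∣ Nat.card H ∧
      ∀ g : G, g ∉ H → ¬ 3 ∣ Nat.card ↥(H ⊓ H.map (MulAut.conj g).toMonoidHom)) ∨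
      ∃ (y : G) (k : ℕ), orderOf y = 3 ∧ (fixedBy Ω y).ncard = k ∧ 3 ≤ k ∧ k ≤ 4 ∧
        (∀ g : G, orderOf g = 3 → (fixedBy Ω g).ncard ≤ k) ∧ Nat.card Ω % 3 = k % 3 := by
    have h0 := hmod x0 hx0
    have h0' := hle x0 hx0
    rcases (show Nat.card Ω % 3 = 2 ∨ Nat.card Ω % 3 = 1 ∨ Nat.card Ω % 3 = 0 by omega) with h | h | h
    · refine Or.inl (hsmall 2 (by norm_num) le_rfl fun g hg => ?_)
      have := hmod g hg
      have := hle g hg
      omega
    · by_cases hex : ∃ y : G, orderOf y = 3 ∧ (fixedBy Ω y).ncard = 4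
      · obtain ⟨y, hy, hy4⟩ := hex
        exact Or.inr ⟨y, 4, hy, hy4, by norm_num, le_rfl, hle, by omega⟩
      · push Not at hex
        refine Or.inl (hsmall 1 le_rfl (by norm_num) fun g hg => ?_)
        have := hmod g hg
        have := hle g hg
        have := hex g hg
        omega
    · refine Or.inr ⟨x0, 3, hx0, by omega, le_rfl, by norm_num, fun g hg => ?_, by omega⟩
      have := hmod g hg
      have := hle g hg
      omega
  rcases hchoice with h | ⟨y, k, hy, hyk, hk3, hk4, hmax, hnk⟩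
  · exact Or.inl h
  set A := fixedBy Ω y with hA
  obtain ⟨R, ⟨hRp, hRK⟩, hRmax⟩ := Set.exists_max_image
    {R : Subgroup G | IsPGroup 3 R ∧ R ≤ fixingSubgroup G A} (fun R => Nat.card R) (Set.toFinite _)
    ⟨⊥, IsPGroup.of_bot, bot_le⟩
  have hyR : 3 ≤ Nat.card R := by
    have h := hRmax (Subgroup.zpowers y) ⟨IsPGroup.of_card (n := 1) (by rw [Nat.card_zpowers, hy, pow_one]),
      Subgroup.zpowers_le.2 (mem_fixing_iff.2 subset_rfl)⟩
    rwa [Nat.card_zpowers, hy] at h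
  obtain ⟨⟨x, hxR⟩, hx⟩ := exists_prime_orderOf_dvd_card' 3 (by
    obtain ⟨j, hj⟩ := IsPGroup.iff_card.1 hRp
    rw [hj]
    refine dvd_pow_self 3 ?_
    rintro rfl
    rw [pow_zero] at hj
    omega : 3 ∣ Nat.card R)
  rw [Subgroup.orderOf_mk] at hx
  obtain ⟨P, hP⟩ := hRp.exists_le_sylow
  by_cases hall : ∀ i ∈ (P : Subgroup G), orderOf i = 3 → fixedBy Ω i = A
  · left
    obtain ⟨z, hzP, hz, hzc⟩ := exists_central_three P hG3
    have hPA : (P : Subgroup G) ≤ stabilizer G A := fun p hp => by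
      rw [← hall z hzP hz]; exact mem_stabilizer_of_commute (hzc p hp)
    exact ⟨_, strong_of_common_fixed P hPA (Set.nonempty_of_ncard_ne_zero (by omega))
      (hproper A (by omega)) hall hG3⟩
  right
  push Not at hall
  have d : ThreeData P A x k :=
    { hx := hx
      hxP := hP hxR
      hxK := hRK hxR
      hA := hyk
      hk3 := hk3
      hk4 := hk4
      hmax := hmax
      hinv := hinv
      hnall := hall
      hRmax := fun R' hR' hR'K => (hRmax R' ⟨hR', hR'K⟩).trans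
        (Subgroup.card_le_of_le (le_inf hP hRK)) }
  refine ⟨P, ?_⟩
  rcases Nat.lt_or_ge 3 (Nat.card ↥((P : Subgroup G) ⊓ fixingSubgroup G A)) with hbig | hsm
  · exact wreath_of_big hna d hbig
  have h3' : Nat.card ↥((P : Subgroup G) ⊓ fixingSubgroup G A) = 3 := le_antisymm hsm d.three_le
  obtain ⟨θ, hθ, hθinv⟩ : ∃ θ : (P : Subgroup G) →* Multiplicative (ZMod 3), θ ≠ 1 ∧
      ∀ g ∈ Subgroup.normalizer ((P : Subgroup G) : Set G), ∀ u : (P : Subgroup G),
        ∀ h : g * (u : G) * g⁻¹ ∈ (P : Subgroup G), θ ⟨g * (u : G) * g⁻¹, h⟩ = θ u := by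
    rcases (show k = 3 ∨ k = 4 by omega) with hk | hk
    · exact small_theta_three d hk h3'
    · exact small_theta_four d (by omega) h3'
  obtain ⟨W, f, hf⟩ := exists_wreath_quotient_of_invariant_hom hna P θ hθ hθinv
  exact ⟨W, iso_of_surjective P.2 (x := ⟨x, hP hxR⟩)
    (Subtype.ext (by rw [SubgroupClass.coe_pow]; exact (congrArg (x ^ ·) hx.symm).trans (pow_orderOf_eq_one x)))
    (small_card_centralizer d h3' ⟨x, hP hxR⟩ (IsConj.refl x)) W f hf⟩

end CfsgLib.FixityFour
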