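import Cfsg.Agent.FixityFour.Wreath

/-!
`C₃ ≀ C₃` has fewer than 54 elements of order dividing three.
-/

set_option autoImplicit false

namespace CfsgLib.FixityFour

theorem card_cube_roots_wr33 : Nat.card {w : wr33 // w ^ 3 = 1} ≤ 45 := by
  have key : ∀ w : wr33, ∃ (p : ZMod 3 × (ZMod 3 → ZMod 3)),
      ∀ x, (w : Equiv.Perm (ZMod 3 × ZMod 3)) x = (x.1 + p.1, x.2 + p.2 x.1) := by
    rintro ⟨σ, a, v, h⟩
    exact ⟨(a, v), h⟩
  choose f hf using key
  have hcond : ∀ w : wr33, w ^ 3 = 1 → (f w).1 = 0 ∨ (f w).2 0 + (f w).2 1 + (f w).2 2 = 0 := by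
    intro w hw
    by_cases h0 : (f w).1 = 0
    · exact Or.inl h0
    refine Or.inr ?_
    have h : ((((w : Equiv.Perm (ZMod 3 × ZMod 3)) ^ 3) (0, 0))).2 = 0 := by
      rw [← SubgroupClass.coe_pow, hw]; rfl
    simp only [pow_succ, pow_zero, one_mul, Equiv.Perm.mul_apply] at h
    simp only [hf] at h
    have h12 : (f w).1 = 1 ∨ (f w).1 = 2 := by
      revert h0
      generalize (f w).1 = a
      revert a
      decide
    rcases h12 with e | e <;> rw [e] at h <;> simp only [zero_add] at h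
    · rw [show (1 : ZMod 3) + 1 = 2 from rfl] at h
      exact h
    · rw [show (2 : ZMod 3) + 2 = 1 from rfl] at h
      rw [add_right_comm]
      exact h
  refine le_trans (Nat.card_le_card_of_injective
    (fun w : {w : wr33 // w ^ 3 = 1} =>
      (⟨f w.1, hcond w.1 w.2⟩ : {p : ZMod 3 × (ZMod 3 → ZMod 3) // p.1 = 0 ∨ p.2 0 + p.2 1 + p.2 2 = 0}))
    fun a b h => ?_) ?_
  · refine Subtype.ext (Subtype.ext (Equiv.ext fun x => ?_))
    rw [hf, hf, show f a.1 = f b.1 from congrArg Subtype.val h]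
  · rw [Nat.card_eq_fintype_card, Fintype.card_subtype]
    decide

/-- Fewer than 54 elements of a Sylow 3-subgroup of the symmetric group of degree nine cube to one. -/
theorem card_cube_roots (W : Sylow 3 (Equiv.Perm (Fin (3 ^ 2)))) :
    Nat.card {w : ↥(W : Subgroup (Equiv.Perm (Fin (3 ^ 2)))) // w ^ 3 = 1} ≤ 45 := by
  haveI : Fact (Nat.Prime 3) := ⟨Nat.prime_three⟩
  let e : ZMod 3 × ZMod 3 ≃ Fin (3 ^ 2) := Fintype.equivFinOfCardEq (by simp)
  let ψ := e.permCongrHom.toMonoidHom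
  have hψ : Function.Injective ψ := e.permCongrHom.injective
  have hc0 : Nat.card (wr33.map ψ) = 3 ^ (Nat.card (Equiv.Perm (Fin (3 ^ 2)))).factorization 3 := by
    rw [Subgroup.card_map_of_injective hψ, card_wr33, Nat.card_perm, Nat.card_fin,
      FusYoshida.factorization_sq_factorial]
    norm_num
  let E := (wr33.equivMapOfInjective ψ hψ).trans
    ((Sylow.ofCard (wr33.map ψ) hc0 : Sylow 3 (Equiv.Perm (Fin (3 ^ 2)))).equiv W)
  refine le_trans (le_of_eq ?_) card_cube_roots_wr33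
  exact (Nat.card_congr (E.toEquiv.subtypeEquiv fun w => by
    rw [MulEquiv.toEquiv_eq_coe, MulEquiv.coe_toEquiv, ← map_pow, E.map_eq_one_iff])).symm

end CfsgLib.FixityFour
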