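import Cfsg.Agent.FixityFour.OddSetup
import Cfsg.Agent.FixityFour.Transfer
import Cfsg.Agent.FixityFour.WreathCount

/-!
Point stabilisers of odd order, kernel of order at least nine: an invariant character of the Sylow
3-subgroup, and an element of order three with a small centraliser.
-/

set_option autoImplicit false

namespace CfsgLib.FixityFour

open MulAction
open scoped Pointwise

variable {G Ω : Type*} [Group G] [MulAction G Ω] [Finite G] [Finite Ω]
  {P : Sylow 3 G} {A : Set Ω} {x : G} {k : ℕ}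

theorem mult3_cube (a : Multiplicative (ZMod 3)) : a ^ 3 = 1 := by
  revert a
  decide

theorem mult3_inv : ∀ a b : Multiplicative (ZMod 3), a ≠ 1 → b ≠ 1 → b ≠ a → b = a⁻¹ := by
  decide

/-- The pointwise stabiliser inside the Sylow subgroup. -/
abbrev kerIn (P : Sylow 3 G) (A : Set Ω) : Subgroup (P : Subgroup G) :=
  (fixingSubgroup G A).subgroupOf (P : Subgroup G)

theorem kerIn_normal (hPM : (P : Subgroup G) ≤ stabilizer G A) : (kerIn P A).Normal :=
  ⟨fun t ht s => normalizer_fixing_le (hPM s.2) ht⟩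

theorem kerIn_index (d : ThreeData P A x k) (hPM : (P : Subgroup G) ≤ stabilizer G A) :
    (kerIn P A).index = 3 := by
  haveI : Fact (Nat.Prime 3) := ⟨Nat.prime_three⟩
  haveI := kerIn_normal hPM
  have h1 : Nat.card (kerIn P A) * (kerIn P A).index = Nat.card (P : Subgroup G) := (kerIn P A).card_mul_index
  have h2 : Nat.card (kerIn P A) = Nat.card ↥((P : Subgroup G) ⊓ fixingSubgroup G A) := by
    rw [← Subgroup.card_map_of_injective (P : Subgroup G).subtype_injective,
      Subgroup.subgroupOf_map_subtype, inf_comm]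
  have h3 := d.card_le_three_mul P.2 hPM
  rw [← h2, ← h1, mul_comm 3] at h3
  have h4 : (kerIn P A).index ≤ 3 := Nat.le_of_mul_le_mul_left h3 Nat.card_pos
  have h5 : (kerIn P A).index ≠ 1 := fun h => d.not_le_fixing
    (Subgroup.subgroupOf_eq_top.1 (Subgroup.index_eq_one.1 h))
  obtain ⟨i, hi⟩ := IsPGroup.iff_card.1 (P.2.to_quotient (kerIn P A))
  rw [← Subgroup.index_eq_card] at hi
  rw [hi] at h4 h5 ⊢
  rcases i with _ | _ | i
  · simp at h5
  · rfl
  · exfalso
    have : 9 ≤ 3 ^ (i + 1 + 1) := by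
      rw [pow_succ, pow_succ, mul_assoc]; exact Nat.le_mul_of_pos_left _ (by positivity)
    omega

/-- A character with kernel the pointwise stabiliser. -/
theorem exists_theta (d : ThreeData P A x k) (hPM : (P : Subgroup G) ≤ stabilizer G A) :
    ∃ θ : (P : Subgroup G) →* Multiplicative (ZMod 3), θ ≠ 1 ∧
      ∀ y : (P : Subgroup G), θ y = 1 ↔ (y : G) ∈ fixingSubgroup G A := by
  haveI : Fact (Nat.Prime 3) := ⟨Nat.prime_three⟩
  haveI := kerIn_normal hPM
  have hcard : Nat.card ((P : Subgroup G) ⧸ kerIn P A) = 3 := by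
    rw [← Subgroup.index_eq_card]; exact kerIn_index d hPM
  let e : (P : Subgroup G) ⧸ kerIn P A ≃* Multiplicative (ZMod 3) :=
    mulEquivOfPrimeCardEq (p := 3) hcard (Nat.card_zmod 3)
  refine ⟨e.toMonoidHom.comp (QuotientGroup.mk' _), ?_, ?_⟩
  · intro h
    refine d.not_le_fixing fun y hy => ?_
    have := DFunLike.congr_fun h ⟨y, hy⟩
    exact (QuotientGroup.eq_one_iff (N := kerIn P A) (⟨y, hy⟩ : (P : Subgroup G))).1 (e.map_eq_one_iff.1 this)
  · intro y
    exact e.map_eq_one_iff.trans (QuotientGroup.eq_one_iff y)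

/-- Conjugation by elements of the stabiliser fixes the character. -/
theorem theta_conj (d : ThreeData P A x k) (hPM : (P : Subgroup G) ≤ stabilizer G A)
    {θ : (P : Subgroup G) →* Multiplicative (ZMod 3)}
    (hθ : ∀ y : (P : Subgroup G), θ y = 1 ↔ (y : G) ∈ fixingSubgroup G A)
    {g : G} (hg : g ∈ stabilizer G A) (y : (P : Subgroup G))
    (h : g * (y : G) * g⁻¹ ∈ (P : Subgroup G)) : θ ⟨g * (y : G) * g⁻¹, h⟩ = θ y := by
  classical
  haveI : Fact (Nat.Prime 3) := ⟨Nat.prime_three⟩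
  by_cases hy : θ y = 1
  · rw [hy, hθ]
    exact normalizer_fixing_le hg ((hθ y).1 hy)
  have hy' : θ ⟨g * (y : G) * g⁻¹, h⟩ ≠ 1 := fun e => hy ((hθ y).2 (fixing_normal_conj hg ((hθ _).1 e)))
  by_contra hne
  have hinv : θ ⟨g * (y : G) * g⁻¹, h⟩ = (θ y)⁻¹ := by
    exact mult3_inv _ _ hy hy' hne
  have hprod : (g * (y : G) * g⁻¹) * y ∈ fixingSubgroup G A := by
    refine (hθ (⟨g * (y : G) * g⁻¹, h⟩ * y)).1 ?_
    rw [map_mul, hinv, inv_mul_cancel]
  have hyA : (y : G) ∈ stabilizer G A := hPM y.2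
  set σ := actOn G A ⟨y, hyA⟩ with hσ
  set τ := actOn G A ⟨g, hg⟩ with hτ
  have hrel : τ * σ * τ⁻¹ = σ⁻¹ := by
    rw [eq_inv_iff_mul_eq_one, hσ, hτ, ← map_inv, ← map_mul, ← map_mul, ← map_mul]
    exact (actOn_eq_one_iff A _).2 hprod
  have hσ1 : σ ≠ 1 := fun e => hy ((hθ y).2 ((actOn_eq_one_iff A _).1 e))
  have := Fintype.ofFinite A
  have hy3 : (y : G) ^ 3 ∈ fixingSubgroup G A := by
    refine (hθ (y ^ 3)).1 ?_
    rw [map_pow]
    exact mult3_cube _
  have hσ3 : σ ^ 3 = 1 := by
    rw [hσ, ← map_pow]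
    exact (actOn_eq_one_iff A _).2 hy3
  have hsupp : σ.support.card = 3 := by
    have h1 := Equiv.Perm.card_compl_support_modEq (p := 3) (n := 1) (σ := σ) (by rwa [pow_one])
    rw [Finset.card_compl] at h1
    have h2 : σ.support.card ≤ Fintype.card A := Finset.card_le_univ _
    have h3 : 2 ≤ σ.support.card := Equiv.Perm.two_le_card_support_of_ne_one hσ1
    have h4 : Fintype.card A = k := by rw [← Nat.card_eq_fintype_card, Nat.card_coe_set_eq, d.hA]
    rw [Nat.modEq_iff_dvd' (by omega)] at h1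
    have := d.hk4
    obtain ⟨c, hc⟩ := h1
    omega
  set B : Set Ω := (fun a : A => (a : Ω)) '' (σ.support : Set A) with hB
  have hBc : B.ncard = 3 := by
    rw [hB, Set.ncard_image_of_injective _ Subtype.val_injective, Set.ncard_coe_finset, hsupp]
  have hgB : g ∈ stabilizer G B := by
    rw [MulAction.mem_stabilizer_iff]
    refine Set.eq_of_subset_of_ncard_le ?_ (by rw [Set.ncard_smul_set]) (Set.toFinite _)
    rintro _ ⟨_, ⟨a, ha, rfl⟩, rfl⟩
    refine ⟨τ a, ?_, rfl⟩
    rw [Finset.mem_coe, Equiv.Perm.mem_support] at ha ⊢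
    intro hfix
    apply ha
    have h1 : (τ * σ * τ⁻¹) (τ a) = τ a := by rw [hrel]; exact Equiv.Perm.inv_eq_iff_eq.2 hfix.symm
    rw [Equiv.Perm.mul_apply, Equiv.Perm.mul_apply, Equiv.Perm.inv_def, Equiv.symm_apply_apply] at h1
    exact τ.injective h1
  have hodd : Odd (orderOf τ) := by
    have h1 := odd_of_invariant d.hinv (U := Subgroup.zpowers g) (Subgroup.zpowers_le.2 hgB)
      (by rw [hBc]; decide)
    rw [Nat.card_zpowers] at h1
    refine Odd.of_dvd_nat h1 (orderOf_dvd_of_pow_eq_one ?_)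
    rw [hτ, ← map_pow, ← map_one (actOn G A)]
    congr 1
    exact Subtype.ext (pow_orderOf_eq_one g)
  have h2 := eq_one_of_conj_inv_of_odd hodd hrel
  apply hσ1
  calc σ = σ ^ 3 * (σ ^ 2)⁻¹ := by group
    _ = 1 := by rw [hσ3, h2, inv_one, mul_one]

/-- With a large kernel the normaliser of the Sylow subgroup stabilises `A`. -/
theorem normalizer_le (d : ThreeData P A x k) (hPM : (P : Subgroup G) ≤ stabilizer G A)
    (h : 3 < Nat.card ↥((P : Subgroup G) ⊓ fixingSubgroup G A)) :
    Subgroup.normalizer ((P : Subgroup G) : Set G) ≤ stabilizer G A := by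
  haveI := kerIn_normal hPM
  intro g hg
  by_contra hgA
  have hconj : ∀ t : ↥((P : Subgroup G) ⊓ fixingSubgroup G A), g * t * g⁻¹ ∈ (P : Subgroup G) := fun t =>
    (Subgroup.mem_normalizer_iff.1 hg t).1 t.2.1
  have hinj : Function.Injective fun t : ↥((P : Subgroup G) ⊓ fixingSubgroup G A) =>
      ((⟨g * t * g⁻¹, hconj t⟩ : (P : Subgroup G)) : (P : Subgroup G) ⧸ kerIn P A) := by
    intro a b hab
    rw [QuotientGroup.eq, Subgroup.mem_subgroupOf] at hab
    by_contra hne
    refine hgA (d.mem_stabilizer_of_conj (u := (a : G)⁻¹ * b) (mul_mem (inv_mem a.2.1) b.2.1)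
      (mul_mem (inv_mem a.2.2) b.2.2) (fun e => hne (Subtype.ext (inv_mul_eq_one.1 e))) ?_ ?_)
    · exact (Subgroup.mem_normalizer_iff.1 hg _).1 (mul_mem (inv_mem a.2.1) b.2.1)
    · simpa [mul_assoc] using hab
  have h1 := Nat.card_le_card_of_injective _ hinj
  rw [← Subgroup.index_eq_card, kerIn_index d hPM] at h1
  omega

variable [IsSimpleGroup G]

/-- If no element of order three outside the kernel fixes `k` points, every element outside has
order three. -/
theorem cube_eq_one (hna : ¬ IsMulCommutative G) (d : ThreeData P A x k)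
    (hPM : (P : Subgroup G) ≤ stabilizer G A)
    (hnone : ∀ y ∈ (P : Subgroup G), orderOf y = 3 → (fixedBy Ω y).ncard = k → y ∈ fixingSubgroup G A)
    {θ : (P : Subgroup G) →* Multiplicative (ZMod 3)}
    (hθ : ∀ y : (P : Subgroup G), θ y = 1 ↔ (y : G) ∈ fixingSubgroup G A)
    (u : (P : Subgroup G)) (hu : θ u ≠ 1) : u ^ 3 = 1 := by
  classical
  haveI : Fact (Nat.Prime 3) := ⟨Nat.prime_three⟩
  by_contra hu3
  obtain ⟨e, he⟩ := IsPGroup.iff_orderOf.1 P.2 u
  obtain ⟨e, rfl⟩ : ∃ e', e = e' + 2 := by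
    refine ⟨e - 2, ?_⟩
    rcases e with _ | _ | e
    · exact absurd (orderOf_dvd_iff_pow_eq_one.1 (by rw [he, pow_zero]; exact one_dvd 3)) hu3
    · exact absurd (orderOf_dvd_iff_pow_eq_one.1 (by rw [he, zero_add, pow_one])) hu3
    · omega
  -- the element of order three in `⟨u⟩` lies in the kernel
  set z : (P : Subgroup G) := u ^ 3 ^ (e + 1) with hzdef
  have hzo : orderOf z = 3 := exists_pow_orderOf_prime he
  have hzK : (z : G) ∈ fixingSubgroup G A := by
    refine (hθ z).1 ?_
    rw [hzdef, map_pow, pow_succ', pow_mul]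
    have : θ u ^ 3 = 1 := mult3_cube _
    rw [this, one_pow]
  have hzG : orderOf (z : G) = 3 := by rw [Subgroup.orderOf_coe, hzo]
  have hz1 : (z : G) ≠ 1 := fun h => by rw [h, orderOf_one] at hzG; omega
  have hterm : ∀ (g₀ : G) (L : ℕ) (hm : g₀⁻¹ * (u : G) ^ L * g₀ ∈ (P : Subgroup G)),
      θ ⟨_, hm⟩ = θ u ^ L := by
    intro g₀ L hm
    by_cases hL : (u : G) ^ L = 1
    · rw [show (⟨_, hm⟩ : (P : Subgroup G)) = 1 from Subtype.ext (by
        show g₀⁻¹ * (u : G) ^ L * g₀ = 1
        rw [hL, mul_one, inv_mul_cancel]), map_one, ← map_pow,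
        show u ^ L = 1 from Subtype.ext (by rw [SubgroupClass.coe_pow]; exact hL), map_one]
    -- the element of order three is a power of `u ^ L`
    obtain ⟨j, hj, hjz⟩ : ∃ j : ℕ, L ∣ j ∧ (u : G) ^ j = z := by
      obtain ⟨c, m, hm3, hLm⟩ := Nat.exists_eq_pow_mul_and_not_dvd (n := L)
        (fun h => hL (by rw [h, pow_zero])) 3 (by norm_num)
      have hce : c ≤ e + 1 := by
        by_contra hc
        apply hL
        rw [← orderOf_dvd_iff_pow_eq_one, Subgroup.orderOf_coe, he, hLm]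
        exact (pow_dvd_pow 3 (by omega)).mul_right m
      rcases (show m % 3 = 1 ∨ m % 3 = 2 by omega) with hm1 | hm2
      · refine ⟨L * 3 ^ (e + 1 - c), dvd_mul_right _ _, ?_⟩
        rw [hLm, mul_right_comm, ← pow_add, Nat.add_sub_cancel' hce, pow_mul,
          show (u : G) ^ 3 ^ (e + 1) = (z : G) from rfl, ← pow_mod_orderOf, hzG, hm1, pow_one]
      · refine ⟨L * 3 ^ (e + 1 - c) * 2, (dvd_mul_right _ _).mul_right _, ?_⟩
        rw [hLm, mul_right_comm _ m, ← pow_add, Nat.add_sub_cancel' hce, mul_assoc, pow_mul,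
          show (u : G) ^ 3 ^ (e + 1) = (z : G) from rfl, ← pow_mod_orderOf, hzG,
          show m * 2 % 3 = 1 by omega, pow_one]
    obtain ⟨t, rfl⟩ := hj
    have hzP' : g₀⁻¹ * (z : G) * g₀⁻¹⁻¹ ∈ (P : Subgroup G) := by
      rw [← hjz, pow_mul, ← conj_pow, inv_inv]
      exact pow_mem hm t
    have hzK' : g₀⁻¹ * (z : G) * g₀⁻¹⁻¹ ∈ fixingSubgroup G A := by
      refine hnone _ hzP' ?_ ?_
      · exact ((MulAut.conj g₀⁻¹).orderOf_eq (z : G)).trans hzG
      · rw [ncard_fixedBy_conj, d.fix_eq_of_mem z.2 hzK hz1, d.hA]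
    have hg₀ : g₀⁻¹ ∈ stabilizer G A := d.mem_stabilizer_of_conj z.2 hzK hz1 hzP' hzK'
    have h := theta_conj d hPM hθ hg₀ (u ^ L) (by
      rw [inv_inv, SubgroupClass.coe_pow]; exact hm)
    rw [map_pow] at h
    rw [← h]
    exact congrArg θ (Subtype.ext (by simp))
  have hV : θ.transfer (u : G) = θ u ^ (P : Subgroup G).index := by
    letI : Fintype (Quotient (MulAction.orbitRel (Subgroup.zpowers (u : G)) (G ⧸ (P : Subgroup G)))) :=
      Fintype.ofFinite _
    rw [MonoidHom.transfer_eq_prod_quotient_orbitRel_zpowers_quot,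
      Finset.prod_congr rfl (fun q _ => hterm q.out.out _ _), Finset.prod_pow_eq_pow_sum,
      ← (P : Subgroup G).index_eq_sum_minimalPeriod (u : G)]
  rw [monoidHom_eq_one_of_comm hna θ.transfer, MonoidHom.one_apply] at hV
  apply hu
  have h3 : θ u ^ 3 = 1 := mult3_cube _
  exact orderOf_eq_one_iff.1 (Nat.eq_one_of_dvd_coprimes
    (Nat.prime_three.coprime_iff_not_dvd.2 P.not_dvd_index)
    (orderOf_dvd_of_pow_eq_one h3) (orderOf_dvd_of_pow_eq_one hV.symm))

/-- With a large kernel: the wreath product. -/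
theorem wreath_of_big (hna : ¬ IsMulCommutative G) (d : ThreeData P A x k)
    (h : 3 < Nat.card ↥((P : Subgroup G) ⊓ fixingSubgroup G A)) :
    ∃ T : Sylow 3 (Equiv.Perm (Fin (3 ^ 2))),
      Nonempty ((P : Subgroup G) ≃* (T : Subgroup (Equiv.Perm (Fin (3 ^ 2))))) := by
  classical
  haveI : Fact (Nat.Prime 3) := ⟨Nat.prime_three⟩
  have hPM := d.le_stabilizer h
  haveI := kerIn_normal hPM
  obtain ⟨θ, hθ1, hθ⟩ := exists_theta d hPM
  obtain ⟨W, f, hf⟩ := exists_wreath_quotient_of_invariant_hom hna P θ hθ1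
    fun g hg y hy => theta_conj d hPM hθ (normalizer_le d hPM h hg) y hy
  refine ⟨W, ?_⟩
  by_cases hex : ∃ y ∈ (P : Subgroup G), orderOf y = 3 ∧ (fixedBy Ω y).ncard = k ∧ y ∉ fixingSubgroup G A
  · obtain ⟨y, hyP, hy3, hyk, hyK⟩ := hex
    set Y := fixedBy Ω y with hY
    set C := (P : Subgroup G) ⊓ fixingSubgroup G A ⊓ Subgroup.centralizer {y} with hC
    have hBne : (Y \ A).Nonempty := by
      by_contra he
      rw [Set.not_nonempty_iff_eq_empty, Set.sdiff_eq_empty] at he
      exact hyK (mem_fixing_iff.2 (Set.eq_of_subset_of_ncard_le he (d.hA ▸ hyk.ge) (Set.toFinite _)).ge)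
    have hCd : Nat.card C ∣ (Y \ A).ncard := by
      refine card_dvd_ncard_of_free (fun c hc a ha => ?_) fun c hc a ha hca => ?_
      · refine ⟨smul_mem_of_stabilizer (mem_stabilizer_of_commute
          (Subgroup.mem_centralizer_singleton_iff.1 hc.2)) ha.1, fun h' => ha.2 ?_⟩
        have h'' := smul_mem_of_stabilizer (inv_mem (fixing_le_stabilizer hc.1.2)) h'
        rwa [inv_smul_smul] at h''
      · by_contra hc1
        exact ha.2 (d.fix_eq_of_mem hc.1.1 hc.1.2 hc1 ▸ hca)
    have hC3 : Nat.card C ≤ 3 := by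
      have hle : (Y \ A).ncard ≤ k := hyk ▸ Set.ncard_le_ncard Set.sdiff_subset (Set.toFinite _)
      have hCle := (Nat.le_of_dvd ((Set.ncard_pos (Set.toFinite _)).2 hBne) hCd).trans (hle.trans d.hk4)
      obtain ⟨j, hj⟩ := IsPGroup.iff_card.1 (P.2.to_le (inf_le_left.trans inf_le_left : C ≤ (P : Subgroup G)))
      rw [hj] at hCle ⊢
      rcases j with _ | _ | j
      · norm_num
      · norm_num
      · exfalso
        have : 9 ≤ 3 ^ (j + 1 + 1) := by
          rw [pow_succ, pow_succ, mul_assoc]; exact Nat.le_mul_of_pos_left _ (by positivity)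
        omega
    have hCy : Nat.card (Subgroup.centralizer ({⟨y, hyP⟩} : Set (P : Subgroup G))) ≤ 9 := by
      refine (SectRank.card_le_index_mul_card_inf _ (kerIn P A)).trans ?_
      rw [kerIn_index d hPM]
      refine le_trans (Nat.mul_le_mul_left 3 (le_trans ?_ hC3)) (le_refl 9)
      exact Nat.card_le_card_of_injective (fun c => (⟨((c : (P : Subgroup G)) : G),
        ⟨(c : (P : Subgroup G)).2, c.2.2⟩, Subgroup.mem_centralizer_singleton_iff.2
          (congrArg Subtype.val (Subgroup.mem_centralizer_singleton_iff.1 c.2.1))⟩ : C))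
        fun a b e => Subtype.ext (Subtype.ext (congrArg (fun t : C => (t : G)) e))
    exact iso_of_surjective P.2 (x := ⟨y, hyP⟩)
      (Subtype.ext (by rw [SubgroupClass.coe_pow]; exact (congrArg (y ^ ·) hy3.symm).trans (pow_orderOf_eq_one y))) hCy W f hf
  · exfalso
    push Not at hex
    have hcube : ∀ u : (P : Subgroup G), θ u ≠ 1 → u ^ 3 = 1 :=
      fun u hu => cube_eq_one hna d hPM hex hθ u hu
    obtain ⟨hW81, -⟩ := exists_base W
    have := Fintype.ofFinite (P : Subgroup G)
    have := Fintype.ofFinite ↥(W : Subgroup (Equiv.Perm (Fin (3 ^ 2))))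
    set Xs := Finset.univ.filter fun u : (P : Subgroup G) => θ u ≠ 1 with hXs
    have hker : θ.ker = kerIn P A := Subgroup.ext fun u => hθ u
    have hXcard : Xs.card + Nat.card θ.ker = Nat.card (P : Subgroup G) := by
      have h1 : Nat.card θ.ker = (Finset.univ.filter fun u : (P : Subgroup G) => θ u = 1).card := by
        rw [← Nat.card_eq_finsetCard]
        exact Nat.card_congr (Equiv.subtypeEquivRight fun u => by simp)
      rw [h1, hXs, add_comm, Finset.card_filter_add_card_filter_not, Finset.card_univ,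
        Nat.card_eq_fintype_card]
    rw [hker] at hXcard
    have hidx : Nat.card (kerIn P A) * 3 = Nat.card (P : Subgroup G) :=
      (congrArg (Nat.card (kerIn P A) * ·) (kerIn_index d hPM).symm).trans (kerIn P A).card_mul_index
    have hfk : Nat.card f.ker * 81 = Nat.card (P : Subgroup G) := by
      have h' := f.ker.card_mul_index
      rwa [Subgroup.index_ker, MonoidHom.range_eq_top.2 hf, Subgroup.card_top, hW81] at h'
    have hfib : Xs.card ≤ Nat.card f.ker * (Xs.image f).card := by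
      refine Finset.card_le_mul_card_image Xs _ fun w hw => ?_
      obtain ⟨a, -, rfl⟩ := Finset.mem_image.1 hw
      rw [← Nat.card_eq_finsetCard]
      refine Nat.card_le_card_of_injective (fun b => (⟨a⁻¹ * b, ?_⟩ : f.ker)) fun b c e =>
        Subtype.ext (mul_left_cancel (congrArg Subtype.val e))
      rw [MonoidHom.mem_ker, map_mul, map_inv, (Finset.mem_filter.1 b.2).2, inv_mul_cancel]
    have himg : (Xs.image f).card ≤ 45 := by
      refine le_trans ?_ (card_cube_roots W)
      rw [← Nat.card_eq_finsetCard]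
      refine Nat.card_le_card_of_injective (fun b => (⟨(b : ↥(W : Subgroup (Equiv.Perm (Fin (3 ^ 2))))), ?_⟩ :
        {w : ↥(W : Subgroup (Equiv.Perm (Fin (3 ^ 2)))) // w ^ 3 = 1})) fun b c e =>
        Subtype.ext (congrArg (fun t : {w : ↥(W : Subgroup (Equiv.Perm (Fin (3 ^ 2)))) // w ^ 3 = 1} => t.1) e)
      obtain ⟨a, ha, hab⟩ := Finset.mem_image.1 b.2
      rw [← hab, ← map_pow, hcube a (Finset.mem_filter.1 ha).2, map_one]
    have h1 := hfib.trans (Nat.mul_le_mul_left _ himg)
    have := Nat.card_pos (α := f.ker)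
    omega

end CfsgLib.FixityFour
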