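import Cfsg.Agent.FixityFour.Common
import Cfsg.Agent.FixityFour.Criterion

/-!
Point stabilisers of odd order: the set fixed by a 3-element and the associated Sylow subgroup.
-/

set_option autoImplicit false

namespace CfsgLib.FixityFour

open MulAction
open scoped Pointwise

variable {G Ω : Type*} [Group G] [MulAction G Ω]

/-- A 3-subgroup `P`, a fixed set `A` of maximal size `k` of an element `x` of order three of `P`. -/
structure ThreeData (P : Sylow 3 G) (A : Set Ω) (x : G) (k : ℕ) : Prop where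
  hx : orderOf x = 3
  hxP : x ∈ (P : Subgroup G)
  hxK : x ∈ fixingSubgroup G A
  hA : A.ncard = k
  hk3 : 3 ≤ k
  hk4 : k ≤ 4
  hmax : ∀ g : G, orderOf g = 3 → (fixedBy Ω g).ncard ≤ k
  hinv : ∀ t : G, orderOf t = 2 → ∀ a : Ω, t • a ≠ a
  hnall : ∃ u ∈ (P : Subgroup G), orderOf u = 3 ∧ fixedBy Ω u ≠ A
  hRmax : ∀ R : Subgroup G, IsPGroup 3 R → R ≤ fixingSubgroup G A →
    Nat.card R ≤ Nat.card ↥((P : Subgroup G) ⊓ fixingSubgroup G A)

namespace ThreeData

variable {P : Sylow 3 G} {A : Set Ω} {x : G} {k : ℕ}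

theorem fix_eq [Finite Ω] (d : ThreeData P A x k) {g : G} (hg : orderOf g = 3) (h : A ⊆ fixedBy Ω g) :
    fixedBy Ω g = A :=
  fixedBy_eq_of_subset h (d.hA ▸ d.hmax g hg)

theorem fix_eq_of_mem [Finite G] [Finite Ω] (d : ThreeData P A x k) {g : G}
    (hgP : g ∈ (P : Subgroup G)) (hgK : g ∈ fixingSubgroup G A) (hg1 : g ≠ 1) :
    fixedBy Ω g = A := by
  haveI : Fact (Nat.Prime 3) := ⟨Nat.prime_three⟩
  obtain ⟨j, hj⟩ := IsPGroup.iff_orderOf.1 P.2 ⟨g, hgP⟩
  rw [Subgroup.orderOf_mk] at hj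
  rcases j with _ | j
  · exact absurd (orderOf_eq_one_iff.1 (by rw [hj, pow_zero])) hg1
  have h1 := d.fix_eq (exists_pow_orderOf_prime hj) (mem_fixing_iff.1 (pow_mem hgK _))
  exact Set.Subset.antisymm (h1 ▸ fixedBy_subset_pow g _) (mem_fixing_iff.1 hgK)

theorem fix_x [Finite Ω] (d : ThreeData P A x k) : fixedBy Ω x = A :=
  d.fix_eq d.hx (mem_fixing_iff.1 d.hxK)

theorem x_ne_one (d : ThreeData P A x k) : x ≠ 1 := fun h => by
  have := d.hx
  rw [h, orderOf_one] at this
  omega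

/-- Whatever maps a non-identity element of the kernel into the kernel stabilises `A`. -/
theorem mem_stabilizer_of_conj [Finite G] [Finite Ω] (d : ThreeData P A x k) {g u : G}
    (huP : u ∈ (P : Subgroup G)) (huK : u ∈ fixingSubgroup G A) (hu1 : u ≠ 1)
    (hP : g * u * g⁻¹ ∈ (P : Subgroup G)) (hK : g * u * g⁻¹ ∈ fixingSubgroup G A) :
    g ∈ stabilizer G A := by
  have h1 := d.fix_eq_of_mem hP hK (fun h => hu1 (conj_eq_one_iff.1 h))
  rw [← MulAction.smul_fixedBy, d.fix_eq_of_mem huP huK hu1] at h1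
  exact MulAction.mem_stabilizer_iff.2 h1

theorem centralizer_le [Finite Ω] (d : ThreeData P A x k) :
    Subgroup.centralizer ({x} : Set G) ≤ stabilizer G A := fun g hg => by
  rw [← d.fix_x]
  exact mem_stabilizer_of_commute (Subgroup.mem_centralizer_singleton_iff.1 hg)

/-- A 3-subgroup of the stabiliser meets the pointwise stabiliser in index at most three. -/
theorem card_le_three_mul [Finite G] [Finite Ω] (d : ThreeData P A x k) {R : Subgroup G}
    (hR : IsPGroup 3 R) (hRM : R ≤ stabilizer G A) :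
    Nat.card R ≤ 3 * Nat.card ↥(R ⊓ fixingSubgroup G A) := by
  classical
  haveI : Fact (Nat.Prime 3) := ⟨Nat.prime_three⟩
  let ρ : R →* Equiv.Perm A := (actOn G A).comp (Subgroup.inclusion hRM)
  have h := ρ.ker.card_mul_index
  have hker : Nat.card ρ.ker ≤ Nat.card ↥(R ⊓ fixingSubgroup G A) :=
    Nat.card_le_card_of_injective (fun r => (⟨((r : R) : G), r.1.2,
      (actOn_eq_one_iff A _).1 r.2⟩ : ↥(R ⊓ fixingSubgroup G A)))
      fun a b h => Subtype.ext (Subtype.ext (congrArg (fun t : ↥(R ⊓ fixingSubgroup G A) => (t : G)) h))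
  have hidx : ρ.ker.index ≤ 3 := by
    rw [Subgroup.index_ker]
    obtain ⟨i, hi⟩ := IsPGroup.iff_card.1 (hR.of_surjective ρ.rangeRestrict ρ.rangeRestrict_surjective)
    have hd := ρ.range.card_subgroup_dvd_card
    rw [Nat.card_perm, Nat.card_coe_set_eq, d.hA, hi] at hd
    rw [hi]
    rcases i with _ | _ | i
    · norm_num
    · norm_num
    · exfalso
      have h9 : 9 ∣ Nat.factorial k := by
        refine (dvd_mul_left 9 (3 ^ i)).trans ?_
        rwa [show 3 ^ i * 9 = 3 ^ (i + 1 + 1) by rw [pow_succ, pow_succ]; ring]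
      have := d.hk3
      have := d.hk4
      interval_cases k <;> norm_num [Nat.factorial] at h9
  rw [← h, mul_comm 3]
  exact Nat.mul_le_mul hker hidx

theorem not_le_fixing [Finite G] [Finite Ω] (d : ThreeData P A x k) :
    ¬ (P : Subgroup G) ≤ fixingSubgroup G A := fun h => by
  obtain ⟨u, huP, hu, hne⟩ := d.hnall
  exact hne (d.fix_eq hu (mem_fixing_iff.1 (h huP)))

theorem three_le [Finite G] (d : ThreeData P A x k) :
    3 ≤ Nat.card ↥((P : Subgroup G) ⊓ fixingSubgroup G A) := by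
  refine le_of_eq_of_le ?_ (Subgroup.card_le_of_le (Subgroup.zpowers_le.2 ⟨d.hxP, d.hxK⟩ :
    Subgroup.zpowers x ≤ (P : Subgroup G) ⊓ fixingSubgroup G A))
  rw [Nat.card_zpowers, d.hx]

theorem card_centralizer_le [Finite G] [Finite Ω] (d : ThreeData P A x k)
    (h3 : Nat.card ↥((P : Subgroup G) ⊓ fixingSubgroup G A) = 3) {y g : G}
    (hgy : g * x * g⁻¹ = y) (R : Subgroup G) (hR : IsPGroup 3 R)
    (hRy : R ≤ Subgroup.centralizer ({y} : Set G)) : Nat.card R ≤ 9 := by
  set R' := R.map (MulAut.conj g⁻¹).toMonoidHom with hR'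
  have hc : Nat.card R' = Nat.card R := Subgroup.card_map_of_injective (MulAut.conj g⁻¹).injective
  have hR'p : IsPGroup 3 R' := hR.map _
  have hle : R' ≤ stabilizer G A := by
    rintro _ ⟨r, hr, rfl⟩
    refine d.centralizer_le (Subgroup.mem_centralizer_singleton_iff.2 ?_)
    show g⁻¹ * r * g⁻¹⁻¹ * x = x * (g⁻¹ * r * g⁻¹⁻¹)
    have h := Subgroup.mem_centralizer_singleton_iff.1 (hRy hr)
    have hx' : x = g⁻¹ * y * g := by rw [← hgy]; group
    rw [inv_inv, hx']
    calc g⁻¹ * r * g * (g⁻¹ * y * g) = g⁻¹ * (r * y) * g := by group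
      _ = g⁻¹ * (y * r) * g := by rw [h]
      _ = _ := by group
  have h1 := d.card_le_three_mul hR'p hle
  have h2 := d.hRmax _ (hR'p.to_le inf_le_left) (inf_le_right : R' ⊓ fixingSubgroup G A ≤ _)
  rw [hc] at h1
  omega

/-- If the kernel has more than three elements the Sylow subgroup stabilises `A`. -/
theorem le_stabilizer [Finite G] [Finite Ω] (d : ThreeData P A x k)
    (h : 3 < Nat.card ↥((P : Subgroup G) ⊓ fixingSubgroup G A)) :
    (P : Subgroup G) ≤ stabilizer G A := by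
  haveI : Fact (Nat.Prime 3) := ⟨Nat.prime_three⟩
  by_contra hle
  set Q := (P : Subgroup G) ⊓ stabilizer G A with hQ
  have hlt : Q < (P : Subgroup G) := lt_of_le_of_ne inf_le_left fun e => hle (e ▸ inf_le_right)
  haveI := P.2.isNilpotent
  have hlt' : Q.subgroupOf (P : Subgroup G) < ⊤ := lt_top_iff_ne_top.2 fun e =>
    absurd hlt (not_lt_of_ge (Subgroup.subgroupOf_eq_top.1 e))
  have hgrow := normalizerCondition_of_isNilpotent (Q.subgroupOf (P : Subgroup G)) hlt'
  obtain ⟨⟨s, hsP⟩, hsN, hsQ⟩ := SetLike.exists_of_lt hgrow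
  have hsA : s ∉ stabilizer G A := fun h => hsQ (Subgroup.mem_subgroupOf.2 ⟨hsP, h⟩)
  set T0 := (P : Subgroup G) ⊓ fixingSubgroup G A with hT0
  set T1 := T0.map (MulAut.conj s).toMonoidHom with hT1
  have hT0Q : T0 ≤ Q := inf_le_inf_left _ fixing_le_stabilizer
  have hT1Q : T1 ≤ Q := by
    rintro _ ⟨t, ht, rfl⟩
    exact (Subgroup.mem_normalizer_iff.1 hsN ⟨t, ht.1⟩).1 (Subgroup.mem_subgroupOf.2 (hT0Q ht))
  have hc : Nat.card T1 = Nat.card T0 := Subgroup.card_map_of_injective (MulAut.conj s).injective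
  have h1 := d.card_le_three_mul (P.2.to_le inf_le_left) (inf_le_right : Q ≤ _)
  have h2 : Q ⊓ fixingSubgroup G A ≤ T0 := inf_le_inf_right _ inf_le_left
  have h1' : Nat.card Q ≤ 3 * Nat.card T0 := h1.trans (Nat.mul_le_mul_left 3 (Subgroup.card_le_of_le h2))
  have hinj : Function.Injective fun q : T0 × T1 => (⟨(q.1 : G) * q.2, mul_mem (hT0Q q.1.2) (hT1Q q.2.2)⟩ : Q) := by
    rintro ⟨a, b⟩ ⟨c, e⟩ hq
    have hq' : (a : G) * b = c * e := congrArg Subtype.val hq
    have hmem : (c : G)⁻¹ * a ∈ T0 := mul_mem (inv_mem c.2) a.2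
    have hmem' : (c : G)⁻¹ * a ∈ T1 := by
      rw [show (c : G)⁻¹ * a = e * (b : G)⁻¹ by rw [inv_mul_eq_iff_eq_mul, ← mul_assoc, ← hq', mul_inv_cancel_right]]
      exact mul_mem e.2 (inv_mem b.2)
    by_cases hce : (c : G)⁻¹ * a = 1
    · have hca : a = c := Subtype.ext (inv_mul_eq_one.1 hce).symm
      subst hca
      exact Prod.ext rfl (Subtype.ext (mul_left_cancel hq'))
    · exfalso
      obtain ⟨t, ht, hts⟩ := hmem'
      have hts' : s * t * s⁻¹ = (c : G)⁻¹ * a := hts
      exact hsA (d.mem_stabilizer_of_conj ht.1 ht.2 (fun h => hce (by rw [← hts', h]; group))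
        (hts'.symm ▸ hmem.1) (hts'.symm ▸ hmem.2))
  have h3 := Nat.card_le_card_of_injective _ hinj
  rw [Nat.card_prod, hc] at h3
  have h4 : Nat.card T0 * Nat.card T0 ≤ 3 * Nat.card T0 := h3.trans h1'
  exact absurd (Nat.le_of_mul_le_mul_right h4 Nat.card_pos) (not_le.2 h)

end ThreeData

end CfsgLib.FixityFour
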