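import Mathlib
import Cfsg.Agent.PGroup.Frattini
import Cfsg.Agent.Transfer.NormalPComplement

/-!
Invariant characters of order three of a 3-group with small abelianisation.
-/

set_option autoImplicit false

namespace CfsgLib.FixityFour

/-- The pair map of two elements of a commutative group of exponent three. -/
def pairHom {Q : Type*} [CommGroup Q] (h3 : ∀ q : Q, q ^ 3 = 1) (a b : Q) :
    Multiplicative (ZMod 3 × ZMod 3) →* Q where
  toFun p := a ^ (Multiplicative.toAdd p).1.val * b ^ (Multiplicative.toAdd p).2.val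
  map_one' := by simp
  map_mul' p q := by
    have key : ∀ (c : Q) (i j : ZMod 3), c ^ (i + j).val = c ^ i.val * c ^ j.val := fun c i j => by
      rw [← pow_add, ZMod.val_add, ← pow_eq_pow_mod _ (h3 c)]
    simp only [toAdd_mul, Prod.fst_add, Prod.snd_add, key]
    ac_rfl

theorem pairHom_bijective {Q : Type*} [CommGroup Q] (h3 : ∀ q : Q, q ^ 3 = 1) {a b : Q}
    (ha : a ≠ 1) (hb : b ∉ Subgroup.zpowers a) (hQ : Nat.card Q = 9) :
    Function.Bijective (pairHom h3 a b) := by
  haveI : Finite Q := Nat.finite_of_card_ne_zero (by omega)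
  refine (Nat.bijective_iff_injective_and_card _).2 ⟨?_, by simp [hQ]⟩
  rw [injective_iff_map_eq_one]
  intro p hp
  obtain ⟨⟨i, j⟩, rfl⟩ := Multiplicative.ofAdd.surjective p
  have hp' : a ^ i.val * b ^ j.val = 1 := hp
  have hj : j.val = 0 := by
    by_contra hne
    apply hb
    have h1 : b ^ j.val ∈ Subgroup.zpowers a := by
      rw [eq_inv_of_mul_eq_one_right hp']
      exact inv_mem (Subgroup.npow_mem_zpowers a _)
    have hlt := ZMod.val_lt j
    have hc : j.val = 1 ∨ j.val = 2 := by omega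
    rcases hc with hc | hc
    · rwa [hc, pow_one] at h1
    · rw [hc] at h1
      have h2 := inv_mem h1
      rwa [show (b ^ 2)⁻¹ = b from inv_eq_of_mul_eq_one_right (by rw [← pow_succ]; exact h3 b)] at h2
  rw [hj, pow_zero, mul_one] at hp'
  have hi : i.val = 0 := by
    by_contra hne
    apply ha
    have hlt := ZMod.val_lt i
    have hc : i.val = 1 ∨ i.val = 2 := by omega
    rcases hc with hc | hc
    · rwa [hc, pow_one] at hp'
    · rw [hc] at hp'
      calc a = a ^ 2 * a := by rw [hp', one_mul]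
        _ = 1 := by rw [← pow_succ]; exact h3 a
  rw [(ZMod.val_eq_zero i).1 hi, (ZMod.val_eq_zero j).1 hj]
  rfl

/-- An odd automorphism of order prime to three of a group of order at most nine without involutions
is trivial. -/
theorem eq_id_of_small {Q : Type*} [Group Q] [Finite Q] (hQ : Nat.card Q ≤ 9)
    (hno : ∀ q : Q, q ^ 2 = 1 → q = 1) (α : Q →* Q) {m : ℕ} (hm : m.Coprime 6)
    (hα : (⇑α)^[m] = id) : ∀ q, α q = q := by
  classical
  have := Fintype.ofFinite Q
  intro q
  by_contra hne
  have hq1 : q ≠ 1 := fun h => hne (by rw [h, map_one])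
  have hinj : Function.Injective α := by
    intro a b h
    have hm0 : m ≠ 0 := fun h => by rw [h] at hm; norm_num at hm
    obtain ⟨j, rfl⟩ := Nat.exists_eq_succ_of_ne_zero hm0
    have := congrArg ((⇑α)^[j]) h
    rw [← Function.iterate_succ_apply, ← Function.iterate_succ_apply, hα] at this
    exact this
  have hper : ∀ r, Function.IsPeriodicPt α m r := fun r => congrFun hα r
  set L := Function.minimalPeriod α q with hL
  have hLm : L ∣ m := (hper q).minimalPeriod_dvd
  have hLpos : 0 < L := by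
    rcases Nat.eq_zero_or_pos L with h | h
    · rw [h] at hLm; rw [zero_dvd_iff.1 hLm] at hm; norm_num at hm
    · exact h
  have hL1 : L ≠ 1 := fun h => hne (Function.minimalPeriod_eq_one_iff_isFixedPt.1 h)
  have hL6 : L.Coprime 6 := Nat.Coprime.coprime_dvd_left hLm hm
  have hL5 : 5 ≤ L := by
    by_contra h
    interval_cases L <;> first | omega | exact absurd hL6 (by decide)
  -- the orbits of `q` and `q⁻¹`
  let O := (Finset.range L).image fun i => (⇑α)^[i] q
  let O' := (Finset.range L).image fun i => ((⇑α)^[i] q)⁻¹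
  have hinjO : Set.InjOn (fun i => (⇑α)^[i] q) (Finset.range L : Set ℕ) := by
    intro i hi j hj h
    simp only [Finset.coe_range, Set.mem_Iio] at hi hj
    exact Function.iterate_injOn_Iio_minimalPeriod hi hj h
  have hcO : O.card = L := by rw [Finset.card_image_of_injOn hinjO, Finset.card_range]
  have hcO' : O'.card = L := by
    rw [Finset.card_image_of_injOn (fun i hi j hj h => hinjO hi hj (inv_injective h)), Finset.card_range]
  have hne1 : ∀ i, (⇑α)^[i] q ≠ 1 := fun i h => hq1 ((hinj.iterate i) (by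
    rw [h]; exact ((Function.IsFixedPt.iterate (f := α) (x := (1 : Q)) (map_one α) i).eq).symm))
  have hdis : Disjoint O O' := by
    rw [Finset.disjoint_left]
    intro r hr hr'
    obtain ⟨i, -, rfl⟩ := Finset.mem_image.1 hr
    obtain ⟨j, -, hj⟩ := Finset.mem_image.1 hr'
    have hinv : ∀ (n : ℕ) (r : Q), (⇑α)^[n] r⁻¹ = ((⇑α)^[n] r)⁻¹ := fun n r => by
      induction n with
      | zero => rfl
      | succ n ih => rw [Function.iterate_succ_apply', Function.iterate_succ_apply', ih, map_inv]
    -- `α^i q = (α^j q)⁻¹`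
    have hkey : ∃ d : ℕ, (⇑α)^[d] q = q⁻¹ := by
      refine ⟨(m * i - i) + j, ?_⟩
      have hm1 : i ≤ m * i := Nat.le_mul_of_pos_left i (Nat.pos_of_ne_zero fun h => by
        rw [h] at hm; norm_num at hm)
      rw [Function.iterate_add_apply, inv_eq_iff_eq_inv.1 hj, hinv, ← Function.iterate_add_apply,
        Nat.sub_add_cancel hm1, Function.iterate_mul, hα, Function.iterate_id]
      rfl
    obtain ⟨d, hd⟩ := hkey
    have h2 : L ∣ 2 * d := by
      apply Function.IsPeriodicPt.minimalPeriod_dvd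
      show (⇑α)^[2 * d] q = q
      rw [two_mul, Function.iterate_add_apply, hd, hinv, hd, inv_inv]
    have h3 : L ∣ d := (Nat.Coprime.coprime_dvd_right (show 2 ∣ 6 by norm_num) hL6).dvd_of_dvd_mul_left h2
    have h4 : (⇑α)^[d] q = q := (Function.isPeriodicPt_minimalPeriod α q).trans_dvd h3
    rw [h4] at hd
    exact hq1 (hno q (by rw [pow_two]; nth_rewrite 1 [hd]; exact inv_mul_cancel q))
  have hsub : O ∪ O' ⊆ (Finset.univ : Finset Q).erase 1 := by
    intro r hr
    refine Finset.mem_erase.2 ⟨?_, Finset.mem_univ r⟩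
    rcases Finset.mem_union.1 hr with h | h <;> obtain ⟨i, -, rfl⟩ := Finset.mem_image.1 h
    · exact hne1 i
    · exact inv_ne_one.2 (hne1 i)
  have hc := Finset.card_le_card hsub
  rw [Finset.card_union_of_disjoint hdis, hcO, hcO',
    Finset.card_erase_of_mem (Finset.mem_univ 1), Finset.card_univ, ← Nat.card_eq_fintype_card] at hc
  omega

variable {G : Type*} [Group G] [Finite G]

/-- An element of odd order normalising a 3-subgroup of index prime to three in its normaliser with
abelianisation of order at most nine centralises the abelianisation. -/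
theorem hom_invariant_of_odd (P : Sylow 3 G) (hQ : (commutator (P : Subgroup G)).index ≤ 9)
    {A : Type*} [CommGroup A] (θ : (P : Subgroup G) →* A) {g : G}
    (hg : g ∈ Subgroup.normalizer ((P : Subgroup G) : Set G)) (hodd : Odd (orderOf g))
    (x : (P : Subgroup G)) (h : g * (x : G) * g⁻¹ ∈ (P : Subgroup G)) :
    θ ⟨g * (x : G) * g⁻¹, h⟩ = θ x := by
  haveI : Fact (Nat.Prime 3) := ⟨Nat.prime_three⟩
  obtain ⟨a, b, ha, hb, hgab, ⟨k, hk⟩, hbcop⟩ := Transfer.exists_pPart_decomposition (p := 3) g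
  have hle : Subgroup.zpowers g ≤ Subgroup.normalizer ((P : Subgroup G) : Set G) := Subgroup.zpowers_le.2 hg
  have haP : a ∈ (P : Subgroup G) := by
    have hpg : IsPGroup 3 (Subgroup.zpowers a) := by
      obtain ⟨i, -, hi⟩ := (Nat.dvd_prime_pow Nat.prime_three).1 hk
      exact IsPGroup.of_card (n := i) (by rw [Nat.card_zpowers, hi])
    have hsup : IsPGroup 3 ↥((P : Subgroup G) ⊔ Subgroup.zpowers a) :=
      P.2.to_sup_of_normal_left' hpg (Subgroup.zpowers_le.2 (hle ha))
    rw [← P.3 hsup le_sup_left]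
    exact Subgroup.mem_sup_right (Subgroup.mem_zpowers a)
  have hbN := hle hb
  let cb : (P : Subgroup G) →* (P : Subgroup G) :=
    ((MulAut.conj b).toMonoidHom.comp (P : Subgroup G).subtype).codRestrict _
      fun y => (Subgroup.mem_normalizer_iff.1 hbN y).1 y.2
  let α : Abelianization (P : Subgroup G) →* Abelianization (P : Subgroup G) := Abelianization.map cb
  have hcbiter : ∀ (j : ℕ) (y : (P : Subgroup G)),
      ((cb^[j] y : (P : Subgroup G)) : G) = b ^ j * (y : G) * (b ^ j)⁻¹ := by
    intro j y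
    induction j with
    | zero => simp
    | succ j ih =>
      rw [Function.iterate_succ_apply']
      show b * ((cb^[j] y : (P : Subgroup G)) : G) * b⁻¹ = _
      rw [ih, pow_succ']
      group
  have hαiter : ∀ (j : ℕ) (y : (P : Subgroup G)),
      (⇑α)^[j] (Abelianization.of y) = Abelianization.of (cb^[j] y) := by
    intro j y
    induction j with
    | zero => rfl
    | succ j ih =>
      rw [Function.iterate_succ_apply', Function.iterate_succ_apply', ih]
      exact Abelianization.map_of cb _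
  have hm : (orderOf b).Coprime 6 := by
    have h2 : (orderOf b).Coprime 2 := by
      rw [Nat.coprime_comm, Nat.prime_two.coprime_iff_not_dvd, ← even_iff_two_dvd, Nat.not_even_iff_odd]
      exact Odd.of_dvd_nat hodd (orderOf_dvd_of_mem_zpowers hb)
    exact Nat.Coprime.mul_right h2 hbcop
  have hαm : (⇑α)^[orderOf b] = id := funext fun q => by
    obtain ⟨y, rfl⟩ := QuotientGroup.mk_surjective q
    show (⇑α)^[orderOf b] (Abelianization.of y) = Abelianization.of y
    rw [hαiter]
    congr 1
    exact Subtype.ext (by rw [hcbiter, pow_orderOf_eq_one]; group)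
  have hQ9 : Nat.card (Abelianization (P : Subgroup G)) ≤ 9 := by
    show Nat.card ((P : Subgroup G) ⧸ commutator (P : Subgroup G)) ≤ 9
    rw [← Subgroup.index_eq_card]; exact hQ
  have hno : ∀ q : Abelianization (P : Subgroup G), q ^ 2 = 1 → q = 1 := by
    intro q hq
    obtain ⟨j, hj⟩ := (P.2.to_quotient (commutator (P : Subgroup G))) q
    have h1 : orderOf q ∣ 2 := orderOf_dvd_of_pow_eq_one hq
    have h2 : orderOf q ∣ 3 ^ j := orderOf_dvd_of_pow_eq_one hj
    exact orderOf_eq_one_iff.1 (Nat.eq_one_of_dvd_coprimes ((Nat.Coprime.pow_right j (by norm_num))) h1 h2)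
  have hid := eq_id_of_small hQ9 hno α hm hαm
  have hb' := hid (Abelianization.of x)
  rw [show α (Abelianization.of x) = Abelianization.of (cb x) from Abelianization.map_of cb x] at hb'
  have hθ : θ (cb x) = θ x := by
    rw [← Abelianization.lift_apply_of θ (cb x), hb', Abelianization.lift_apply_of]
  have e : (⟨g * (x : G) * g⁻¹, h⟩ : (P : Subgroup G)) = ⟨a, haP⟩ * cb x * ⟨a, haP⟩⁻¹ := Subtype.ext (by
    show g * (x : G) * g⁻¹ = a * (b * (x : G) * b⁻¹) * a⁻¹
    rw [hgab]; group)
  rw [e, map_mul, map_mul, map_inv, mul_inv_cancel_comm, hθ]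

/-- A character fixing a vector can be averaged to an invariant one. -/
theorem exists_invariant_of_fixed {p : ℕ} [Fact p.Prime] (P : Sylow p G)
    (θ : (P : Subgroup G) →* Multiplicative (ZMod p)) {v : (P : Subgroup G)} (hv : θ v ≠ 1)
    (hfix : ∀ g ∈ Subgroup.normalizer ((P : Subgroup G) : Set G), ∀ h : g * (v : G) * g⁻¹ ∈ (P : Subgroup G),
      θ ⟨g * (v : G) * g⁻¹, h⟩ = θ v) :
    ∃ Θ : (P : Subgroup G) →* Multiplicative (ZMod p), Θ ≠ 1 ∧
      ∀ g ∈ Subgroup.normalizer ((P : Subgroup G) : Set G), ∀ x : (P : Subgroup G),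
        ∀ h : g * (x : G) * g⁻¹ ∈ (P : Subgroup G), Θ ⟨g * (x : G) * g⁻¹, h⟩ = Θ x := by
  classical
  set Nz := Subgroup.normalizer ((P : Subgroup G) : Set G) with hNz
  have hmem : ∀ g : Nz, ∀ x : (P : Subgroup G), (g : G) * x * (g : G)⁻¹ ∈ (P : Subgroup G) :=
    fun g x => (Subgroup.mem_normalizer_iff.1 g.2 x).1 x.2
  let ψ : Nz → (P : Subgroup G) →* Multiplicative (ZMod p) := fun g =>
    θ.comp (((MulAut.conj (g : G)).toMonoidHom.comp (P : Subgroup G).subtype).codRestrict _ (hmem g))
  have hψ : ∀ (g : Nz) (x : (P : Subgroup G)), ψ g x = θ ⟨(g : G) * x * (g : G)⁻¹, hmem g x⟩ :=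
    fun g x => rfl
  set H := (P : Subgroup G).subgroupOf Nz with hH
  haveI : H.Normal := Subgroup.normal_subgroupOf_of_le_normalizer le_rfl
  have hwd : ∀ g g' : Nz, g⁻¹ * g' ∈ H → ψ g = ψ g' := by
    intro g g' hgg
    refine MonoidHom.ext fun x => ?_
    rw [Subgroup.mem_subgroupOf] at hgg
    set d : (P : Subgroup G) := ⟨_, hgg⟩ with hd
    have e : (⟨(g' : G) * x * (g' : G)⁻¹, hmem g' x⟩ : (P : Subgroup G)) =
        ⟨(g : G) * d * (g : G)⁻¹, hmem g d⟩ * ⟨(g : G) * x * (g : G)⁻¹, hmem g x⟩ *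
          (⟨(g : G) * d * (g : G)⁻¹, hmem g d⟩)⁻¹ := Subtype.ext (by
      show (g' : G) * x * (g' : G)⁻¹ = (g : G) * ((g⁻¹ * g' : Nz) : G) * (g : G)⁻¹ * ((g : G) * x * (g : G)⁻¹)
        * ((g : G) * ((g⁻¹ * g' : Nz) : G) * (g : G)⁻¹)⁻¹
      simp only [Subgroup.coe_mul, Subgroup.coe_inv]
      group)
    rw [hψ, hψ, e, map_mul, map_mul, map_inv, mul_inv_cancel_comm]
  let Ψ : Nz ⧸ H → (P : Subgroup G) →* Multiplicative (ZMod p) := fun q =>
    Quotient.liftOn' q ψ fun g g' h => hwd g g' (by rwa [QuotientGroup.leftRel_apply] at h)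
  have hΨ : ∀ g : Nz, Ψ (g : Nz ⧸ H) = ψ g := fun g => rfl
  have := Fintype.ofFinite (Nz ⧸ H)
  refine ⟨∏ q, Ψ q, fun h1 => ?_, fun g hg x h => ?_⟩
  · have h2 := DFunLike.congr_fun h1 v
    rw [MonoidHom.finsetProd_apply, MonoidHom.one_apply, Finset.prod_congr rfl (g := fun _ => θ v)
      (fun q _ => by
        induction q using QuotientGroup.induction_on with | _ g => ?_
        rw [hΨ, hψ]; exact hfix g g.2 _), Finset.prod_const, Finset.card_univ] at h2
    apply hv
    have hp := (Fact.out : p.Prime)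
    have hcop : p.Coprime (Fintype.card (Nz ⧸ H)) := by
      rw [hp.coprime_iff_not_dvd, ← Nat.card_eq_fintype_card, ← Subgroup.index_eq_card]
      intro hd
      exact P.not_dvd_index (hd.trans ⟨_, (Subgroup.relIndex_mul_index (Subgroup.le_normalizer)).symm⟩)
    have hpow : θ v ^ p = 1 := by
      have := pow_card_eq_one' (x := θ v)
      rwa [show Nat.card (Multiplicative (ZMod p)) = p from Nat.card_zmod p] at this
    exact orderOf_eq_one_iff.1 (Nat.eq_one_of_dvd_coprimes hcop
      (orderOf_dvd_of_pow_eq_one hpow) (orderOf_dvd_of_pow_eq_one h2))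
  · rw [MonoidHom.finsetProd_apply, MonoidHom.finsetProd_apply]
    refine Fintype.prod_equiv (Equiv.mulRight ((⟨g, hg⟩ : Nz) : Nz ⧸ H)) _ _ fun q => ?_
    induction q using QuotientGroup.induction_on with | _ r => ?_
    simp only [Equiv.coe_mulRight, ← QuotientGroup.mk_mul, hΨ, hψ]
    congr 1
    refine Subtype.ext ?_
    show (r : G) * (g * x * g⁻¹) * (r : G)⁻¹ = ((r * ⟨g, hg⟩ : Nz) : G) * x * ((r * ⟨g, hg⟩ : Nz) : G)⁻¹
    rw [Subgroup.coe_mul]
    group

end CfsgLib.FixityFour
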