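import Cfsg.Agent.FixityFour.OddBig
import Cfsg.Agent.FixityFour.ThreeHoms

/-!
Point stabilisers of odd order, kernel of order three: an invariant character.
-/

set_option autoImplicit false

namespace CfsgLib.FixityFour

open MulAction
open scoped Pointwise

set_option maxRecDepth 10000 in
theorem plane_fixers : ∀ F ∈ (Finset.univ : Finset (ZMod 3 × ZMod 3)).powerset, (1, 0) ∈ F →
    (∀ f ∈ F, f ≠ 0 ∧ -f ∉ F) → ∑ f ∈ F, f = 0 →
    ∃ c : ZMod 3 × ZMod 3, (∀ f ∈ F, c.1 * f.1 + c.2 * f.2 = 1) ∧ ∃ f ∈ F, f.2 ≠ 0 := by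
  decide

theorem ofAdd_one_ne_one : Multiplicative.ofAdd (1 : ZMod 3) ≠ 1 := by decide

theorem hom_eq_of_pair {Q M : Type*} [CommGroup Q] [CommGroup M] (h3 : ∀ q : Q, q ^ 3 = 1) {a b : Q}
    (ha : a ≠ 1) (hb : b ∉ Subgroup.zpowers a) (hQ : Nat.card Q = 9) (f g : Q →* M)
    (hfa : f a = g a) (hfb : f b = g b) (q : Q) : f q = g q := by
  obtain ⟨p, rfl⟩ := (pairHom_bijective h3 ha hb hQ).2 q
  simp only [pairHom, MonoidHom.coe_mk, OneHom.coe_mk, map_mul, map_pow, hfa, hfb]

variable {G Ω : Type*} [Group G] [MulAction G Ω] [Finite G] [Finite Ω]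
  {P : Sylow 3 G} {A : Set Ω} {x : G} {k : ℕ}

theorem small_card_centralizer (d : ThreeData P A x k)
    (h3 : Nat.card ↥((P : Subgroup G) ⊓ fixingSubgroup G A) = 3) (y : (P : Subgroup G))
    (hy : IsConj x (y : G)) : Nat.card (Subgroup.centralizer ({y} : Set (P : Subgroup G))) ≤ 9 := by
  obtain ⟨g, hg⟩ := isConj_iff.1 hy
  rw [← Subgroup.card_map_of_injective (P : Subgroup G).subtype_injective]
  refine d.card_centralizer_le h3 hg _ ((P.2.to_subgroup _).map _) ?_
  rintro _ ⟨r, hr, rfl⟩
  exact Subgroup.mem_centralizer_singleton_iff.2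
    (congrArg Subtype.val (Subgroup.mem_centralizer_singleton_iff.1 hr))

/-- The abelianisation of the Sylow subgroup is elementary of order nine. -/
theorem small_abelianization (d : ThreeData P A x k)
    (h3 : Nat.card ↥((P : Subgroup G) ⊓ fixingSubgroup G A) = 3) :
    Nat.card (Abelianization (P : Subgroup G)) = 9 ∧
      ∀ q : Abelianization (P : Subgroup G), q ^ 3 = 1 := by
  classical
  haveI : Fact (Nat.Prime 3) := ⟨Nat.prime_three⟩
  obtain ⟨u, huP, hu3, hune⟩ := d.hnall
  have hle : Nat.card (Abelianization (P : Subgroup G)) ≤ 9 := by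
    have h1 := SectRank.card_le_card_mul_card_centralizer (⟨x, d.hxP⟩ : (P : Subgroup G))
      (commutator (P : Subgroup G)) fun g => by
        rw [← commutatorElement_def]
        exact Subgroup.commutator_mem_commutator (Subgroup.mem_top _) (Subgroup.mem_top _)
    have h2 := small_card_centralizer d h3 ⟨x, d.hxP⟩ (IsConj.refl x)
    show Nat.card ((P : Subgroup G) ⧸ commutator (P : Subgroup G)) ≤ 9
    have h4 := (commutator (P : Subgroup G)).card_eq_card_quotient_mul_card_subgroup
    have h5 := Nat.card_pos (α := commutator (P : Subgroup G))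
    have h6 := h1.trans (Nat.mul_le_mul_left _ h2)
    rw [h4, mul_comm _ 9] at h6
    exact Nat.le_of_mul_le_mul_right h6 h5
  have hncyc : ¬ IsCyclic (Abelianization (P : Subgroup G)) := by
    intro hc
    obtain ⟨q, hq⟩ := hc.exists_generator
    obtain ⟨a, rfl⟩ := QuotientGroup.mk_surjective q
    have htop : Subgroup.zpowers a ⊔ frattini (P : Subgroup G) = ⊤ := by
      rw [eq_top_iff]
      intro b _
      obtain ⟨i, hi⟩ := hq (QuotientGroup.mk b)
      have hb : (a ^ i)⁻¹ * b ∈ commutator (P : Subgroup G) := by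
        rw [← QuotientGroup.eq]
        exact hi
      rw [show b = a ^ i * ((a ^ i)⁻¹ * b) by group]
      exact Subgroup.mul_mem_sup (zpow_mem (Subgroup.mem_zpowers a) i)
        (PGroup.commutator_le_frattini P.2 hb)
    haveI := P.2.isNilpotent
    have hgen : Subgroup.zpowers a = ⊤ := frattini_nongenerating htop
    haveI : IsCyclic (P : Subgroup G) :=
      ⟨⟨a, fun b => (hgen ▸ Subgroup.mem_top b : b ∈ Subgroup.zpowers a)⟩⟩
    have := Fintype.ofFinite (P : Subgroup G)
    have hroots := IsCyclic.card_pow_eq_one_le (α := (P : Subgroup G)) (n := 3) (by norm_num)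
    let x' : (P : Subgroup G) := ⟨x, d.hxP⟩
    let u' : (P : Subgroup G) := ⟨u, huP⟩
    have hx3 : x' ^ 3 = 1 := Subtype.ext (by
      rw [SubgroupClass.coe_pow]; exact (congrArg (x ^ ·) d.hx.symm).trans (pow_orderOf_eq_one x))
    have hu3' : u' ^ 3 = 1 := Subtype.ext (by
      rw [SubgroupClass.coe_pow]; exact (congrArg (u ^ ·) hu3.symm).trans (pow_orderOf_eq_one u))
    have hxo : orderOf x' = 3 := by rw [← Subgroup.orderOf_coe]; exact d.hx
    have hu_ne : ∀ j : ℕ, u' ≠ x' ^ j := fun j hj => by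
      have hju : u = x ^ j := congrArg Subtype.val hj
      refine hune (d.fix_eq hu3 ?_)
      rw [hju, ← d.fix_x]
      exact fixedBy_subset_pow x j
    have hsub : ({1, x', x' ^ 2, u'} : Finset (P : Subgroup G)).card = 4 := by
      have e1 : x' ≠ 1 := fun h => by rw [h, orderOf_one] at hxo; omega
      have e2 : x' ^ 2 ≠ 1 := fun h => by
        have := Nat.le_of_dvd two_pos (orderOf_dvd_of_pow_eq_one h); omega
      have e3 : x' ^ 2 ≠ x' := fun h => e1 (by rw [pow_two] at h; exact mul_eq_left.1 h)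
      have e4 : u' ≠ 1 := by simpa using hu_ne 0
      have e5 : u' ≠ x' := by simpa using hu_ne 1
      have e6 : u' ≠ x' ^ 2 := hu_ne 2
      simp [e1.symm, e2.symm, e3.symm, e4.symm, e5.symm, e6.symm]
    have hcard := le_trans (Finset.card_le_card (s := ({1, x', x' ^ 2, u'} : Finset (P : Subgroup G)))
      (fun t ht => by
        simp only [Finset.mem_insert, Finset.mem_singleton] at ht
        rw [Finset.mem_filter]
        refine ⟨Finset.mem_univ _, ?_⟩
        rcases ht with rfl | rfl | rfl | rfl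
        · exact one_pow 3
        · exact hx3
        · rw [← pow_mul, mul_comm, pow_mul, hx3, one_pow]
        · exact hu3')) hroots
    omega
  obtain ⟨i, hi⟩ := IsPGroup.iff_card.1 (P.2.to_quotient (commutator (P : Subgroup G)))
  change Nat.card (Abelianization (P : Subgroup G)) = _ at hi
  have h9 : Nat.card (Abelianization (P : Subgroup G)) = 9 := by
    rw [hi] at hle ⊢
    rcases i with _ | _ | i
    · exfalso
      apply hncyc
      haveI := (Nat.card_eq_one_iff_unique.1 (by rw [hi, pow_zero])).1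
      exact isCyclic_of_subsingleton
    · exact absurd (isCyclic_of_prime_card (p := 3) (by rw [hi, zero_add, pow_one])) hncyc
    · have : 9 * 3 ^ i = 3 ^ (i + 1 + 1) := by rw [pow_succ, pow_succ]; ring
      have : 0 < 3 ^ i := by positivity
      omega
  refine ⟨h9, fun q => ?_⟩
  by_contra hq
  have hd : orderOf q ∣ 9 := h9 ▸ orderOf_dvd_natCard q
  obtain ⟨j, hj, hjo⟩ := (Nat.dvd_prime_pow Nat.prime_three (m := 2)).1 hd
  interval_cases j
  · exact hq (by rw [orderOf_eq_one_iff.1 (show orderOf q = 1 by rw [hjo, pow_zero]), one_pow])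
  · exact hq (orderOf_dvd_iff_pow_eq_one.1 (by rw [hjo, pow_one]))
  · exact hncyc (isCyclic_of_orderOf_eq_card q (by rw [hjo, h9]; norm_num))

/-- An odd normaliser centralises a small abelianisation. -/
theorem small_theta_four (d : ThreeData P A x k) (hn : Nat.card Ω % 3 = 1)
    (h3 : Nat.card ↥((P : Subgroup G) ⊓ fixingSubgroup G A) = 3) :
    ∃ θ : (P : Subgroup G) →* Multiplicative (ZMod 3), θ ≠ 1 ∧
      ∀ g ∈ Subgroup.normalizer ((P : Subgroup G) : Set G), ∀ y : (P : Subgroup G),
        ∀ h : g * (y : G) * g⁻¹ ∈ (P : Subgroup G), θ ⟨g * (y : G) * g⁻¹, h⟩ = θ y := by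
  classical
  haveI : Fact (Nat.Prime 3) := ⟨Nat.prime_three⟩
  obtain ⟨h9, -⟩ := small_abelianization d h3
  set B := MulAction.fixedPoints (P : Subgroup G) Ω with hB
  have hBA : B ⊆ A := fun a ha => d.fix_x ▸ (ha ⟨x, d.hxP⟩ : x • a = a)
  have hmod : Nat.card Ω ≡ B.ncard [MOD 3] := by
    rw [← Nat.card_coe_set_eq]; exact P.2.card_modEq_card_fixedPoints Ω
  have hBle : B.ncard ≤ k := d.hA ▸ Set.ncard_le_ncard hBA (Set.toFinite _)
  have hBne : B.ncard ≠ k := fun e => d.not_le_fixing fun p hp => by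
    rw [mem_fixing_iff, ← Set.eq_of_subset_of_ncard_le hBA (d.hA ▸ e.ge) (Set.toFinite _)]
    exact fun a ha => ha ⟨p, hp⟩
  have hB1 : B.ncard = 1 := by
    have h := d.hk4
    unfold Nat.ModEq at hmod
    omega
  have hNB : Subgroup.normalizer ((P : Subgroup G) : Set G) ≤ stabilizer G B := by
    intro g hg
    rw [MulAction.mem_stabilizer_iff]
    refine Set.eq_of_subset_of_ncard_le ?_ (by rw [Set.ncard_smul_set]) (Set.toFinite _)
    rintro _ ⟨a, ha, rfl⟩ p
    have hconj : g⁻¹ * (p : G) * g⁻¹⁻¹ ∈ (P : Subgroup G) :=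
      (Subgroup.mem_normalizer_iff.1 (inv_mem hg) (p : G)).1 p.2
    have h := ha ⟨_, hconj⟩
    show (p : G) • g • a = g • a
    calc (p : G) • g • a = g • ((g⁻¹ * (p : G) * g⁻¹⁻¹) • a) := by
          rw [inv_inv, ← mul_smul, ← mul_smul]; congr 1; group
      _ = g • a := by rw [show (g⁻¹ * (p : G) * g⁻¹⁻¹) • a = a from h]
  have hodd := odd_of_invariant d.hinv hNB (by rw [hB1]; exact odd_one)
  haveI : Nontrivial (P : Subgroup G) :=
    ⟨⟨⟨x, d.hxP⟩, 1, fun h => d.x_ne_one (congrArg Subtype.val h)⟩⟩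
  haveI := P.2.isNilpotent
  obtain ⟨K, hK, -⟩ := (IsCoatomic.eq_top_or_exists_le_coatom (⊥ : Subgroup (P : Subgroup G))).resolve_left
    bot_ne_top
  haveI := PGroup.normal_of_coatom P.2 hK
  have hcardK : Nat.card ((P : Subgroup G) ⧸ K) = 3 := by
    rw [← Subgroup.index_eq_card, PGroup.index_of_coatom P.2 hK]
  let e : (P : Subgroup G) ⧸ K ≃* Multiplicative (ZMod 3) :=
    mulEquivOfPrimeCardEq (p := 3) hcardK (Nat.card_zmod 3)
  refine ⟨e.toMonoidHom.comp (QuotientGroup.mk' K), fun h => ?_, fun g hg y hy => ?_⟩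
  · apply hK.1
    rw [eq_top_iff]
    intro p _
    exact (QuotientGroup.eq_one_iff p).1 (e.map_eq_one_iff.1 (DFunLike.congr_fun h p))
  · refine hom_invariant_of_odd P ?_ _ hg (Odd.of_dvd_nat hodd ?_) y hy
    · rw [Subgroup.index_eq_card]; exact h9.le
    · exact Subgroup.orderOf_dvd_natCard _ hg

/-- Three fixed points: the images of the fixers give an invariant character. -/
theorem small_theta_three (d : ThreeData P A x k) (hk : k = 3)
    (h3 : Nat.card ↥((P : Subgroup G) ⊓ fixingSubgroup G A) = 3) :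
    ∃ θ : (P : Subgroup G) →* Multiplicative (ZMod 3), θ ≠ 1 ∧
      ∀ g ∈ Subgroup.normalizer ((P : Subgroup G) : Set G), ∀ y : (P : Subgroup G),
        ∀ h : g * (y : G) * g⁻¹ ∈ (P : Subgroup G), θ ⟨g * (y : G) * g⁻¹, h⟩ = θ y := by
  classical
  haveI : Fact (Nat.Prime 3) := ⟨Nat.prime_three⟩
  obtain ⟨h9, hexp⟩ := small_abelianization d h3
  -- `x` is not conjugate to its inverse
  have hreal : ¬ IsConj x x⁻¹ := by
    intro h
    obtain ⟨g, hg⟩ := isConj_iff.1 h
    have hgA : Subgroup.zpowers g ≤ stabilizer G A := Subgroup.zpowers_le.2 (by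
      rw [MulAction.mem_stabilizer_iff, ← d.fix_x, MulAction.smul_fixedBy, hg, MulAction.fixedBy_inv])
    have hodd := odd_of_invariant d.hinv hgA (by rw [d.hA, hk]; decide)
    rw [Nat.card_zpowers] at hodd
    have h2 := eq_one_of_conj_inv_of_odd hodd hg
    have := Nat.le_of_dvd two_pos (orderOf_dvd_of_pow_eq_one h2)
    rw [d.hx] at this
    omega
  -- the class of a fixer is a coset of the derived subgroup
  have hclass : ∀ y z : (P : Subgroup G), IsConj x (y : G) →
      Abelianization.of z = Abelianization.of y → IsConj x (z : G) := by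
    intro y z hy hz
    set R := commutator (P : Subgroup G)
    set C := Subgroup.centralizer ({y} : Set (P : Subgroup G))
    let φ : (P : Subgroup G) ⧸ C → R := fun q => Quotient.liftOn' q
      (fun g => (⟨g * y * g⁻¹ * y⁻¹, by
        rw [← commutatorElement_def]
        exact Subgroup.commutator_mem_commutator (Subgroup.mem_top _) (Subgroup.mem_top _)⟩ : R))
      fun a b hab => by
        rw [QuotientGroup.leftRel_apply, Subgroup.mem_centralizer_singleton_iff] at hab
        refine Subtype.ext (mul_right_cancel (b := y) ?_)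
        simp only [inv_mul_cancel_right]
        calc a * y * a⁻¹ = a * (a⁻¹ * b * y * (a⁻¹ * b)⁻¹) * a⁻¹ := by rw [hab]; group
          _ = b * y * b⁻¹ := by group
    have hφi : Function.Injective φ := by
      intro q r hqr
      induction q using QuotientGroup.induction_on with | _ a => ?_
      induction r using QuotientGroup.induction_on with | _ b => ?_
      have e : a * y * a⁻¹ = b * y * b⁻¹ := mul_right_cancel (congrArg Subtype.val hqr)
      rw [QuotientGroup.eq, Subgroup.mem_centralizer_singleton_iff]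
      calc a⁻¹ * b * y = a⁻¹ * (b * y * b⁻¹) * b := by group
        _ = a⁻¹ * (a * y * a⁻¹) * b := by rw [e]
        _ = y * (a⁻¹ * b) := by group
    have hge : Nat.card R ≤ Nat.card ((P : Subgroup G) ⧸ C) := by
      have h1 := C.card_eq_card_quotient_mul_card_subgroup
      have h2 := R.card_eq_card_quotient_mul_card_subgroup
      rw [show Nat.card ((P : Subgroup G) ⧸ R) = 9 from h9] at h2
      have h4 : Nat.card C ≤ 9 := small_card_centralizer d h3 y hy
      have h5 := Nat.mul_le_mul_left (Nat.card ((P : Subgroup G) ⧸ C)) h4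
      omega
    have hbij := (Nat.bijective_iff_injective_and_card φ).2
      ⟨hφi, le_antisymm (Nat.card_le_card_of_injective φ hφi) hge⟩
    have hzy : z * y⁻¹ ∈ R := by
      have := QuotientGroup.eq_iff_div_mem.1 hz
      rwa [div_eq_mul_inv] at this
    obtain ⟨q, hq⟩ := hbij.2 ⟨z * y⁻¹, hzy⟩
    induction q using QuotientGroup.induction_on with | _ g => ?_
    have hz' : g * y * g⁻¹ = z := mul_right_cancel (congrArg Subtype.val hq)
    refine hy.trans (isConj_iff.2 ⟨(g : G), ?_⟩)
    exact congrArg Subtype.val hz'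
  set Q := Abelianization (P : Subgroup G)
  set xb : Q := Abelianization.of (⟨x, d.hxP⟩ : (P : Subgroup G)) with hxb
  have hnopair : ∀ y z : (P : Subgroup G), IsConj x (y : G) → IsConj x (z : G) →
      Abelianization.of y * Abelianization.of z ≠ 1 := by
    intro y z hy hz h
    have hz' : IsConj x ((z⁻¹ : (P : Subgroup G)) : G) := hclass y z⁻¹ hy (by
      rw [map_inv]; exact (eq_inv_of_mul_eq_one_left h).symm)
    rw [Subgroup.coe_inv] at hz'
    obtain ⟨c, hc⟩ := isConj_iff.1 hz
    refine hreal (hz'.trans (isConj_iff.2 ⟨c⁻¹, ?_⟩))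
    rw [← hc]; group
  have hxb1 : xb ≠ 1 := fun h => hnopair ⟨x, d.hxP⟩ ⟨x, d.hxP⟩ (IsConj.refl x) (IsConj.refl x) (by
    rw [← hxb, h, one_mul])
  obtain ⟨b, hb⟩ : ∃ b : Q, b ∉ Subgroup.zpowers xb := by
    by_contra h
    push Not at h
    have hle : Nat.card Q ≤ Nat.card (Subgroup.zpowers xb) :=
      Nat.card_le_card_of_injective (fun q => (⟨q, h q⟩ : Subgroup.zpowers xb))
        fun a b e => congrArg Subtype.val e
    rw [h9, Nat.card_zpowers] at hle
    have := Nat.le_of_dvd (by norm_num) (orderOf_dvd_of_pow_eq_one (hexp xb))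
    omega
  let e : Multiplicative (ZMod 3 × ZMod 3) ≃* Q :=
    MulEquiv.ofBijective (pairHom hexp xb b) (pairHom_bijective hexp hxb1 hb h9)
  have hex : e (Multiplicative.ofAdd (1, 0)) = xb := by
    show xb ^ (1 : ZMod 3).val * b ^ (0 : ZMod 3).val = xb
    rw [ZMod.val_zero, pow_zero, mul_one, show (1 : ZMod 3).val = 1 from rfl, pow_one]
  set F : Finset (ZMod 3 × ZMod 3) := Finset.univ.filter fun p => ∃ y : (P : Subgroup G),
    IsConj x (y : G) ∧ Abelianization.of y = e (Multiplicative.ofAdd p) with hF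
  have hmemF : ∀ y : (P : Subgroup G), IsConj x (y : G) →
      Multiplicative.toAdd (e.symm (Abelianization.of y)) ∈ F := fun y hy =>
    Finset.mem_filter.2 ⟨Finset.mem_univ _, y, hy, by rw [ofAdd_toAdd, e.apply_symm_apply]⟩
  have hFa : (1, 0) ∈ F := Finset.mem_filter.2 ⟨Finset.mem_univ _, ⟨x, d.hxP⟩, IsConj.refl x, hex.symm⟩
  have hFn : ∀ f ∈ F, f ≠ 0 ∧ -f ∉ F := by
    intro f hf
    obtain ⟨-, y, hy, hyf⟩ := Finset.mem_filter.1 hf
    refine ⟨fun h0 => hnopair y y hy hy ?_, fun hneg => ?_⟩
    · rw [hyf, h0, ofAdd_zero, map_one, one_mul]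
    · obtain ⟨-, z, hz, hzf⟩ := Finset.mem_filter.1 hneg
      exact hnopair y z hy hz (by rw [hyf, hzf, ← map_mul, ← ofAdd_add, add_neg_cancel, ofAdd_zero, map_one])
  -- automorphisms of the plane induced by the normalizer
  have hstep : ∀ g ∈ Subgroup.normalizer ((P : Subgroup G) : Set G), ∃ α : Q →* Q,
      (∀ (y : (P : Subgroup G)) (h : g * (y : G) * g⁻¹ ∈ (P : Subgroup G)),
        α (Abelianization.of y) = Abelianization.of ⟨g * (y : G) * g⁻¹, h⟩) ∧
      (∀ f ∈ F, Multiplicative.toAdd (e.symm (α (e (Multiplicative.ofAdd f)))) ∈ F) ∧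
      Function.Injective fun f => Multiplicative.toAdd (e.symm (α (e (Multiplicative.ofAdd f)))) := by
    intro g hg
    let c : G → (P : Subgroup G) →* G := fun g => (MulAut.conj g).toMonoidHom.comp (P : Subgroup G).subtype
    let cg : (P : Subgroup G) →* (P : Subgroup G) :=
      (c g).codRestrict _ fun y => (Subgroup.mem_normalizer_iff.1 hg y).1 y.2
    let cg' : (P : Subgroup G) →* (P : Subgroup G) :=
      (c g⁻¹).codRestrict _ fun y => (Subgroup.mem_normalizer_iff.1 (inv_mem hg) y).1 y.2
    have hcomp : ∀ q : Q, Abelianization.map cg' (Abelianization.map cg q) = q := by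
      intro q
      obtain ⟨y, rfl⟩ := QuotientGroup.mk_surjective q
      show Abelianization.map cg' (Abelianization.map cg (Abelianization.of y)) = Abelianization.of y
      rw [Abelianization.map_of, Abelianization.map_of]
      congr 1
      refine Subtype.ext ?_
      show g⁻¹ * (g * (y : G) * g⁻¹) * g⁻¹⁻¹ = (y : G)
      group
    refine ⟨Abelianization.map cg, fun y h => Abelianization.map_of cg y, fun f hf => ?_, ?_⟩
    · obtain ⟨-, y, hy, hyf⟩ := Finset.mem_filter.1 hf
      rw [← hyf, Abelianization.map_of]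
      exact hmemF _ (hy.trans (isConj_iff.2 ⟨g, rfl⟩))
    · intro f f' hff
      have h1 := e.symm.injective (Multiplicative.toAdd.injective hff)
      have h2 := congrArg (Abelianization.map cg') h1
      rw [hcomp, hcomp] at h2
      exact Multiplicative.ofAdd.injective (e.injective h2)
  by_cases hsum : ∑ f ∈ F, f = 0
  · obtain ⟨co, hco, f₂, hf₂, hf₂ne⟩ := plane_fixers F (Finset.mem_powerset.2 (Finset.subset_univ _)) hFa hFn hsum
    let lin : Multiplicative (ZMod 3 × ZMod 3) →* Multiplicative (ZMod 3) :=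
      { toFun := fun p => Multiplicative.ofAdd
          (co.1 * (Multiplicative.toAdd p).1 + co.2 * (Multiplicative.toAdd p).2)
        map_one' := by simp
        map_mul' := fun p q => by
          rw [← ofAdd_add]; congr 1; simp only [toAdd_mul, Prod.fst_add, Prod.snd_add]; ring }
    let θQ : Q →* Multiplicative (ZMod 3) := lin.comp e.symm.toMonoidHom
    have hθF : ∀ f ∈ F, θQ (e (Multiplicative.ofAdd f)) = Multiplicative.ofAdd 1 := fun f hf => by
      show lin (e.symm (e _)) = _
      rw [e.symm_apply_apply]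
      exact congrArg Multiplicative.ofAdd (hco f hf)
    refine ⟨θQ.comp Abelianization.of, fun h => ?_, fun g hg y hy => ?_⟩
    · have h1 := DFunLike.congr_fun h ⟨x, d.hxP⟩
      rw [MonoidHom.comp_apply, ← hxb, ← hex, hθF _ hFa, MonoidHom.one_apply] at h1
      exact absurd h1 ofAdd_one_ne_one
    · obtain ⟨α, hα, hαF, -⟩ := hstep g hg
      show θQ _ = θQ _
      rw [← hα y hy]
      have hagree : ∀ f ∈ F, θQ (α (e (Multiplicative.ofAdd f))) = θQ (e (Multiplicative.ofAdd f)) := by
        intro f hf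
        rw [hθF f hf]
        have := hθF _ (hαF f hf)
        rwa [ofAdd_toAdd, e.apply_symm_apply] at this
      set b' := e (Multiplicative.ofAdd f₂)
      have hb' : b' ∉ Subgroup.zpowers xb := by
        intro hmem
        obtain ⟨i, hi⟩ := hmem
        apply hf₂ne
        have h' : Multiplicative.ofAdd f₂ = Multiplicative.ofAdd ((1 : ZMod 3), (0 : ZMod 3)) ^ i := by
          apply e.injective
          rw [map_zpow, hex]
          exact hi.symm
        have h2 := congrArg (fun p => (Multiplicative.toAdd p).2) h'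
        simpa [toAdd_zpow] using h2
      refine hom_eq_of_pair hexp hxb1 hb' h9 (θQ.comp α) θQ ?_ ?_ (Abelianization.of y)
      · rw [← hex]; exact hagree _ hFa
      · exact hagree _ hf₂
  · obtain ⟨w, hw⟩ : ∃ w : (P : Subgroup G), Abelianization.of w = e (Multiplicative.ofAdd (∑ f ∈ F, f)) :=
      QuotientGroup.mk_surjective _
    obtain ⟨lin, hlin⟩ : ∃ lin : Multiplicative (ZMod 3 × ZMod 3) →* Multiplicative (ZMod 3),
        lin (Multiplicative.ofAdd (∑ f ∈ F, f)) ≠ 1 := by
      generalize ∑ f ∈ F, f = s at hsum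
      by_cases hs : s.1 = 0
      · refine ⟨AddMonoidHom.toMultiplicative (AddMonoidHom.snd (ZMod 3) (ZMod 3)), fun h => hsum ?_⟩
        exact Prod.ext hs (Multiplicative.ofAdd.injective (h.trans ofAdd_zero.symm))
      · refine ⟨AddMonoidHom.toMultiplicative (AddMonoidHom.fst (ZMod 3) (ZMod 3)), fun h => hs ?_⟩
        exact Multiplicative.ofAdd.injective (h.trans ofAdd_zero.symm)
    refine exists_invariant_of_fixed P ((lin.comp e.symm.toMonoidHom).comp Abelianization.of) (v := w) ?_ ?_
    · show lin (e.symm (Abelianization.of w)) ≠ 1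
      rwa [hw, e.symm_apply_apply]
    · intro g hg h
      obtain ⟨α, hα, hαF, hαi⟩ := hstep g hg
      show lin (e.symm (Abelianization.of _)) = lin (e.symm (Abelianization.of w))
      rw [← hα w h, hw, e.symm_apply_apply]
      congr 1
      let β : ZMod 3 × ZMod 3 →+ ZMod 3 × ZMod 3 :=
        MonoidHom.toAdditive ((e.symm.toMonoidHom.comp α).comp e.toMonoidHom)
      apply Multiplicative.toAdd.injective
      show β (∑ f ∈ F, f) = ∑ f ∈ F, f
      rw [map_sum]
      have himg : F.image β = F := by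
        refine Finset.eq_of_subset_of_card_le (fun r hr => ?_) ?_
        · obtain ⟨f, hf, rfl⟩ := Finset.mem_image.1 hr
          exact hαF f hf
        · rw [Finset.card_image_of_injective F (f := β) hαi]
      conv_rhs => rw [← himg, Finset.sum_image (g := β) fun a _ b _ hab => hαi hab]

end CfsgLib.FixityFour
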