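import Cfsg.Agent.FixityFour.Criterion
import Cfsg.Agent.FixityFour.Transfer
import Cfsg.Agent.SectRank.Basic
import Cfsg.Agent.TwoGroup.MaximalClass
import Cfsg.Prelude.Def_Involutions
import Cfsg.Agent.Eq.Def_CaseTheorems

/-!
Involutions fixing at most three points.
-/

set_option autoImplicit false

namespace CfsgLib.FixityFour

open MulAction
open scoped Pointwise

theorem quaternion_involution {n : ℕ} [NeZero n] (g : QuaternionGroup n) (h : g * g = 1) :
    g = 1 ∨ g = QuaternionGroup.a (n : ZMod (2 * n)) := by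
  rcases g with i | i
  · rw [QuaternionGroup.a_mul_a] at h
    have h' : i + i = 0 := by injection h
    have h2 := congrArg ZMod.val h'
    rw [ZMod.val_add, ZMod.val_zero] at h2
    have h3 := ZMod.val_lt i
    rcases (Nat.eq_zero_or_pos i.val) with e | e
    · exact Or.inl (by rw [(ZMod.val_eq_zero i).1 e]; rfl)
    · refine Or.inr (congrArg QuaternionGroup.a ?_)
      have h4 : i.val = n := by
        obtain ⟨c, hc⟩ := Nat.dvd_of_mod_eq_zero h2
        have : c = 1 := by
          rcases c with _ | _ | c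
          · omega
          · rfl
          · exfalso; nlinarith
        subst this; omega
      rw [← ZMod.natCast_zmod_val i, h4]
  · exfalso
    have := orderOf_dvd_of_pow_eq_one (show (QuaternionGroup.xa i) ^ 2 = 1 by rw [pow_two]; exact h)
    rw [QuaternionGroup.orderOf_xa] at this
    omega

variable {G Ω : Type*} [Group G] [MulAction G Ω] [Finite Ω]

theorem card_centralizer_subtype (S : Subgroup G) (u : S) :
    Nat.card (Subgroup.centralizer ({u} : Set S)) = Nat.card ↥(S ⊓ Subgroup.centralizer {(u : G)}) := by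
  rw [← Subgroup.card_map_of_injective S.subtype_injective]
  congr 2
  ext x
  simp only [Subgroup.mem_map, Subgroup.mem_inf, Subgroup.mem_centralizer_singleton_iff]
  constructor
  · rintro ⟨y, hy, rfl⟩
    exact ⟨y.2, congrArg Subtype.val hy⟩
  · rintro ⟨hxS, hx⟩
    exact ⟨⟨x, hxS⟩, Subtype.ext hx, rfl⟩

/-- A 2-group with two involutions, one of which has centraliser of order at most four. -/
theorem dihedral_or_quasiDihedral {S : Type*} [Group S] [Finite S] (hS : IsPGroup 2 S) {u z : S}
    (hu : u * u = 1) (hz : z * z = 1) (hu1 : u ≠ 1) (hz1 : z ≠ 1) (huz : u ≠ z)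
    (hzc : Commute u z) (hC : Nat.card (Subgroup.centralizer ({u} : Set S)) ≤ 4) :
    (∃ n : ℕ, Nonempty (S ≃* DihedralGroup n)) ∨ Cfsg.IsQuasiDihedral S := by
  classical
  by_cases h4 : 4 < Nat.card S
  · rcases TwoGroup.isMaxClassType_of_index_commutator hS
      (TwoGroup.index_commutator_of_small_centralizer hS u hu1 hC h4) with h | h
    · omega
    rcases h.dihedral_or_quaternion_or_quasiDihedral with ⟨k, hk⟩ | ⟨k, ⟨e⟩⟩ | h
    · exact Or.inl ⟨_, hk⟩
    · haveI : NeZero (2 ^ (k + 1)) := ⟨by positivity⟩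
      rcases quaternion_involution (e u) (by rw [← map_mul, hu, map_one]) with h1 | h1
      · exact absurd (e.map_eq_one_iff.1 h1) hu1
      rcases quaternion_involution (e z) (by rw [← map_mul, hz, map_one]) with h2 | h2
      · exact absurd (e.map_eq_one_iff.1 h2) hz1
      exact absurd (e.injective (h1.trans h2.symm)) huz
    · exact Or.inr h
  · left
    have hne : u * z ≠ 1 := fun h => huz (by
      rw [← mul_one u, ← hz, ← mul_assoc, h, one_mul])
    have hsub : ({1, u, z, u * z} : Finset S).card = 4 := by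
      have h1 : u * z ≠ u := fun h => hz1 (mul_eq_left.1 h)
      have h2 : u * z ≠ z := fun h => hu1 (mul_eq_right.1 h)
      simp [hu1.symm, hz1.symm, hne.symm, huz, h1.symm, h2.symm]
    have := Fintype.ofFinite S
    have hcard : Nat.card S = 4 := by
      have h1 := Finset.card_le_univ ({1, u, z, u * z} : Finset S)
      rw [hsub, ← Nat.card_eq_fintype_card] at h1
      omega
    have huniv : ({1, u, z, u * z} : Finset S) = Finset.univ := by
      rw [← Finset.card_eq_iff_eq_univ, hsub, ← Nat.card_eq_fintype_card, hcard]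
    haveI : IsKleinFour S :=
      { card_four := hcard
        exponent_two := by
          refine Nat.dvd_antisymm (Monoid.exponent_dvd_of_forall_pow_eq_one fun g => ?_) ?_
          · have hg : g ∈ ({1, u, z, u * z} : Finset S) := huniv ▸ Finset.mem_univ g
            simp only [Finset.mem_insert, Finset.mem_singleton] at hg
            rcases hg with rfl | rfl | rfl | rfl
            · rw [one_pow]
            · rwa [pow_two]
            · rwa [pow_two]
            · rw [hzc.mul_pow, pow_two, pow_two, hu, hz, mul_one]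
          · have := Monoid.order_dvd_exponent u
            rwa [orderOf_eq_prime (p := 2) (by rwa [pow_two]) hu1] at this }
    exact ⟨2, IsKleinFour.nonempty_mulEquiv⟩

section Small

variable [IsSimpleGroup G] [Finite G]

theorem fix_involution_eq (hna : ¬ IsMulCommutative G) {f : ℕ} (hf3 : f ≤ 3)
    (hle : ∀ g : G, orderOf g = 2 → (fixedBy Ω g).ncard ≤ f)
    {u : G} (hu : orderOf u = 2) (hfu : (fixedBy Ω u).ncard = f) {g : G} (hg : orderOf g = 2) :
    (fixedBy Ω g).ncard = f := by
  have h1 := involution_moved_dvd Ω hna (show g ^ 2 = 1 by rw [← hg]; exact pow_orderOf_eq_one g)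
  have h2 := involution_moved_dvd Ω hna (show u ^ 2 = 1 by rw [← hu]; exact pow_orderOf_eq_one u)
  rw [hfu] at h2
  have h3 := hle g hg
  have h4 : f ≤ Nat.card Ω := hfu ▸ (Set.ncard_univ Ω ▸ Set.ncard_le_ncard (Set.subset_univ _))
  omega

theorem case_small [MulAction.IsPretransitive G Ω] (hna : ¬ IsMulCommutative G) {f : ℕ}
    (hf1 : 1 ≤ f) (hf3 : f ≤ 3) (hn : 3 < Nat.card Ω)
    (hle : ∀ g : G, orderOf g = 2 → (fixedBy Ω g).ncard ≤ f)
    (hex : ∃ g : G, orderOf g = 2 ∧ (fixedBy Ω g).ncard = f) (S : Sylow 2 G) :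
    (∃ H : Subgroup G, Cfsg.IsStronglyEmbedded H) ∨
      ((∃ n : ℕ, Nonempty ((S : Subgroup G) ≃* DihedralGroup n)) ∨
        Cfsg.IsQuasiDihedral (S : Subgroup G)) := by
  classical
  haveI : Fact (Nat.Prime 2) := ⟨Nat.prime_two⟩
  obtain ⟨u0, hu0, hfu0⟩ := hex
  have hall : ∀ g : G, orderOf g = 2 → (fixedBy Ω g).ncard = f :=
    fun g hg => fix_involution_eq hna hf3 hle hu0 hfu0 hg
  have hG2 : 2 ∣ Nat.card G := hu0 ▸ orderOf_dvd_natCard u0
  haveI : Nontrivial (S : Subgroup G) := by
    rw [Subgroup.nontrivial_iff_ne_bot]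
    exact S.ne_bot_of_dvd_card hG2
  haveI := S.2.center_nontrivial
  obtain ⟨⟨z', hz'c⟩, hz'⟩ := exists_prime_orderOf_dvd_card' 2 (by
    obtain ⟨k, hk⟩ := IsPGroup.iff_card.1 (S.2.to_subgroup (Subgroup.center (S : Subgroup G)))
    have hk0 : k ≠ 0 := by
      rintro rfl
      rw [pow_zero] at hk
      exact absurd hk (Finite.one_lt_card.ne')
    rw [hk]
    exact dvd_pow_self 2 hk0 : 2 ∣ Nat.card (Subgroup.center (S : Subgroup G)))
  rw [Subgroup.orderOf_mk] at hz'
  set z : G := (z' : G) with hzdef
  have hz : orderOf z = 2 := by rw [hzdef, Subgroup.orderOf_coe, hz']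
  have hzS : z ∈ (S : Subgroup G) := z'.2
  have hzcomm : ∀ s ∈ (S : Subgroup G), s * z = z * s := fun s hs =>
    congrArg Subtype.val (Subgroup.mem_center_iff.1 hz'c ⟨s, hs⟩)
  set A := fixedBy Ω z with hA
  have hAcard : A.ncard = f := hall z hz
  have hSA : (S : Subgroup G) ≤ stabilizer G A := fun s hs => mem_stabilizer_of_commute (hzcomm s hs)
  have hAne : A.Nonempty := Set.nonempty_of_ncard_ne_zero (by omega)
  have hproper : A ≠ Set.univ := fun h => by
    rw [h, Set.ncard_univ] at hAcard; omega
  set T := (S : Subgroup G) ⊓ fixingSubgroup G A with hT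
  have hAT : ∀ t ∈ T, A ⊆ fixedBy Ω t := fun t ht => mem_fixing_iff.1 ht.2
  have hzT : z ∈ T := ⟨hzS, mem_fixing_iff.2 subset_rfl⟩
  have hinT : ∀ t ∈ T, orderOf t = 2 → fixedBy Ω t = A := fun t ht h2 =>
    fixedBy_eq_of_subset (hAT t ht) (by rw [hall t h2, hAcard])
  have hidx : (T.subgroupOf (S : Subgroup G)).index ≤ 2 := by
    let ρ : (S : Subgroup G) →* Equiv.Perm A :=
      { toFun := fun s =>
          { toFun := fun x => ⟨(s : G) • (x : Ω), smul_mem_of_stabilizer (hSA s.2) x.2⟩
            invFun := fun x => ⟨(s : G)⁻¹ • (x : Ω), smul_mem_of_stabilizer (inv_mem (hSA s.2)) x.2⟩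
            left_inv := fun x => Subtype.ext (inv_smul_smul (s : G) (x : Ω))
            right_inv := fun x => Subtype.ext (smul_inv_smul (s : G) (x : Ω)) }
        map_one' := Equiv.ext fun x => Subtype.ext (one_smul G (x : Ω))
        map_mul' := fun a b => Equiv.ext fun x => Subtype.ext (mul_smul (a : G) (b : G) (x : Ω)) }
    have hker : ρ.ker = T.subgroupOf (S : Subgroup G) := by
      ext s
      rw [MonoidHom.mem_ker, Subgroup.mem_subgroupOf, hT, Subgroup.mem_inf, mem_fixingSubgroup_iff]
      exact ⟨fun h => ⟨s.2, fun x hx => congrArg Subtype.val (Equiv.congr_fun h ⟨x, hx⟩)⟩,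
        fun h => Equiv.ext fun x => Subtype.ext (h.2 x x.2)⟩
    rw [← hker, Subgroup.index_ker]
    obtain ⟨k, hk⟩ := IsPGroup.iff_card.1 (S.2.of_surjective ρ.rangeRestrict ρ.rangeRestrict_surjective)
    have hd := ρ.range.card_subgroup_dvd_card
    rw [Nat.card_perm, Nat.card_coe_set_eq, hAcard, hk] at hd
    rw [hk]
    rcases k with _ | _ | k
    · norm_num
    · norm_num
    · exfalso
      have h6 : (4 : ℕ) ∣ Nat.factorial f := (dvd_mul_left 4 (2 ^ k)).trans (by
        rw [show 2 ^ k * 4 = 2 ^ (k + 1 + 1) by rw [pow_succ, pow_succ]; ring]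
        exact hd)
      interval_cases f <;> norm_num [Nat.factorial] at h6
  rcases Nat.lt_or_ge (T.subgroupOf (S : Subgroup G)).index 2 with hone | htwo
  · left
    have hST : (S : Subgroup G) ≤ T := by
      intro s hs
      have h1 : T.subgroupOf (S : Subgroup G) = ⊤ := Subgroup.index_eq_one.1 (by
        have := Subgroup.index_ne_zero_of_finite (H := T.subgroupOf (S : Subgroup G))
        omega)
      have : (⟨s, hs⟩ : (S : Subgroup G)) ∈ T.subgroupOf (S : Subgroup G) := h1 ▸ Subgroup.mem_top _
      exact this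
    obtain ⟨h1, h2, h3⟩ := strong_of_common_fixed S hSA hAne hproper
      (fun i hi h2 => hinT i (hST hi) h2) hG2
    exact ⟨_, h1, even_iff_two_dvd.2 h2, fun g hg => Nat.not_even_iff_odd.1 fun h =>
      h3 g hg (even_iff_two_dvd.1 h)⟩
  · right
    have hidx2 : (T.subgroupOf (S : Subgroup G)).index = 2 := le_antisymm hidx htwo
    obtain ⟨w, ⟨hwS, hwT⟩, hmin⟩ := Set.exists_min_image {s : G | s ∈ (S : Subgroup G) ∧ s ∉ T}
      orderOf (Set.toFinite _) (by
        by_contra h
        rw [Set.not_nonempty_iff_eq_empty] at h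
        have : T.subgroupOf (S : Subgroup G) = ⊤ := eq_top_iff.2 fun s _ => by
          by_contra hs
          exact Set.notMem_empty (s : G) (h ▸ ⟨s.2, hs⟩)
        rw [this, Subgroup.index_top] at hidx2
        omega)
    obtain ⟨g, hg⟩ := exists_conj_mem_of_minimal hna S T hidx2 hwS hwT fun v h1 h2 => hmin v ⟨h1, h2⟩
    have hw1 : w ≠ 1 := fun h => hwT (h ▸ T.one_mem)
    have hwf : f ≤ (fixedBy Ω w).ncard := by
      rw [← ncard_fixedBy_conj g w, ← hAcard]
      exact Set.ncard_le_ncard (hAT _ hg)
    obtain ⟨k, hk⟩ := IsPGroup.iff_orderOf.1 S.2 ⟨w, hwS⟩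
    rw [Subgroup.orderOf_mk] at hk
    rcases k with _ | _ | k
    · exact absurd (orderOf_eq_one_iff.1 (by rw [hk, pow_zero])) hw1
    swap
    · exfalso
      set v := w ^ 2 ^ (k + 1)
      have hvo : orderOf v = 2 := exists_pow_orderOf_prime hk
      have hvT : v ∈ T := by
        have h2 := Subgroup.sq_mem_of_index_two hidx2 (⟨w, hwS⟩ : (S : Subgroup G))
        have h2' : w ^ 2 ∈ T := h2
        show w ^ 2 ^ (k + 1) ∈ T
        rw [pow_succ' 2 k, pow_mul]
        exact T.pow_mem h2' _
      have hwA : fixedBy Ω w ⊆ A := (hinT v hvT hvo) ▸ fixedBy_subset_pow w _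
      refine hwT ⟨hwS, mem_fixing_iff.2 ?_⟩
      rw [Set.eq_of_subset_of_ncard_le hwA (hAcard ▸ hwf) (Set.toFinite _)]
    · have hw : orderOf w = 2 := by rw [hk, zero_add, pow_one]
      have hwA : fixedBy Ω w ≠ A := fun h => hwT ⟨hwS, mem_fixing_iff.2 h.ge⟩
      set B := fixedBy Ω w \ A with hB
      have hBne : B.Nonempty := by
        by_contra h
        rw [Set.not_nonempty_iff_eq_empty, hB, Set.sdiff_eq_empty] at h
        exact hwA (Set.eq_of_subset_of_ncard_le h (by rw [hall w hw, hAcard]) (Set.toFinite _))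
      have hB3 : B.ncard ≤ 3 := (Set.ncard_le_ncard Set.sdiff_subset).trans ((hle w hw).trans hf3)
      set C := T ⊓ Subgroup.centralizer {w} with hC
      have hCd : Nat.card C ∣ B.ncard := by
        refine card_dvd_ncard_of_free (fun c hc x hx => ?_) fun c hc x hx hcx => ?_
        · refine ⟨smul_mem_of_stabilizer (mem_stabilizer_of_commute
            (Subgroup.mem_centralizer_singleton_iff.1 hc.2)) hx.1, fun h => hx.2 ?_⟩
          have h' := smul_mem_of_stabilizer (inv_mem (hSA hc.1.1)) h
          rwa [inv_smul_smul] at h'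
        · by_contra hc1
          obtain ⟨j, hj⟩ := IsPGroup.iff_orderOf.1 S.2 ⟨c, hc.1.1⟩
          rw [Subgroup.orderOf_mk] at hj
          rcases j with _ | j
          · exact hc1 (orderOf_eq_one_iff.1 (by rw [hj, pow_zero]))
          have h1 := hinT _ (T.pow_mem hc.1 (2 ^ j)) (exists_pow_orderOf_prime hj)
          exact hx.2 (h1 ▸ fixedBy_subset_pow c _ hcx)
      have hC2 : Nat.card C ≤ 2 := by
        have hle3 := (Nat.le_of_dvd ((Set.ncard_pos (Set.toFinite _)).2 hBne) hCd).trans hB3
        obtain ⟨j, hj⟩ := IsPGroup.iff_card.1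
          (S.2.to_le (inf_le_left.trans inf_le_left : C ≤ (S : Subgroup G)))
        rw [hj] at hle3 ⊢
        rcases j with _ | _ | j
        · norm_num
        · norm_num
        · exfalso
          have : 4 ≤ 2 ^ (j + 2) := by
            rw [pow_add]; exact Nat.le_mul_of_pos_left _ (by positivity)
          have : 4 ≤ 2 ^ (j + 1 + 1) := this
          omega
      have hCS : Nat.card ↥((S : Subgroup G) ⊓ Subgroup.centralizer {w}) ≤ 4 := by
        rw [← card_centralizer_subtype _ ⟨w, hwS⟩]
        have h := SectRank.card_le_index_mul_card_inf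
          (Subgroup.centralizer ({⟨w, hwS⟩} : Set (S : Subgroup G))) (T.subgroupOf (S : Subgroup G))
        rw [hidx2] at h
        refine h.trans ?_
        have h' : Nat.card ↥(Subgroup.centralizer ({⟨w, hwS⟩} : Set (S : Subgroup G)) ⊓
            T.subgroupOf (S : Subgroup G)) ≤ Nat.card C :=
          Nat.card_le_card_of_injective (fun x => (⟨((x : (S : Subgroup G)) : G),
            ⟨x.2.2, Subgroup.mem_centralizer_singleton_iff.2
              (congrArg Subtype.val (Subgroup.mem_centralizer_singleton_iff.1 x.2.1))⟩⟩ : C))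
            fun x y h => Subtype.ext (Subtype.ext (congrArg (fun c : C => (c : G)) h))
        omega
      refine dihedral_or_quasiDihedral S.2 (u := ⟨w, hwS⟩) (z := ⟨z, hzS⟩) ?_ ?_ ?_ ?_ ?_ ?_ ?_
      · exact Subtype.ext (show w * w = 1 by rw [← pow_two, ← hw, pow_orderOf_eq_one])
      · exact Subtype.ext (show z * z = 1 by rw [← pow_two, ← hz, pow_orderOf_eq_one])
      · exact fun h => hw1 (congrArg Subtype.val h)
      · exact fun h => by
          have : z = 1 := congrArg Subtype.val h
          rw [this, orderOf_one] at hz; omega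
      · exact fun h => hwT (by rw [show w = z from congrArg Subtype.val h]; exact hzT)
      · exact Subtype.ext (hzcomm w hwS)
      · rw [card_centralizer_subtype]; exact hCS

end Small

end CfsgLib.FixityFour
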