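import Mathlib
import Cfsg.Agent.FusYoshida.Wreath
import Cfsg.Agent.SectRank.Basic
import Cfsg.Agent.PGroup.Normal

/-!
A 3-group mapping onto `C₃ ≀ C₃` with an element whose centraliser has order at most nine is
isomorphic to `C₃ ≀ C₃`.
-/

set_option autoImplicit false

namespace CfsgLib.FixityFour

open scoped Pointwise

universe u

/-- The centraliser in a quotient is no larger than the centraliser. -/
theorem card_centralizer_quotient {G : Type*} [Group G] [Finite G] (N : Subgroup G) [N.Normal] (x : G) :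
    Nat.card (Subgroup.centralizer ({(x : G ⧸ N)} : Set (G ⧸ N))) ≤
      Nat.card (Subgroup.centralizer ({x} : Set G)) := by
  set H := (Subgroup.centralizer ({(x : G ⧸ N)} : Set (G ⧸ N))).comap (QuotientGroup.mk' N) with hH
  have hmem : ∀ g, g ∈ H ↔ (g : G ⧸ N) * x = x * g := fun g => by
    rw [hH, Subgroup.mem_comap, Subgroup.mem_centralizer_singleton_iff]
    rfl
  have hxH : x ∈ H := (hmem x).2 rfl
  have hNH : N ≤ H := fun n hn => (hmem n).2 (by rw [(QuotientGroup.eq_one_iff n).2 hn, one_mul, mul_one])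
  have h1 := SectRank.card_le_card_mul_card_centralizer (⟨x, hxH⟩ : H) (N.subgroupOf H) fun g => by
    rw [Subgroup.mem_subgroupOf, ← QuotientGroup.eq_one_iff]
    simp only [Subgroup.coe_mul, Subgroup.coe_inv, QuotientGroup.mk_mul, QuotientGroup.mk_inv]
    rw [(hmem g).1 g.2, mul_inv_cancel_right, mul_inv_cancel]
  have h2 : Nat.card (Subgroup.centralizer ({(⟨x, hxH⟩ : H)} : Set H)) ≤
      Nat.card (Subgroup.centralizer ({x} : Set G)) :=
    Nat.card_le_card_of_injective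
      (fun g => (⟨((g : H) : G), Subgroup.mem_centralizer_singleton_iff.2
        (congrArg Subtype.val (Subgroup.mem_centralizer_singleton_iff.1 g.2))⟩ :
          Subgroup.centralizer ({x} : Set G)))
      fun a b h => Subtype.ext (Subtype.ext (congrArg (fun c : Subgroup.centralizer ({x} : Set G) => (c : G)) h))
  have h3 : Nat.card (N.subgroupOf H) = Nat.card N := Nat.card_congr (Subgroup.subgroupOfEquivOfLe hNH).toEquiv
  have h4 := SectRank.card_inf_mul_card_map_mk N H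
  rw [inf_eq_right.2 hNH, hH, Subgroup.map_comap_eq_self_of_surjective (QuotientGroup.mk'_surjective N),
    ← hH] at h4
  rw [h3] at h1
  have h5 := h1.trans (Nat.mul_le_mul_left _ h2)
  rw [← h4] at h5
  exact Nat.le_of_mul_le_mul_left h5 Nat.card_pos

/-- `C₃ ≀ C₃` on nine points. -/
def wr33 : Subgroup (Equiv.Perm (ZMod 3 × ZMod 3)) where
  carrier := {σ | ∃ (a : ZMod 3) (v : ZMod 3 → ZMod 3), ∀ x, σ x = (x.1 + a, x.2 + v x.1)}
  one_mem' := ⟨0, 0, fun x => by simp⟩
  mul_mem' := by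
    rintro σ τ ⟨a, v, hσ⟩ ⟨b, w, hτ⟩
    refine ⟨b + a, fun i => w i + v (i + b), fun x => ?_⟩
    rw [Equiv.Perm.mul_apply, hτ, hσ]
    ext <;> simp only <;> ring
  inv_mem' := by
    rintro σ ⟨a, v, hσ⟩
    refine ⟨-a, fun i => -v (i - a), fun x => ?_⟩
    apply σ.injective
    rw [Equiv.Perm.inv_def, Equiv.apply_symm_apply, hσ]
    ext <;> simp [sub_eq_add_neg]

/-- The base group of `wr33`. -/
def wr33Base : Subgroup (Equiv.Perm (ZMod 3 × ZMod 3)) where
  carrier := {σ | ∃ (v : ZMod 3 → ZMod 3), ∀ x, σ x = (x.1, x.2 + v x.1)}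
  one_mem' := ⟨0, fun x => by simp⟩
  mul_mem' := by
    rintro σ τ ⟨v, hσ⟩ ⟨w, hτ⟩
    refine ⟨fun i => w i + v i, fun x => ?_⟩
    rw [Equiv.Perm.mul_apply, hτ, hσ]
    ext <;> simp only <;> ring
  inv_mem' := by
    rintro σ ⟨v, hσ⟩
    refine ⟨fun i => -v i, fun x => ?_⟩
    apply σ.injective
    rw [Equiv.Perm.inv_def, Equiv.apply_symm_apply, hσ]
    ext <;> simp

theorem card_wr33 : Nat.card wr33 = 81 := by
  let f : ZMod 3 × (ZMod 3 → ZMod 3) → wr33 := fun p =>
    ⟨{ toFun := fun x => (x.1 + p.1, x.2 + p.2 x.1)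
       invFun := fun x => (x.1 - p.1, x.2 - p.2 (x.1 - p.1))
       left_inv := fun x => by ext <;> simp
       right_inv := fun x => by ext <;> simp }, p.1, p.2, fun _ => rfl⟩
  have hf : Function.Bijective f := by
    constructor
    · intro p q h
      have h' := fun x => Equiv.congr_fun (congrArg Subtype.val h) x
      refine Prod.ext ?_ (funext fun i => ?_)
      · simpa [f] using congrArg Prod.fst (h' (0, 0))
      · simpa [f] using congrArg Prod.snd (h' (i, 0))
    · rintro ⟨σ, a, v, hσ⟩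
      exact ⟨(a, v), Subtype.ext (Equiv.ext fun x => (hσ x).symm)⟩
  rw [← Nat.card_congr (Equiv.ofBijective f hf)]
  simp

theorem card_wr33Base : Nat.card wr33Base = 27 := by
  let f : (ZMod 3 → ZMod 3) → wr33Base := fun v =>
    ⟨{ toFun := fun x => (x.1, x.2 + v x.1)
       invFun := fun x => (x.1, x.2 - v x.1)
       left_inv := fun x => by ext <;> simp
       right_inv := fun x => by ext <;> simp }, v, fun _ => rfl⟩
  have hf : Function.Bijective f := by
    constructor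
    · intro p q h
      have h' := fun x => Equiv.congr_fun (congrArg Subtype.val h) x
      exact funext fun i => by simpa [f] using congrArg Prod.snd (h' (i, 0))
    · rintro ⟨σ, v, hσ⟩
      exact ⟨v, Subtype.ext (Equiv.ext fun x => (hσ x).symm)⟩
  rw [← Nat.card_congr (Equiv.ofBijective f hf)]
  simp

/-- Every Sylow 3-subgroup of the symmetric group of degree nine has a normal elementary abelian
subgroup of index three. -/
theorem exists_base (W : Sylow 3 (Equiv.Perm (Fin (3 ^ 2)))) :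
    Nat.card (W : Subgroup (Equiv.Perm (Fin (3 ^ 2)))) = 81 ∧
    ∃ B : Subgroup (W : Subgroup (Equiv.Perm (Fin (3 ^ 2)))), B.Normal ∧ Nat.card B = 27 ∧
      (∀ a ∈ B, ∀ b ∈ B, a * b = b * a) ∧ ∀ a ∈ B, a ^ 3 = 1 := by
  haveI : Fact (Nat.Prime 3) := ⟨Nat.prime_three⟩
  have hcard : Nat.card (W : Subgroup (Equiv.Perm (Fin (3 ^ 2)))) = 81 := by
    rw [W.card_eq_multiplicity, Nat.card_perm, Nat.card_fin, FusYoshida.factorization_sq_factorial]
    norm_num
  refine ⟨hcard, ?_⟩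
  let e : ZMod 3 × ZMod 3 ≃ Fin (3 ^ 2) := Fintype.equivFinOfCardEq (by simp)
  let ψ := e.permCongrHom.toMonoidHom
  have hψ : Function.Injective ψ := e.permCongrHom.injective
  have hc0 : Nat.card (wr33.map ψ) = 3 ^ (Nat.card (Equiv.Perm (Fin (3 ^ 2)))).factorization 3 := by
    rw [Subgroup.card_map_of_injective hψ, card_wr33, Nat.card_perm, Nat.card_fin,
      FusYoshida.factorization_sq_factorial]
    norm_num
  let W0 : Sylow 3 (Equiv.Perm (Fin (3 ^ 2))) := Sylow.ofCard (wr33.map ψ) hc0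
  obtain ⟨g, hg⟩ := MulAction.exists_smul_eq (Equiv.Perm (Fin (3 ^ 2))) W0 W
  let φ := (MulAut.conj g).toMonoidHom.comp ψ
  have hφ : Function.Injective φ := (MulAut.conj g).injective.comp hψ
  have hW : (W : Subgroup (Equiv.Perm (Fin (3 ^ 2)))) = wr33.map φ := by
    rw [← hg]
    show MulAut.conj g • (W0 : Subgroup (Equiv.Perm (Fin (3 ^ 2)))) = _
    rw [Sylow.coe_ofCard]
    exact (Subgroup.map_map _ _ _)
  have hle : wr33Base ≤ wr33 := fun σ ⟨v, hv⟩ => ⟨0, v, fun x => by rw [hv, add_zero]⟩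
  refine ⟨(wr33Base.map φ).subgroupOf _, ?_, ?_, ?_, ?_⟩
  · rw [Subgroup.normal_subgroupOf_iff (hW ▸ Subgroup.map_mono hle), hW]
    rintro _ _ ⟨σ, ⟨v, hv⟩, rfl⟩ ⟨τ, ⟨a, w, hτ⟩, rfl⟩
    refine ⟨τ * σ * τ⁻¹, ⟨fun i => v (i - a), fun x => ?_⟩, by simp [map_mul, map_inv]⟩
    obtain ⟨y, rfl⟩ := τ.surjective x
    rw [Equiv.Perm.mul_apply, Equiv.Perm.mul_apply, Equiv.Perm.inv_def, Equiv.symm_apply_apply, hv, hτ, hτ]
    ext <;> simp only [add_sub_cancel_right] <;> ring
  · rw [Nat.card_congr (Subgroup.subgroupOfEquivOfLe (hW ▸ Subgroup.map_mono hle)).toEquiv,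
      Subgroup.card_map_of_injective hφ, card_wr33Base]
  · rintro a ⟨σ, ⟨v, hv⟩, ha⟩ b ⟨τ, ⟨w, hw⟩, hb⟩
    refine Subtype.ext ?_
    show (a : Equiv.Perm (Fin (3 ^ 2))) * b = b * a
    change φ σ = (a : Equiv.Perm (Fin (3 ^ 2))) at ha
    change φ τ = (b : Equiv.Perm (Fin (3 ^ 2))) at hb
    rw [← ha, ← hb, ← map_mul, ← map_mul]
    congr 1
    ext x <;> simp only [Equiv.Perm.mul_apply, hv, hw] <;> ring
  · rintro a ⟨σ, ⟨v, hv⟩, ha⟩
    refine Subtype.ext ?_
    change φ σ = (a : Equiv.Perm (Fin (3 ^ 2))) at ha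
    rw [SubgroupClass.coe_pow, ← ha, ← map_pow, Subgroup.coe_one, ← map_one φ]
    congr 1
    ext x : 1
    rw [pow_succ, pow_succ, pow_one, Equiv.Perm.mul_apply, Equiv.Perm.mul_apply, hv, hv, hv,
      Equiv.Perm.one_apply]
    ext
    · rfl
    · have h3 : (3 : ZMod 3) = 0 := rfl
      linear_combination (v x.1) * h3

private theorem mul_cube {P : Type*} [Group P] {a b : P} (hc : ∀ g, Commute g (a * b * a⁻¹ * b⁻¹))
    (h3 : (a * b * a⁻¹ * b⁻¹) ^ 3 = 1) : (a * b) ^ 3 = a ^ 3 * b ^ 3 := by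
  set c := a * b * a⁻¹ * b⁻¹ with hcdef
  have hba : b * a = c⁻¹ * (a * b) := by rw [hcdef]; group
  have hci : ∀ g, Commute g c⁻¹ := fun g => (hc g).inv_right
  have key : ∀ X : P, b * (a * X) = c⁻¹ * (a * (b * X)) := fun X => by
    rw [← mul_assoc b a, hba]; group
  have mv : ∀ (g : P) (X : P), g * (c⁻¹ * X) = c⁻¹ * (g * X) := fun g X => by
    rw [← mul_assoc, (hci g).eq, mul_assoc]
  calc (a * b) ^ 3 = a * (b * (a * (b * (a * b)))) := by
        simp only [pow_succ, pow_zero, one_mul, mul_assoc]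
    _ = c⁻¹ * (c⁻¹ * (c⁻¹ * (a * (a * (a * (b * (b * b))))))) := by
        simp only [key, mv]
    _ = (c ^ 3)⁻¹ * (a ^ 3 * b ^ 3) := by
        simp only [pow_succ, pow_zero, one_mul, mul_assoc, mul_inv_rev]
    _ = a ^ 3 * b ^ 3 := by rw [h3, inv_one, one_mul]

theorem no_central_extension {P : Type*} [Group P] [Finite P] (A N : Subgroup P) [A.Normal]
    (hA : Nat.card A = 81) (hNc : N ≤ Subgroup.center P) (hN3 : ∀ n ∈ N, n ^ 3 = 1)
    (hNA : N ≤ A) (hcomm : ∀ a ∈ A, ∀ b ∈ A, a * b * a⁻¹ * b⁻¹ ∈ N) (hcube : ∀ a ∈ A, a ^ 3 ∈ N)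
    {x : P} (hx : x ^ 3 = 1) (hCA : Nat.card ↥(A ⊓ Subgroup.centralizer {x}) ≤ 3) : False := by
  classical
  obtain ⟨σ, hσdef⟩ : ∃ σ : P → P, ∀ a, σ a = x * a * x⁻¹ := ⟨_, fun _ => rfl⟩
  have hσA : ∀ a ∈ A, σ a ∈ A := fun a ha => by
    rw [hσdef]; exact (inferInstance : A.Normal).conj_mem a ha x
  have hcen : ∀ n ∈ N, ∀ g, Commute g n := fun n hn g => Subgroup.mem_center_iff.1 (hNc hn) g
  have hσN : ∀ n ∈ N, σ n = n := fun n hn => by
    rw [hσdef]
    rw [(hcen n hn x).eq, mul_inv_cancel_right]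
  have hσmul : ∀ a b, σ (a * b) = σ a * σ b := fun a b => by simp [hσdef, mul_assoc]
  have hσ3 : ∀ a, σ (σ (σ a)) = a := fun a => by
    simp only [hσdef]
    calc x * (x * (x * a * x⁻¹) * x⁻¹) * x⁻¹ = x ^ 3 * a * (x ^ 3)⁻¹ := by
          simp only [pow_succ, pow_zero, one_mul, mul_assoc, mul_inv_rev]
      _ = a := by rw [hx]; group
  obtain ⟨δ, hδdef⟩ : ∃ δ : P → P, ∀ a, δ a = a⁻¹ * σ a := ⟨_, fun _ => rfl⟩
  have hδ : ∀ a, σ a = a * δ a := fun a => by simp [hδdef]
  have hδA : ∀ a ∈ A, δ a ∈ A := fun a ha => hδdef a ▸ A.mul_mem (A.inv_mem ha) (hσA a ha)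
  have hδ3 : ∀ a ∈ A, δ a ^ 3 = 1 := by
    intro a ha
    have hc := hcomm a⁻¹ (A.inv_mem ha) (σ a) (hσA a ha)
    rw [hδdef, mul_cube (fun g => hcen _ hc g) (hN3 _ hc), inv_pow]
    have h2 : σ a ^ 3 = σ (a ^ 3) := by simp [hσdef, conj_pow]
    rw [h2, hσN _ (hcube a ha), inv_mul_cancel]
  have hfix : ∀ a ∈ A, σ (δ (δ a)) = δ (δ a) := by
    intro a ha
    set c2 := δ a
    set c3 := δ c2
    set z := δ c3
    have hc2 := hδA a ha
    have hc3 := hδA c2 hc2
    have e1 : σ a = a * c2 := hδ a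
    have e2 : σ c2 = c2 * c3 := hδ c2
    have e3 : σ c3 = c3 * z := hδ c3
    have hz3 : z ∈ A := hδA c3 hc3
    have hN23 : c2 * c3 * c2⁻¹ * c3⁻¹ ∈ N := hcomm _ hc2 _ hc3
    have h3 := hσ3 a
    rw [e1, hσmul, e1, e2, hσmul, hσmul, hσmul, e1, e2, e3] at h3
    have h3' : c2 * (c2 * c3) * (c2 * c3 * (c3 * z)) = 1 := by
      refine mul_left_cancel (a := a) ?_
      rw [mul_one]
      simpa [mul_assoc] using h3
    have hzN : z ∈ N := by
      set k := c2 * c3 * c2⁻¹ * c3⁻¹ with hk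
      have hswap : c3 * c2 = k⁻¹ * (c2 * c3) := by rw [hk]; group
      have h4 : c2 * (c2 * c3) * (c2 * c3 * (c3 * z)) = k⁻¹ * (c2 ^ 3 * c3 ^ 3) * z := by
        calc c2 * (c2 * c3) * (c2 * c3 * (c3 * z)) = c2 * c2 * (c3 * c2) * (c3 * c3 * z) := by group
          _ = (c2 * c2 * k⁻¹) * (c2 * c3) * (c3 * c3 * z) := by rw [hswap]; group
          _ = (k⁻¹ * (c2 * c2)) * (c2 * c3) * (c3 * c3 * z) := by
              rw [((hcen k hN23 (c2 * c2)).inv_right).eq]
          _ = k⁻¹ * (c2 ^ 3 * c3 ^ 3) * z := by simp only [pow_succ, pow_zero, one_mul, mul_assoc]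
      rw [h4, hδ3 a ha, hδ3 c2 hc2, one_mul, mul_one, inv_mul_eq_one] at h3'
      exact h3' ▸ hN23
    have hk1 : c2 * c3 * c2⁻¹ * c3⁻¹ = 1 := by
      have hN13 := hcomm a ha c3 hc3
      have h5 := hσN _ hN13
      have hinv : ∀ g, σ g⁻¹ = (σ g)⁻¹ := fun g => by simp [hσdef, mul_assoc]
      rw [hσmul, hσmul, hσmul, hinv, hinv, e1, e3] at h5
      have h6 : a * c2 * (c3 * z) * (a * c2)⁻¹ * (c3 * z)⁻¹ =
          (a * (c2 * c3 * c2⁻¹ * c3⁻¹) * a⁻¹) * (a * c3 * a⁻¹ * c3⁻¹) := by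
        calc a * c2 * (c3 * z) * (a * c2)⁻¹ * (c3 * z)⁻¹
            = a * c2 * c3 * (z * (c2⁻¹ * a⁻¹)) * z⁻¹ * c3⁻¹ := by group
          _ = a * c2 * c3 * ((c2⁻¹ * a⁻¹) * z) * z⁻¹ * c3⁻¹ := by rw [(hcen z hzN (c2⁻¹ * a⁻¹)).eq]
          _ = _ := by group
      rw [h6, mul_eq_right] at h5
      exact conj_eq_one_iff.1 h5
    have hcc : c3 * c2 = c2 * c3 := by
      calc c3 * c2 = (c2 * c3 * c2⁻¹ * c3⁻¹)⁻¹ * (c2 * c3) := by group
        _ = c2 * c3 := by rw [hk1, inv_one, one_mul]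
    have hz1 : z = 1 := by
      have h4 : c2 * (c2 * c3) * (c2 * c3 * (c3 * z)) = c2 ^ 3 * c3 ^ 3 * z := by
        calc c2 * (c2 * c3) * (c2 * c3 * (c3 * z)) = c2 * c2 * (c3 * c2) * (c3 * c3 * z) := by group
          _ = c2 * c2 * (c2 * c3) * (c3 * c3 * z) := by rw [hcc]
          _ = _ := by simp only [pow_succ, pow_zero, one_mul, mul_assoc]
      rw [h4, hδ3 a ha, hδ3 c2 hc2, one_mul, one_mul] at h3'
      exact h3'
    rw [e3, hz1, mul_one]
  have hker : ∀ a b, δ a = δ b → b * a⁻¹ ∈ Subgroup.centralizer {x} := by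
    intro a b h
    rw [Subgroup.mem_centralizer_singleton_iff]
    have h' : b⁻¹ * (x * b * x⁻¹) = a⁻¹ * (x * a * x⁻¹) := by
      rw [hδdef, hδdef, hσdef, hσdef] at h; exact h.symm
    have h1 : x * b * x⁻¹ = b * (a⁻¹ * (x * a * x⁻¹)) := by rw [← h']; group
    calc b * a⁻¹ * x = b * (a⁻¹ * (x * a * x⁻¹)) * (x * a⁻¹) := by group
      _ = x * b * x⁻¹ * (x * a⁻¹) := by rw [h1]
      _ = x * (b * a⁻¹) := by group
  have hfibre : ∀ X : Finset P, (∀ a ∈ X, a ∈ A) → X.card ≤ 3 * (X.image δ).card := by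
    intro X hX
    refine Finset.card_le_mul_card_image X 3 fun d _ => ?_
    rcases (X.filter fun a => δ a = d).eq_empty_or_nonempty with he | ⟨a, ha⟩
    · rw [he]; simp
    rw [Finset.mem_filter] at ha
    refine le_trans ?_ hCA
    rw [← Nat.card_eq_finsetCard]
    refine Nat.card_le_card_of_injective (fun b => (⟨(b : P) * a⁻¹, ?_, ?_⟩ :
      ↥(A ⊓ Subgroup.centralizer {x}))) fun b c h =>
        Subtype.ext (mul_right_cancel (congrArg (fun t : ↥(A ⊓ Subgroup.centralizer {x}) => (t : P)) h))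
    · exact A.mul_mem (hX _ (Finset.mem_filter.1 b.2).1) (A.inv_mem (hX _ ha.1))
    · exact hker _ _ (ha.2.trans (Finset.mem_filter.1 b.2).2.symm)
  have := Fintype.ofFinite P
  set X0 := (Finset.univ.filter fun a => a ∈ A) with hX0
  have hX0c : X0.card = 81 := by
    rw [hX0, ← Fintype.card_subtype, ← Nat.card_eq_fintype_card]
    exact hA
  have h1 := hfibre X0 fun a ha => (Finset.mem_filter.1 ha).2
  have h2 := hfibre (X0.image δ) fun a ha => by
    obtain ⟨b, hb, rfl⟩ := Finset.mem_image.1 ha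
    exact hδA _ (Finset.mem_filter.1 hb).2
  have h3 : ((X0.image δ).image δ).card ≤ 3 := by
    refine le_trans ?_ hCA
    rw [← Nat.card_eq_finsetCard]
    refine Nat.card_le_card_of_injective (fun b => (⟨(b : P), ?_, ?_⟩ :
      ↥(A ⊓ Subgroup.centralizer {x}))) fun b c h =>
        Subtype.ext (congrArg (fun t : ↥(A ⊓ Subgroup.centralizer {x}) => (t : P)) h)
    all_goals obtain ⟨c, hc, hcb⟩ := Finset.mem_image.1 b.2
    all_goals obtain ⟨a, ha, rfl⟩ := Finset.mem_image.1 hc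
    all_goals have haA := (Finset.mem_filter.1 ha).2
    · rw [← hcb]; exact hδA _ (hδA _ haA)
    · rw [← hcb]
      refine Subgroup.mem_centralizer_singleton_iff.2 ?_
      have h := hfix a haA
      calc δ (δ a) * x = x * δ (δ a) * x⁻¹ * x := by rw [show x * δ (δ a) * x⁻¹ = δ (δ a) from (hσdef _).symm.trans h]
        _ = x * δ (δ a) := by group
  omega

/-- A 3-group with an element of order three with centraliser of order at most nine which maps onto
`C₃ ≀ C₃` is isomorphic to it. -/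
theorem card_eq_of_surjective : ∀ {P : Type u} [Group P] [Finite P], IsPGroup 3 P →
    ∀ x : P, x ^ 3 = 1 → Nat.card (Subgroup.centralizer ({x} : Set P)) ≤ 9 →
    ∀ (W : Sylow 3 (Equiv.Perm (Fin (3 ^ 2)))) (f : P →* ↥(W : Subgroup (Equiv.Perm (Fin (3 ^ 2))))),
      Function.Surjective f → Nat.card P = 81 := by
  intro P _ _ hP x hx hC W f hf
  induction hn : Nat.card P using Nat.strong_induction_on generalizing P with
  | _ n ih =>
  subst hn
  haveI : Fact (Nat.Prime 3) := ⟨Nat.prime_three⟩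
  obtain ⟨hW81, B, hBn, hB27, hBab, hBexp⟩ := exists_base W
  have hcard : Nat.card f.ker * 81 = Nat.card P := by
    have h := f.ker.card_mul_index
    rwa [Subgroup.index_ker, MonoidHom.range_eq_top.2 hf, Subgroup.card_top, hW81] at h
  by_contra hne
  have hker : f.ker ≠ ⊥ := fun h => hne (by rw [← hcard, h, Subgroup.card_bot, one_mul])
  haveI : Nontrivial f.ker := (Subgroup.nontrivial_iff_ne_bot _).2 hker
  obtain ⟨z, hz3, hzk, hzc⟩ : ∃ z : P, orderOf z = 3 ∧ z ∈ f.ker ∧ z ∈ Subgroup.center P := by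
    have hmeet : (Subgroup.center P ⊓ f.ker : Subgroup P) ≠ ⊥ := by
      rw [inf_comm]; exact PGroup.inf_center_ne_bot hP f.ker hker
    haveI : Nontrivial ↥(Subgroup.center P ⊓ f.ker : Subgroup P) :=
      (Subgroup.nontrivial_iff_ne_bot _).2 hmeet
    obtain ⟨⟨z, hz1, hz2⟩, hz⟩ := exists_prime_orderOf_dvd_card' 3 (by
      obtain ⟨k, hk⟩ := IsPGroup.iff_card.1 (hP.to_subgroup (Subgroup.center P ⊓ f.ker))
      rw [hk]
      refine dvd_pow_self 3 ?_
      rintro rfl
      rw [pow_zero] at hk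
      exact absurd hk (Finite.one_lt_card.ne') : 3 ∣ Nat.card ↥(Subgroup.center P ⊓ f.ker))
    exact ⟨z, (Subgroup.orderOf_mk z _).symm.trans hz, hz2, hz1⟩
  set Z := Subgroup.zpowers z with hZ
  haveI hZn : Z.Normal := ⟨fun n hn g => by
    rw [Subgroup.mem_center_iff.1 (Subgroup.zpowers_le.2 hzc hn) g, mul_inv_cancel_right]; exact hn⟩
  have hZk : Z ≤ f.ker := Subgroup.zpowers_le.2 hzk
  have hZc : Nat.card Z = 3 := by rw [hZ, Nat.card_zpowers, hz3]
  have hPZ : Nat.card P = Nat.card (P ⧸ Z) * 3 := by rw [← hZc]; exact Z.card_eq_card_quotient_mul_card_subgroup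
  have hQ := ih (Nat.card (P ⧸ Z)) (by have := Nat.card_pos (α := P ⧸ Z); omega) (hP.to_quotient Z)
    (x : P ⧸ Z) (by rw [← QuotientGroup.mk_pow, hx]; rfl)
    ((card_centralizer_quotient Z x).trans hC) (QuotientGroup.lift Z f hZk)
    (QuotientGroup.lift_surjective_of_surjective _ _ hf _) rfl
  have hkerZ : f.ker = Z := (Subgroup.eq_of_le_of_card_ge hZk (by omega)).symm
  haveI hAn : (B.comap f).Normal := Subgroup.Normal.comap hBn f
  have hxA : x ∉ B.comap f := by
    intro hxA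
    have h27 : 27 ≤ Nat.card (Subgroup.centralizer ({f x} : Set ↥(W : Subgroup (Equiv.Perm (Fin (3 ^ 2)))))) := by
      rw [← hB27]
      exact Subgroup.card_le_of_le fun b hb => Subgroup.mem_centralizer_singleton_iff.2 (hBab b hb _ hxA)
    have h9 := (card_centralizer_quotient f.ker x).trans hC
    let e := QuotientGroup.quotientKerEquivOfSurjective f hf
    have he : Nat.card (Subgroup.centralizer ({f x} : Set ↥(W : Subgroup (Equiv.Perm (Fin (3 ^ 2)))))) ≤
        Nat.card (Subgroup.centralizer ({(x : P ⧸ f.ker)} : Set (P ⧸ f.ker))) :=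
      Nat.card_le_card_of_injective (fun g => ⟨e.symm g, Subgroup.mem_centralizer_singleton_iff.2 (by
        apply e.injective
        rw [map_mul, map_mul, e.apply_symm_apply]
        exact Subgroup.mem_centralizer_singleton_iff.1 g.2)⟩)
        fun a b h => Subtype.ext (e.symm.injective (congrArg Subtype.val h))
    omega
  refine no_central_extension (B.comap f) Z ?_ (Subgroup.zpowers_le.2 hzc) ?_ ?_ ?_ ?_ hx ?_
  · have h := SectRank.card_inf_ker_mul_card_map f (B.comap f)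
    rw [inf_eq_right.2 (by intro a ha; rw [Subgroup.mem_comap, MonoidHom.mem_ker.1 ha]; exact one_mem B),
      Subgroup.map_comap_eq_self_of_surjective hf, hB27, hkerZ, hZc] at h
    omega
  · intro n hn
    have h := pow_card_eq_one' (x := (⟨n, hn⟩ : Z))
    rw [hZc] at h
    exact congrArg Subtype.val h
  · intro n hn
    rw [Subgroup.mem_comap, MonoidHom.mem_ker.1 (hZk hn)]
    exact one_mem B
  · intro a ha b hb
    rw [← hkerZ, MonoidHom.mem_ker, map_mul, map_mul, map_mul, map_inv, map_inv, hBab _ ha _ hb]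
    group
  · intro a ha
    rw [← hkerZ, MonoidHom.mem_ker, map_pow]
    exact hBexp _ ha
  · by_contra hlt
    have hlt' : 4 ≤ Nat.card ↥(B.comap f ⊓ Subgroup.centralizer {x}) := by omega
    let g : ↥(B.comap f ⊓ Subgroup.centralizer {x}) × Fin 3 → Subgroup.centralizer ({x} : Set P) :=
      fun q => ⟨(q.1 : P) * x ^ (q.2 : ℕ), Subgroup.mul_mem _ q.1.2.2
        (Subgroup.pow_mem _ (Subgroup.mem_centralizer_singleton_iff.2 rfl) _)⟩
    have hg : Function.Injective g := by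
      rintro ⟨a, i⟩ ⟨b, j⟩ h
      have h' : (a : P) * x ^ (i : ℕ) = (b : P) * x ^ (j : ℕ) := congrArg Subtype.val h
      have hij : ∀ i j : Fin 3, x ^ (i : ℕ) * (x ^ (j : ℕ))⁻¹ ∈ B.comap f → i = j := by
        intro i j hm
        by_contra hne'
        apply hxA
        have hx2 : x ^ (2 : ℕ) = x⁻¹ := eq_inv_of_mul_eq_one_left (by rw [← pow_succ]; exact hx)
        fin_cases i <;> fin_cases j <;> simp [hx2, ← pow_two] at hm hne' ⊢ <;>
          first | exact hm | exact (by simpa [hx2] using (B.comap f).inv_mem hm)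
      have hmem : x ^ (i : ℕ) * (x ^ (j : ℕ))⁻¹ ∈ B.comap f := by
        have : x ^ (i : ℕ) * (x ^ (j : ℕ))⁻¹ = (a : P)⁻¹ * b := by
          rw [eq_inv_mul_iff_mul_eq, ← mul_assoc, h', mul_inv_cancel_right]
        rw [this]
        exact Subgroup.mul_mem _ (Subgroup.inv_mem _ a.2.1) b.2.1
      obtain rfl := hij i j hmem
      exact Prod.ext (Subtype.ext (mul_right_cancel h')) rfl
    have := Nat.card_le_card_of_injective g hg
    rw [Nat.card_prod, Nat.card_fin] at this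
    omega

/-- The same statement as an isomorphism. -/
theorem iso_of_surjective {P : Type u} [Group P] [Finite P] (hP : IsPGroup 3 P) {x : P}
    (hx : x ^ 3 = 1) (hC : Nat.card (Subgroup.centralizer ({x} : Set P)) ≤ 9)
    (W : Sylow 3 (Equiv.Perm (Fin (3 ^ 2)))) (f : P →* ↥(W : Subgroup (Equiv.Perm (Fin (3 ^ 2)))))
    (hf : Function.Surjective f) :
    Nonempty (P ≃* ↥(W : Subgroup (Equiv.Perm (Fin (3 ^ 2))))) := by
  have h := card_eq_of_surjective hP x hx hC W f hf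
  rw [← (exists_base W).1] at h
  exact ⟨MulEquiv.ofBijective f ((Nat.bijective_iff_surjective_and_card f).2 ⟨hf, h⟩)⟩

end CfsgLib.FixityFour
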